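import Cfsg.Agent.Lib.U4.PartA
import Cfsg.Agent.Lib.H1.SchurZassenhaus
import Cfsg.Agent.Lib.H7.Transport

/-!
# S5210: automorphisms of S (see notes/U4.md)
-/

set_option autoImplicit false
set_option linter.unusedSectionVars false
set_option linter.unusedVariables false

namespace Cfsg.Agent.U4

open Subgroup Cfsg Cfsg.FusionSystem Cfsg.Agent.U5 U4.US
open scoped commutatorElement

universe u

variable {K : Type u} [Field K] [StarRing K] [hK : UF K] {p : ℕ} [hp : Fact p.Prime] [CharP K p]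
  {F : FusionSystem (⊤ : Subgroup (US K))}

namespace Au

/-- a map which is semilinear over the real subfield and respects the norm is a homomorphism -/
theorem exists_sigma {σ : K → K} (ha : ∀ x y, σ (x + y) = σ x + σ y) (h1 : σ 1 = 1)
    (hr : ∀ r x, star r = r → σ (r * x) = σ r * σ x)
    (hn : ∀ x, σ (x * star x) = σ x * star (σ x)) : ∃ s : K ≃+* K, ∀ x, s x = σ x := by
  have h0 : σ 0 = 0 := by simpa using ha 0 0
  have hs : ∀ x, σ (star x) = star (σ x) := fun x => by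
    have := hn (x + 1)
    rw [show (x + 1) * star (x + 1) = x * star x + (x + (star x + 1)) by simp; ring, ha, ha, ha, ha,
      hn, h1, star_add, star_one] at this
    linear_combination this
  have hq : ∀ x, σ (x * x) = σ x * σ x := fun x => by
    have h2 := ha (x * x) (x * star x)
    rw [show x * x + x * star x = (x + star x) * x by ring, hr _ _ (by simp [add_comm]), ha, hs, hn] at h2
    linear_combination -h2
  have hm : ∀ x y, σ (x * y) = σ x * σ y := fun x y => by
    by_cases hy : star y = y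
    · rw [mul_comm, hr _ _ hy, mul_comm]
    have h2 : y - star y ≠ 0 := sub_ne_zero.2 (Ne.symm hy)
    have h3 : star y - y ≠ 0 := sub_ne_zero.2 hy
    obtain ⟨s, e1⟩ : ∃ s, s = (x - star x) / (y - star y) := ⟨_, rfl⟩
    have e2 : star s = s := by rw [e1, star_div₀]; simp; field_simp; ring
    obtain ⟨r, e3⟩ : ∃ r, r = x - s * y := ⟨_, rfl⟩
    have e4 : star r = r := by rw [e3, star_sub, star_mul', e2, e1]; field_simp; ring
    have e5 : x = r + s * y := by rw [e3]; ring
    rw [e5, add_mul, ha, ha, mul_assoc, hr _ _ e4, hr _ _ e2, hr _ _ e2, hq]; ring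
  let τ : K →+* K := ⟨⟨⟨σ, h1⟩, hm⟩, h0, ha⟩
  exact ⟨RingEquiv.ofBijective τ ⟨τ.injective, Finite.surjective_of_injective τ.injective⟩,
    fun x => rfl⟩

theorem alg {α β γ δ η ε : K → K} (ha : ∀ x y, α (x + y) = α x + α y) (h0 : ∀ x, α x = 0 → x = 0)
    (hδ : ∀ c, star c = -c → star (δ c) = -δ c) (hδ0 : ∀ c, star c = -c → δ c = 0 → c = 0)
    (hγ0 : ∀ c, star c = -c → γ c = 0 → c = 0)
    (r1 : ∀ b c, star c = -c → β (b * c) = α b * δ c)
    (r2 : ∀ b e, γ (e * star b - b * star e) = β e * star (α b) - α b * star (β e))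
    (r3 : ∀ b c, star c = -c → η (b * c) + γ (b * star b * c) =
      ε c * star (α b) - α b * star (ε c) + α b * star (α b) * δ c) :
    ∃ t : Par K, (∀ x, α x = t.b * t.σ x) ∧ (∀ c, star c = -c → δ c = t.a * t.σ c) ∧
      (∀ e, β e = t.a * t.b * t.σ e) ∧
      ∀ f, star f = -f → γ f = t.a * (t.b * star (t.b : K)) * t.σ f := by
  obtain ⟨κ, k0, k1⟩ := exists_tz K
  have a1 : α 1 ≠ 0 := fun e => one_ne_zero (h0 1 e)
  have a1' : star (α 1) ≠ 0 := by simpa using a1
  have d1 : δ κ ≠ 0 := fun e => k0 (hδ0 κ k1 e)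
  have tzr : ∀ r c : K, star r = r → star c = -c → star (r * c) = -(r * c) := fun r c hr hc => by
    simp [hr, hc]
  obtain ⟨σ, hσ⟩ : ∃ σ : K → K, ∀ x, α x = α 1 * σ x := ⟨fun x => α x / α 1, fun x => by field_simp⟩
  have s1 : σ 1 = 1 := mul_left_cancel₀ a1 (by rw [← hσ, mul_one])
  have d2 : ∀ r c, star r = r → star c = -c → δ (r * c) = σ r * δ c := fun r c hr hc =>
    mul_left_cancel₀ a1 (by rw [← r1 _ _ (tzr r c hr hc), one_mul, r1 _ _ hc, hσ r, mul_assoc])
  have s2 : ∀ r, star r = r → star (σ r) = σ r := fun r hr => by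
    have := hδ _ (tzr r κ hr k1)
    rw [d2 r κ hr k1, star_mul', hδ κ k1] at this
    exact mul_right_cancel₀ d1 (by linear_combination -this)
  have a2 : ∀ r x, star r = r → α (r * x) = σ r * α x := fun r x hr => mul_right_cancel₀ d1 (by
    rw [← r1 _ _ k1, show r * x * κ = x * (r * κ) by ring, r1 _ _ (tzr r κ hr k1), d2 r κ hr k1]; ring)
  have g2 : ∀ r c, star r = r → star c = -c → γ (r * c) = σ r * γ c := fun r c hr hc => by
    have e1 := r2 (r * 1) (om K * c)
    have e2 := r2 1 (om K * c)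
    rw [a2 r 1 hr, star_mul' (σ r), s2 r hr, show om K * c * star (r * 1) - r * 1 * star (om K * c) = r * c by
      simp [hr, hc]; ring] at e1
    rw [show om K * c * star 1 - 1 * star (om K * c) = c by simp [hc]; ring] at e2
    rw [e1, e2]; ring
  have nr : ∀ b : K, star (b * star b) = b * star b := fun b => by simp [mul_comm]
  have s0 : ∀ r, σ r = 0 → r = 0 := fun r e => h0 r (by rw [hσ, e, mul_zero])
  have sa : ∀ x y, σ (x + y) = σ x + σ y := fun x y =>
    mul_left_cancel₀ a1 (by rw [← hσ, ha, hσ x, hσ y, mul_add])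
  have key : ∀ b, γ (b * star b * κ) = α b * star (α b) * δ κ := fun b => by
    by_cases hρ : ∃ ρ : K, star ρ = ρ ∧ ρ ≠ 0 ∧ ρ ≠ 1
    · obtain ⟨ρ, p1, p2, p3⟩ := hρ
      have p4 : σ ρ ≠ 0 := fun e => p2 (s0 ρ e)
      have p5 : σ ρ - 1 ≠ 0 := fun e => p3 (by
        have := sa (ρ - 1) 1
        rw [sub_add_cancel, s1] at this
        exact sub_eq_zero.1 (s0 _ (by linear_combination e - this)))
      have E : ∀ b, (σ ρ - σ ρ ^ 2) * (γ (b * star b * κ) - α b * star (α b) * δ κ) =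
          (ε (ρ * κ) - σ ρ * ε κ) * star (α b) - α b * (star (ε (ρ * κ)) - σ ρ * star (ε κ)) :=
        fun b => by
          have e1 := r3 b _ (tzr ρ κ p1 k1)
          have e2 := r3 (ρ * b) κ k1
          have t1 := tzr _ _ (nr b) k1
          rw [show b * star b * (ρ * κ) = ρ * (b * star b * κ) by ring, g2 _ _ p1 t1, d2 _ _ p1 k1] at e1
          rw [show ρ * b * star (ρ * b) * κ = ρ * (ρ * (b * star b * κ)) by simp [p1]; ring,
            g2 _ _ p1 (tzr _ _ p1 t1), g2 _ _ p1 t1, a2 _ _ p1, star_mul', s2 _ p1,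
            show ρ * b * κ = b * (ρ * κ) by ring] at e2
          linear_combination e1 - e2
      have e1 := E b
      have e2 := E (ρ * b)
      have t1 := tzr _ _ (nr b) k1
      rw [show ρ * b * star (ρ * b) * κ = ρ * (ρ * (b * star b * κ)) by simp [p1]; ring,
        g2 _ _ p1 (tzr _ _ p1 t1), g2 _ _ p1 t1, a2 _ _ p1, star_mul', s2 _ p1] at e2
      apply mul_left_cancel₀ (mul_ne_zero (pow_ne_zero 2 p4) (pow_ne_zero 2 p5))
      linear_combination σ ρ * e1 - e2
    · push Not at hρ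
      by_cases hb : b = 0
      · have z1 : α 0 = 0 := by simpa using ha 0 0
        have := r2 0 0
        simpa [hb, z1] using this
      have n1 : ∀ x : K, x ≠ 0 → x * star x = 1 := fun x hx => hρ _ (nr x) (by simpa using hx)
      have n2 : ∀ c : K, star c = -c → c ≠ 0 → c = κ := fun c hc c0 => by
        have := hρ (c / κ) (by rw [star_div₀, hc, k1, neg_div_neg_eq]) (div_ne_zero c0 k0)
        exact (div_eq_one_iff_eq k0).1 this
      rw [n1 b hb, n1 _ fun e => hb (h0 b e), one_mul, one_mul, n2 _ (hδ κ k1) d1]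
      refine n2 _ ?_ fun e => k0 (hγ0 κ k1 e)
      have e2 := r2 1 (om K * κ)
      rw [show om K * κ * star 1 - 1 * star (om K * κ) = κ by simp [k1]; ring] at e2
      rw [e2]; simp; ring
  have g1 : γ κ = α 1 * star (α 1) * δ κ := by simpa using key 1
  obtain ⟨s, hs⟩ := exists_sigma sa s1
    (fun r x hr => mul_left_cancel₀ a1 (by rw [← hσ, a2 r x hr, hσ x]; ring)) fun x => by
      have := key x
      rw [g2 _ _ (nr x) k1, g1, hσ x, star_mul'] at this
      exact mul_left_cancel₀ (mul_ne_zero (mul_ne_zero a1 a1') d1) (by linear_combination this)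
  have sk : s κ ≠ 0 := by simpa using k0
  have dv : ∀ c : K, star c = -c → star (c / κ) = c / κ := fun c hc => by
    rw [star_div₀, hc, k1, neg_div_neg_eq]
  refine ⟨⟨Units.mk0 (δ κ / s κ) (div_ne_zero d1 sk), Units.mk0 _ a1, s, ?_⟩,
    fun x => ?_, fun c hc => ?_, fun e => ?_, fun f hf => ?_⟩
  · simp [hδ κ k1, k1, neg_div_neg_eq]
  · simp only [Units.val_mk0]; rw [hs, ← hσ]
  · have := d2 _ _ (dv c hc) k1
    rw [div_mul_cancel₀ _ k0, ← hs, map_div₀] at this
    simp only [Units.val_mk0]; rw [this]; field_simp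
  · have := r1 (e / κ) κ k1
    rw [div_mul_cancel₀ _ k0, hσ, ← hs, map_div₀] at this
    simp only [Units.val_mk0]; rw [this]; field_simp
  · have := g2 _ _ (dv f hf) k1
    rw [div_mul_cancel₀ _ k0, g1, ← hs, map_div₀] at this
    simp only [Units.val_mk0]; rw [this]; field_simp

variable {x y : US K}

theorem mem_AA_of_comm (h : ∀ e, xe e * x = x * xe e) : x ∈ AA K := eq_zero_of_real fun e => by
  have := (PA.comm_Z2 (PA.xe_mem (star e))).1 (h _)
  simp at this
  linear_combination -this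

theorem mem_Z2_of_ce (h : ∀ y : US K, ⁅x, y⁆.e = 0) : x ∈ Z2 K := by
  obtain ⟨κ, k0, k1⟩ := exists_tz K
  exact ⟨by simpa [PA.ce_e, k0] using h (xA κ 0 0 k1 tz0), by simpa [PA.ce_e] using h (xb 1)⟩

theorem mem_Z1_of_comm (h : ∀ y, x * y = y * x) : x ∈ Z1 K := by
  have h2 : x ∈ Z2 K := mem_Z2_of_ce fun y => by rw [commutatorElement_eq_one_iff_mul_comm.2 (h y)]; rfl
  refine ⟨h2.1, h2.2, eq_zero_of_real fun e => ?_⟩
  have := (PA.comm_Z2 h2).1 (h (xb (star e)))
  simp at this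
  linear_combination this

variable (φ : MulAut (US K))

theorem aut_Z1 (hx : x ∈ Z1 K) : φ x ∈ Z1 K := mem_Z1_of_comm fun y => by
  obtain ⟨y, rfl⟩ := φ.surjective y
  rw [← map_mul, ← map_mul, comm_Z1 hx]

theorem aut_Z2 (hx : x ∈ Z2 K) : φ x ∈ Z2 K := mem_Z2_of_ce fun y => by
  obtain ⟨y, rfl⟩ := φ.surjective y
  rw [← map_commutatorElement]
  exact (aut_Z1 φ (ce_Z1 (Or.inl hx))).2.2

theorem aut_AA (hx : x ∈ AA K) : φ x ∈ AA K := mem_AA_of_comm fun e => by
  have := congrArg φ (comm_AA (Z2_le_AA (aut_Z2 φ.symm (PA.xe_mem e))) hx)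
  simpa only [map_mul, MulEquiv.apply_symm_apply] using this

theorem xb_add (b b' : K) : xb (b + b') = xb b * xb b' := by ext <;> simp

theorem aut_QQ (hx : x ∈ QQ K) : φ x ∈ QQ K := by
  by_contra hc
  obtain ⟨β, h0, e⟩ := exists_ker (f := fun β => (φ (xb β)).c)
    (fun a b => by simp only [xb_add, map_mul, mul_c]) (om K) fun κ e => by
      have := (φ (xb κ)).hc
      rw [e, star_om] at this
      exact one_ne_zero (α := K) (by linear_combination this)
  have h1 := (aut_Z1 φ (ce_Z1 (x := xb β) (Or.inr (Or.inr ⟨rfl, hx⟩)))).2.2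
  rw [map_commutatorElement, PA.ce_e, e] at h1
  have h2 : (φ (xb β)).b = 0 := by simpa [mem_QQ.not.1 hc] using h1
  exact h0 (by simpa using (aut_Z2 φ.symm ⟨h2, e⟩).1)

/-- an element of `AA` with prescribed `c` and `f` -/
noncomputable def xP (c f : K) : US K := xA _ 0 _ (PA.tz_om c) (PA.tz_om f)

theorem xP_eq {c f : K} (hc : star c = -c) (hf : star f = -f) : xP c f = xA c 0 f hc hf := by
  ext <;> simp [xP, hc, hf] <;> ring

end Au

open Au in
/-- Every automorphism is standard on the factors `S / AA`, `S / QQ`, `Z2 / Z1`, `Z1`. -/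
theorem aut_par (φ : MulAut (US K)) : ∃ t : Par K, (∀ x, (φ x).b = (tauF t x).b) ∧
    (∀ x, (φ x).c = (tauF t x).c) ∧ (∀ x ∈ Z2 K, (φ x).e = (tauF t x).e) ∧
    ∀ x ∈ Z1 K, φ x = tauF t x := by
  have hb : ∀ x, (φ x).b = (φ (xb x.b)).b := fun x => by
    have := mem_AA.1 (aut_AA φ (x := (xb x.b)⁻¹ * x) (by simp [mem_AA]))
    simp at this
    linear_combination this
  have hc : ∀ x, (φ x).c = (φ (xP x.c 0)).c := fun x => by
    have := mem_QQ.1 (aut_QQ φ (x := (xP x.c 0)⁻¹ * x) (by simp [mem_QQ, xP_eq x.hc tz0]))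
    simp at this
    linear_combination this
  have hz : ∀ x ∈ Z2 K, (φ x).e = (φ (xe x.e)).e ∧ (φ x).f = (φ (xe x.e)).f + (φ (xP 0 x.f)).f :=
    fun x hx => by
      have hf := star_f_AA (Z2_le_AA hx)
      have h1 : φ x = φ (xe x.e) * φ (xP 0 x.f) := by
        rw [← map_mul, xP_eq tz0 hf]; congr 1; ext <;> simp [hx.1, hx.2]
      have h2 := aut_Z2 φ (PA.xe_mem x.e)
      have h3 := aut_Z1 φ (x := xP 0 x.f) (by rw [xP_eq tz0 hf]; exact ⟨rfl, rfl, rfl⟩)
      rw [h1]
      simp [h2.1, h2.2, h3.1, h3.2.1, h3.2.2]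
  have x0 : xe (0 : K) = 1 := rfl
  obtain ⟨t, h1, h2, h3, h4⟩ := alg (α := fun b => (φ (xb b)).b) (β := fun e => (φ (xe e)).e)
    (γ := fun f => (φ (xP 0 f)).f) (δ := fun c => (φ (xP c 0)).c) (η := fun e => (φ (xe e)).f)
    (ε := fun c => (φ (xP c 0)).e) (fun a b => by simp only [xb_add, map_mul, mul_b])
    (fun x e => by simpa [mem_AA] using aut_AA φ.symm (x := φ (xb x)) e) (fun c _ => US.hc _)
    (fun c h e => by simpa [mem_QQ, xP_eq h tz0] using aut_QQ φ.symm (x := φ (xP c 0)) e)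
    (fun f h e => by
      have h3 := aut_Z1 φ (x := xP 0 f) (by rw [xP_eq tz0 h]; exact ⟨rfl, rfl, rfl⟩)
      have h4 : φ (xP 0 f) = 1 := US.ext h3.1 h3.2.1 h3.2.2 e
      rw [map_eq_one_iff _ φ.injective, xP_eq tz0 h] at h4
      exact congrArg US.f h4)
    (fun b c h => by
      have := (hz _ (ce_Z2 (xb b) (xP c 0))).1
      rw [map_commutatorElement, PA.ce_e, PA.ce_e, mem_AA.1 (aut_AA φ (x := xP c 0) rfl)] at this
      simpa [xP_eq h tz0] using this.symm)
    (fun b e => by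
      have := (hz _ (ce_Z2 (xb b) (xe e))).2
      have h5 := aut_Z2 φ (PA.xe_mem e)
      rw [map_commutatorElement, PA.ce_f (Z2_le_AA h5), PA.ce_f (Z2_le_AA (PA.xe_mem e)), PA.ce_e,
        h5.2] at this
      simpa [x0] using this.symm)
    (fun b c h => by
      have := (hz _ (ce_Z2 (xb b) (xP c 0))).2
      rw [map_commutatorElement, PA.ce_f (aut_AA φ (x := xP c 0) rfl), PA.ce_f (y := xP c 0) rfl,
        PA.ce_e] at this
      simpa [xP_eq h tz0] using this.symm)
  refine ⟨t, fun x => (hb x).trans (h1 _), fun x => (hc x).trans (h2 _ x.hc),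
    fun x hx => (hz x hx).1.trans (h3 _), fun x hx => ?_⟩
  have h5 := aut_Z1 φ hx
  have h6 := (hz x (Z1_le_Z2 hx)).2
  rw [hx.2.2, x0, map_one, one_f, zero_add] at h6
  refine US.ext ?_ ?_ ?_ (h6.trans (h4 _ (star_f_AA (Z2_le_AA (Z1_le_Z2 hx)))))
  · simp [h5.1, hx.1]
  · simp [h5.2.1, hx.2.1]
  · simp [h5.2.2, hx.2.2]

namespace Au

variable (K) in
/-- the characteristic chain -/
def ch4 : ℕ → Subgroup (US K)
  | 0 => ⊥
  | 1 => Z1 K
  | 2 => Z2 K
  | 3 => AA K
  | _ + 4 => ⊤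

theorem ch4_mono : Monotone (ch4 K) := monotone_nat_of_le_succ fun n =>
  match n with
  | 0 => bot_le
  | 1 => Z1_le_Z2
  | 2 => Z2_le_AA
  | 3 => le_top
  | _ + 4 => le_rfl

theorem exists_aut (γ : MulAut (⊤ : Subgroup (US K))) :
    ∃ φ : MulAut (US K), ∀ x, equivFun γ x = φ x :=
  ⟨MulAut.congr topEquiv γ, fun x => by rw [equivFun_of_mem _ (mem_top x)]; rfl⟩

theorem inv_ch4 (γ : MulAut (⊤ : Subgroup (US K))) (i : ℕ) : Inv γ (ch4 K i) := by
  obtain ⟨φ, h⟩ := exists_aut γ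
  exact match i with
  | 0 => Inv.bot
  | 1 => fun x _ hx => h x ▸ aut_Z1 φ hx
  | 2 => fun x _ hx => h x ▸ aut_Z2 φ hx
  | 3 => fun x _ hx => h x ▸ aut_AA φ hx
  | _ + 4 => Inv.top

/-- the standard automorphisms of `⊤` -/
noncomputable def tauT : Par K →* MulAut (⊤ : Subgroup (US K)) :=
  (MulAut.congr topEquiv.symm).toMonoidHom.comp tau

theorem ef_tauT (t : Par K) (x : US K) : equivFun (tauT t) x = tauF t x := by
  rw [equivFun_of_mem _ (mem_top x)]; rfl

end Au

open Au in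
theorem exists_std (hF : F.IsSaturated p) :
    ∃ (E : FusionSystem (⊤ : Subgroup (US K))) (t s : US K → US K), F.IsoVia E t s ∧ Std E := by
  obtain ⟨P0, hP⟩ : ∃ P0, P0 = H7.chainStab ⊤ (ch4 K) ch4_mono := ⟨_, rfl⟩
  have hn : P0.Normal := ⟨fun δ hδ γ => hP ▸ conj_mem_chainStab ch4_mono (inv_ch4 γ) (hP ▸ hδ)⟩
  have hp0 : IsPGroup p P0 :=
    hP ▸ H7.isPGroup_chainStab (isPGroup_top p) ch4_mono (by simp [ch4]) (n := 4) le_rfl
  have hcov : ∀ γ, ∃ t, (Au.tauT t)⁻¹ * γ ∈ P0 := fun γ => by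
    obtain ⟨φ, h⟩ := exists_aut γ
    obtain ⟨t, h1, h2, h3, h4⟩ := aut_par φ
    refine ⟨t, hP ▸ fun i x _ hx => ?_⟩
    rw [equivFun_mul _ _ (mem_top _), ← map_inv, Au.ef_tauT, h]
    exact match i, hx with
    | 0, hx => by rw [h4 x hx, tauF_inv_left, inv_mul_cancel]; exact one_mem _
    | 1, hx => ⟨by simp [h1], by simp [h2], by
        have k1 : t.σ.symm t.a ≠ 0 := by simp
        have k2 : t.σ.symm t.b ≠ 0 := by simp
        simp [h3 x hx, hx.1]; field_simp; ring⟩
    | 2, hx => ⟨by simp [h1], by simp [h2]⟩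
    | 3, _ => by simp [ch4, mem_AA, h1]
    | _ + 4, _ => trivial
  have hdis : Disjoint (Au.tauT (K := K)).range P0 := disjoint_def.2 <| by
    rintro _ ⟨t, rfl⟩ ht
    rw [hP, H7.mem_chainStab] at ht
    rw [eq_one_of_tauF (t := t) (fun x => ?_) fun x hx => ?_, map_one]
    · have := mem_AA.1 (ht 3 (xb x) trivial trivial)
      simp [Au.ef_tauT] at this
      linear_combination this
    · have := (ht 2 (xA x 0 0 hx tz0) trivial rfl).2
      simp [Au.ef_tauT] at this
      linear_combination this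
  have hS := hF.sylowIn (isPGroup_top p) F.isFullyNormalized_top
  rw [← inn_eq_autInducedBy] at hS
  obtain ⟨B, hB, hc, hsup, -⟩ := H1.exists_complement_of_coprime_relIndex hS.le
    le_normalizer_of_normal (H1.coprime_card_of_isPGroup hS.isPGroup
      ((Nat.Prime.coprime_iff_not_dvd hp.out).2 hS.not_dvd_relIndex).symm).symm
  have hcB : (Nat.card B).Coprime (Nat.card P0) := H1.coprime_card_of_isPGroup hp0
    (hc ▸ ((Nat.Prime.coprime_iff_not_dvd hp.out).2 hS.not_dvd_relIndex).symm)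
  obtain ⟨n, -, hn'⟩ := H1.exists_conj_le_of_coprime (A := (Au.tauT (K := K)).range ⊓ (B ⊔ P0)) (K := P0)
    le_normalizer_of_normal (by
      refine Nat.Coprime.coprime_dvd_left ?_ hcB
      rw [← H1.card_map_of_disjoint_ker (f := QuotientGroup.mk' P0)
        (by rw [QuotientGroup.ker_mk']; exact hdis.mono_left inf_le_left)]
      refine (card_dvd_of_le ((map_mono inf_le_right).trans ?_)).trans (card_map_dvd B (QuotientGroup.mk' P0))
      rw [Subgroup.map_sup, QuotientGroup.map_mk'_self, sup_bot_eq])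
    (B := B) (fun b hb => by
      obtain ⟨t, ht⟩ := hcov b
      have h1 : Au.tauT t ∈ B ⊔ P0 := by
        simpa using mul_mem (mem_sup_left hb) (mem_sup_right (inv_mem ht) : _ ∈ B ⊔ P0)
      have h2 : Au.tauT t ∈ (Au.tauT (K := K)).range ⊓ (B ⊔ P0) := ⟨⟨t, rfl⟩, h1⟩
      simpa using mul_mem (mem_sup_right h2) (mem_sup_left ht : _ ∈ P0 ⊔ _))
    hcB (Or.inr (by have := hp0.isNilpotent; infer_instance))
  have hg : GrpIso (⊤ : Subgroup (US K)) ⊤ (equivFun n) (equivFun n⁻¹) :=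
    ⟨isHomOn_equivFun _, isHomOn_equivFun _, fun _ _ => trivial, fun _ _ => trivial,
      fun x hx => equivFun_inv_apply n hx, fun x hx => equivFun_apply_inv n hx⟩
  obtain ⟨E, hE⟩ := F.exists_isoVia hg
  refine ⟨E, _, _, hE, fun f hf => ?_⟩
  obtain ⟨α, hα, e⟩ := (hE.isIso_symm le_rfl le_rfl (by rwa [hg.img_top])).exists_aut
  obtain ⟨i, hi, b, hb, rfl⟩ := (H1.mem_sup_of_le_normalizer le_normalizer_of_normal).1 (hsup.ge hα)
  obtain ⟨w, -, hw⟩ := mem_inn_iff.1 hi
  obtain ⟨t, ht⟩ := (hn' (H1.conj_mem_conj_smul_iff.2 hb)).1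
  refine ⟨equivFun n w, t, fun x => ?_⟩
  have h1 := congrArg (equivFun n) (e (equivFun n⁻¹ x) trivial)
  rw [equivFun_apply_inv n (mem_top _), equivFun_apply_inv n (mem_top _), equivFun_mul _ _ (mem_top _),
    equivFun_of_mem i (mem_top _), hw, (isHomOn_equivFun n).map_conj (mem_top _) (mem_top _)] at h1
  rw [← h1, ← Au.ef_tauT, ht, equivFun_mul _ _ (mem_top _), equivFun_mul _ _ (mem_top _)]

end Cfsg.Agent.U4
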