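import Cfsg.Agent.Lib.U4.Defs
import Cfsg.Prelude.Def_Classical

/-!
# S5210: the groups `SU₄(q) ⋊ H`
-/

set_option autoImplicit false
set_option linter.unusedSectionVars false
set_option linter.unusedVariables false

namespace Cfsg.Agent.U4

open Subgroup Cfsg Cfsg.FusionSystem Matrix Cfsg.Agent.U5
open scoped commutatorElement

universe u

variable {K : Type u} [Field K] [StarRing K] [hK : UF K] {p : ℕ} [hp : Fact p.Prime] [CharP K p]

theorem forall4 {P : Fin 4 → Prop} : (∀ i, P i) ↔ P 0 ∧ P 1 ∧ P 2 ∧ P 3 :=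
  ⟨fun h => ⟨h 0, h 1, h 2, h 3⟩, fun ⟨h0, h1, h2, h3⟩ i => by fin_cases i <;> assumption⟩

theorem rev4 : Fin.rev (0 : Fin 4) = 3 ∧ Fin.rev (1 : Fin 4) = 2 ∧ Fin.rev (2 : Fin 4) = 1 ∧
    Fin.rev (3 : Fin 4) = 0 := ⟨rfl, rfl, rfl, rfl⟩

/-- The adjoint for the antidiagonal form. -/
def adj (M : Matrix (Fin 4) (Fin 4) K) : Matrix (Fin 4) (Fin 4) K :=
  Matrix.of fun i j => star (M j.rev i.rev)

theorem adj_apply (M : Matrix (Fin 4) (Fin 4) K) (i j : Fin 4) :
    adj M i j = star (M j.rev i.rev) := rfl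

theorem adj_mul (M N : Matrix (Fin 4) (Fin 4) K) : adj (M * N) = adj N * adj M := by
  ext i j
  simp only [adj_apply, mul_apply, star_sum, star_mul]
  exact (Equiv.sum_comp Fin.revPerm fun k => star (N k i.rev) * star (M j.rev k)).symm

theorem adj_adj (M : Matrix (Fin 4) (Fin 4) K) : adj (adj M) = M := by
  ext i j; simp [adj_apply]

variable (K) in
/-- `SU₄` for the antidiagonal form. -/
def SUJ : Subgroup (SpecialLinearGroup (Fin 4) K) where
  carrier := {g | g.1 * adj g.1 = 1}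
  one_mem' := by
    ext i j
    by_cases h : i = j <;> simp [adj_apply, one_apply, h, eq_comm]
  mul_mem' {a b} (ha : a.1 * adj a.1 = 1) (hb : b.1 * adj b.1 = 1) := by
    show a.1 * b.1 * adj (a.1 * b.1) = 1
    rw [adj_mul, mul_assoc, ← mul_assoc b.1, hb, one_mul, ha]
  inv_mem' {a} (ha : a.1 * adj a.1 = 1) := by
    have : (a⁻¹).1 = adj a.1 := by
      rw [← mul_one (a⁻¹).1, ← ha, ← mul_assoc,
        show (a⁻¹).1 * a.1 = 1 from congrArg Subtype.val (inv_mul_cancel a), one_mul]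
    show (a⁻¹).1 * adj (a⁻¹).1 = 1
    rw [this, adj_adj, mul_eq_one_comm.1 ha]

/-- An element of `SUJ`. -/
def mkJ (M : Matrix (Fin 4) (Fin 4) K) (h1 : M.det = 1) (h2 : M * adj M = 1) : SUJ K := ⟨⟨M, h1⟩, h2⟩

@[simp] theorem mkJ_val (M : Matrix (Fin 4) (Fin 4) K) (h1 : M.det = 1) (h2 : M * adj M = 1) :
    (mkJ M h1 h2).1.1 = M := rfl

theorem SUJ.ext {g h : SUJ K} (e : g.1.1 = h.1.1) : g = h := Subtype.ext (Subtype.ext e)

theorem SUJ.mul_val (g h : SUJ K) : (g * h).1.1 = g.1.1 * h.1.1 := rfl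

theorem SUJ.prop (g : SUJ K) : g.1.1 * adj g.1.1 = 1 := g.2

instance : Finite (SUJ K) := Finite.of_injective (fun g : SUJ K => g.1.1) fun _ _ => SUJ.ext

/-- The matrix of an element of `US K`. -/
def mat (x : US K) : Matrix (Fin 4) (Fin 4) K :=
  !![1, x.b, x.e, x.f; 0, 1, x.c, -(star x.b * x.c + star x.e); 0, 0, 1, -star x.b; 0, 0, 0, 1]

theorem mat_mul (x y : US K) : mat (x * y) = mat x * mat y := by
  simp only [← Matrix.ext_iff, forall4, mat, mul_apply, Fin.sum_univ_four, of_apply, cons_val]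
  simp
  and_intros <;> ring

theorem mat_diag (x : US K) (i : Fin 4) : mat x i i = 1 := by fin_cases i <;> rfl

theorem det_mat (x : US K) : (mat x).det = 1 := by
  rw [det_of_isUpperTriangular]
  · simp [mat_diag]
  · intro i j h
    fin_cases i <;> fin_cases j <;> first | rfl | simp at h

theorem mat_adj (x : US K) : mat x * adj (mat x) = 1 := by
  simp only [← Matrix.ext_iff, forall4, mat, mul_apply, Fin.sum_univ_four, of_apply, cons_val,
    adj_apply, rev4]
  simp
  and_intros <;> ring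

/-- The embedding. -/
def emb : US K →* SUJ K := MonoidHom.mk' (fun x => mkJ (mat x) (det_mat x) (mat_adj x))
  fun x y => SUJ.ext (mat_mul x y)

theorem emb_val (x : US K) : (emb x).1.1 = mat x := rfl

theorem emb_inj : Function.Injective (emb (K := K)) := fun x y h => by
  have e : ∀ i j, mat x i j = mat y i j := fun i j => congrArg (fun g : SUJ K => g.1.1 i j) h
  exact US.ext (e 0 1) (e 1 2) (e 0 2) (e 0 3)

/-- The diagonal of a parameter. -/
def dv (t : Par K) : Fin 4 → K :=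
  ![t.a * t.b, t.a, 1, (star (t.b : K))⁻¹]

theorem dv_ne (t : Par K) (i : Fin 4) : dv t i ≠ 0 := by fin_cases i <;> simp [dv]

theorem dv_rev (t : Par K) (i : Fin 4) : star (dv t i.rev) = t.a * (dv t i)⁻¹ := by
  fin_cases i <;> simp [dv, Fin.rev, mul_left_comm (t.a : K)]

theorem dv_mul (s t : Par K) (i : Fin 4) : dv (s * t) i = dv s i * s.σ (dv t i) := by
  fin_cases i <;> simp [dv] <;> ring

/-- The action on matrices. -/
def actM (t : Par K) (M : Matrix (Fin 4) (Fin 4) K) : Matrix (Fin 4) (Fin 4) K :=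
  Matrix.of fun i j => dv t i * t.σ (M i j) * (dv t j)⁻¹

theorem actM_apply (t : Par K) (M : Matrix (Fin 4) (Fin 4) K) (i j : Fin 4) :
    actM t M i j = dv t i * t.σ (M i j) * (dv t j)⁻¹ := rfl

theorem actM_mul (t : Par K) (M N : Matrix (Fin 4) (Fin 4) K) :
    actM t (M * N) = actM t M * actM t N := by
  ext i j
  simp only [actM_apply, mul_apply, map_sum, map_mul, Finset.mul_sum, Finset.sum_mul]
  refine Finset.sum_congr rfl fun k _ => ?_
  have := dv_ne t k
  field_simp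

theorem actM_one (t : Par K) : actM t 1 = 1 := by
  ext i j
  by_cases h : i = j <;> simp [actM_apply, one_apply, h, dv_ne]

theorem actM_adj (t : Par K) (M : Matrix (Fin 4) (Fin 4) K) : adj (actM t M) = actM t (adj M) := by
  ext i j
  simp only [actM_apply, adj_apply, star_mul', star_inv₀, dv_rev, map_star', mul_inv, inv_inv]
  have := t.a.ne_zero
  field_simp

theorem det_actM (t : Par K) (M : Matrix (Fin 4) (Fin 4) K) : (actM t M).det = t.σ M.det := by
  have : actM t M = diagonal (dv t) * (t.σ : K →+* K).mapMatrix M * diagonal fun i => (dv t i)⁻¹ := by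
    ext i j
    simp [actM_apply]
  rw [this, det_mul, det_mul, ← RingHom.map_det, mul_right_comm, ← det_mul, diagonal_mul_diagonal]
  simp [dv_ne]

theorem actM_actM (s t : Par K) (M : Matrix (Fin 4) (Fin 4) K) :
    actM (s * t) M = actM s (actM t M) := by
  ext i j
  simp only [actM_apply, dv_mul, Par.mul_σ, map_mul, map_inv₀, mul_inv]
  ring

theorem actM_id (M : Matrix (Fin 4) (Fin 4) K) : actM 1 M = M := by
  have : ∀ i, dv (1 : Par K) i = 1 := fun i => by fin_cases i <;> simp [dv]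
  ext i j
  simp [actM_apply, this]

theorem actM_mat (t : Par K) (x : US K) : actM t (mat x) = mat (tauF t x) := by
  have h2 : star (t.b : K) ≠ 0 := by simp
  simp only [← Matrix.ext_iff, forall4, mat, dv, actM_apply, of_apply, cons_val]
  simp
  and_intros <;> field_simp

/-- The action on `SUJ`. -/
def actJ (t : Par K) (g : SUJ K) : SUJ K := mkJ (actM t g.1.1) (by rw [det_actM, g.1.2, map_one])
  (by rw [actM_adj, ← actM_mul, g.prop, actM_one])

/-- The action on `SUJ`. -/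
def act : Par K →* MulAut (SUJ K) where
  toFun t := ⟨⟨actJ t, actJ t⁻¹, fun g => SUJ.ext ((actM_actM ..).symm.trans (by simp [actM_id])),
    fun g => SUJ.ext ((actM_actM ..).symm.trans (by simp [actM_id]))⟩,
    fun g h => SUJ.ext (actM_mul ..)⟩
  map_one' := MulEquiv.ext fun g => SUJ.ext (actM_id _)
  map_mul' s t := MulEquiv.ext fun g => SUJ.ext (actM_actM ..)

theorem act_emb (t : Par K) (x : US K) : act t (emb x) = emb (tauF t x) := SUJ.ext (actM_mat t x)

theorem exists_n1 (κ : Kˣ) (hκ : star (κ : K) = -κ) :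
    ∃ g : SUJ K, (∀ x ∈ QQ K, emb (n1 κ hκ x) = g * emb x * g⁻¹) ∧
    ∀ x, emb x * g = g * emb x → x.c = 0 := by
  have k0 := κ.ne_zero
  refine ⟨mkJ !![1, 0, 0, 0; 0, 0, (κ : K)⁻¹, 0; 0, -κ, 0, 0; 0, 0, 0, 1] ?_ ?_,
    fun x hx => eq_mul_inv_of_mul_eq (SUJ.ext ?_), fun x h => ?_⟩
  · simp [det_succ_row_zero, Fin.sum_univ_succ, Fin.succAbove]
  · simp only [← Matrix.ext_iff, forall4, mul_apply, Fin.sum_univ_four, of_apply, cons_val,
      adj_apply, rev4]
    simp [hκ]
  · simp only [← Matrix.ext_iff, forall4, mat, mul_apply, Fin.sum_univ_four, of_apply, cons_val,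
      SUJ.mul_val, emb_val, mkJ_val]
    simp [mem_QQ.1 hx, hκ]
    and_intros <;> field_simp
  · simpa [SUJ.mul_val, emb_val, mat, mul_apply, Fin.sum_univ_four] using
      congrArg (fun g : SUJ K => g.1.1 1 1) h

theorem exists_n2 : ∃ g : SUJ K, (∀ x ∈ AA K, emb (n2 x) = g * emb x * g⁻¹) ∧
    ∀ x, emb x * g = g * emb x → x.b = 0 := by
  refine ⟨mkJ !![0, 1, 0, 0; -1, 0, 0, 0; 0, 0, 0, -1; 0, 0, 1, 0] ?_ ?_,
    fun x hx => eq_mul_inv_of_mul_eq (SUJ.ext ?_), fun x h => ?_⟩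
  · simp [det_succ_row_zero, Fin.sum_univ_succ, Fin.succAbove]
  · simp only [← Matrix.ext_iff, forall4, mul_apply, Fin.sum_univ_four, of_apply, cons_val,
      adj_apply, rev4]
    simp
  · simp only [← Matrix.ext_iff, forall4, mat, mul_apply, Fin.sum_univ_four, of_apply, cons_val,
      SUJ.mul_val, emb_val, mkJ_val]
    simp [mem_AA.1 hx]
  · simpa [SUJ.mul_val, emb_val, mat, mul_apply, Fin.sum_univ_four] using
      congrArg (fun g : SUJ K => g.1.1 0 0) h

theorem exists_emb (g : SUJ K) (h0 : ∀ i j, j < i → g.1.1 i j = 0) (h1 : ∀ i, g.1.1 i i = 1) :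
    ∃ s, g = emb s := by
  have e := SUJ.prop g
  simp only [forall4] at h0 h1
  rw [← Matrix.ext_iff] at e
  simp only [forall4, mul_apply, Fin.sum_univ_four, adj_apply, rev4] at e
  simp at h0
  simp [h0, h1] at e
  obtain ⟨⟨a1, a2, a3⟩, ⟨a5, a6⟩, a8⟩ := e
  refine ⟨⟨g.1.1 0 1, g.1.1 1 2, g.1.1 0 2, g.1.1 0 3,
    by linear_combination a5, by linear_combination a3⟩, SUJ.ext ?_⟩
  simp only [← Matrix.ext_iff, forall4, mat, emb_val, of_apply, cons_val, h0, h1, true_and, and_true]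
  exact ⟨by linear_combination a6, by linear_combination a8⟩

theorem diag_mat (d : Fin 4 → K) (h1 : ∀ i, d i * star (d i.rev) = 1) (h3 : ∀ i, d i ≠ 0)
    (hr : star (d 0 * d 1)⁻¹ = (d 0 * d 1)⁻¹) (x : US K) : diagonal d * mat x =
      mat (tauF (hpar (Units.mk0 _ (inv_ne_zero (mul_ne_zero (h3 0) (h3 1)))) hr *
        kpar (Units.mk0 _ (h3 0))) x) * diagonal d := by
  have m0 := h3 0
  have m1 := h3 1
  have n0 := star_ne_zero.2 m0
  have k2 : d 2 = (star (d 1))⁻¹ := eq_inv_of_mul_eq_one_left (h1 2)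
  have k3 : d 3 = (star (d 0))⁻¹ := eq_inv_of_mul_eq_one_left (h1 3)
  have k1 : star (d 1) = d 0 * d 1 / star (d 0) := by
    rw [star_inv₀, _root_.inv_inj, star_mul'] at hr
    field_simp; linear_combination hr
  simp only [← Matrix.ext_iff, forall4, mat, of_apply, cons_val, diagonal_mul, mul_diagonal, k2, k3]
  simp [k1]
  and_intros <;> field_simp

theorem exists_dec {g : SUJ K} (hg : g ∈ normalizer ((emb (K := K)).range : Set (SUJ K))) :
    ∃ (s : US K) (D : SUJ K) (d : Fin 4 → K) (r : Kˣ) (hr : star (r : K) = r) (ν : Kˣ),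
      g = emb s * D ∧ D.1.1 = diagonal d ∧
      ∀ x, D * emb x = emb (tauF (hpar r hr * kpar ν) x) * D := by
  obtain ⟨κ, k0, k1⟩ := exists_tz K
  obtain ⟨x, hx⟩ := inv_conj_mem_of_mem_normalizer hg ⟨⟨1, κ, 0, 0, k1, by simp⟩, rfl⟩
  rw [mul_assoc, eq_inv_mul_iff_mul_eq] at hx
  have e := congrArg (fun g : SUJ K => g.1.1) hx
  simp only [← Matrix.ext_iff, forall4, mat, mul_apply, Fin.sum_univ_four, of_apply, cons_val,
    SUJ.mul_val, emb_val] at e
  obtain ⟨⟨a0, -⟩, ⟨b0, b1, -⟩, ⟨c0, c1, c2, -⟩, -⟩ := e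
  have h30 : g.1.1 3 0 = 0 := by simpa using c0
  have h20 : g.1.1 2 0 = 0 := by simpa [h30, k0] using b0
  have h10 : g.1.1 1 0 = 0 := by simpa using a0
  have h31 : g.1.1 3 1 = 0 := by simpa [h20] using c1
  have h21 : g.1.1 2 1 = 0 := by simpa [h10, h31, k0] using b1
  have h32 : g.1.1 3 2 = 0 := by simpa [h20, h21] using c2
  have h0 : ∀ i j, j < i → g.1.1 i j = 0 := by simp [forall4, *]
  have h1 : ∀ i, g.1.1 i i * star (g.1.1 i.rev i.rev) = 1 := by
    have e := fun i => congrArg (fun M => M i i) (SUJ.prop g)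
    simpa [forall4, mul_apply, Fin.sum_univ_four, adj_apply, rev4, h10, h20, h21, h30, h31, h32]
      using e
  have h2 : ∏ i, g.1.1 i i = 1 := (det_of_isUpperTriangular fun i j h => h0 i j h).symm.trans g.1.2
  have h3 : ∀ i, g.1.1 i i ≠ 0 := fun i e => by simpa [e] using h1 i
  have hr : star (g.1.1 0 0 * g.1.1 1 1)⁻¹ = (g.1.1 0 0 * g.1.1 1 1)⁻¹ := by
    rw [star_inv₀, _root_.inv_inj, star_mul']
    rw [Fin.prod_univ_four] at h2
    have e2 : g.1.1 2 2 * star (g.1.1 1 1) = 1 := h1 2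
    have e3 : g.1.1 3 3 * star (g.1.1 0 0) = 1 := h1 3
    linear_combination (-(star (g.1.1 0 0) * star (g.1.1 1 1))) * h2 +
      g.1.1 0 0 * g.1.1 1 1 * (g.1.1 3 3 * star (g.1.1 0 0)) * e2 + g.1.1 0 0 * g.1.1 1 1 * e3
  let D : SUJ K := mkJ (diagonal fun i => g.1.1 i i) (by rw [det_diagonal, h2]) (by
    ext i j
    by_cases h : i = j <;> simp [adj_apply, one_apply, h, h1, eq_comm])
  have hD : ∀ i j, (g * D⁻¹).1.1 i j * g.1.1 j j = g.1.1 i j := fun i j =>
    (mul_diagonal (fun i => g.1.1 i i) _ i j).symm.trans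
      (congrArg (fun g : SUJ K => g.1.1 i j) (inv_mul_cancel_right g D))
  obtain ⟨s, hs⟩ := exists_emb (g * D⁻¹) (fun i j h => by simpa [h0 i j h, h3] using hD i j)
    fun i => by simpa [h3] using hD i i
  refine ⟨s, D, _, Units.mk0 _ (inv_ne_zero (mul_ne_zero (h3 0) (h3 1))), hr, Units.mk0 _ (h3 0),
    eq_mul_of_mul_inv_eq hs, rfl, fun x => SUJ.ext ?_⟩
  exact diag_mat _ h1 h3 hr x

theorem sylow_emb : H7.SylowIn p (emb (K := K)).range ⊤ := by
  by_contra h
  obtain ⟨g, -, h1, h2, k, hk⟩ := H7.exists_mem_normalizer_of_not_sylowIn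
    ((isPGroup_US p).of_surjective _ emb.rangeRestrict_surjective) le_top h
  obtain ⟨s, D, d, r, hr, ν, rfl, h3, h4⟩ := exists_dec h2
  have h5 : ∀ n : ℕ, ∃ s', (emb s * D) ^ n = emb s' * D ^ n := fun n => by
    induction n with
    | zero => exact ⟨1, by simp⟩
    | succ n ih =>
      obtain ⟨s', e⟩ := ih
      exact ⟨s * tauF _ s', by
        rw [pow_succ', e, mul_assoc, ← mul_assoc D, h4, map_mul, pow_succ', mul_assoc, mul_assoc]⟩
  obtain ⟨s', e⟩ := h5 (p ^ k)
  have h6 : ∀ i, d i = 1 := fun i => by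
    have := congrArg (fun g : SUJ K => g.1.1 i i) (e.symm.trans hk)
    simp only [SUJ.mul_val, show (D ^ p ^ k).1.1 = D.1.1 ^ p ^ k from rfl, h3, diagonal_pow,
      mul_diagonal, emb_val, mat_diag, one_mul, Pi.pow_apply] at this
    exact (iterateFrobenius K p k).injective (this.trans (by simp))
  rw [show D = 1 from SUJ.ext (by rw [h3, funext h6]; rfl)] at h1
  exact h1 ⟨s, (mul_one _).symm⟩

theorem sing_of_conj {g : SUJ K} {x y : US K} (hx : x ∈ Z2 K) (hy : y ∈ QQ K)
    (h : emb y = g * emb x * g⁻¹) : y.b * star y.e + star y.b * y.e = 0 := by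
  have h1 : (mat y - 1) * g.1.1 = g.1.1 * (mat x - 1) := by
    rw [sub_mul, mul_sub, one_mul, mul_one]
    exact congrArg (fun k : SUJ K => k.1.1 - g.1.1) (eq_mul_inv_iff_mul_eq.1 h)
  have h2 : (mat x - 1) * (mat x - 1) = 0 := by
    simp only [← Matrix.ext_iff, forall4, mat, mul_apply, Fin.sum_univ_four, of_apply, cons_val,
      Matrix.sub_apply, one_apply]
    simp [hx.1, hx.2]
  have h3 : (mat y - 1) * (mat y - 1) = 0 := by
    have : (mat y - 1) * (mat y - 1) * (g.1.1 * adj g.1.1) = 0 := by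
      rw [← mul_assoc, mul_assoc _ _ g.1.1, h1, ← mul_assoc, h1, mul_assoc g.1.1, h2, mul_zero,
        zero_mul]
    rwa [g.prop, mul_one] at this
  have h4 := congrArg (fun M => M 0 3) h3
  simp [mat, mul_apply, Fin.sum_univ_four, mem_QQ.1 hy, one_apply] at h4
  linear_combination -h4

theorem exists_model (H : Subgroup (Par K)) (hH : ¬ p ∣ Nat.card H)
    (hh : ∀ r hr, hpar r hr ∈ H) (hk : ∀ ν, kpar ν ∈ H) (κ : Kˣ) (hκ : star (κ : K) = -κ) :
    ∃ (G : Type u) (_ : Group G) (_ : Finite G) (ι : US K →* G), Mod p H ι ∧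
      (∃ g : G, ∀ x ∈ QQ K, ι (n1 κ hκ x) = g * ι x * g⁻¹) ∧
      ∀ (g : G), ∀ x ∈ Z2 K, ∀ y ∈ QQ K, ι y = g * ι x * g⁻¹ →
        y.b * star y.e + star y.b * y.e = 0 := by
  let φ : H →* MulAut (SUJ K) := act.comp H.subtype
  have hf : Finite (SUJ K ⋊[φ] H) := Finite.of_equiv _ SemidirectProduct.equivProd.symm
  let ι : US K →* SUJ K ⋊[φ] H := SemidirectProduct.inl.comp emb
  have e : ∀ (t : H) x, ι (tauF t x) = .inr t * ι x * (.inr t)⁻¹ := fun t x => by
    rw [← map_inv]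
    exact (congrArg SemidirectProduct.inl (act_emb t.1 x).symm).trans
      (SemidirectProduct.inl_aut (φ := φ) t (emb x))
  have e' : ∀ {g : SUJ K} {x y}, emb y = g * emb x * g⁻¹ → ι y = .inl g * ι x * (.inl g)⁻¹ :=
    fun h => (congrArg SemidirectProduct.inl h).trans (by rw [map_mul, map_mul, map_inv]; rfl)
  refine ⟨_, inferInstance, hf, ι, ⟨SemidirectProduct.inl_injective.comp emb_inj,
    H7.sylowIn_of_not_dvd_relIndex le_top
      ((isPGroup_US p).of_surjective _ ι.rangeRestrict_surjective) ?_,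
    fun t ht => ⟨_, e ⟨t, ht⟩⟩, let ⟨g, h, _⟩ := exists_n2 (K := K); ⟨_, fun x hx => e' (h x hx)⟩,
    fun ⟨g, t⟩ f h => ?_⟩, let ⟨g, h, _⟩ := exists_n1 κ hκ; ⟨_, fun x hx => e' (h x hx)⟩,
    fun ⟨g, t⟩ x hx y hy h => ?_⟩
  rotate_right
  · refine sing_of_conj (g := g) (x := tauF t x) (by simp [mem_Z2, hx.1, hx.2]) hy
      (SemidirectProduct.inl_injective (φ := φ) (h.trans ?_))
    rw [SemidirectProduct.mk_eq_inl_mul_inr, map_mul, map_mul, map_inv]
    change _ = _ * ι _ * _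
    simp only [e, mul_assoc, _root_.mul_inv_rev]
  · rw [relIndex_top_right, MonoidHom.range_comp,
      index_map_of_injective _ SemidirectProduct.inl_injective,
      SemidirectProduct.range_inl_eq_ker_rightHom, index_ker,
      MonoidHom.range_eq_top.2 SemidirectProduct.rightHom_surjective, card_top, hp.out.dvd_mul,
      ← relIndex_top_right]
    exact not_or.2 ⟨sylow_emb.not_dvd_relIndex, hH⟩
  have h1 : ∀ x, emb (f x) = g * emb (tauF t x) * g⁻¹ := fun x =>
    SemidirectProduct.inl_injective (φ := φ) ((h x).trans (by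
      rw [SemidirectProduct.mk_eq_inl_mul_inr, map_mul, map_mul, map_inv]
      change _ = _ * ι _ * _
      simp only [e, mul_assoc, _root_.mul_inv_rev]))
  obtain ⟨s, D, d, r, hr, ν, rfl, -, h4⟩ := exists_dec (g := g) (mem_normalizer_of_finite (by
    rintro _ ⟨x, rfl⟩
    exact ⟨f (tauF t.1⁻¹ x), by rw [h1, tauF_inv_right]⟩))
  refine ⟨s, _, mul_mem (mul_mem (hh r hr) (hk ν)) t.2, fun x => emb_inj ?_⟩
  rw [h1, mul_assoc (emb s), h4, tauF_tauF _ t.1, map_mul, map_mul, map_inv]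
  group

theorem mem_SU {q : ℕ} (hq : ∀ x : K, star x = x ^ q) {g : SpecialLinearGroup (Fin 4) K} :
    g ∈ SU 4 K q ↔ g.1 * g.1ᴴ = 1 := by
  have e : ∀ u v, hermForm 4 K q u v = star v ⬝ᵥ u := fun u v => by
    simp [hermForm, ← hq, dotProduct, mul_comm]
  rw [mul_eq_one_comm]
  change (∀ u v, hermForm 4 K q (g.1 *ᵥ u) (g.1 *ᵥ v) = _) ↔ _
  simp only [e, star_mulVec, dotProduct_mulVec, vecMul_vecMul]
  refine ⟨fun h => ?_, fun h u v => by rw [h, vecMul_one]⟩
  ext i j
  simpa [one_apply, Pi.single_apply, eq_comm] using h (Pi.single j 1) (Pi.single i 1)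

theorem exists_SU {q : ℕ} (hq : ∀ x : K, star x = x ^ q) : Nonempty (SUJ K ≃* SU 4 K q) := by
  obtain ⟨ε, hε⟩ := exists_norm (K := K) (r := -1) (by simp)
  let J : Matrix (Fin 4) (Fin 4) K := Matrix.of fun i j => if i = j.rev then 1 else 0
  have hJ : ∀ M, adj M = J * Mᴴ * J := fun M => by
    ext i j
    simp [J, adj_apply, mul_apply, ← Fin.rev_eq_iff (i := i)]
  have hJJ : J * J = 1 := by
    ext i j
    simp [J, mul_apply, one_apply]
  obtain ⟨P, hP⟩ : ∃ P : Matrix (Fin 4) (Fin 4) K, P * Pᴴ = J := by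
    refine ⟨!![1, ε, 0, 0; 0, 0, 1, ε; 0, 0, om K, -(ε * star (om K));
      om K, -(ε * star (om K)), 0, 0], ?_⟩
    simp only [← Matrix.ext_iff, forall4, mul_apply, Fin.sum_univ_four, of_apply, cons_val,
      conjTranspose_apply, rev4, J]
    simp
    and_intros <;> first | linear_combination hε | linear_combination (-om K) * hε | linear_combination (om K - 1) * hε | linear_combination (om K - om K ^ 2) * hε
  have h1 : P * (Pᴴ * J) = 1 := by rw [← mul_assoc, hP, hJJ]
  have h2 := mul_eq_one_comm.1 h1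
  generalize Pᴴ * J = Q at h1 h2
  have hd : ∀ {P Q : Matrix (Fin 4) (Fin 4) K} (h : P * Q = 1) (g : SpecialLinearGroup (Fin 4) K),
      (Q * g.1 * P).det = 1 := fun h g => by
    rw [det_mul, det_mul, g.2, mul_one, mul_comm, ← det_mul, h, det_one]
  let c : SpecialLinearGroup (Fin 4) K ≃* SpecialLinearGroup (Fin 4) K :=
    ⟨⟨fun g => ⟨_, hd h1 g⟩, fun g => ⟨_, hd h2 g⟩,
      fun g => Subtype.ext (by simp [← mul_assoc, h1, mul_assoc _ P]),
      fun g => Subtype.ext (by simp [← mul_assoc, h2, mul_assoc _ Q])⟩,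
      fun g h => Subtype.ext (by
        change Q * (g.1 * h.1) * P = Q * g.1 * P * (Q * h.1 * P)
        simp [← mul_assoc, mul_assoc _ P, h1])⟩
  refine ⟨(c.subgroupMap _).trans (MulEquiv.subgroupCongr (Subgroup.ext fun g => ?_))⟩
  obtain ⟨g, rfl⟩ := c.surjective g
  refine (mem_map_iff_mem c.injective).trans ?_
  rw [mem_SU hq]
  change g.1 * adj g.1 = 1 ↔ Q * g.1 * P * (Q * g.1 * P)ᴴ = 1
  have h3 : Qᴴ * Pᴴ = 1 := by rw [← conjTranspose_mul, h1, conjTranspose_one]
  have h4 : Pᴴ * Qᴴ = 1 := by rw [← conjTranspose_mul, h2, conjTranspose_one]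
  rw [hJ, conjTranspose_mul, conjTranspose_mul, mul_assoc _ P, ← mul_assoc P, hP]
  refine ⟨fun h => ?_, fun h => ?_⟩
  · have : g.1 * (J * g.1ᴴ) = P * Pᴴ := by
      rw [hP, ← mul_one (g.1 * _), ← hJJ, ← mul_assoc, mul_assoc g.1, h, one_mul]
    rw [← mul_assoc J, mul_assoc Q, ← mul_assoc g.1, this, mul_assoc, h4, mul_one, h2]
  · have : g.1 * (J * g.1ᴴ) = P * 1 * Pᴴ := by
      rw [← h]; simp [← mul_assoc, h1, mul_assoc _ Qᴴ, h3]
    rw [← mul_assoc, this, mul_one, hP, hJJ]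

theorem sylow_PSU {q : ℕ} [Fintype K] (hq : ∀ x : K, star x = x ^ q) (T : Sylow p (PSU 4 K q)) :
    Nonempty ((T : Subgroup (PSU 4 K q)) ≃* US K) := by
  obtain ⟨c⟩ := exists_SU hq
  have := Finite.of_equiv _ c.toEquiv
  let π : SUJ K →* PSU 4 K q := (QuotientGroup.mk' _).comp c.toMonoidHom
  have hπ : Function.Surjective π := (QuotientGroup.mk'_surjective _).comp c.surjective
  have hi : Function.Injective (π.comp emb) := (injective_iff_map_eq_one _).2 fun x hx => by
    have h : ∀ g, emb x * g = g * emb x := fun g => c.injective (by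
      rw [map_mul, map_mul]
      exact (mem_center_iff.1 ((QuotientGroup.eq_one_iff _).1 hx) _).symm)
    obtain ⟨κ, k0, k1⟩ := exists_tz K
    obtain ⟨g, g1, g2⟩ := exists_n1 (Units.mk0 κ k0) k1
    obtain ⟨g', g3, g4⟩ := exists_n2 (K := K)
    have e1 := emb_inj ((g1 x (g2 x (h g))).trans (by rw [← h, mul_inv_cancel_right]))
    have e2 := emb_inj ((g3 x (g4 x (h g'))).trans (by rw [← h, mul_inv_cancel_right]))
    exact US.ext (g4 x (h g')) (g2 x (h g))
      ((congrArg US.e e1).symm.trans (show _ * x.b = 0 by rw [g4 x (h g'), mul_zero]))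
      ((congrArg US.f e2).symm.trans (g2 x (h g)))
  have h := (sylow_emb (p := p)).map π
  rw [← MonoidHom.range_comp, map_top_of_surjective _ hπ] at h
  obtain ⟨R, hR⟩ := H7.sylowIn_top_iff.1 h
  exact ⟨((T.equiv R).trans (MulEquiv.subgroupCongr hR)).trans (MonoidHom.ofInjective hi).symm⟩

end Cfsg.Agent.U4
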