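import Cfsg.Agent.Lib.U4.Lin1a

/-!
# S5210: recognising `SL₂(q)` on `Q / Z = K × K` for `q ≠ 3`
-/

set_option autoImplicit false
set_option linter.unusedSectionVars false
set_option linter.unusedVariables false

namespace Cfsg.Agent.U4

open U5

variable {K : Type*} [Field K] [StarRing K] [hK : UF K]

namespace L1

theorem card_pow_le {m : ℕ} (hm : 0 < m) [DecidableEq K] (s : Finset K) (h : ∀ x ∈ s, x ^ m = 1) :
    s.card ≤ m :=
  (Finset.card_le_card (t := (Polynomial.nthRoots m (1 : K)).toFinset) fun x hx =>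
    Multiset.mem_toFinset.2 ((Polynomial.mem_nthRoots hm).2 (h x hx))).trans
    ((Multiset.toFinset_card_le _).trans (Polynomial.card_nthRoots m 1))

theorem count_psi (hq : Nat.card K ≠ 9) {t : K} (h : ∀ ν ν' : K, ν ≠ 0 → ν' ≠ 0 →
    star (t * (ν / star ν ^ 3) - t * (ν' / star ν' ^ 3)) =
      -(t * (ν / star ν ^ 3) - t * (ν' / star ν' ^ 3)) →
    t * (ν / star ν ^ 3) = t * (ν' / star ν' ^ 3)) : t = 0 := by
  classical
  by_contra t0
  obtain ⟨q, hq2, h1, hσ⟩ := exists_q (K := K)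
  letI := Fintype.ofFinite K
  rw [Nat.card_eq_fintype_card] at h1 hq
  have q3 : q ≠ 3 := fun e => hq (by rw [h1, e]; rfl)
  obtain ⟨m, m0, m1, hm⟩ : ∃ m : ℕ, 0 < m ∧ m < q ∧ ∀ x : K, x ≠ 0 → x ^ 3 = x ^ q → x ^ m = 1 := by
    by_cases q2 : q = 2
    · exact ⟨1, one_pos, by omega, fun x hx e => mul_left_cancel₀ (pow_ne_zero 2 hx) (by
        rw [q2] at e; linear_combination e)⟩
    · exact ⟨q - 3, by omega, by omega, fun x hx e => mul_left_cancel₀ (pow_ne_zero 3 hx) (by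
        rw [← pow_add, show 3 + (q - 3) = q by omega, mul_one, e])⟩
  let f : K → K := fun ν => t * (ν / star ν ^ 3) + star (t * (ν / star ν ^ 3))
  let R : Finset K := Finset.univ.filter fun x => star x = x
  have hR : R.card ≤ q := by
    have := card_pow_le (m := q - 1) (by omega) (R.erase 0) fun x hx => by
      obtain ⟨x0, hx⟩ := Finset.mem_erase.1 hx
      have := (Finset.mem_filter.1 hx).2
      rw [hσ] at this
      exact mul_left_cancel₀ x0 (by rw [← pow_succ', show q - 1 + 1 = q by omega, this, mul_one])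
    have h2 := Finset.pred_card_le_card_erase (s := R) (a := 0)
    omega
  have key := Finset.card_le_mul_card_image_of_maps_to (f := f) (s := Finset.univ.erase 0) (t := R)
    (fun a _ => by simp [R, f, add_comm]) m fun b _ => by
      rcases ((Finset.univ.erase 0).filter fun a => f a = b).eq_empty_or_nonempty with e | ⟨ν, hν⟩
      · rw [e]; simp
      obtain ⟨ν0, hν⟩ := Finset.mem_filter.1 hν
      have ν1 := (Finset.mem_erase.1 ν0).1
      have s1 : star ν ≠ 0 := star_ne_zero.2 ν1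
      rw [← Finset.card_image_of_injective _ (f := fun x : K => star x / star ν)
        fun x y e => star_injective ((div_left_inj' s1).1 e)]
      refine card_pow_le m0 _ fun x hx => ?_
      obtain ⟨y, hy, rfl⟩ := Finset.mem_image.1 hx
      obtain ⟨y0, hy⟩ := Finset.mem_filter.1 hy
      have y1 := (Finset.mem_erase.1 y0).1
      have y2 : star y ≠ 0 := star_ne_zero.2 y1
      have e := mul_left_cancel₀ t0 (h y ν y1 ν1 (by
        rw [star_sub]; simp only [f] at hy hν; linear_combination hy - hν))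
      refine hm _ (div_ne_zero y2 s1) ?_
      rw [← hσ, star_div₀, star_star, star_star]
      field_simp at e ⊢
      linear_combination -e
  rw [Finset.card_erase_of_mem (Finset.mem_univ _), Finset.card_univ, h1] at key
  have : m * R.card ≤ (q - 1) * q := Nat.mul_le_mul (by omega) hR
  obtain ⟨r, rfl⟩ : ∃ r, q = r + 2 := ⟨q - 2, by omega⟩
  rw [show r + 2 - 1 = r + 1 by omega] at this
  have h3 : (r + 2) ^ 2 = (r + 1) * (r + 2) + (r + 2) := by ring
  omega

/-- `γ L₀` is the graph of `b ↦ s b + t b̄` -/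
def IsPt (γ : (K × K) ≃ₗ[ℤ] (K × K)) (s t : K) : Prop :=
  ∀ v, InL γ v ↔ v.2 = s * v.1 + t * star v.1

variable {g γ δ : (K × K) ≃ₗ[ℤ] (K × K)} {s t s' t' c : K}

theorem inL_mul (v : K × K) : InL (δ * γ) (δ v) ↔ InL γ v := by
  rw [InL, mul_inv_rev, LinearEquiv.mul_apply, inv_ap, InL]

theorem IsPt.uu (h : IsPt γ s t) (c : K) : IsPt (uu c * γ) (s + c) t := fun v => by
  rw [← ap_inv (L1.uu c) v, inL_mul, h]
  generalize (L1.uu c)⁻¹ v = w
  simp only [uu_apply]
  constructor <;> intro e <;> linear_combination e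

theorem IsPt.hh (h : IsPt γ s t) {ν : K} (hν : ν ≠ 0)
    (hδ : ∀ v, δ v = (ν ^ 2 * v.1, ν / star ν * v.2)) :
    IsPt (δ * γ) (s / (ν * star ν)) (t * (ν / star ν ^ 3)) := fun v => by
  have s1 : star ν ≠ 0 := star_ne_zero.2 hν
  rw [← ap_inv δ v, inL_mul, h]
  generalize δ⁻¹ v = w
  simp only [hδ, star_mul', star_pow]
  constructor <;> intro e
  · rw [e]; field_simp
  · field_simp at e; linear_combination e

theorem IsPt.not_fix (h : IsPt γ s t) : ¬ FixL γ := fun hf => by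
  simpa using (h _).1 (FixL.surj hf 1)

section X

variable {p : ℕ} [CharP K p] {X : Subgroup ((K × K) ≃ₗ[ℤ] (K × K))} (hq : Nat.card K ≠ 9)
  (hB : ∀ γ ∈ X, ∃ α : K → K, ∀ v w, om2 (γ v) (γ w) = α (om2 v w))
  (hU : ∀ c, star c = -c → uu c ∈ X)
  (hS : ∀ γ ∈ X, FixL γ → γ ^ p = 1 → ∃ c, star c = -c ∧ γ = uu c)
include hq hB hU hS

theorem exists_pt (hg : g ∈ X) (hf : ¬ FixL g) : ∃ s t, star s = -s ∧ IsPt g s t := by
  have sg := hB g hg
  have inj : ∀ v, InL g v → v.1 = 0 → v = 0 := fun v hv h0 => by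
    by_contra hne
    refine disj hB hU hS hq hg hf (e0 := (g⁻¹ v).2) (fun e => hne ?_) (by rw [hv.eq, h0])
    rw [← hv.eq, e]; exact map_zero g
  have sur := surj_of_ker (f := fun x => (g (0, x)).1)
    (fun x y => by rw [← Prod.fst_add, ← map_add]; simp)
    (fun x hx => congrArg Prod.snd (g.map_eq_zero_iff.1 (inj _ (inL_ap g x) hx)))
  choose ψ hψ using sur
  replace hψ : ∀ b, (g (0, ψ b)).1 = b := hψ
  have mem : ∀ b, InL g (b, (g (0, ψ b)).2) := fun b => by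
    have := inL_ap g (ψ b)
    rwa [← Prod.mk.eta (p := g (0, ψ b)), hψ b] at this
  have uniq : ∀ v, InL g v → v.2 = (g (0, ψ v.1)).2 := fun v hv => by
    simpa [sub_eq_zero] using congrArg Prod.snd (inj _ (hv.sub (mem v.1)) (by simp))
  obtain ⟨s, t, e⟩ := exists_lin (f := fun b => (g (0, ψ b)).2)
    (fun x y => (uniq _ ((mem x).add (mem y))).symm)
    (fun t x ht => (uniq _ ((mem x).smul sg ht)).symm)
  have hp : IsPt g s t := fun v => ⟨fun hv => (uniq v hv).trans (e _), fun h => by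
    have := mem v.1
    rwa [e, ← h] at this⟩
  refine ⟨s, t, ?_, hp⟩
  obtain ⟨θ, hθ⟩ := exists_star_ne K
  have := InL.om sg ((hp (1, s * 1 + t * star 1)).2 rfl) ((hp (θ, s * θ + t * star θ)).2 rfl)
  simp only [om2, star_add, star_mul', star_star, star_one] at this
  exact mul_right_cancel₀ (sub_ne_zero.2 hθ) (by linear_combination -this)

theorem pt_eq (hγ : γ ∈ X) (hδ : δ ∈ X) (h : IsPt γ s t) (h' : IsPt δ s' t') (hs : star s = -s)
    (hs' : star s' = -s') (ht : star (t - t') = -(t - t')) : t = t' := by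
  obtain ⟨κ, k0, k1⟩ := exists_tz K
  have hc : star (s - s' - (t - t')) = -(s - s' - (t - t')) := by
    rw [star_sub, ht, star_sub, hs, hs']; ring
  have h2 := h'.uu (s - s' - (t - t'))
  have hδ' := X.mul_mem (hU _ hc) hδ
  generalize uu (s - s' - (t - t')) * δ = ε at h2 hδ'
  have v1 : InL γ (κ, s * κ + t * star κ) := (h _).2 rfl
  have v2 : InL ε (κ, s * κ + t * star κ) := (h2 _).2 (by simp only [k1]; ring)
  have hf : FixL (ε⁻¹ * γ) := by
    by_contra hf
    refine disj hB hU hS hq (X.mul_mem (X.inv_mem hδ') hγ) hf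
      (e0 := (γ⁻¹ (κ, s * κ + t * star κ)).2) (fun e => k0 ?_) ?_
    · have := v1.eq
      rw [e] at this
      exact (congrArg Prod.fst ((map_zero γ).symm.trans this)).symm
    · rw [LinearEquiv.mul_apply, v1.eq]; exact v2
  have := coef (x := t' - t) (y := t' - t) fun ξ => by
    have h3 : InL γ (ξ, s * ξ + t * star ξ) := (h _).2 rfl
    have h4 := hf (γ⁻¹ (ξ, s * ξ + t * star ξ)).2
    rw [LinearEquiv.mul_apply, h3.eq] at h4
    have := (h2 _).1 h4
    simp only at this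
    linear_combination -this
  exact (sub_eq_zero.1 this.1).symm

theorem pt_zero (hH : ∀ ν : K, ν ≠ 0 → ∃ γ ∈ X, ∀ v, γ v = (ν ^ 2 * v.1, ν / star ν * v.2))
    (hg : g ∈ X) (hf : ¬ FixL g) : ∃ s, star s = -s ∧ IsPt g s 0 := by
  obtain ⟨s, t, hs, h⟩ := exists_pt hq hB hU hS hg hf
  have r : ∀ ν : K, star (s / (ν * star ν)) = -(s / (ν * star ν)) := fun ν => by
    rw [star_div₀, hs, star_mul', star_star, mul_comm, neg_div]
  obtain rfl : t = 0 := count_psi hq fun ν ν' h0 h0' e => by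
    obtain ⟨δ, hδ, e1⟩ := hH ν h0
    obtain ⟨δ', hδ', e1'⟩ := hH ν' h0'
    exact pt_eq hq hB hU hS (X.mul_mem hδ hg) (X.mul_mem hδ' hg) (h.hh h0 e1) (h.hh h0' e1')
      (r ν) (r ν') e
  exact ⟨s, hs, h⟩

end X

end L1

open L1 in
/-- If all points are standard, so is the opposite root group (every `q`). -/
theorem lin1_opp {X : Subgroup ((K × K) ≃ₗ[ℤ] (K × K))}
    (hU : ∀ c, star c = -c → ∃ γ ∈ X, ∀ v, γ v = (v.1, v.2 + c * v.1))
    (hpt : ∀ γ ∈ X, ¬ FixL γ → ∃ c, star c = -c ∧ ∀ e, ∃ b, γ (0, e) = (b, c * b))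
    (hex : ∃ γ ∈ X, ¬ FixL γ) (m : K) (hm : star m = -m) :
    ∃ γ ∈ X, ∀ v, γ v = (v.1 + m * v.2, v.2) := by
  have hU' : ∀ c, star c = -c → uu c ∈ X := fun c hc => by
    obtain ⟨γ, hγ, e⟩ := hU c hc
    rwa [show uu c = γ from LinearEquiv.ext fun v => (e v).symm]
  have pt : ∀ g ∈ X, ¬ FixL g → ∃ s, star s = -s ∧ IsPt g s 0 := fun g hg hf => by
    obtain ⟨c, hc, h⟩ := hpt g hg hf
    have h1 : ∀ e, (g (0, e)).2 = c * (g (0, e)).1 := fun e => by
      obtain ⟨b, hb⟩ := h e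
      rw [hb]
    have sur := surj_of_ker (f := fun x => (g (0, x)).1)
      (fun x y => by rw [← Prod.fst_add, ← map_add]; simp)
      (fun x hx => congrArg Prod.snd (g.map_eq_zero_iff.1
        (Prod.ext hx (by rw [h1, hx, mul_zero]; rfl) : g (0, x) = 0)))
    refine ⟨c, hc, fun v => ⟨fun hv => by rw [← hv.eq, h1]; simp, fun hv => ?_⟩⟩
    obtain ⟨x, hx⟩ := sur v.1
    have : v = g (0, x) := Prod.ext hx.symm (by rw [h1, hv, ← hx]; simp)
    rw [this]; exact inL_ap g x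
  obtain ⟨g, hg, h⟩ : ∃ g ∈ X, IsPt g 0 0 := by
    obtain ⟨γ, hγ, hf⟩ := hex
    obtain ⟨s, hs, h⟩ := pt γ hγ hf
    exact ⟨_, X.mul_mem (hU' (-s) (by rw [star_neg, hs])) hγ, by simpa using h.uu (-s)⟩
  have h' : ∀ v, InL g v ↔ v.2 = 0 := fun v => by simpa using h v
  have key : ∀ c, star c = -c → star (cj g c (0, 1)).1 = -(cj g c (0, 1)).1 ∧
      ∀ v, cj g c v = (v.1 + (cj g c (0, 1)).1 * v.2, v.2) := fun c hc => by
    have snd : ∀ v, (cj g c v).2 = v.2 := fun v => sub_eq_zero.1 ((h' _).1 (inL_cj_sub g c v))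
    obtain ⟨m, hm, e⟩ : ∃ m, star m = -m ∧ ∀ e, (cj g c (0, e)).1 = m * e := by
      by_cases hf : FixL (cj g c)
      · exact ⟨0, by simp, fun e => by rw [hf e, zero_mul]⟩
      obtain ⟨s, hs, h1⟩ := pt _ (cj_mem hU' hg hc) hf
      have h2 : ∀ e, e = s * (cj g c (0, e)).1 := fun e => by
        simpa [snd] using (h1 _).1 (inL_ap _ e)
      have s0 : s ≠ 0 := fun e => by simpa [e] using h2 1
      exact ⟨s⁻¹, by rw [star_inv₀, hs, inv_neg], fun e => by
        rw [eq_inv_mul_iff_mul_eq₀ s0, ← h2]⟩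
    rw [e, mul_one]
    refine ⟨hm, fun v => Prod.ext ?_ (snd v)⟩
    conv_lhs => rw [show v = (v.1, 0) + (0, v.2) by simp, map_add, ((h' (v.1, 0)).2 rfl).cj,
      Prod.fst_add, e]
  let f : {c : K // star c = -c} → {c : K // star c = -c} := fun c => ⟨_, (key c c.2).1⟩
  have hf : Function.Injective f := fun c c' e => by
    have e1 : cj g c = cj g c' := LinearEquiv.ext fun v => by
      rw [(key c c.2).2, (key c' c'.2).2, show (cj g c (0, 1)).1 = (cj g c' (0, 1)).1 from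
        congrArg Subtype.val e]
    have e2 := DFunLike.congr_fun e1 (g (1, 0))
    rw [cj_ap, cj_ap] at e2
    exact Subtype.ext (by simpa using g.injective e2)
  obtain ⟨c, hc⟩ := Finite.surjective_of_injective hf ⟨m, hm⟩
  exact ⟨_, cj_mem hU' hg c.2, fun v => by
    rw [(key c c.2).2, show (cj g c (0, 1)).1 = m from congrArg Subtype.val hc]⟩

open L1 in
/-- The automizer of `Q` on `Q / Z` for `q ≠ 3`. -/
theorem lin1 {p : ℕ} [Fact p.Prime] [CharP K p] (hq : Nat.card K ≠ 9)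
    {X : Subgroup ((K × K) ≃ₗ[ℤ] (K × K))}
    (hB : ∀ γ ∈ X, ∃ α : K → K, ∀ v w, om2 (γ v) (γ w) = α (om2 v w))
    (hU : ∀ c, star c = -c → ∃ γ ∈ X, ∀ v, γ v = (v.1, v.2 + c * v.1))
    (hS : ∀ γ ∈ X, FixL γ → γ ^ p = 1 → ∃ c, star c = -c ∧ ∀ v, γ v = (v.1, v.2 + c * v.1))
    (hH : ∀ ν : K, ν ≠ 0 → ∃ γ ∈ X, ∀ v, γ v = (ν ^ 2 * v.1, ν / star ν * v.2))
    (hex : ∃ γ ∈ X, ¬ FixL γ) :
    (∀ m, star m = -m → ∃ γ ∈ X, ∀ v, γ v = (v.1 + m * v.2, v.2)) ∧
    ∀ γ ∈ X, ¬ FixL γ → ∃ c, star c = -c ∧ ∀ e, ∃ b, γ (0, e) = (b, c * b) := by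
  have hU' : ∀ c, star c = -c → uu c ∈ X := fun c hc => by
    obtain ⟨γ, hγ, e⟩ := hU c hc
    rwa [show uu c = γ from LinearEquiv.ext fun v => (e v).symm]
  have hS' : ∀ γ ∈ X, FixL γ → γ ^ p = 1 → ∃ c, star c = -c ∧ γ = uu c := fun γ h1 h2 h3 =>
    (hS γ h1 h2 h3).imp fun c h => ⟨h.1, LinearEquiv.ext h.2⟩
  have pt : ∀ γ ∈ X, ¬ FixL γ → ∃ c, star c = -c ∧ ∀ e, ∃ b, γ (0, e) = (b, c * b) :=
    fun γ hγ hf => by
      obtain ⟨s, hs, h⟩ := pt_zero hq hB hU' hS' hH hγ hf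
      exact ⟨s, hs, fun e => ⟨_, Prod.ext rfl (by simpa using (h _).1 (inL_ap γ e))⟩⟩
  exact ⟨lin1_opp hU pt hex, pt⟩

end Cfsg.Agent.U4
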