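import Cfsg.Agent.Lib.U4.Defs
import Cfsg.Agent.Lib.U4.Lin1

/-!
# S5210: the automizer of `QQ`
-/

set_option autoImplicit false
set_option linter.unusedSectionVars false
set_option linter.unusedVariables false

namespace Cfsg.Agent.U4

open Subgroup Cfsg Cfsg.FusionSystem Cfsg.Agent.U5 U4.US
open scoped commutatorElement

variable {K : Type*} [Field K] [StarRing K] [hK : UF K] {p : ℕ} [hp : Fact p.Prime] [CharP K p]
  {x y : US K}

namespace Q1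

/-- the projection `QQ → QQ / Z1` -/
def pq (x : US K) : K × K := (x.b, x.e)

theorem pq_iff : pq x = pq y ↔ x.b = y.b ∧ x.e = y.e := by simp [pq]

theorem ext_Z1 (hx : x ∈ Z1 K) (hy : y ∈ Z1 K) (h : x.f = y.f) : x = y :=
  US.ext (hx.1.trans hy.1.symm) (hx.2.1.trans hy.2.1.symm) (hx.2.2.trans hy.2.2.symm) h

theorem Z1_le : Z1 K ≤ QQ K := Z1_le_Z2.trans Z2_le_QQ

theorem xe_mem (e : K) : xe e ∈ Z2 K := ⟨rfl, rfl⟩

theorem el_mem (v : K × K) : el v.1 0 v.2 tz0 ∈ QQ K := rfl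

theorem mem_Z1_of_comm (hx : x ∈ QQ K) (h : ∀ z ∈ QQ K, x * z = z * x) : x ∈ Z1 K := by
  refine ⟨eq_zero_of_real fun y => ?_, hx, eq_zero_of_real fun y => ?_⟩
  · have := (comm_iff.1 (h (xe (star y)) rfl)).2
    simp at this
    linear_combination this
  · have := (comm_iff.1 (h (xb (star y)) rfl)).2
    simp [mem_QQ.1 hx] at this
    linear_combination this

theorem inv_Z1 (γ : MulAut (QQ K)) : Inv γ (Z1 K) := fun x hx hZ =>
  mem_Z1_of_comm (equivFun_mem γ hx) fun z hz => ef_comm γ hx hz (comm_Z1 hZ _)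

theorem exists_vb : ∃ vb : MulAut (QQ K) →* ((K × K) ≃ₗ[ℤ] (K × K)),
    ∀ γ, ∀ x ∈ QQ K, vb γ (pq x) = pq (equivFun γ x) :=
  U5.exists_vb pq (fun x hx y hy => by simp [pq, mem_QQ.1 hy])
    (fun v => ⟨_, el_mem v, rfl⟩) fun γ x hx h => by
      obtain ⟨h1, h2⟩ := (pq_iff (y := 1)).1 h
      have := inv_Z1 γ x hx ⟨h1, hx, h2⟩
      exact (pq_iff (y := 1)).2 ⟨this.1, this.2.2⟩

theorem ce_f (hx : x ∈ QQ K) (hy : y ∈ QQ K) : ⁅x, y⁆.f = om2 (pq x) (pq y) := by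
  simp [commutatorElement_def, mem_QQ.1 hx, mem_QQ.1 hy, om2, pq]; ring

theorem inv_mul_mem (hx : x ∈ QQ K) (hy : y ∈ QQ K) (h : pq y = pq x) : x⁻¹ * y ∈ Z1 K := by
  obtain ⟨a1, a2⟩ := pq_iff.1 h
  simp [mem_Z1, mem_QQ.1 hx, mem_QQ.1 hy, a1, a2]

theorem eq_ce (hy : y ∈ Z1 K) {u v : US K} (hu : u ∈ QQ K) (hv : v ∈ QQ K) (e1 : pq u = (1, 0))
    (e2 : pq v = (0, om K * y.f)) : y = ⁅u, v⁆ :=
  ext_Z1 hy (ce_Z1 (.inr (.inr ⟨hu, hv⟩))) (by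
    rw [ce_f hu hv, e1, e2]
    simp [om2, hy.1]; ring)

theorem fix_Z1 {γ : MulAut (QQ K)} (h : ∀ x ∈ QQ K, pq (equivFun γ x) = pq x) (hy : y ∈ Z1 K) :
    equivFun γ y = y := by
  have a1 : xb (1 : K) ∈ QQ K := rfl
  have a2 : xe (om K * y.f) ∈ QQ K := rfl
  conv_lhs => rw [eq_ce hy a1 a2 rfl rfl, ef_ce _ a1 a2]
  exact (eq_ce hy (equivFun_mem _ a1) (equivFun_mem _ a2) (h _ a1) (h _ a2)).symm

theorem ch_cm (t : US K) (i : ℕ) (x : US K) (hx : x ∈ ch3 (Z1 K) (Z2 K) (i + 1)) :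
    x⁻¹ * (t * x * t⁻¹) ∈ ch3 (Z1 K) (Z2 K) i :=
  match i, hx with
  | 0, hx => cm_eq_one (comm_Z1 hx t)
  | 1, hx => cm_Z1 (Or.inl hx)
  | 2, _ => cm_Z2 x t
  | _ + 3, _ => trivial

theorem inv_ch {γ : MulAut (QQ K)} (e : Inv γ (Z2 K)) (i : ℕ) : Inv γ (ch3 (Z1 K) (Z2 K) i) :=
  match i with
  | 0 => Inv.bot | 1 => inv_Z1 γ | 2 => e | _ + 3 => Inv.top

section
variable {M A : Subgroup (MulAut (QQ K))} (h : Loc p (QQ K) M A)
include h

theorem norm {γ : MulAut (QQ K)} (hγ : γ ∈ A) (e : Inv γ (Z2 K)) (t : US K) :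
    ∃ s : US K, ∀ x ∈ QQ K, equivFun γ (t * x * t⁻¹) = s * equivFun γ x * s⁻¹ := by
  obtain ⟨s, hs⟩ := h.conj_of_chain (ch3_mono Z1_le_Z2) rfl (n := 3) rfl
    (fun t i x _ hx => ch_cm t i x hx) (h.data.conj_mem_A (Loc.cj_T (mem_norm t)) hγ)
    (conj_mem_chainStab (ch3_mono Z1_le_Z2) (inv_ch e)
      ((H7.mem_chainStab (ch3_mono Z1_le_Z2)).2 fun i x hx hi => by
        rw [equivFun_conjAut _ hx]; exact ch_cm t i x hi))
  refine ⟨s, fun x hx => ?_⟩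
  rw [← hs _ (equivFun_mem _ hx), ef_conj _ _ (equivFun_mem _ hx), equivFun_inv_apply _ hx]

theorem exists_not_inv : ∃ g ∈ A, ¬ Inv g (Z2 K) := by
  obtain ⟨g, hg, hb⟩ := h.data.exists_not_mem
  obtain ⟨κ, h0, h1⟩ := exists_tz K
  exact ⟨g, hg, fun e => h0 (h.chain hg hb (ch3_mono Z1_le_Z2) rfl (n := 3) rfl (inv_ch e)
    (mem_norm (xA κ 0 0 h1 tz0)) fun i x _ hx => ch_cm _ i x hx)⟩

theorem inn_of_pq {δ : MulAut (QQ K)} (hδ : δ ∈ A) (g0 : ∀ x ∈ QQ K, pq (equivFun δ x) = pq x) :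
    ∃ t ∈ QQ K, ∀ x ∈ QQ K, equivFun δ x = t * x * t⁻¹ :=
  h.inn_of_chain (H7.chain2_monotone (Z1 K)) rfl (n := 2) rfl
    (fun g _ i => match i with | 0 => Inv.bot | 1 => inv_Z1 g | _ + 2 => Inv.top) hδ
    fun i x hx hi => match i, hi with
    | 0, hi => by rw [fix_Z1 g0 hi, inv_mul_cancel]; exact one_mem _
    | 1, _ => inv_mul_mem hx (equivFun_mem _ hx) (g0 x hx)
    | _ + 2, _ => trivial

end

section
variable {vb : MulAut (QQ K) →* ((K × K) ≃ₗ[ℤ] (K × K))}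
  (hvb : ∀ γ, ∀ x ∈ QQ K, vb γ (pq x) = pq (equivFun γ x))
include hvb

theorem vb_ext {γ : MulAut (QQ K)} {φ : K × K → K × K}
    (h : ∀ x ∈ QQ K, pq (equivFun γ x) = φ (pq x)) (v : K × K) : vb γ v = φ v :=
  (hvb γ _ (el_mem v)).trans (h _ (el_mem v))

theorem vb_conj (t : US K) (v : K × K) :
    vb (conjAut (QQ K) (mem_norm t)) v = (v.1, v.2 + -t.c * v.1) :=
  vb_ext hvb (φ := fun v => (v.1, v.2 + -t.c * v.1)) (fun x hx => by
    rw [equivFun_conjAut _ hx]; ext <;> simp [pq, mem_QQ.1 hx]; ring) v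

theorem fixL_iff {γ : MulAut (QQ K)} : FixL (vb γ) ↔ Inv γ (Z2 K) := by
  refine ⟨fun h x hx h2 => ?_, fun h ζ => ?_⟩
  · have := h x.e
    rw [← show pq x = (0, x.e) by simp [pq, h2.1], hvb _ _ hx] at this
    exact ⟨this, equivFun_mem γ hx⟩
  · have := h _ (Z2_le_QQ (xe_mem ζ)) (xe_mem ζ)
    rw [show ((0 : K), ζ) = pq (xe ζ) from rfl, hvb _ _ (Z2_le_QQ (xe_mem ζ))]
    exact this.1

theorem vb_sim (γ : MulAut (QQ K)) : ∃ α : K → K, ∀ v w, om2 (vb γ v) (vb γ w) = α (om2 v w) := by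
  classical
  refine ⟨fun f => if h : star f = -f then (equivFun γ (xA 0 0 f tz0 h)).f else 0, fun v w => ?_⟩
  have a1 := el_mem v
  have a2 := el_mem w
  have h : star (om2 v w) = -om2 v w := by simp [om2]; ring
  beta_reduce
  rw [dif_pos h, ext_Z1 (x := xA 0 0 _ tz0 h) ⟨rfl, rfl, rfl⟩ (ce_Z1 (.inr (.inr ⟨a1, a2⟩)))
    (ce_f a1 a2).symm, ef_ce _ a1 a2, ce_f (equivFun_mem _ a1) (equivFun_mem _ a2), ← hvb _ _ a1,
    ← hvb _ _ a2]
  rfl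

theorem vb_fpf {k y : MulAut (QQ K)} {l : Kˣ} (h1 : (l : K) * star (l : K) = 1)
    (hl : (l : K) ^ 2 ≠ 1) (hk : ∀ x ∈ QQ K, equivFun k x = tauF (kpar l) x)
    (hy : vb y = 1) (e : k * y * k⁻¹ = y) : y = 1 := by
  have g0 : ∀ x ∈ QQ K, pq (equivFun y x) = pq x := fun x hx => by rw [← hvb _ _ hx, hy]; rfl
  have g1 : ∀ x ∈ QQ K, x⁻¹ * equivFun y x ∈ Z1 K := fun x hx =>
    inv_mul_mem hx (equivFun_mem _ hx) (g0 x hx)
  have key : ∀ (s : K → US K), (∀ a, s a ∈ QQ K) → (∀ a b, pq (s (a + b)) = pq (s a * s b)) →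
      (∀ a, pq (s (l ^ 2 * a)) = pq (tauF (kpar l) (s a))) → ∀ a, equivFun y (s a) = s a :=
    fun s s1 s2 s3 a => (inv_mul_eq_one.1 (ext_Z1 (g1 _ (s1 a)) (one_mem _) (fpf_core Z1_le
      (fun z hz r _ => comm_Z1 hz r) g1 (fun z hz => fix_Z1 g0 hz) e s1
      (fun a b => inv_mul_mem (mul_mem (s1 a) (s1 b)) (s1 _) (s2 a b))
      (fun a => inv_mul_mem (equivFun_mem _ (s1 a)) (s1 _) (by rw [hk _ (s1 a), s3]))
      (g := US.f) (fun z hz z' hz' => by simp [hz.1, hz.2.2]) (t := 1)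
      (fun z hz => by
        rw [hk _ (Z1_le hz), tauF_f, kpar_a, kpar_b, kpar_σ, star_pow, ← mul_pow, h1]; simp)
      (n := 1) (by simp) (by simpa using hl) a))).symm
  have k1 := key xb (fun _ => rfl) (fun a b => by simp [pq]) (fun a => by simp [pq])
  have k3 := key xe (fun _ => rfl) (fun a b => by simp [pq]) (fun a => by simp [pq, h1])
  refine mulEquiv_ext_equivFun fun x hx => ?_
  have a1 : xb x.b ∈ QQ K := rfl
  have a3 : xe x.e ∈ QQ K := rfl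
  have h4 := mul_mem a1 a3
  have h5 := inv_mul_mem h4 hx (by simp [pq])
  rw [equivFun_one hx, ← mul_inv_cancel_left (xb x.b * xe x.e) x,
    ef_mul _ h4 (Z1_le h5), fix_Z1 g0 h5, ef_mul _ a1 a3, k1, k3]

section
variable {M A : Subgroup (MulAut (QQ K))} (h : Loc p (QQ K) M A)
include h

theorem vb_U (c : K) (hc : star c = -c) : ∃ γ ∈ A.map vb, ∀ v, γ v = (v.1, v.2 + c * v.1) :=
  ⟨_, mem_map_of_mem vb (h.cj_A (mem_norm (xA c 0 0 hc tz0)⁻¹)), fun v => by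
    rw [vb_conj hvb]; simp⟩

theorem vb_S : ∀ γ ∈ A.map vb, FixL γ → γ ^ p = 1 →
    ∃ c, star c = -c ∧ ∀ v, γ v = (v.1, v.2 + c * v.1) := by
  rintro _ ⟨γ, hγ, rfl⟩ e hp1
  obtain ⟨t, ht, e1⟩ := inn_of_pq h (pow_mem hγ p) fun x hx => by
    rw [← hvb _ _ hx, map_pow, hp1]; rfl
  obtain ⟨k, hk⟩ := h.data.exists_pow_eq_one (Loc.cj_T (mem_norm (R := QQ K) t))
  have h1 := h.data.sylow.mem_of_mem_normalizer hγ (k := k + 1)
    (mem_normalizer_of_finite fun a ha => by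
      obtain ⟨u, -, hu, rfl⟩ := H9.exists_eq_conjAut ha
      obtain ⟨s, hs⟩ := norm h hγ ((fixL_iff hvb).1 e) u
      exact mem_autInducedBy_iff'.2 ⟨s, trivial, mem_norm s, fun x hx => by
        rw [ef_conj _ _ hx, hs _ (equivFun_mem _ hx), equivFun_apply_inv _ hx]⟩)
    (by
      rw [pow_succ', pow_mul, ← hk]
      congr 1
      exact mulEquiv_ext_equivFun fun x hx => by rw [e1 x hx, equivFun_conjAut _ hx])
  obtain ⟨s, -, hsn, rfl⟩ := H9.exists_eq_conjAut h1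
  exact ⟨-s.c, by simp, vb_conj hvb s⟩

theorem vb_ex : ∃ γ ∈ A.map vb, ¬ FixL γ :=
  let ⟨g, hg, hb⟩ := exists_not_inv h
  ⟨_, mem_map_of_mem vb hg, fun e => hb ((fixL_iff hvb).1 e)⟩

end

variable {F : FusionSystem (⊤ : Subgroup (US K))}

theorem vb_tau {t : Par K} (ht : F.IsIso ⊤ ⊤ (tauF t)) : ∃ γ ∈ (F.autGroup (QQ K)).map vb,
    ∀ v, γ v = (t.b * t.σ v.1, t.a * t.b * t.σ v.2) := by
  obtain ⟨k, k1, k2⟩ : ∃ k ∈ F.autGroup (QQ K), ∀ x ∈ QQ K, equivFun k x = tauF t x :=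
    ((ht.mor.mono le_top).isIso_self fun x hx => by simp [mem_QQ, mem_QQ.1 hx]).exists_aut
  exact ⟨_, mem_map_of_mem vb k1, vb_ext hvb (φ := fun v => (t.b * t.σ v.1, t.a * t.b * t.σ v.2))
    fun x hx => by rw [k2 x hx]; rfl⟩

theorem vb_pt (ho : Om F) : ∀ γ ∈ (F.autGroup (QQ K)).map vb, ¬ FixL γ →
    ∃ c, star c = -c ∧ ∀ e, ∃ b, γ (0, e) = (b, c * b) := by
  rintro _ ⟨γ, hγ, rfl⟩ e
  obtain ⟨c, hc, h⟩ := (ho _ (isIso_of_mem_autGroup le_top hγ)).resolve_left fun h =>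
    e ((fixL_iff hvb).2 fun x _ => h x)
  refine ⟨c, hc, fun ζ => ⟨(equivFun γ (xe ζ)).b, ?_⟩⟩
  rw [show ((0 : K), ζ) = pq (xe ζ) from rfl, hvb _ _ (Z2_le_QQ (xe_mem ζ)), pq, h _ (xe_mem ζ)]

variable (hF : F.IsSaturated p) {M : Subgroup (MulAut (QQ K))}
  (h : Loc p (QQ K) M (F.autGroup (QQ K)))
include hF h

theorem vb_w (ho : Om F) {c : K} (h0 : c ≠ 0) (hc : star c = -c) :
    ∃ γ ∈ F.autGroup (QQ K), ∀ v, vb γ v = (c * v.2, -c⁻¹ * v.1) := by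
  obtain ⟨γ, hγ, e⟩ := lin1_opp (vb_U hvb h) (vb_pt hvb ho) (vb_ex hvb h) c hc
  obtain ⟨δ, hδ, e'⟩ := vb_U hvb h (-c⁻¹) (by rw [star_neg, star_inv₀, hc, inv_neg])
  obtain ⟨ε, hε, e1⟩ := mul_mem (mul_mem hδ hγ) hδ
  refine ⟨ε, hε, fun v => ?_⟩
  rw [e1, LinearEquiv.mul_apply, LinearEquiv.mul_apply, e', e, e']
  ext <;> simp <;> field_simp <;> ring

theorem vb_std (hs : Std F) {γ : MulAut (QQ K)} (hγ : γ ∈ F.autGroup (QQ K)) (e : FixL (vb γ)) :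
    ∃ (t : Par K) (c : K), F.IsIso ⊤ ⊤ (tauF t) ∧ ∀ v, vb γ v =
      (t.b * t.σ v.1, t.a * t.b * t.σ v.2 + c * (t.b * t.σ v.1)) := by
  obtain ⟨f, hf, e1⟩ := exists_ext (isPGroup_US p) hF hγ (norm h hγ ((fixL_iff hvb).1 e))
  obtain ⟨s, t, e2⟩ := hs f hf
  refine ⟨t, -s.c, (((F.isMor_conj le_rfl (mem_top s⁻¹)).comp' hf.mor
    fun _ _ => trivial).congr fun x _ => by rw [e2]; group).isIso_top, vb_ext hvb
      (φ := fun v => (t.b * t.σ v.1, t.a * t.b * t.σ v.2 + -s.c * (t.b * t.σ v.1))) fun x hx => ?_⟩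
  rw [← e1 x hx, e2]
  ext <;> simp [pq, mem_QQ.1 hx]; ring

end

variable (K) in
theorem exists_norm_one : ∃ l : Kˣ, (l : K) * star (l : K) = 1 ∧ (l : K) ^ 2 ≠ 1 := by
  obtain ⟨θ, h0, h⟩ : ∃ θ : K, θ ≠ 0 ∧ θ ^ 2 ≠ star θ ^ 2 := by
    obtain ⟨θ, hθ⟩ := exists_star_ne K
    by_cases h : star θ = -θ
    · have h2 : (2 : K) * θ ≠ 0 := fun e => hθ (by linear_combination h - e)
      refine ⟨θ + 1, fun e => hθ ?_, fun e => ?_⟩
      · rw [eq_neg_of_add_eq_zero_left e]; simp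
      · rw [star_add, h, star_one] at e
        exact mul_ne_zero (left_ne_zero_of_mul h2) h2 (by linear_combination e)
    · exact ⟨θ, by rintro rfl; simp at hθ, fun e => mul_ne_zero (sub_ne_zero.2 hθ)
        (fun e => h (eq_neg_of_add_eq_zero_left e) : star θ + θ ≠ 0) (by linear_combination -e)⟩
  have h1 : star θ ≠ 0 := star_ne_zero.2 h0
  refine ⟨Units.mk0 (θ / star θ) (div_ne_zero h0 h1), ?_, fun e => h ?_⟩
  · simp only [Units.val_mk0, star_div₀, star_star]; field_simp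
  · simp only [Units.val_mk0] at e
    field_simp at e
    exact e

end Q1

open Q1

variable {F : FusionSystem (⊤ : Subgroup (US K))} (hF : F.IsSaturated p)
  (hE : F.IsEssential p (QQ K))
include hF hE

/-- For `q ≠ 3` the conjugates of `Z2` are standard. -/
theorem q1_om (hq : Nat.card K ≠ 9) (hk : ∀ ν : Kˣ, F.IsIso ⊤ ⊤ (tauF (kpar ν))) : Om F := by
  obtain ⟨vb, hvb⟩ := Q1.exists_vb (K := K)
  obtain ⟨M, h⟩ := exists_loc (isPGroup_US p) hF hE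
  have key := (lin1 hq (X := (F.autGroup (QQ K)).map vb)
    (by rintro _ ⟨γ, -, rfl⟩; exact vb_sim hvb γ) (vb_U hvb h) (vb_S hvb h) (fun ν hν => by
      obtain ⟨γ, hγ, e⟩ := vb_tau hvb (hk (Units.mk0 ν hν))
      have : star ν ≠ 0 := star_ne_zero.2 hν
      exact ⟨γ, hγ, fun v => by rw [e]; ext <;> simp; field_simp; simp⟩) (vb_ex hvb h)).2
  intro f hf
  obtain ⟨γ, hγ, e⟩ := hf.exists_aut
  by_cases hc : FixL (vb γ)
  · exact .inl fun x hx => e x (Z2_le_QQ hx) ▸ (fixL_iff hvb).1 hc x (Z2_le_QQ hx) hx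
  obtain ⟨c, hc, h1⟩ := key _ (mem_map_of_mem vb hγ) hc
  refine .inr ⟨c, hc, fun x hx => ?_⟩
  obtain ⟨b, hb⟩ := h1 x.e
  rw [← show pq x = (0, x.e) by simp [pq, hx.1], hvb _ _ (Z2_le_QQ hx), e x (Z2_le_QQ hx)] at hb
  simp only [pq, Prod.mk.injEq] at hb
  rw [hb.1, hb.2]

/-- The torus of `SL₂(q)` is in the system. -/
theorem q1_h (hs : Std F) (ho : Om F) (r : Kˣ) (hr : star (r : K) = r) :
    F.IsIso ⊤ ⊤ (tauF (hpar r hr)) := by
  obtain ⟨vb, hvb⟩ := Q1.exists_vb (K := K)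
  obtain ⟨M, h⟩ := exists_loc (isPGroup_US p) hF hE
  obtain ⟨κ, k0, k1⟩ := exists_tz K
  have r0 := r.ne_zero
  obtain ⟨γ, hγ, e⟩ := vb_w hvb hF h ho (c := -(r * κ)) (by simp [k0]) (by simp [hr, k1])
  obtain ⟨δ, hδ, e'⟩ := vb_w hvb hF h ho k0 k1
  obtain ⟨t, c, ht, e1⟩ := vb_std hvb hF h hs (mul_mem hγ hδ) fun ζ => by simp [e, e']
  simp only [map_mul, LinearEquiv.mul_apply, e, e'] at e1
  have a1 : ∀ a : K, r * a = t.b * t.σ a := fun a => by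
    have := congrArg Prod.fst (e1 (a, 0))
    simp only at this
    rw [← this]; field_simp
  have a2 := congrArg Prod.snd (e1 (0, 1))
  have a3 : (t.b : K) = r := by simpa using (a1 1).symm
  have : t = hpar r hr := by
    ext
    · simp only [a3, map_zero, map_one] at a2
      rw [hpar_a]; field_simp at a2 ⊢; linear_combination -a2
    · simp [a3]
    · next x => simpa [a3] using (a1 x).symm
  exact this ▸ ht

/-- The Weyl element is in the system. -/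
theorem q1_n (ho : Om F) (hk : ∀ ν : Kˣ, F.IsIso ⊤ ⊤ (tauF (kpar ν))) (κ : Kˣ)
    (hκ : star (κ : K) = -κ) : F.IsMor (QQ K) (n1 κ hκ) := by
  obtain ⟨vb, hvb⟩ := Q1.exists_vb (K := K)
  obtain ⟨M, h⟩ := exists_loc (isPGroup_US p) hF hE
  have k0 := κ.ne_zero
  obtain ⟨N, hN⟩ := exists_aut_of (R := QQ K) (f := n1 κ hκ) (g := n1 (-κ) (by simp [hκ]))
    (fun x hx y hy => n1_mul κ hκ hx hy) (fun x _ => n1_mem κ hκ x) fun x hx => by
      ext <;> simp [mem_QQ.1 hx, k0]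
  obtain ⟨γ, hγ, e⟩ := vb_w hvb hF h ho k0 hκ
  obtain ⟨l, l1, l2⟩ := exists_norm_one K
  obtain ⟨k, k1, k2⟩ : ∃ k ∈ F.autGroup (QQ K), ∀ x ∈ QQ K, equivFun k x = tauF (kpar l) x :=
    (((hk l).mor.mono le_top).isIso_self fun x hx => by simp [mem_QQ, mem_QQ.1 hx]).exists_aut
  haveI : (Inn (QQ K)).Normal := normalizer_eq_top_iff.1 (eq_top_iff.2 (le_normalizer_inn ⊤))
  have hNA := mem_of_lift vb (I := Inn (QQ K)) (F.inn_le_autGroup le_top) (fun i hi => by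
      obtain ⟨t, ht, e⟩ := mem_inn_iff.1 hi
      refine LinearEquiv.ext (vb_ext hvb (φ := id) fun x hx => ?_)
      rw [equivFun_of_mem _ hx, e]; ext <;> simp [pq, mem_QQ.1 ht, mem_QQ.1 hx])
    (fun δ hδ e => by
      obtain ⟨t, ht, e⟩ := inn_of_pq h hδ fun x hx => by rw [← hvb _ _ hx, e]; rfl
      exact mem_inn_iff.2 ⟨t, ht, fun x => by rw [← e x x.2, equivFun_coe]⟩) hγ (N := N)
    (LinearEquiv.ext fun v => by
      rw [e, vb_ext hvb (φ := fun v => (κ * v.2, -(κ : K)⁻¹ * v.1)) fun x hx => by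
        rw [hN x hx]; rfl])
    k1 k1 (mulEquiv_ext_equivFun fun x hx => by
      rw [equivFun_mul _ _ hx, equivFun_mul _ _ hx, hN _ (equivFun_mem _ hx), k2 x hx, hN x hx,
        k2 _ (n1_mem κ hκ x)]
      ext <;> simp [l1] <;> ring)
    fun y hy e => vb_fpf hvb l1 l2 k2 hy e
  exact (isMor_of_mem_autGroup le_top hNA).congr hN

/-- Generation of `Aut_F(QQ)`. -/
theorem q1_gen (ho : Om F) {κ : Kˣ} {hκ : star (κ : K) = -κ} (hn : F.IsMor (QQ K) (n1 κ hκ))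
    {E : FusionSystem (⊤ : Subgroup (US K))} (h1 : ∀ f, F.IsIso ⊤ ⊤ f → E.IsMor ⊤ f)
    (h2 : E.IsMor (QQ K) (n1 κ hκ)) {f : US K → US K} (hf : F.IsIso (QQ K) (QQ K) f) :
    E.IsMor (QQ K) f := by
  obtain ⟨vb, hvb⟩ := Q1.exists_vb (K := K)
  obtain ⟨M, h⟩ := exists_loc (isPGroup_US p) hF hE
  have k0 := κ.ne_zero
  have key : ∀ γ ∈ F.autGroup (QQ K), FixL (vb γ) → E.IsMor (QQ K) (equivFun γ) := fun γ hγ e => by
    obtain ⟨f, hf, e1⟩ := exists_ext (isPGroup_US p) hF hγ (norm h hγ ((fixL_iff hvb).1 e))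
    exact ((h1 f hf).mono le_top).congr e1
  obtain ⟨γ, hγ, e⟩ := hf.exists_aut
  by_cases hc : FixL (vb γ)
  · exact (key γ hγ hc).congr e
  obtain ⟨c, hc, hβ⟩ := vb_pt hvb ho _ (mem_map_of_mem vb hγ) hc
  obtain ⟨N, hN, eN⟩ := (hn.isIso_self fun x _ => n1_mem κ hκ x).exists_aut
  have eN' := vb_ext hvb (γ := N) (φ := fun v => (κ * v.2, -(κ : K)⁻¹ * v.1)) fun x hx => by
    rw [eN x hx]; rfl
  have k := key (N⁻¹ * (conjAut (QQ K) (mem_norm (xA c 0 0 hc tz0)) * γ))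
    (mul_mem (inv_mem hN) (mul_mem (h.cj_A _) hγ)) fun ζ => by
      obtain ⟨ξ, hξ⟩ := hβ ζ
      simp only [map_mul, map_inv, LinearEquiv.mul_apply, vb_conj hvb, hξ, xA_c]
      rw [show (ξ, c * ξ + -c * ξ) = vb N (0, (κ : K)⁻¹ * ξ) by rw [eN']; simp [k0], L1.inv_ap]
  refine ((E.isMor_conj le_rfl (mem_top (xA c 0 0 hc tz0)⁻¹)).comp' (h2.comp' k
    fun x hx => equivFun_mem _ hx) fun _ _ => trivial).congr fun x hx => ?_
  have hx' := equivFun_mem γ hx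
  rw [← eN _ (equivFun_mem _ hx), equivFun_mul _ _ hx, equivFun_apply_inv _ (equivFun_mem _ hx),
    equivFun_mul _ _ hx, equivFun_conjAut _ hx', e x hx]
  group

end Cfsg.Agent.U4
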