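import Cfsg.Agent.Lib.U4.Lin2c

/-!
# S5210: the Sylow subgroup `T` of the automizer of `AA` is a TI-group (see notes/U4_lead.md)
-/

set_option autoImplicit false
set_option linter.unusedSectionVars false

namespace Cfsg.Agent.SU4

open Cfsg.Agent.U5 Subgroup

section
variable {V : Type*} [AddCommGroup V] {Γ : Type*} [Group Γ] [Finite Γ] [DistribMulAction Γ V]
  {A B : AddSubgroup V} {p : ℕ} {G T : Subgroup Γ}

variable (Γ A B) in
/-- The stabilizer of the chain `0 ≤ A ≤ B ≤ V`. -/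
def ch : Subgroup Γ :=
  let M : Submonoid Γ :=
    { carrier := {g | (∀ v, g • v - v ∈ B) ∧ (∀ v ∈ B, g • v - v ∈ A) ∧ ∀ v ∈ A, g • v = v}
      one_mem' := ⟨by simp, by simp, by simp⟩
      mul_mem' := fun {a b} ha hb => ⟨fun v => by
          simpa [mul_smul] using B.add_mem (ha.1 (b • v)) (hb.1 v), fun v hv => by
          simpa [mul_smul, smul_sub] using A.add_mem ((ha.2.2 _ (hb.2.1 v hv)).symm ▸ hb.2.1 v hv :
            a • (b • v - v) ∈ A) (ha.2.1 v hv),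
        fun v h => by rw [mul_smul, hb.2.2 v h, ha.2.2 v h]⟩ }
  { M with inv_mem' := fun h => H7.inv_mem_of_pow_mem (M := M) h }

theorem conj_ch {g x : Γ} (hA : ∀ v ∈ A, g • v ∈ A) (hB : ∀ v ∈ B, g • v ∈ B)
    (hA' : ∀ v ∈ A, g⁻¹ • v ∈ A) (hB' : ∀ v ∈ B, g⁻¹ • v ∈ B) (hx : x ∈ ch Γ A B) :
    g * x * g⁻¹ ∈ ch Γ A B :=
  ⟨fun v => by simpa [mul_smul, smul_sub] using hB _ (hx.1 (g⁻¹ • v)),
    fun v hv => by simpa [mul_smul, smul_sub] using hA _ (hx.2.1 _ (hB' v hv)),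
    fun v hv => by rw [mul_smul, mul_smul, hx.2.2 _ (hA' v hv), smul_inv_smul]⟩

variable [FaithfulSMul Γ V] [hp : Fact p.Prime]

theorem isPGroup_ch (hV : ∀ v : V, p • v = 0) : IsPGroup p (ch Γ A B) := by
  rintro ⟨g, g1, g2, g3⟩
  refine ⟨2, Subtype.ext (eq_of_smul_eq_smul fun v : V => ?_)⟩
  have key : ∀ k : ℕ, g ^ k • v = v + k • (g • v - v) +
      k.choose 2 • (g • (g • v - v) - (g • v - v)) := by
    intro k
    induction k with
    | zero => simp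
    | succ k ih =>
      rw [pow_succ', mul_smul, ih, smul_add, smul_add, smul_comm g k, smul_comm g (k.choose 2),
        g3 _ (g2 _ (g1 v)), Nat.choose_succ_succ' k 1, Nat.choose_one_right]
      generalize g • (g • v - v) = B
      generalize g • v = A
      module
  have h0 : ∀ (k : ℕ) (u : V), p ∣ k → k • u = 0 := by
    rintro _ u ⟨k, rfl⟩
    rw [mul_smul, hV]
  have h2 : 2 ≠ p ^ 2 := by nlinarith [hp.out.two_le]
  change g ^ p ^ 2 • v = (1 : Γ) • v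
  rw [key, h0 _ _ (dvd_pow_self p two_ne_zero), h0 _ _ (hp.out.dvd_choose_pow two_ne_zero h2)]
  simp

theorem mem_of_ch (hV : ∀ v : V, p • v = 0) (syl : H7.SylowIn p T G)
    (hA : ∀ g ∈ T, ∀ v ∈ A, g • v ∈ A) (hB : ∀ g ∈ T, ∀ v ∈ B, g • v ∈ B) {x : Γ} (hx : x ∈ G)
    (h : x ∈ ch Γ A B) : x ∈ T :=
  syl.le_of_le_normalizer (K := ch Γ A B ⊓ G) ((isPGroup_ch hV).to_le inf_le_left) inf_le_right
    (fun g hg => mem_normalizer_fintype fun y hy => ⟨conj_ch (hA g hg) (hB g hg)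
      (hA _ (inv_mem hg)) (hB _ (inv_mem hg)) hy.1,
      G.mul_mem (G.mul_mem (syl.le hg) hy.2) (G.inv_mem (syl.le hg))⟩) ⟨h, hx⟩

end

variable {K : Type*} [Field K] [StarRing K] [hK : UF K] {Γ : Type*} [Group Γ] [Finite Γ]
  [DistribMulAction Γ (V4 K)] {G T : Subgroup Γ} {τ : K → Γ} {g : Γ} {β β₁ : K}

theorem ww_surj {e : K} (he : e ≠ 0) (f : T0 K) : ∃ γ, ww γ e = f := by
  have := star_ne_zero.2 he
  exact ⟨-(om K * f / star e), Subtype.ext (by simp; field_simp; ring)⟩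

theorem ww_surj' {γ : K} (he : γ ≠ 0) (f : T0 K) : ∃ e, ww γ e = f := by
  obtain ⟨e, h⟩ := ww_surj he (-f)
  exact ⟨e, Subtype.ext (by have := congrArg Subtype.val h; simp at this ⊢; linear_combination -this)⟩

theorem sub_mem_Zs (β : K) {v : V4 K} (h : v.1 = 0) : tt β v - v ∈ Zs K := by simp [mem_Zs, h]

theorem Fl_of_Z (h1 : β₁ ≠ 0) (h : ∀ v : V4 K, g • tt β v = tt β₁ (g • v))
    (hZ : ∀ z ∈ Zs K, g • z ∈ Zs K) : g ∈ Fl K Γ := by
  refine ⟨fun v hv => ?_, fun v a b => (mem_Zs.1 (hZ v (mem_Zs.2 ⟨a, b⟩))).2⟩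
  simpa [smul_sub, h, h1] using (mem_Zs.1 (hZ _ (sub_mem_Zs β hv))).2

theorem eq_of_Zs {z : V4 K} (hz : z ∈ Zs K) : z = (0, 0, z.2.2) :=
  Prod.ext (mem_Zs.1 hz).1 (Prod.ext (mem_Zs.1 hz).2 rfl)

theorem Z_of_odd (h2 : (2 : K) ≠ 0) (hβ : β ≠ 0) (h : ∀ v : V4 K, g • tt β v = tt β₁ (g • v))
    (z : V4 K) (hz : z ∈ Zs K) : g • z ∈ Zs K := by
  have := star_ne_zero.2 hβ
  let v : V4 K := (⟨z.2.2 / (2 * β * star β), by simp [mem_T0]; ring⟩, 0, 0)
  have e : z = tt β (tt β v - v) - (tt β v - v) :=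
    V4.ext (by simp [(mem_Zs.1 hz).1]) (by simp [(mem_Zs.1 hz).2]) (by simp [v]; field_simp; ring)
  rw [e, smul_sub, h, smul_sub, h]
  exact sub_mem_Zs _ (by simp)

theorem Z_of_comm {x : K} (hx : star x = x) (x0 : x ≠ 0) (x1 : x ≠ 1) (hβ : β ≠ 0)
    (h : ∀ y, star y = y → ∀ v : V4 K, g • tt (y * β) v = tt (y * β) (g • v))
    (z : V4 K) (hz : z ∈ Zs K) : g • z ∈ Zs K := by
  obtain ⟨e, he⟩ := ww_surj' hβ z.2.2
  replace he := congrArg Subtype.val he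
  have hx2 : star (x * x) = x * x := by simp [hx]
  have e1 : z = tt (1 * β) (0, e, 0) - (0, e, 0) :=
    V4.ext (by simp [(mem_Zs.1 hz).1]) (by simp [(mem_Zs.1 hz).2]) (by simpa using he.symm)
  have e2 : tt (x * β) (0, e, 0) - (0, e, 0) = tt (1 * β) (0, x * e, 0) - (0, x * e, 0) :=
    V4.ext (by simp) (by simp) (by simp [hx]; ring)
  have e3 : tt (x * β) (0, x * e, 0) - (0, x * e, 0) = tt (x * x * β) (0, e, 0) - (0, e, 0) :=
    V4.ext (by simp) (by simp) (by simp [hx]; ring)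
  replace e2 := congrArg (g • ·) e2
  replace e3 := congrArg (g • ·) e3
  simp only [smul_sub, h _ hx, h _ hx2, h _ (star_one _)] at e2 e3
  rw [e1, smul_sub, h _ (star_one _)]
  refine sub_mem_Zs _ (Subtype.ext ?_)
  generalize g • ((0, e, 0) : V4 K) = v at e2 e3
  generalize g • ((0, x * e, 0) : V4 K) = w at e2 e3
  have a1 := congrArg (·.2.1) e2
  have a2 := congrArg (fun u => (u.2.2 : K)) e2
  have a3 := congrArg (fun u => (u.2.2 : K)) e3
  simp only [Prod.snd_sub, Prod.fst_sub, tt_e, tt_f, AddSubgroup.coe_sub, AddSubgroup.coe_add,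
    coe_ww, coe_nm, star_mul, hx, star_one] at a1 a2 a3
  have a4 : (x * (x - 1)) ^ 2 * (β * star β) * v.1 = 0 := by
    linear_combination -a3 - x * a2 - (x ^ 2 - x) * star β * a1
  simpa [x0, sub_eq_zero, x1, hβ] using a4

variable {p : ℕ} [hp : Fact p.Prime] [CharP K p] [FaithfulSMul Γ (V4 K)]

theorem lin2 (hq : Nat.card K ≠ 4) (act : ∀ β (v : V4 K), τ β • v = tt β v)
    (hT : ∀ x, x ∈ T ↔ ∃ β, τ β = x) (syl : H7.SylowIn p T G) :
    L2 G τ ∧ ∀ g ∈ G, g ∈ Fl K Γ ↔ g ∈ normalizer (T : Set Γ) := by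
  have hV : ∀ v : V4 K, p • v = 0 := fun v => V4.ext (by simp) (by simp) (by simp)
  have tT : ∀ β, τ β ∈ T := fun β => (hT _).2 ⟨β, rfl⟩
  have tF : T ≤ Fl K Γ := fun x hx => by
    obtain ⟨β, rfl⟩ := (hT x).1 hx
    exact ⟨fun v h => by rwa [act], fun v h h' => by simp [act, h, h']⟩
  have hZ : ∀ g ∈ Fl K Γ, ∀ v ∈ Zs K, g • v ∈ Zs K := fun g hg v hv =>
    mem_Zs.2 ⟨hg.1 v (mem_Zs.1 hv).1, hg.2 v (mem_Zs.1 hv).1 (mem_Zs.1 hv).2⟩
  have nor : ∀ g ∈ G, g ∈ Fl K Γ → g ∈ normalizer (T : Set Γ) := fun g hg hF =>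
    mem_normalizer_fintype fun y hy => by
      obtain ⟨β, rfl⟩ := (hT y).1 hy
      refine mem_of_ch (A := Zs K) (B := (AddMonoidHom.fst (T0 K) (K × T0 K)).ker) hV syl
        (fun g hg => hZ g (tF hg)) (fun g hg => (tF hg).1)
        (G.mul_mem (G.mul_mem hg (syl.le hy)) (G.inv_mem hg))
        (conj_ch (hZ g hF) hF.1 (hZ _ (inv_mem hF)) (inv_mem hF).1 ⟨fun v => by rw [act]; exact sub_self v.1,
          fun v hv => act β v ▸ sub_mem_Zs β hv, fun v hv => (act β v).trans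
            (tt_of_Z β (mem_Zs.1 hv).1 (mem_Zs.1 hv).2)⟩)
  have ti : ∀ g ∈ G, ∀ β, β ≠ 0 → g * τ β * g⁻¹ ∈ T → g ∈ Fl K Γ := fun g hg β hβ h => by
    obtain ⟨β₁, h⟩ := (hT _).1 h
    have e1 : ∀ v : V4 K, g • tt β v = tt β₁ (g • v) := fun v => by
      rw [← act, ← act, h, mul_smul, mul_smul, inv_smul_smul]
    have e2 : ∀ v : V4 K, g⁻¹ • tt β₁ v = tt β (g⁻¹ • v) := fun v => by
      rw [inv_smul_eq_iff, e1, smul_inv_smul]
    obtain ⟨κ, κ0, hκ⟩ := exists_tz K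
    have h1 : β₁ ≠ 0 := fun e => by
      have := e1 (⟨κ, hκ⟩, 0, 0)
      rw [e, tt_zero, smul_left_cancel_iff] at this
      simpa [hβ, κ0] using congrArg (·.2.1) this
    by_cases h2 : (2 : K) = 0
    swap
    · exact Fl_of_Z h1 e1 (Z_of_odd h2 hβ e1)
    obtain ⟨x, x0, x1⟩ : ∃ x : T0 K, (x : K) ≠ 0 ∧ (x : K) ≠ 1 := by
      by_contra hn
      push Not at hn
      refine hq (by
        rw [card_K, (Nat.card_eq_two_iff' 0).2 ⟨⟨1, by
          rw [mem_T0, star_one]; linear_combination h2⟩, by simp [Subtype.ext_iff],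
          fun y hy => Subtype.ext (hn y fun e => hy (Subtype.ext e))⟩]; rfl)
    have hx : star (x : K) = x := by rw [star_T0]; linear_combination -(x : K) * h2
    have c1 : ∀ γ (v : V4 K), (g * τ γ * g⁻¹) • tt β₁ v = tt β₁ ((g * τ γ * g⁻¹) • v) :=
      fun γ v => by simp only [mul_smul, act, e2, ← e1, tt_tt, add_comm]
    let U : AddSubgroup (V4 K) := (DistribSMul.toAddMonoidHom _ (τ β₁)).eqLocus (AddMonoidHom.id _)
    have hU : ∀ v, v ∈ U ↔ tt β₁ v = v := fun v => by rw [← act]; rfl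
    have c2 : ∀ g' ∈ T.map (MulAut.conj g).toMonoidHom, ∀ v ∈ U, g' • v ∈ U := by
      rintro _ ⟨y, hy, rfl⟩ v hv
      obtain ⟨γ, rfl⟩ := (hT y).1 hy
      exact (hU _).2 ((c1 γ v).symm.trans (by rw [(hU v).1 hv]; rfl))
    have c3 : ∀ γ, ∀ z ∈ Zs K, (g * τ γ * g⁻¹) • z ∈ Zs K := fun γ =>
      Z_of_comm hx x0 x1 h1 fun y hy v => by
        have s1 : ∀ v, τ (y * β₁) • v - v ∈ U := fun v => (hU _).2 (V4.ext rfl (by simp [act])
          (by simp [act, hy]; linear_combination y * β₁ * star β₁ * v.1 * h2))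
        obtain ⟨_, hs, e⟩ := mem_of_ch (A := U) (B := U) hV (syl.conj (le_normalizer hg)) c2 c2
          (syl.le (tT (y * β₁))) ⟨s1, fun v _ => s1 v, fun v hv => by
            have a1 := congrArg (·.2.1) ((hU v).1 hv)
            have a2 := congrArg (fun u => (u.2.2 : K)) ((hU v).1 hv)
            simp only [tt_e, tt_f, AddSubgroup.coe_add, coe_ww, coe_nm] at a1 a2
            rw [act]
            exact V4.ext rfl (by rw [tt_e]; linear_combination y * a1) (by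
              simp [hy]; linear_combination y * a2 + (y ^ 2 - y) * star β₁ * a1)⟩
        obtain ⟨δ, rfl⟩ := (hT _).1 hs
        simp only [← act (y * β₁), ← e]
        simp [mul_smul, act, tt_tt, add_comm]
    by_cases hz : ∀ z ∈ Zs K, g⁻¹ • z ∈ Zs K
    · exact inv_mem_iff.1 (Fl_of_Z hβ e2 hz)
    push Not at hz
    obtain ⟨z, hz, hn⟩ := hz
    have z1 : (g⁻¹ • z).1 = 0 := by
      have := e2 z
      rw [tt_of_Z _ (mem_Zs.1 hz).1 (mem_Zs.1 hz).2] at this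
      generalize g⁻¹ • z = w at this
      simpa [hβ] using congrArg (·.2.1) this
    refine Fl_of_Z h1 e1 fun w hw => ?_
    obtain ⟨γ, e⟩ := ww_surj (fun e => hn (mem_Zs.2 ⟨z1, e⟩)) w.2.2
    have : w = tt γ (g⁻¹ • z) - g⁻¹ • z := V4.ext (by simp [(mem_Zs.1 hw).1])
      (by simp [(mem_Zs.1 hw).2, z1]) (by simp [← e, z1])
    simpa [this, smul_sub, mul_smul, act] using sub_mem (c3 γ z hz) hz
  refine ⟨⟨act, fun β => syl.le (tT β), fun g hg β hβ h => ti g hg β hβ ?_⟩, fun g hg =>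
    ⟨nor g hg, fun h => ti g hg 1 one_ne_zero ((mem_normalizer_iff.1 h _).1 (tT 1))⟩⟩
  have hG := G.mul_mem (G.mul_mem hg (syl.le (tT β))) (G.inv_mem hg)
  obtain ⟨k, hk⟩ := syl.isPGroup ⟨_, tT β⟩
  exact syl.le_of_le_normalizer' (H7.isPGroup_zpowers_of_pow (k := k) (by
    rw [conj_pow, show τ β ^ p ^ k = 1 from congrArg Subtype.val hk]; simp))
    (zpowers_le.2 hG) (zpowers_le.2 (nor _ hG h)) (mem_zpowers _)

end Cfsg.Agent.SU4
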