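import Cfsg.Agent.Lib.U4.Tr
import Cfsg.Agent.Lib.U4.Lin2d

/-!
# S5210: the automizer of AA (see notes/U4.md)
-/

set_option autoImplicit false
set_option linter.unusedSectionVars false
set_option linter.unusedVariables false

namespace Cfsg.Agent.U4

open Subgroup Cfsg Cfsg.FusionSystem Cfsg.Agent.U5 U4.US
open scoped commutatorElement

universe u

variable {K : Type u} [Field K] [StarRing K] [hK : UF K] {p : ℕ} [hp : Fact p.Prime] [CharP K p]
  {F : FusionSystem (⊤ : Subgroup (US K))}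

namespace QA

open SU4 (V4 T0 tt mm Fl L2 Semi mem_Fl)

variable {x y : US K}

/-- coordinates on `AA` -/
def toV (x : US K) : V4 K := (⟨x.c, x.hc⟩, x.e, ⟨(n2 x).c, (n2 x).hc⟩)

/-- the element with given coordinates -/
def ofV (v : V4 K) : US K := xA v.1 v.2.1 v.2.2 v.1.2 v.2.2.2

@[simp] theorem ofV_b (v : V4 K) : (ofV v).b = 0 := rfl
@[simp] theorem ofV_c (v : V4 K) : (ofV v).c = v.1 := rfl
@[simp] theorem ofV_e (v : V4 K) : (ofV v).e = v.2.1 := rfl
@[simp] theorem ofV_f (v : V4 K) : (ofV v).f = v.2.2 := rfl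

theorem ofV_mem (v : V4 K) : ofV v ∈ AA K := rfl

theorem toV_ofV (v : V4 K) : toV (ofV v) = v := SU4.V4.ext rfl rfl (by simp [toV])

theorem ofV_toV (hx : x ∈ AA K) : ofV (toV x) = x := by ext <;> simp [toV, mem_AA.1 hx]

theorem ofV_add (v w : V4 K) : ofV (v + w) = ofV v * ofV w := by ext <;> simp

theorem toV_mul (hx : x ∈ AA K) (hy : y ∈ AA K) : toV (x * y) = toV x + toV y :=
  SU4.V4.ext rfl (by simp [toV, mem_AA.1 hx]) (by simp [toV, mem_AA.1 hx, mem_AA.1 hy])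

theorem toV_inj (hx : x ∈ AA K) (hy : y ∈ AA K) (h : toV x = toV y) : x = y := by
  rw [← ofV_toV hx, h, ofV_toV hy]

/-- the action of `Aut(AA)` in coordinates -/
@[instance_reducible] noncomputable def actV : DistribMulAction (MulAut (AA K)) (V4 K) where
  smul g v := toV (equivFun g (ofV v))
  one_smul v := show toV (equivFun 1 (ofV v)) = v by rw [equivFun_one (ofV_mem v), toV_ofV]
  mul_smul g h v := show toV (equivFun (g * h) (ofV v)) =
      toV (equivFun g (ofV (toV (equivFun h (ofV v))))) by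
    rw [ofV_toV (equivFun_mem h (ofV_mem v)), equivFun_mul _ _ (ofV_mem v)]
  smul_zero g := show toV (equivFun g (ofV 0)) = 0 by
    rw [show ofV (0 : V4 K) = 1 from rfl, ef_one]
    exact SU4.V4.ext rfl rfl (by simp [toV])
  smul_add g v w := show toV (equivFun g (ofV (v + w))) =
      toV (equivFun g (ofV v)) + toV (equivFun g (ofV w)) by
    rw [ofV_add, ef_mul _ (ofV_mem v) (ofV_mem w),
      toV_mul (equivFun_mem g (ofV_mem v)) (equivFun_mem g (ofV_mem w))]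

attribute [local instance] actV

theorem smul_eq (g : MulAut (AA K)) (v : V4 K) : g • v = toV (equivFun g (ofV v)) := rfl

theorem smul_toV (g : MulAut (AA K)) (hx : x ∈ AA K) : g • toV x = toV (equivFun g x) := by
  rw [smul_eq, ofV_toV hx]

theorem faith : FaithfulSMul (MulAut (AA K)) (V4 K) := ⟨fun {g h} e =>
  mulEquiv_ext_equivFun fun x hx => toV_inj (equivFun_mem g hx) (equivFun_mem h hx) (by
    rw [← smul_toV g hx, e, smul_toV h hx])⟩

/-- conjugation by a root element -/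
noncomputable def tb (β : K) : MulAut (AA K) := conjAut (AA K) (mem_norm (xb β))

theorem tb_act (β : K) (v : V4 K) : tb β • v = tt β v := by
  rw [smul_eq, tb, equivFun_conjAut _ (ofV_mem v)]
  exact SU4.V4.ext (by simp [toV]) (by simp [toV]) (by simp [toV]; ring)

theorem mem_T (g : MulAut (AA K)) : g ∈ autInducedBy ⊤ (AA K) ↔ ∃ β, tb β = g := by
  refine ⟨fun h => ?_, fun ⟨β, h⟩ => h ▸ Loc.cj_T _⟩
  obtain ⟨s, -, -, e⟩ := mem_autInducedBy_iff'.1 h
  refine ⟨s.b, mulEquiv_ext_equivFun fun x hx => ?_⟩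
  rw [e x hx, tb, equivFun_conjAut _ hx]
  ext <;> simp [mem_AA.1 hx] <;> ring

theorem mem_Fl_iff {g : MulAut (AA K)} :
    g ∈ Fl K (MulAut (AA K)) ↔ Inv g (Z2 K) ∧ Inv g (Z1 K) := by
  refine ⟨fun h => ?_, fun h => ⟨fun v hv => ?_, fun v hv hv' => ?_⟩⟩
  · have h2 : Inv g (Z2 K) := fun x hx hz => ⟨equivFun_mem g hx, by
      have := h.1 (toV x) (Subtype.ext hz.2)
      rw [smul_toV g hx] at this
      exact congrArg Subtype.val this⟩
    refine ⟨h2, fun x hx hz => ⟨equivFun_mem g hx, (h2 x hx (Z1_le_Z2 hz)).2, ?_⟩⟩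
    have := h.2 (toV x) (Subtype.ext hz.2.1) hz.2.2
    rwa [smul_toV g hx] at this
  · exact Subtype.ext (h.1 _ (ofV_mem v) ⟨rfl, congrArg Subtype.val hv⟩).2
  · exact (h.2 _ (ofV_mem v) ⟨rfl, congrArg Subtype.val hv, hv'⟩).2.2

variable (hq : Nat.card K ≠ 4) (hF : F.IsSaturated p)
include hq hF

theorem l2 : L2 (F.autGroup (AA K)) (tb (K := K)) ∧ ∀ g ∈ F.autGroup (AA K),
    g ∈ Fl K (MulAut (AA K)) ↔ g ∈ normalizer (autInducedBy ⊤ (AA K) : Set (MulAut (AA K))) :=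
  haveI := faith (K := K)
  SU4.lin2 hq tb_act mem_T (hF.sylowIn (isPGroup_top p)
    (F.isFullyNormalized_of_le_normalizer le_top fun t _ => mem_norm t))

theorem ext_of_Fl {g : MulAut (AA K)} (hg : g ∈ F.autGroup (AA K))
    (h : g ∈ Fl K (MulAut (AA K))) : ∃ f, F.IsIso ⊤ ⊤ f ∧ ∀ x ∈ AA K, f x = equivFun g x :=
  exists_ext (isPGroup_US p) hF hg fun t => by
    obtain ⟨s, -, -, e⟩ := mem_autInducedBy_iff'.1 (conj_mem_of_mem_normalizer
      (((l2 hq hF).2 g hg).1 h) (Loc.cj_T (mem_norm (R := AA K) t)))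
    refine ⟨s, fun x hx => ?_⟩
    rw [← e _ (equivFun_mem g hx), ef_conj _ _ (equivFun_mem g hx), equivFun_inv_apply _ hx]

theorem semi (hs : Std F) : Semi K (F.autGroup (AA K)) := fun d hd h => by
  obtain ⟨f, hf, e⟩ := ext_of_Fl hq hF hd h
  obtain ⟨s, t, e'⟩ := hs f hf
  refine ⟨t.a * t.b, t.σ, fun v hv => ?_⟩
  rw [smul_eq, ← e _ (ofV_mem v), e']
  simp [toV, hv]; ring

end QA

open QA SU4 in
attribute [local instance] actV in
/-- The Weyl element up to a central automorphism commuting with the standard automorphisms. -/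
theorem qa_mu (hq : Nat.card K ≠ 4) (hF : F.IsSaturated p) (hs : Std F)
    (hE : F.IsEssential p (AA K)) :
    ∃ (μ : K →+ K) (hμ : ∀ c, star c = -c → star (μ c) = -μ c),
      (∀ t ∈ parOf F, ∀ x, tauF t (psi μ hμ x) = psi μ hμ (tauF t x)) ∧
      F.IsIso (AA K) (AA K) fun x => (psi μ hμ).symm (n2 (psi μ hμ x)) := by
  obtain ⟨M, h⟩ := exists_loc (isPGroup_US p) hF hE
  obtain ⟨g, hg, hb⟩ := h.data.exists_not_mem
  have hN : g ∉ Fl K (MulAut (AA K)) := fun e => by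
    obtain ⟨e2, e1⟩ := mem_Fl_iff.1 e
    exact one_ne_zero (h.chain hg hb (ch3_mono Z1_le_Z2) rfl (n := 3) rfl
      (fun i => match i with | 0 => Inv.bot | 1 => e1 | 2 => e2 | _ + 3 => Inv.top)
      (mem_norm (xb (1 : K))) fun i x _ hx => match i, hx with
        | 0, hx => cm_eq_one (comm_Z1 hx _)
        | 1, hx => cm_Z1 (Or.inl hx)
        | 2, _ => cm_Z2 x _
        | _ + 3, _ => trivial)
  obtain ⟨μ₀, h1, -, h3⟩ := (l2 hq hF).1.exists_mu (semi hq hF hs) hg hN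
  let π : K →+ T0 K := AddMonoidHom.mk' (fun x => ⟨om K * x - star (om K * x), by
    rw [mem_T0, star_sub, star_star, neg_sub]⟩) fun x y => Subtype.ext (by simp; ring)
  have hπ : ∀ (c : K) (h : star c = -c), π c = ⟨c, h⟩ := fun c h =>
    Subtype.ext (by simp [π, h]; ring)
  let μ : K →+ K := -((T0 K).subtype.comp (μ₀.comp π))
  have eμ : ∀ (c : K) (h : star c = -c), μ c = -(μ₀ ⟨c, h⟩ : K) := fun c h => by
    simp [μ, hπ c h]
  have hμ : ∀ c, star c = -c → star (μ c) = -μ c := fun c h => by simp [eμ c h]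
  refine ⟨μ, hμ, fun t ht x => ?_, ?_⟩
  · obtain ⟨d, d1, d2⟩ : ∃ d ∈ F.autGroup (AA K), ∀ x ∈ AA K, equivFun d x = tauF t x :=
      (((IsIso.mor ht).mono le_top).isIso_self fun x hx => by
        simp [mem_AA, mem_AA.1 hx]).exists_aut
    have := congrArg Subtype.val (h3 d d1 (mem_Fl_iff.2
      ⟨fun x hx hz => by rw [d2 x hx]; simp [mem_Z2, hz.1, hz.2],
        fun x hx hz => by rw [d2 x hx]; simp [mem_Z1, hz.1, hz.2.1, hz.2.2]⟩)
      (fun v hv => by rw [smul_eq, d2 _ (ofV_mem v)]; simp [toV, hv]) ⟨x.c, x.hc⟩)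
    rw [smul_eq, d2 _ (ofV_mem _)] at this
    simp only [toV, n2_c, tauF_f, tauF_b, tauF_c, ofV_b, ofV_c, ofV_f, map_zero, mul_zero,
      zero_mul, add_zero] at this
    refine US.ext rfl rfl rfl ?_
    show _ * t.σ (x.f + μ x.c) = (tauF t x).f + μ (tauF t x).c
    rw [eμ _ x.hc, eμ _ (tauF t x).hc, map_add, map_neg, tauF_f]
    exact (mul_add _ _ _).trans (congrArg _ ((mul_neg _ _).trans (congrArg _ this)))
  · obtain ⟨n, hn, e⟩ := h1 1 one_ne_zero
    refine (isIso_of_mem_autGroup le_top hn).congr fun x hx => ?_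
    have hx' : psi μ hμ x ∈ AA K := hx
    have e1 : SU4.psi μ₀ (toV (psi μ hμ x)) = toV x := SU4.V4.ext rfl rfl (by
      show (psiF μ hμ x).f + x.b * star x.e + μ₀ ⟨x.c, x.hc⟩ = x.f + x.b * star x.e
      rw [psiF_f, eμ _ x.hc]; ring)
    have e2 := e (toV (psi μ hμ x))
    rw [e1, smul_toV n hx] at e2
    refine toV_inj (equivFun_mem n hx) rfl (e2.trans (SU4.V4.ext ?_ ?_ ?_))
    · simp [SU4.psi, SU4.mm, toV, psi]
    · simp [SU4.psi, SU4.mm, toV, psi]
    · show _ = (n2 (psi μ hμ x)).f + (-μ) (n2 (psi μ hμ x)).c + 0 * _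
      rw [AddMonoidHom.neg_apply, eμ _ (n2 (psi μ hμ x)).hc]
      simp [SU4.psi, SU4.mm, toV, nm]

open QA in
theorem qa_k (hF : F.IsSaturated p) (hs : Std F) (hn : F.IsIso (AA K) (AA K) n2) (ν : Kˣ) :
    kpar ν ∈ parOf F := by
  obtain ⟨N, hN, eN⟩ := hn.exists_aut
  have hT : ∀ β : K, tb β ∈ F.autGroup (AA K) := fun β =>
    F.autInducedBy_le_autGroup le_top le_rfl (Loc.cj_T _)
  have n0 := ν.ne_zero
  have n1 : star (ν : K) ≠ 0 := star_ne_zero.2 n0
  have e : ∀ x ∈ AA K, equivFun (tb (ν : K) * (N * (tb (ν : K)⁻¹ * (N * (tb (ν : K) * N))))) x =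
      tauF (kpar ν) x := fun x hx => by
    rw [equivFun_mul _ _ hx, equivFun_mul _ _ hx, equivFun_mul _ _ hx, equivFun_mul _ _ hx,
      equivFun_mul _ _ hx, eN x hx, tb, tb, equivFun_conjAut _ (n2_mem _),
      eN _ (Normal.conj_mem inferInstance _ (n2_mem _) _), equivFun_conjAut _ (n2_mem _),
      eN _ (Normal.conj_mem inferInstance _ (n2_mem _) _), equivFun_conjAut _ (n2_mem _)]
    ext <;> simp [mem_AA.1 hx] <;> field_simp <;> ring
  obtain ⟨f, hf, e1⟩ := exists_ext (isPGroup_US p) hF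
    (mul_mem (hT ν) (mul_mem hN (mul_mem (hT (ν : K)⁻¹) (mul_mem hN (mul_mem (hT ν) hN)))))
    fun t => ⟨tauF (kpar ν) t, fun x hx => by
      rw [e x hx, e _ (Normal.conj_mem inferInstance _ hx _), ← tau_apply, map_mul, map_mul,
        map_inv]; rfl⟩
  obtain ⟨s, t, ht, e2⟩ := hs.mem hf
  have k : ∀ x ∈ AA K, tauF (kpar ν) x = s * tauF t x * s⁻¹ := fun x hx => by
    rw [← e2, e1 x hx, e x hx]
  have k1 : ∀ a : K, ((ν : K) * star (ν : K))⁻¹ * ν ^ 2 * a = t.a * t.b * t.σ a := fun a => by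
    have := congrArg US.e (k (xe a) rfl)
    simp at this ⊢
    linear_combination this
  have k2 : ((ν : K) * star (ν : K))⁻¹ * ν ^ 2 = t.a * t.b := by simpa using k1 1
  have k3 : ∀ a, t.σ a = a := fun a =>
    mul_left_cancel₀ (mul_ne_zero t.a.ne_zero t.b.ne_zero) (by rw [← k1, k2])
  obtain ⟨κ, κ0, κ1⟩ := exists_tz K
  have k4 : ((ν : K) * star (ν : K))⁻¹ = t.a := mul_right_cancel₀ κ0 (by
    simpa [k3] using congrArg US.c (k (xA κ 0 0 κ1 tz0) rfl))
  have : t = kpar ν := by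
    ext
    · rw [kpar_a, k4]
    · rw [kpar_b]
      exact mul_left_cancel₀ t.a.ne_zero (by rw [← k2, k4])
    · exact k3 _
  exact this ▸ ht

open QA SU4 in
attribute [local instance] actV in
theorem qa_gen (hq : Nat.card K ≠ 4) (hF : F.IsSaturated p) (hs : Std F)
    (hn : F.IsIso (AA K) (AA K) n2) {E : FusionSystem (⊤ : Subgroup (US K))}
    (h1 : ∀ f, F.IsIso ⊤ ⊤ f → E.IsMor ⊤ f) (h2 : E.IsMor (AA K) n2) {f : US K → US K}
    (hf : F.IsIso (AA K) (AA K) f) : E.IsMor (AA K) f := by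
  have key : ∀ γ ∈ F.autGroup (AA K), γ ∈ Fl K (MulAut (AA K)) → E.IsMor (AA K) (equivFun γ) :=
    fun γ hγ e => by
      obtain ⟨f, hf, e1⟩ := ext_of_Fl hq hF hγ e
      exact ((h1 f hf).mono le_top).congr e1
  obtain ⟨γ, hγ, e⟩ := hf.exists_aut
  by_cases hc : γ ∈ Fl K (MulAut (AA K))
  · exact (key γ hγ hc).congr e
  obtain ⟨N, hN, eN⟩ := hn.exists_aut
  obtain ⟨κ, κ0, κ1⟩ := exists_tz K
  have hN' : N ∉ Fl K (MulAut (AA K)) := fun h => κ0 (by
    have := ((mem_Fl_iff.1 h).1 (xA 0 0 κ tz0 κ1) rfl ⟨rfl, rfl⟩).2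
    rw [eN _ rfl] at this
    simpa using this)
  obtain ⟨β, hβ⟩ := (l2 hq hF).1.stepB hN hN' hγ hc
  have k := key _ (mul_mem (mul_mem (inv_mem hN) ((l2 hq hF).1.mem β)) hγ) hβ
  refine ((E.isMor_conj le_rfl (mem_top (xb β)⁻¹)).comp' (h2.comp' k
    fun x hx => equivFun_mem _ hx) fun _ _ => trivial).congr fun x hx => ?_
  have hx' := equivFun_mem γ hx
  rw [← eN _ (equivFun_mem _ hx), mul_assoc N⁻¹, equivFun_mul _ _ hx,
    equivFun_apply_inv _ (equivFun_mem _ hx), equivFun_mul _ _ hx, tb, equivFun_conjAut _ hx',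
    e x hx]
  group

end Cfsg.Agent.U4
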