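import Cfsg.Agent.Lib.U4.PartA
import Cfsg.Agent.Lib.U4.QA
import Cfsg.Agent.Lib.U4.Q1
import Cfsg.Agent.Lib.U4.Model

/-!
# S5210: comparison with a model (see notes/U4.md)
-/

set_option autoImplicit false
set_option linter.unusedSectionVars false
set_option linter.unusedVariables false

namespace Cfsg.Agent.U4

open Subgroup Cfsg Cfsg.FusionSystem Cfsg.Agent.U5 U4.US
open scoped commutatorElement

universe u

variable {K : Type u} [Field K] [StarRing K] [hK : UF K] {p : ℕ} [hp : Fact p.Prime] [CharP K p]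
  {F : FusionSystem (⊤ : Subgroup (US K))}

/-- The system induced on `S` by a model. -/
structure Ind (p : ℕ) {G : Type*} [Group G] (ι : US K →* G)
    (F E : FusionSystem (⊤ : Subgroup (US K))) : Prop where
  sat : E.IsSaturated p
  std : Std E
  par : parOf E = parOf F
  w2 : E.IsIso (AA K) (AA K) n2
  iso : ∀ f, E.IsIso (QQ K) (QQ K) f ↔
    (∀ x ∈ QQ K, f x ∈ QQ K) ∧ ∃ g : G, ∀ x ∈ QQ K, ι (f x) = g * ι x * g⁻¹
  le : ∀ f, F.IsIso ⊤ ⊤ f → E.IsMor ⊤ f
  ge : ∀ f, E.IsIso ⊤ ⊤ f → F.IsMor ⊤ f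

theorem realizable_of_mod (hq : Nat.card K ≠ 4) (hF : F.IsSaturated p) (hs : Std F)
    (hn : F.IsIso (AA K) (AA K) n2) {G : Type*} [Group G] [Finite G] {ι : US K →* G}
    (hM : Mod p (parOf F) ι)
    (hQ : ∀ E, Ind p ι F E → (∀ f, F.IsIso (QQ K) (QQ K) f → E.IsMor (QQ K) f) ∧
      (E.IsEssential p (QQ K) → ∀ f, E.IsIso (QQ K) (QQ K) f → F.IsMor (QQ K) f)) :
    F.IsRealizable p := by
  let ι' : (⊤ : Subgroup (US K)) →* G := ι.comp (Subgroup.subtype ⊤)
  have hr : ι'.range = ι.range := by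
    rw [MonoidHom.range_comp, range_subtype, ← MonoidHom.range_eq_map]
  have he : ∀ x, homFun ι' x = ι x := fun x => homFun_of_mem _ (mem_top x)
  obtain ⟨s, hs'⟩ := exists_grpIso_of_injective (ι := ι') (hM.inj.comp Subtype.val_injective)
  obtain ⟨E, hE⟩ := (groupFusionSystem ι'.range).exists_isoVia hs'.symm
  have hR : E.IsRealizedBy ι' := hE.symm.isRealizedBy
  have hEs : E.IsSaturated p := hR.isSaturated (hr ▸ hM.syl)
  have mor : ∀ {P : Subgroup (US K)} {f : US K → US K} (g : G),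
      (∀ x ∈ P, ι (f x) = g * ι x * g⁻¹) → E.IsMor P f := fun {P f} g e =>
    hR.isMor_iff.2 ⟨le_top, fun x hx y hy => hM.inj (by
      rw [map_mul, e x hx, e y hy, e _ (mul_mem hx hy), map_mul]; group), fun _ _ => trivial, g,
      fun x hx => by rw [he, he, e x hx]⟩
  have rom : ∀ {P : Subgroup (US K)} {f : US K → US K}, E.IsMor P f →
      ∃ g : G, ∀ x ∈ P, ι (f x) = g * ι x * g⁻¹ := fun {P f} hf => by
    obtain ⟨-, -, -, g, e⟩ := hR.isMor_iff.1 hf
    exact ⟨g, fun x hx => by rw [← he, ← he, e x hx]⟩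
  have top : ∀ f, E.IsIso ⊤ ⊤ f → ∃ s : US K, ∃ t ∈ parOf F, ∀ x, f x = s * tauF t x * s⁻¹ :=
    fun f hf => let ⟨g, e⟩ := rom hf.mor; hM.nor g f fun x => e x trivial
  have hsE : Std E := fun f hf => let ⟨s, t, _, e⟩ := top f hf; ⟨s, t, e⟩
  have t0 : ∀ t ∈ parOf F, E.IsMor ⊤ (tauF t) := fun t ht =>
    let ⟨g, e⟩ := hM.par t ht; mor g fun x _ => e x
  have m2 : E.IsMor (AA K) n2 := let ⟨g, e⟩ := hM.w2; mor g e
  have t1 : ∀ f, F.IsIso ⊤ ⊤ f → E.IsMor ⊤ f := fun f hf => by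
    obtain ⟨s, t, ht, e⟩ := hs.mem hf
    exact ((E.isMor_conj le_rfl (mem_top s)).comp' (t0 t ht) fun _ _ => trivial).congr
      fun x _ => (e x).symm
  have t2 : ∀ f, E.IsIso ⊤ ⊤ f → F.IsMor ⊤ f := fun f hf => by
    obtain ⟨s, t, ht, e⟩ := top f hf
    exact ((F.isMor_conj le_rfl (mem_top s)).comp' (IsIso.mor ht) fun _ _ => trivial).congr
      fun x _ => (e x).symm
  have n2E : E.IsIso (AA K) (AA K) n2 := m2.isIso_self fun x _ => n2_mem x
  obtain ⟨q1, q2⟩ := hQ E ⟨hEs, hsE, le_antisymm (fun t ht => (t2 _ ht).isIso_top)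
    fun t ht => (t0 t ht).isIso_top, n2E, fun f => ⟨fun hf => ⟨hf.mapsTo, rom hf.mor⟩,
      fun ⟨h, g, e⟩ => (mor g e).isIso_self h⟩, t1, t2⟩
  have : E = F := by
    refine le_antisymm' (le_iff_isSubsystemOf.2 (hEs.isSubsystemOf_of_essential (isPGroup_top p) ?_))
      (le_iff_isSubsystemOf.2 (hF.isSubsystemOf_of_essential (isPGroup_top p) ?_))
    · rintro P (rfl | hP) f hf
      · exact t2 f hf
      · rcases ess_cases hq hEs P hP with rfl | rfl
        · exact q2 hP f hf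
        · exact qa_gen hq hEs hsE n2E t2 hn.mor hf
    · rintro P (rfl | hP) f hf
      · exact t1 f hf
      · rcases ess_cases hq hF P hP with rfl | rfl
        · exact q1 f hf
        · exact qa_gen hq hF hs hn t1 m2 hf
  obtain ⟨T, hT⟩ := H7.sylowIn_top_iff.1 hM.syl
  exact GL.isRealizable_of (this ▸ hR) T (hT.trans hr.symm)

/-- For `q = 3` the standard conjugates of `Z2` are recognised by a quadratic equation. -/
theorem om_of_quad (h2 : (2 : K) ≠ 0) (h : ∀ f, F.IsIso (QQ K) (QQ K) f → ∀ x ∈ Z2 K,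
    (f x).b * star (f x).e + star (f x).b * (f x).e = 0) : Om F := fun f hf => by
  by_cases h0 : ∀ x ∈ Z2 K, (f x).b = 0
  · exact .inl fun x hx => ⟨h0 x hx, hf.mapsTo x (Z2_le_QQ hx)⟩
  push Not at h0
  obtain ⟨v, hv, hb⟩ := h0
  have hb' : star (f v).b ≠ 0 := star_ne_zero.2 hb
  refine .inr ⟨(f v).e / (f v).b, ?_, fun x hx => ?_⟩
  · rw [star_div₀]; field_simp; linear_combination h f hf v hv
  have e1 := h f hf _ (mul_mem hv hx)
  have m := hf.mor.isHomOn
  have e2 : f v * f x = f x * f v := by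
    rw [← m v (Z2_le_QQ hv) x (Z2_le_QQ hx), ← m x (Z2_le_QQ hx) v (Z2_le_QQ hv),
      comm_AA (Z2_le_AA hv) (Z2_le_AA hx)]
  have c1 := mem_QQ.1 (hf.mapsTo x (Z2_le_QQ hx))
  have c2 := mem_QQ.1 (hf.mapsTo v (Z2_le_QQ hv))
  have e3 := (comm_iff.1 e2).2
  rw [m v (Z2_le_QQ hv) x (Z2_le_QQ hx)] at e1
  simp only [mul_b, mul_e, c1, c2, star_add, mul_zero, add_zero, zero_add] at e1 e3
  field_simp
  refine mul_left_cancel₀ (mul_ne_zero h2 hb') ?_
  linear_combination (f v).b * e1 - (f v).b * h f hf x hx - (f v).b * e3 -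
    ((f v).b + 2 * (f x).b) * h f hf v hv

theorem realizable_om (hq : Nat.card K ≠ 4) (hF : F.IsSaturated p) (hs : Std F)
    (hn : F.IsIso (AA K) (AA K) n2) (hE : F.IsEssential p (QQ K)) (ho : Om F) :
    F.IsRealizable p := by
  obtain ⟨κ0, h0, hκ⟩ := exists_tz K
  have hk := qa_k hF hs hn
  have h1 := q1_n hF hE ho hk (Units.mk0 κ0 h0) hκ
  obtain ⟨G, _, _, ι, hM, ⟨g, e⟩, hquad⟩ := exists_model (parOf F) (not_dvd_parOf hF)
    (q1_h hF hE hs ho) hk (Units.mk0 κ0 h0) hκ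
  refine realizable_of_mod hq hF hs hn hM fun E hI => ?_
  have h2 := (hI.iso _).2 ⟨fun x _ => n1_mem _ hκ x, g, e⟩
  refine ⟨fun f hf => q1_gen hF hE ho h1 hI.le h2.mor hf,
    fun hE' f hf => q1_gen hI.sat hE' ?_ h2.mor hI.ge h1 hf⟩
  by_cases h9 : Nat.card K = 9
  · refine om_of_quad (fun h => ?_) fun f hf x hx => ?_
    · have := Fintype.ofFinite K
      have h3 := FiniteField.cast_card_eq_zero K
      rw [← Nat.card_eq_fintype_card, h9] at h3
      exact one_ne_zero (α := K) (by push_cast at h3; linear_combination h3 - 4 * h)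
    · obtain ⟨hm, g, e⟩ := (hI.iso f).1 hf
      exact hquad g x hx _ (hm x (Z2_le_QQ hx)) (e x (Z2_le_QQ hx))
  · exact q1_om hI.sat hE' h9 (qa_k hI.sat hI.std hI.w2)

/-- The generic case (for `q = 3` this is type 0). -/
theorem realizable_gen (hq : Nat.card K ≠ 4) (hF : F.IsSaturated p) (hs : Std F)
    (hn : F.IsIso (AA K) (AA K) n2) (hE : F.IsEssential p (QQ K)) (ho : Om F)
    {κ : Kˣ} {hκ : star (κ : K) = -κ} (h1 : F.IsIso (QQ K) (QQ K) (n1 κ hκ)) :
    F.IsRealizable p :=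
  realizable_om hq hF hs hn hE ho

end Cfsg.Agent.U4
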