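import Cfsg.Agent.Lib.U5.QB

/-!
# S5210: the Sylow `p`-subgroup of `SU₄(q)` in coordinates (see notes/U4.md)

`⟨b, c, e, f⟩` is the matrix with rows `(1, b, e, f)`, `(0, 1, c, -(b̄c + ē))`,
`(0, 0, 1, -b̄)`, `(0, 0, 0, 1)`, unitary for the antidiagonal form.
-/

set_option autoImplicit false
set_option linter.unusedSectionVars false
set_option linter.unusedVariables false

namespace Cfsg.Agent.U4

open Subgroup Cfsg.Agent.U5
open scoped commutatorElement

@[ext] structure US (K : Type*) [Field K] [StarRing K] where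
  b : K
  c : K
  e : K
  f : K
  hc : star c = -c
  hf : f + star f + (b * star e + star b * e) = 0

variable {K : Type*} [Field K] [StarRing K]

namespace US

@[simp] theorem star_c (x : US K) : star x.c = -x.c := x.hc

@[simp] theorem star_f (x : US K) : star x.f = -x.f - (x.b * star x.e + star x.b * x.e) := by
  linear_combination x.hf

instance : One (US K) := ⟨⟨0, 0, 0, 0, by simp, by simp⟩⟩

instance : Mul (US K) := ⟨fun x y =>
  ⟨x.b + y.b, x.c + y.c, x.e + y.e + x.b * y.c,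
    x.f + y.f - x.b * (star y.b * y.c + star y.e) - x.e * star y.b,
    by simp; ring, by simp; ring⟩⟩

instance : Inv (US K) := ⟨fun x =>
  ⟨-x.b, -x.c, x.b * x.c - x.e, -x.f - (x.b * star x.e + star x.b * x.e), by simp, by simp; ring⟩⟩

@[simp] theorem one_b : (1 : US K).b = 0 := rfl
@[simp] theorem one_c : (1 : US K).c = 0 := rfl
@[simp] theorem one_e : (1 : US K).e = 0 := rfl
@[simp] theorem one_f : (1 : US K).f = 0 := rfl
@[simp] theorem mul_b (x y : US K) : (x * y).b = x.b + y.b := rfl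
@[simp] theorem mul_c (x y : US K) : (x * y).c = x.c + y.c := rfl
@[simp] theorem mul_e (x y : US K) : (x * y).e = x.e + y.e + x.b * y.c := rfl
@[simp] theorem mul_f (x y : US K) : (x * y).f =
    x.f + y.f - x.b * (star y.b * y.c + star y.e) - x.e * star y.b := rfl
@[simp] theorem inv_b (x : US K) : x⁻¹.b = -x.b := rfl
@[simp] theorem inv_c (x : US K) : x⁻¹.c = -x.c := rfl
@[simp] theorem inv_e (x : US K) : x⁻¹.e = x.b * x.c - x.e := rfl
@[simp] theorem inv_f (x : US K) : x⁻¹.f = -x.f - (x.b * star x.e + star x.b * x.e) := rfl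

instance : Group (US K) := Group.ofLeftAxioms
  (fun x y z => by ext <;> simp <;> ring) (fun x => by ext <;> simp)
  (fun x => by ext <;> simp <;> ring)

instance [Finite K] : Finite (US K) :=
  Finite.of_injective (fun x : US K => (x.b, x.c, x.e, x.f)) fun x y h => by
    simp only [Prod.mk.injEq] at h
    exact US.ext h.1 h.2.1 h.2.2.1 h.2.2.2

theorem comm_iff {x y : US K} : x * y = y * x ↔ x.b * y.c = y.b * x.c ∧
    x.b * (star y.b * y.c + star y.e) + x.e * star y.b =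
      y.b * (star x.b * x.c + star x.e) + y.e * star x.b := by
  rw [US.ext_iff]
  simp only [mul_b, mul_c, mul_e, mul_f]
  refine ⟨fun ⟨_, _, h1, h2⟩ => ⟨?_, ?_⟩, fun ⟨h1, h2⟩ => ⟨add_comm _ _, add_comm _ _, ?_, ?_⟩⟩
  · linear_combination h1
  · linear_combination -h2
  · linear_combination h1
  · linear_combination -h2

end US

open U4.US

variable (K) in
/-- the elementary abelian subgroup of order `q⁴` -/
def AA : Subgroup (US K) where
  carrier := {x | x.b = 0}
  one_mem' := rfl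
  mul_mem' := fun {x y} hx hy => by simp_all
  inv_mem' := fun {x} hx => by simp_all

variable (K) in
/-- the special subgroup `q^{1+4}` -/
def QQ : Subgroup (US K) where
  carrier := {x | x.c = 0}
  one_mem' := rfl
  mul_mem' := fun {x y} hx hy => by simp_all
  inv_mem' := fun {x} hx => by simp_all

variable (K) in
def Z2 : Subgroup (US K) where
  carrier := {x | x.b = 0 ∧ x.c = 0}
  one_mem' := ⟨rfl, rfl⟩
  mul_mem' := fun {x y} hx hy => by simp_all
  inv_mem' := fun {x} hx => by simp_all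

variable (K) in
def Z1 : Subgroup (US K) where
  carrier := {x | x.b = 0 ∧ x.c = 0 ∧ x.e = 0}
  one_mem' := ⟨rfl, rfl, rfl⟩
  mul_mem' := fun {x y} hx hy => by simp_all
  inv_mem' := fun {x} hx => by simp_all

/-- `b ∈ 𝔽_q β`; a candidate for an essential subgroup only when `q = 2` -/
def RB (β : K) : Subgroup (US K) where
  carrier := {x | x.b * star β = star x.b * β}
  one_mem' := by simp
  mul_mem' := fun {x y} hx hy => by
    simp only [Set.mem_setOf_eq, mul_b, star_add] at *; linear_combination hx + hy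
  inv_mem' := fun {x} hx => by
    simp only [Set.mem_setOf_eq, inv_b, star_neg] at *; linear_combination -hx

variable {x y : US K}

theorem mem_AA : x ∈ AA K ↔ x.b = 0 := Iff.rfl
theorem mem_QQ : x ∈ QQ K ↔ x.c = 0 := Iff.rfl
theorem mem_Z2 : x ∈ Z2 K ↔ x.b = 0 ∧ x.c = 0 := Iff.rfl
theorem mem_Z1 : x ∈ Z1 K ↔ x.b = 0 ∧ x.c = 0 ∧ x.e = 0 := Iff.rfl
theorem mem_RB {β : K} : x ∈ RB β ↔ x.b * star β = star x.b * β := Iff.rfl

theorem Z1_le_Z2 : Z1 K ≤ Z2 K := fun x h => ⟨h.1, h.2.1⟩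
theorem Z2_le_AA : Z2 K ≤ AA K := fun x h => h.1
theorem Z2_le_QQ : Z2 K ≤ QQ K := fun x h => h.2
theorem AA_le_RB (β : K) : AA K ≤ RB β := fun x h => by simp [mem_RB, mem_AA.1 h]

theorem cm_Z2 (x t : US K) : x⁻¹ * (t * x * t⁻¹) ∈ Z2 K := by simp [mem_Z2]

theorem cm_Z1 (h : x ∈ Z2 K ∨ y ∈ Z2 K ∨ x ∈ QQ K ∧ y ∈ QQ K) : x⁻¹ * (y * x * y⁻¹) ∈ Z1 K := by
  rcases h with ⟨h1, h2⟩ | ⟨h1, h2⟩ | ⟨h1, h2⟩
  · simp [mem_Z1, h1, h2]; ring
  · simp [mem_Z1, h1, h2]
  · simp [mem_Z1, mem_QQ.1 h1, mem_QQ.1 h2]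

theorem comm_Z1 (h : x ∈ Z1 K) (y : US K) : x * y = y * x := by
  obtain ⟨h1, h2, h3⟩ := h
  simp [comm_iff, h1, h2, h3]

theorem comm_AA (hx : x ∈ AA K) (hy : y ∈ AA K) : x * y = y * x := by
  simp [comm_iff, mem_AA.1 hx, mem_AA.1 hy]

theorem ce_Z2 (x y : US K) : ⁅x, y⁆ ∈ Z2 K := by simp [mem_Z2, commutatorElement_def]

theorem ce_Z1 (h : x ∈ Z2 K ∨ y ∈ Z2 K ∨ x ∈ QQ K ∧ y ∈ QQ K) : ⁅x, y⁆ ∈ Z1 K := by
  rcases h with ⟨h1, h2⟩ | ⟨h1, h2⟩ | ⟨h1, h2⟩
  · simp [mem_Z1, commutatorElement_def, h1, h2]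
  · simp [mem_Z1, commutatorElement_def, h1, h2]; ring
  · simp [mem_Z1, commutatorElement_def, mem_QQ.1 h1, mem_QQ.1 h2]

theorem normal_of_Z2_le {R : Subgroup (US K)} (h : Z2 K ≤ R) : R.Normal :=
  ⟨fun x hx t => by simpa using mul_mem hx (h (cm_Z2 x t))⟩

theorem normal_of_le_Z2 {R : Subgroup (US K)} (h1 : Z1 K ≤ R) (h : R ≤ Z2 K) : R.Normal :=
  ⟨fun x hx t => by simpa using mul_mem hx (h1 (cm_Z1 (y := t) (Or.inl (h hx))))⟩

theorem normal_of_le_Z1 {R : Subgroup (US K)} (h : R ≤ Z1 K) : R.Normal :=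
  ⟨fun x hx t => by rw [← comm_Z1 (h hx) t, mul_inv_cancel_right]; exact hx⟩

instance : (AA K).Normal := normal_of_Z2_le Z2_le_AA
instance : (QQ K).Normal := normal_of_Z2_le Z2_le_QQ
instance : (Z2 K).Normal := normal_of_Z2_le le_rfl
instance : (Z1 K).Normal := normal_of_le_Z1 le_rfl
instance (β : K) : (RB β).Normal := normal_of_Z2_le (Z2_le_AA.trans (AA_le_RB β))

/-! root elements -/

def xb (b : K) : US K := ⟨b, 0, 0, 0, by simp, by simp⟩
def xe (e : K) : US K := ⟨0, 0, e, 0, by simp, by simp⟩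
/-- the element `(c, e, f)` of `AA` -/
def xA (c e f : K) (hc : star c = -c) (hf : star f = -f) : US K :=
  ⟨0, c, e, f, hc, by simp [hf]⟩

@[simp] theorem xb_b (b : K) : (xb b).b = b := rfl
@[simp] theorem xb_c (b : K) : (xb b).c = 0 := rfl
@[simp] theorem xb_e (b : K) : (xb b).e = 0 := rfl
@[simp] theorem xb_f (b : K) : (xb b).f = 0 := rfl
@[simp] theorem xe_b (b : K) : (xe b).b = 0 := rfl
@[simp] theorem xe_c (b : K) : (xe b).c = 0 := rfl
@[simp] theorem xe_e (b : K) : (xe b).e = b := rfl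
@[simp] theorem xe_f (b : K) : (xe b).f = 0 := rfl
section
variable (c e f : K) (hc : star c = -c) (hf : star f = -f)
@[simp] theorem xA_b : (xA c e f hc hf).b = 0 := rfl
@[simp] theorem xA_c : (xA c e f hc hf).c = c := rfl
@[simp] theorem xA_e : (xA c e f hc hf).e = e := rfl
@[simp] theorem xA_f : (xA c e f hc hf).f = f := rfl
theorem xA_mem : xA c e f hc hf ∈ AA K := rfl
end

theorem tz0 : star (0 : K) = -0 := by simp

theorem star_f_AA (hx : x ∈ AA K) : star x.f = -x.f := by simp [mem_AA.1 hx]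

/-- the Weyl element of `QQ` (`κ ≠ 0` of trace zero) -/
def n1 (κ : Kˣ) (hκ : star (κ : K) = -κ) (x : US K) : US K :=
  ⟨κ * x.e, 0, -(κ : K)⁻¹ * x.b, x.f, by simp, by
    have := κ.ne_zero
    simp [hκ]; field_simp; ring⟩

/-- the Weyl element of `AA` -/
def n2 (x : US K) : US K := ⟨0, x.f + x.b * star x.e, star x.e, x.c, by simp; ring, by simp⟩

section
variable (κ : Kˣ) (hκ : star (κ : K) = -κ) (x : US K)
@[simp] theorem n1_b : (n1 κ hκ x).b = κ * x.e := rfl
@[simp] theorem n1_c : (n1 κ hκ x).c = 0 := rfl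
@[simp] theorem n1_e : (n1 κ hκ x).e = -(κ : K)⁻¹ * x.b := rfl
@[simp] theorem n1_f : (n1 κ hκ x).f = x.f := rfl
@[simp] theorem n2_b : (n2 x).b = 0 := rfl
@[simp] theorem n2_c : (n2 x).c = x.f + x.b * star x.e := rfl
@[simp] theorem n2_e : (n2 x).e = star x.e := rfl
@[simp] theorem n2_f : (n2 x).f = x.c := rfl
theorem n1_mem : n1 κ hκ x ∈ QQ K := rfl
theorem n2_mem : n2 x ∈ AA K := rfl
end

theorem n1_mul (κ : Kˣ) (hκ : star (κ : K) = -κ) (hx : x ∈ QQ K) (hy : y ∈ QQ K) :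
    n1 κ hκ (x * y) = n1 κ hκ x * n1 κ hκ y := by
  have := κ.ne_zero
  ext <;> simp [mem_QQ.1 hx, mem_QQ.1 hy, hκ] <;> field_simp <;> ring

theorem n2_mul (hx : x ∈ AA K) (hy : y ∈ AA K) : n2 (x * y) = n2 x * n2 y := by
  ext <;> simp [mem_AA.1 hx, mem_AA.1 hy]

theorem n2_n2 (hx : x ∈ AA K) : n2 (n2 x) = x := by ext <;> simp [mem_AA.1 hx]

/-- the central automorphism `f ↦ f + μ c` -/
def psiF (μ : K →+ K) (hμ : ∀ c, star c = -c → star (μ c) = -μ c) (x : US K) : US K :=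
  ⟨x.b, x.c, x.e, x.f + μ x.c, x.hc, by simp [hμ _ x.hc]; ring⟩

section
variable (μ : K →+ K) (hμ : ∀ c, star c = -c → star (μ c) = -μ c) (x : US K)
@[simp] theorem psiF_b : (psiF μ hμ x).b = x.b := rfl
@[simp] theorem psiF_c : (psiF μ hμ x).c = x.c := rfl
@[simp] theorem psiF_e : (psiF μ hμ x).e = x.e := rfl
@[simp] theorem psiF_f : (psiF μ hμ x).f = x.f + μ x.c := rfl
theorem psiF_mul (y : US K) : psiF μ hμ (x * y) = psiF μ hμ x * psiF μ hμ y := by
  ext <;> simp; ring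
include hμ in
theorem tz_neg : ∀ c, star c = -c → star ((-μ) c) = -(-μ) c := fun c h => by simp [hμ c h]

/-- `psiF` as an automorphism -/
def psi : MulAut (US K) :=
  ⟨⟨psiF μ hμ, psiF (-μ) (tz_neg μ hμ), fun x => by ext <;> simp, fun x => by ext <;> simp⟩,
    psiF_mul μ hμ⟩
end

variable [hK : UF K]

/-- an element with prescribed first three coordinates -/
noncomputable def el (b c e : K) (h : star c = -c) : US K :=
  ⟨b, c, e, -(om K * (b * star e + star b * e)), h, by simp; ring⟩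

section
variable (b c e : K) (h : star c = -c)
@[simp] theorem el_b : (el b c e h).b = b := rfl
@[simp] theorem el_c : (el b c e h).c = c := rfl
@[simp] theorem el_e : (el b c e h).e = e := rfl
end

theorem isPGroup_US (p : ℕ) [hp : Fact p.Prime] [CharP K p] : IsPGroup p (US K) := by
  have step : ∀ (g : US K → K) (P : Subgroup (US K)), (∀ x ∈ P, ∀ y ∈ P, g (x * y) = g x + g y) →
      g 1 = 0 → ∀ x ∈ P, g (x ^ p) = 0 := fun g P h h1 x hx => by
    have : ∀ n : ℕ, g (x ^ n) = n * g x := fun n => by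
      induction n with
      | zero => simp [h1]
      | succ n ih => rw [pow_succ, h _ (pow_mem hx n) _ hx, ih]; push_cast; ring
    rw [this, CharP.cast_eq_zero, zero_mul]
  intro x
  have h1 : x ^ p ∈ Z2 K := ⟨step US.b ⊤ (fun _ _ _ _ => rfl) rfl x trivial,
    step US.c ⊤ (fun _ _ _ _ => rfl) rfl x trivial⟩
  have h3 := pow_mem h1 p
  refine ⟨2, ?_⟩
  rw [pow_two, pow_mul]
  exact US.ext h3.1 h3.2 (step US.e (Z2 K) (fun x hx y hy => by simp [hx.1]) rfl _ h1)
    (step US.f (Z2 K) (fun x hx y hy => by simp [hx.1, hy.1]) rfl _ h1)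

theorem isPGroup_top (p : ℕ) [hp : Fact p.Prime] [CharP K p] :
    IsPGroup p (⊤ : Subgroup (US K)) := (isPGroup_US p).to_subgroup _

/-! the standard (diagonal and field) automorphisms -/

@[ext] structure Par (K : Type*) [Field K] [StarRing K] where
  a : Kˣ
  b : Kˣ
  σ : K ≃+* K
  ha : star (a : K) = a

namespace Par

instance : One (Par K) := ⟨⟨1, 1, 1, by simp⟩⟩
instance : Mul (Par K) := ⟨fun s t =>
  ⟨s.a * Units.map (s.σ : K →* K) t.a, s.b * Units.map (s.σ : K →* K) t.b, s.σ * t.σ, by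
    simp [s.ha, t.ha]⟩⟩
instance : Inv (Par K) := ⟨fun s =>
  ⟨Units.map (s.σ.symm : K →* K) s.a⁻¹, Units.map (s.σ.symm : K →* K) s.b⁻¹, s.σ⁻¹, by
    simp [s.ha]⟩⟩

@[simp] theorem star_a (s : Par K) : star (s.a : K) = s.a := s.ha
@[simp] theorem one_a : ((1 : Par K).a : K) = 1 := rfl
@[simp] theorem one_b : ((1 : Par K).b : K) = 1 := rfl
@[simp] theorem one_σ (x : K) : (1 : Par K).σ x = x := rfl
@[simp] theorem mul_a (s t : Par K) : ((s * t).a : K) = s.a * s.σ t.a := rfl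
@[simp] theorem mul_b (s t : Par K) : ((s * t).b : K) = s.b * s.σ t.b := rfl
@[simp] theorem mul_σ (s t : Par K) (x : K) : (s * t).σ x = s.σ (t.σ x) := rfl
@[simp] theorem inv_a (s : Par K) : (s⁻¹.a : K) = (s.σ.symm s.a)⁻¹ := by
  rw [← map_inv₀, ← Units.val_inv_eq_inv_val]; rfl
@[simp] theorem inv_b (s : Par K) : (s⁻¹.b : K) = (s.σ.symm s.b)⁻¹ := by
  rw [← map_inv₀, ← Units.val_inv_eq_inv_val]; rfl
@[simp] theorem inv_σ (s : Par K) (x : K) : s⁻¹.σ x = s.σ.symm x := rfl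

instance : Group (Par K) := Group.ofLeftAxioms
  (fun x y z => by ext <;> simp [mul_assoc]) (fun x => by ext <;> simp)
  (fun x => by ext <;> simp)

instance : Finite (Par K) :=
  Finite.of_injective (fun t : Par K => (t.a, t.b, (t.σ : K → K))) fun x y h => by
    simp only [Prod.mk.injEq] at h
    exact Par.ext h.1 h.2.1 (DFunLike.coe_injective h.2.2)

end Par

/-- the diagonal and field automorphisms -/
def tauF (t : Par K) (x : US K) : US K :=
  ⟨t.b * t.σ x.b, t.a * t.σ x.c, t.a * t.b * t.σ x.e, t.a * (t.b * star (t.b : K)) * t.σ x.f,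
    by simp, by simp; ring⟩

section
variable (t : Par K) (x : US K)
@[simp] theorem tauF_b : (tauF t x).b = t.b * t.σ x.b := rfl
@[simp] theorem tauF_c : (tauF t x).c = t.a * t.σ x.c := rfl
@[simp] theorem tauF_e : (tauF t x).e = t.a * t.b * t.σ x.e := rfl
@[simp] theorem tauF_f : (tauF t x).f = t.a * (t.b * star (t.b : K)) * t.σ x.f := rfl
end

theorem tauF_mul (t : Par K) (x y : US K) : tauF t (x * y) = tauF t x * tauF t y := by
  ext <;> simp <;> ring

theorem tauF_one (x : US K) : tauF 1 x = x := by ext <;> simp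

theorem tauF_tauF (s t : Par K) (x : US K) : tauF (s * t) x = tauF s (tauF t x) := by
  ext <;> simp <;> ring

theorem tauF_inv_left (t : Par K) (x : US K) : tauF t⁻¹ (tauF t x) = x := by
  rw [← tauF_tauF, inv_mul_cancel, tauF_one]

theorem tauF_inv_right (t : Par K) (x : US K) : tauF t (tauF t⁻¹ x) = x := by
  rw [← tauF_tauF, mul_inv_cancel, tauF_one]

/-- the standard automorphisms -/
def tau : Par K →* MulAut (US K) where
  toFun t := ⟨⟨tauF t, tauF t⁻¹, tauF_inv_left t, tauF_inv_right t⟩, tauF_mul t⟩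
  map_one' := MulEquiv.ext tauF_one
  map_mul' s t := MulEquiv.ext (tauF_tauF s t)

@[simp] theorem tau_apply (t : Par K) (x : US K) : tau t x = tauF t x := rfl

theorem eq_one_of_tauF {t : Par K} (hb : ∀ x, t.b * t.σ x = x)
    (hc : ∀ x, star x = -x → t.a * t.σ x = x) : t = 1 := by
  have h2 : (t.b : K) = 1 := by simpa using hb 1
  have h3 : ∀ x, t.σ x = x := fun x => by simpa [h2] using hb x
  obtain ⟨κ, h4, h5⟩ := exists_tz K
  ext
  · simpa [h3, h4] using hc κ h5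
  · exact h2
  · exact h3 _

/-- the torus of `SL₂(q²)`: `b ↦ ν² b`, `c ↦ c / N ν`, `e ↦ (ν / ν̄) e`, `f ↦ N ν f` -/
def kpar (ν : Kˣ) : Par K := ⟨(ν * star ν)⁻¹, ν ^ 2, 1, by simp [mul_comm]⟩

/-- the torus of `SL₂(q)` (`r` real): `b ↦ r b`, `c ↦ c / r²`, `e ↦ e / r`, `f ↦ f` -/
def hpar (r : Kˣ) (hr : star (r : K) = r) : Par K := ⟨(r ^ 2)⁻¹, r, 1, by simp [hr]⟩

@[simp] theorem kpar_a (ν : Kˣ) : ((kpar ν).a : K) = ((ν : K) * star (ν : K))⁻¹ := by simp [kpar]
@[simp] theorem kpar_b (ν : Kˣ) : ((kpar ν).b : K) = (ν : K) ^ 2 := by simp [kpar]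
@[simp] theorem kpar_σ (ν : Kˣ) (x : K) : (kpar ν).σ x = x := rfl
section
variable (r : Kˣ) (hr : star (r : K) = r)
@[simp] theorem hpar_a : ((hpar r hr).a : K) = ((r : K) ^ 2)⁻¹ := by simp [hpar]
@[simp] theorem hpar_b : ((hpar r hr).b : K) = r := rfl
@[simp] theorem hpar_σ (x : K) : (hpar r hr).σ x = x := rfl
end

/-- Every automorphism of `S` in the system is standard modulo inner automorphisms. -/
def Std (F : FusionSystem (⊤ : Subgroup (US K))) : Prop :=
  ∀ f, F.IsIso ⊤ ⊤ f → ∃ (s : US K) (t : Par K), ∀ x, f x = s * tauF t x * s⁻¹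

/-- the standard automorphisms in the system -/
def parOf (F : FusionSystem (⊤ : Subgroup (US K))) : Subgroup (Par K) where
  carrier := {t | F.IsIso ⊤ ⊤ (tauF t)}
  one_mem' := (F.isIso_id le_rfl).congr fun x _ => (tauF_one x).symm
  mul_mem' := fun {s t} hs ht =>
    (FusionSystem.IsIso.comp' hs ht).congr fun x _ => (tauF_tauF s t x).symm
  inv_mem' := fun {t} ht => FusionSystem.IsIso.symm_of_left_inv ht fun x _ => tauF_inv_left t x

/-- The essential subgroups are among `QQ`, `AA`. -/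
def Ess (p : ℕ) (F : FusionSystem (⊤ : Subgroup (US K))) : Prop :=
  ∀ P, F.IsEssential p P → P = QQ K ∨ P = AA K

/-- The conjugates of `Z2` under `Aut_F(QQ)` are the standard ones. -/
def Om (F : FusionSystem (⊤ : Subgroup (US K))) : Prop :=
  ∀ f, F.IsIso (QQ K) (QQ K) f → (∀ x ∈ Z2 K, f x ∈ Z2 K) ∨
    ∃ c : K, star c = -c ∧ ∀ x ∈ Z2 K, (f x).e = c * (f x).b

/-- What is needed of a finite group `G` containing `S` (apart from the automizer of `QQ`). -/
structure Mod (p : ℕ) (H : Subgroup (Par K)) {G : Type*} [Group G] (ι : US K →* G) : Prop where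
  inj : Function.Injective ι
  syl : H7.SylowIn p ι.range ⊤
  par : ∀ t ∈ H, ∃ g : G, ∀ x, ι (tauF t x) = g * ι x * g⁻¹
  w2 : ∃ g : G, ∀ x ∈ AA K, ι (n2 x) = g * ι x * g⁻¹
  nor : ∀ (g : G) (f : US K → US K), (∀ x, ι (f x) = g * ι x * g⁻¹) →
    ∃ s : US K, ∃ t ∈ H, ∀ x, f x = s * tauF t x * s⁻¹

end Cfsg.Agent.U4
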