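import Cfsg.Agent.Lib.C3.Co1

/-!
# S5210: lattice data for the models with q = 3 (kernel checks in the frame of `C3.Co1`)
-/

set_option autoImplicit false

namespace Cfsg.Agent.U4.Le

open Cfsg H2 H8
open C3 (PI F3 vv tbl Gr chkL chk9 chkS)

/-- a map of the twelve points, with signs -/
abbrev PM := Option F3 → F3 → Option F3 × F3 × F3

def sg (π : PM) (i : PI) : PI := ((π i.1 i.2.1).1, (π i.1 i.2.1).2.1, (π i.1 i.2.1).2.2 * i.2.2)

def ep (c : ℤ) (π : PM) (i : PI) : ℤ := if (π i.1 i.2.1).2.2 = 1 then c else -c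

def p1 : PM
  | none, t => (none, -t, if t = 1 then -1 else 1)
  | some s, t => (some (s - t), s + t, -1)

def p2 : PM := fun s t => (s, t, -1)

def p3 : PM := fun s t => (s, -t, -1)

def pn : PM
  | none, t => if t = 0 then (some 0, 0, -1) else (none, t, 1)
  | some s, t => if s = 0 ∧ t = 0 then (none, 0, -1) else
      (some (-(s * s + t * t) * s), (s * s + t * t) * t, s * s + t * t)

theorem chk_p1 : chkS (ep (-1) p1) (sg p1) := by decide +kernel
theorem chk_p2 : chkS (ep 1 p2) (sg p2) := by decide +kernel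
theorem chk_p3 : chkS (ep (-1) p3) (sg p3) := by decide +kernel
theorem chk_pn : chkS (ep 1 pn) (sg pn) := by decide +kernel

end Cfsg.Agent.U4.Le
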