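import Cfsg.Agent.Lib.U4.M3
import Cfsg.Agent.Lib.U4.Le1
import Cfsg.Agent.Lib.U4.Le2
import Cfsg.Agent.Lib.C3.Co

/-!
# S5210: the embedding of `S` (q = 3) in `Co₀`; elements normalizing `S`, `AA`, `QQ`
-/

set_option autoImplicit false
set_option linter.unusedSimpArgs false
set_option linter.unusedVariables false

namespace Cfsg.Agent.U4.Le

open Subgroup Cfsg H2 H8 Finset SU4 U4.US
open C3 (PI F3 vv Gr chkS vL aH lam JJ h3 aH_mul aH_one aH_dot ext_frame cancel exists_g exists_S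
  mem_of_chk smul_J)

/-- the embedding in the Sylow subgroup of `Co₁` -/
def jc (x : US F9) : C3.US :=
  ⟨x.b.re, 0, x.c.im, x.b.im, 0, -x.e.re, x.c.im, x.e.im, (x.f + star x.b * x.e).im⟩

theorem re_tz {c : F9} (h : star c = -c) : c.re = 0 := by revert c; decide

theorem jc_mul (x y : US F9) : jc (x * y) = jc x * jc y := by
  have h1 := re_tz y.hc
  ext <;> simp [jc, h1] <;> ring_nf

def jj : US F9 →* C3.US := MonoidHom.mk' jc jc_mul

theorem jc_inj {x : US F9} (h : jc x = 1) : x = 1 := by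
  obtain ⟨b, c, e, f, hc, hf⟩ := x
  have : ∀ b c e f : F9, star c = -c → f + star f + (b * star e + star b * e) = 0 →
    (⟨b.re, 0, c.im, b.im, 0, -e.re, c.im, e.im, (f + star b * e).im⟩ : C3.US) = 1 →
    b = 0 ∧ c = 0 ∧ e = 0 ∧ f = 0 := by decide +kernel
  obtain ⟨rfl, rfl, rfl, rfl⟩ := this b c e f hc hf h
  rfl

theorem jc_J {x : US F9} (h : x ∈ AA F9) : jc x ∈ JJ := by
  simp [jc, C3.mem_JJ, mem_AA.1 h]

theorem jc_W (x : US F9) {t : F3} (ht : t ≠ 0) (k : F3) : jc x • ((none, t, k) : PI) = (none, t, k) := by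
  show (none, t - 0, k + lam none (t - 0) (jc x)) = _
  have : ∀ t c : F3, t ≠ 0 → c + 2 * t * 0 + (t ^ 2 + 1) * c = 0 := by decide
  simp only [sub_zero, lam, Option.elim, jc, this t _ ht, add_zero]

/-- a property of all root elements -/
def Gn (P : US F9 → Prop) : Prop := (∀ b, P (xb b)) ∧ (∀ e, P (xe e)) ∧
  (∀ c hc, P (xA c 0 0 hc tz0)) ∧ ∀ f hf, P (xA 0 0 f tz0 hf)

instance (P : US F9 → Prop) [DecidablePred P] : Decidable (Gn P) := by unfold Gn; infer_instance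

theorem cj_of {G : Type*} [Group G] {ι : US F9 →* G} {R : Subgroup (US F9)} {f : US F9 → US F9}
    {g : G} (hf : ∀ x ∈ R, ∀ y ∈ R, f (x * y) = f x * f y) (hZ : Z2 F9 ≤ R)
    (h : Gn fun x => x ∈ R → ι (f x) * g = g * ι x) {x : US F9} (hb : xb x.b ∈ R)
    (hc : xA x.c 0 0 x.hc tz0 ∈ R) : ι (f x) = g * ι x * g⁻¹ := by
  have h1 : f 1 = 1 := by simpa using hf 1 (one_mem _) 1 (one_mem _)
  let K : Submonoid (US F9) :=
    { carrier := {x | x ∈ R ∧ ι (f x) * g = g * ι x}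
      one_mem' := ⟨one_mem _, by simp [h1]⟩
      mul_mem' := fun {x y} hx hy => ⟨mul_mem hx.1 hy.1, by
        rw [hf x hx.1 y hy.1, map_mul, map_mul, mul_assoc, hy.2, ← mul_assoc, hx.2, mul_assoc]⟩ }
  have e : x = xb x.b * xA x.c 0 0 x.hc tz0 * xe (x.e - x.b * x.c) *
      xA 0 0 (x.f + x.b * star x.e + x.b * star x.b * x.c) tz0 (by simp; ring) := by
    ext : 1 <;> simp <;> ring
  have : x ∈ K := e ▸ mul_mem (mul_mem (mul_mem ⟨hb, h.1 _ hb⟩ ⟨hc, h.2.2.1 _ _ hc⟩)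
    ⟨hZ ⟨rfl, rfl⟩, h.2.1 _ (hZ ⟨rfl, rfl⟩)⟩) ⟨hZ ⟨rfl, rfl⟩, h.2.2.2 _ _ (hZ ⟨rfl, rfl⟩)⟩
  rw [← this.2, mul_inv_cancel_right]

theorem Gn.imp {P Q : US F9 → Prop} (h : Gn P) (k : ∀ x, P x → Q x) : Gn Q :=
  ⟨fun _ => k _ (h.1 _), fun _ => k _ (h.2.1 _), fun _ _ => k _ (h.2.2.1 _ _),
    fun _ _ => k _ (h.2.2.2 _ _)⟩

/-- a combination of four values -/
def yv {M : Type*} [AddGroup M] (u : PI → M) (p : F3 × F3) : M :=
  u (none, 1, p.1 + 2) - u (none, 1, p.1 + 1) - u (none, 2, p.2 + 2) + u (none, 2, p.2 + 1)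

/-- nine vectors fixed by `S` (three times a minimal vector) -/
def Yv : F3 × F3 → leechLattice := yv vL

theorem aH_Yv (g : Co0) (p : F3 × F3) : aH g (Yv p) = yv (fun i => aH g (vL i)) p := by
  simp [Yv, yv]

theorem Yv_of {g : Co0} {w : PI → GolayPt → ℤ} (e : ∀ i, (aH g (vL i)).1 = w i) {p q : F3 × F3}
    (h : ∀ a, yv (w · a) p = yv (vv · a) q) : aH g (Yv p) = Yv q := by
  rw [aH_Yv]
  exact Subtype.ext (funext fun a => by have := h a; simp only [yv, ← e] at this; exact this)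

theorem Yv_inj : ∀ (ε : ℤˣ) p q, (ε : ℤ) • Yv p = Yv q → ε = 1 ∧ p = q := by
  have : ∀ (ε : ℤˣ) p q, (∀ a, (ε : ℤ) * yv (vv · a) p = yv (vv · a) q) → ε = 1 ∧ p = q := by
    decide +kernel
  exact fun ε p q h => this ε p q fun a => congrFun (congrArg Subtype.val h) a

variable {ι : C3.US →* Co0} (hι : ∀ x i, aH (ι x) (vL i) = vL (x • i))
include hι

theorem Yv_J {d : C3.US} (hd : d ∈ JJ) (p : F3 × F3) :
    aH (ι d) (Yv p) = Yv (p + (lam none 1 d, lam none 2 d)) := by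
  rw [aH_Yv]
  simp only [hι, yv, smul_J hd, Yv, Prod.fst_add, Prod.snd_add, add_right_comm]

theorem Yv_S (x : US F9) (p : F3 × F3) : aH (ι (jc x)) (Yv p) = Yv p := by
  rw [aH_Yv]
  simp only [hι, yv, jc_W x (t := 1) (by decide), jc_W x (t := 2) (by decide), Yv]

theorem mon_cj {ε : PI → ℤ} {σ : PI → PI} {g : Co0} (e : ∀ i, aH g (vL i) = ε i • vL (σ i))
    {x y : C3.US} (k : ∀ i, ε (x • i) = ε i ∧ y • σ i = σ (x • i)) : ι y * g = g * ι x :=
  ext_frame fun i => by rw [aH_mul, aH_mul, e, map_zsmul, hι, hι, e, (k i).1, (k i).2]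

omit hι in
variable (ι) in
/-- `tauF t` is induced by an element that acts as `φ` on the nine vectors -/
def Mon (t : Par F9) (φ : F3 × F3 → F3 × F3) : Prop :=
  ∃ g : Co0, (∀ x, ι (jc (tauF t x)) = g * ι (jc x) * g⁻¹) ∧ ∀ p, aH g (Yv p) = Yv (φ p)

theorem mon_of {ε : PI → ℤ} {σ : PI → PI} (h : chkS ε σ) {t : Par F9} {φ : F3 × F3 → F3 × F3}
    (hr : Gn fun x => ∀ i, ε (jc x • i) = ε i ∧ jc (tauF t x) • σ i = σ (jc x • i))
    (hY : ∀ p a, yv (fun i => ε i * vv (σ i) a) p = yv (vv · a) (φ p)) : Mon ι t φ :=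
  (exists_S h).imp fun g e => ⟨fun x => cj_of (ι := ι.comp jj) (R := ⊤)
    (fun x _ y _ => tauF_mul t x y) le_top (hr.imp fun x k _ => mon_cj hι e k) trivial trivial,
    fun p => Yv_of (w := fun i a => ε i * vv (σ i) a) (fun i => by rw [e]; rfl) (hY p)⟩

omit hι in
theorem Mon.mul {s t : Par F9} {φ ψ : F3 × F3 → F3 × F3} (h : Mon ι s φ) (k : Mon ι t ψ) :
    Mon ι (s * t) (φ ∘ ψ) :=
  let ⟨g, h1, h2⟩ := h
  let ⟨g', k1, k2⟩ := k
  ⟨g * g', fun x => by rw [tauF_tauF, h1, k1]; group, fun p => by rw [aH_mul, k2, h2]; rfl⟩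

omit hι in
theorem Mon.pow {t : Par F9} {φ : F3 × F3 → F3 × F3} (h : Mon ι t φ) (n : ℕ) :
    Mon ι (t ^ n) φ^[n] := by
  induction n with
  | zero => exact ⟨1, fun x => by simp [tauF_one], fun _ => rfl⟩
  | succ n ih => rw [pow_succ, Function.iterate_succ]; exact ih.mul h

omit hι

def t1 : Par F9 := ⟨1, ⟨⟨1, 1⟩, ⟨2, 1⟩, by decide, by decide⟩, 1, by decide⟩
def t2 : Par F9 := ⟨-1, 1, 1, by decide⟩
def t3 : Par F9 := ⟨1, 1, starRingAut, by decide⟩

/-- the 32 parameters -/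
def tt (n : Fin 8 × Fin 2 × Fin 2) : Par F9 := t1 ^ n.1.1 * t2 ^ n.2.1.1 * t3 ^ n.2.2.1

/-- the action on the nine vectors -/
def ff (n : Fin 8 × Fin 2 × Fin 2) : F3 × F3 → F3 × F3 :=
  ((fun p => (p.2, -p.1))^[n.1.1] ∘ (fun p => -p)^[n.2.1.1]) ∘ (fun p => (-p.2, -p.1))^[n.2.2.1]

theorem exists_tt (t : Par F9) : ∃ n, t = tt n := by
  have h1 : ∀ a b w : F9, a ≠ 0 → star a = a → b ≠ 0 → w * w = -1 →
      ∃ n, a = (tt n).a ∧ b = (tt n).b ∧ w = (tt n).σ iF := by decide +kernel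
  obtain ⟨n, ha, hb, hw⟩ := h1 t.a t.b (t.σ iF) t.a.ne_zero t.ha t.b.ne_zero (by
    rw [← map_mul, show iF * iF = -1 by decide, map_neg, map_one])
  refine ⟨n, Par.ext (Units.ext ha) (Units.ext hb) (RingEquiv.ext fun x => ?_)⟩
  have : x = (x.re.val : F9) + x.im.val * iF := by revert x; decide
  rw [this]
  simp only [map_add, map_mul, map_natCast, hw]

include hι

theorem mon_tt (n : Fin 8 × Fin 2 × Fin 2) : Mon ι (tt n) (ff n) :=
  (((mon_of hι chk_p1 (by decide +kernel) (by decide +kernel)).pow _).mul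
    ((mon_of hι chk_p2 (by decide +kernel) (by decide +kernel)).pow _)).mul
    ((mon_of hι chk_p3 (by decide +kernel) (by decide +kernel)).pow _)

theorem exists_n2 : ∃ g : Co0, (∀ x ∈ AA F9, ι (jc (n2 x)) = g * ι (jc x) * g⁻¹) ∧
    ∀ p, aH g (Yv p) = Yv p := by
  have hr : Gn fun x => x.b = 0 → ∀ i, ep 1 pn (jc x • i) = ep 1 pn i ∧
    jc (n2 x) • sg pn i = sg pn (jc x • i) := by decide +kernel
  have hY : ∀ p a, yv (fun i => ep 1 pn i * vv (sg pn i) a) p = yv (vv · a) p := by decide +kernel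
  exact (exists_S chk_pn).imp fun g e => ⟨fun x hx => cj_of (ι := ι.comp jj) (R := AA F9)
    (fun x hx y hy => n2_mul hx hy) Z2_le_AA (hr.imp fun x k hx => mon_cj hι e (k hx)) hx rfl,
    fun p => Yv_of (w := fun i a => ep 1 pn i * vv (sg pn i) a) (fun i => by rw [e]; rfl) (hY p)⟩

omit hι in
def κ : F9ˣ := ⟨iF, -iF, by decide, by decide⟩

omit hι in
theorem hκ : star (κ : F9) = -κ := by decide

theorem exists_n1 : ∃ g : Co0, (∀ x ∈ QQ F9, ι (jc (n1 κ hκ x)) = g * ι (jc x) * g⁻¹) ∧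
    ∀ p : F3 × F3, p.1 ^ 2 = p.2 ^ 2 → aH g (Yv p) = Yv p := by
  obtain ⟨g, e⟩ := exists_g (fun i => mem_of_chk (w0_chk i)) w0_dot w0_9
  have k : ∀ i, (3 : ℤ) • aH g (vL i) = ∑ j, cF i j • vL j := fun i =>
    Subtype.ext (funext fun a => by
      have := congrFun (e i) a
      simpa [vL, aH, ← this] using w0_eq i a)
  have hr : Gn fun x => x.c = 0 → ∀ i j, cF (jc x • i) (jc (n1 κ hκ x) • j) = cF i j := by
    decide +kernel
  have hY : ∀ p : F3 × F3, p.1 ^ 2 = p.2 ^ 2 → ∀ a, yv (w0 · a) p = yv (vv · a) p := by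
    decide +kernel
  refine ⟨g, fun x hx => cj_of (ι := ι.comp jj) (R := QQ F9) (fun x hx y hy => n1_mul κ hκ hx hy)
    Z2_le_QQ (hr.imp fun x h hx => ext_frame fun i => cancel (n := 3) (by decide) ?_) rfl hx,
    fun p hp => Yv_of e (hY p hp)⟩
  show _ • aH (ι (jc _) * g) _ = _ • aH (g * ι (jc x)) _
  rw [aH_mul, aH_mul, hι, k, ← map_zsmul, k, map_sum,
    ← Equiv.sum_comp (MulAction.toPerm (jc (n1 κ hκ x))) fun j => cF (jc x • i) j • vL j]
  simp only [map_zsmul, hι, MulAction.toPerm_apply, h hx]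

end Cfsg.Agent.U4.Le
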