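import Cfsg.Agent.Lib.U4.Le3

/-!
# S5210: the centralizer of `AA` in `Co₀` (q = 3)
-/

set_option autoImplicit false
set_option linter.unusedSimpArgs false
set_option linter.unusedVariables false

namespace Cfsg.Agent.U4.Le

open Subgroup Cfsg H2 H8 Finset SU4 U4.US
open C3 (PI F3 vv Gr chkS vL aH lam JJ h3 aH_mul aH_one aH_dot ext_frame cancel exists_g exists_S
  mem_of_chk smul_J orth dot_sum smul_dot vL_dot norm_dot dot8 ext_dot vv_dot even_norm
  sqNorm_eq_zero)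

theorem min32 {y : leechLattice} (h : sqNorm y.1 < 32) : y = 0 := by
  obtain ⟨m, h1, h2, h3⟩ := mem_leech.1 y.2
  have h0 := even_norm y
  have hw : ∀ i, i ∈ support₂ (hword y.1) ↔ y.1 i / 2 % 2 = 1 := fun i => by
    simpa using mem_support_hword (x := y.1) (c := 0) (i := i)
  rcases Int.emod_two_eq_zero_or_one m with hm | hm
  · have h4 : ∀ i, y.1 i % 4 = 0 := by
      rcases golay_card h3 with h0 | h0
      · intro i
        have := (hw i).not.1 (by simp [h0, support₂])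
        have := h1 i
        omega
      · have h6 := sum_le_sum_of_subset_of_nonneg (f := fun i => y.1 i ^ 2)
          (subset_univ (support₂ (hword y.1))) fun i _ _ => sq_nonneg _
        have h7 := card_nsmul_le_sum (support₂ (hword y.1)) (fun i => y.1 i ^ 2) 4 fun i hi => by
          have := (hw i).1 hi
          have := h1 i
          rcases (by omega : y.1 i ≤ -2 ∨ 2 ≤ y.1 i) with h | h <;> nlinarith
        rw [sqNorm] at h
        simp only [nsmul_eq_mul] at h7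
        omega
    have h5 : (32 : ℤ) ∣ ∑ i, (y.1 i ^ 2 - 4 * y.1 i) := dvd_sum fun i _ => by
      have := h4 i
      obtain ⟨k, e | e⟩ : ∃ k, y.1 i = 8 * k ∨ y.1 i = 8 * k + 4 := ⟨y.1 i / 8, by omega⟩
      · exact ⟨2 * k ^ 2 - k, by rw [e]; ring⟩
      · exact ⟨2 * k ^ 2 + k, by rw [e]; ring⟩
    rw [sum_sub_distrib, ← mul_sum, ← sqNorm] at h5
    have h6 : 0 ≤ sqNorm y.1 := sum_nonneg fun i _ => sq_nonneg _
    exact Subtype.ext (funext (sqNorm_eq_zero (by omega)))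
  · have h7 := card_nsmul_le_sum univ (fun i => y.1 i ^ 2) 1 fun i _ => by
      have := h1 i
      rcases (by omega : y.1 i ≤ -1 ∨ 1 ≤ y.1 i) with h | h <;> nlinarith
    rw [← sqNorm, card_univ, show Fintype.card GolayPt = 24 from rfl] at h7
    simp only [nsmul_eq_mul] at h7
    omega

theorem div3 {J : Type*} [Fintype J] {c : J → ℤ} {P : J → PI}
    (h : ∀ a, (∑ r, c r * vv (P r) a) % 3 = 0) :
    ∃ X : leechLattice, (3 : ℤ) • X = ∑ r, c r • vL (P r) := by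
  have e : ∀ a, (∑ r, c r • vL (P r)).1 a = ∑ r, c r * vv (P r) a := fun a => by simp [vL]
  simp only [← e] at h
  generalize ∑ r, c r • vL (P r) = y at h
  have h8 : (fun a => 8 * (y.1 a / 3)) ∈ leechLattice := mem_leech.2 ⟨0, fun i => by omega, by
    rw [← mul_sum]; omega, by
    rw [show hword _ = 0 from funext fun i =>
      (int_cast_two_eq (b := 0)).2 (by show 8 * (y.1 i / 3) / 2 % 2 = _; omega)]
    exact zero_mem _⟩
  refine ⟨(3 : ℤ) • y - ⟨_, h8⟩, Subtype.ext (funext fun a => ?_)⟩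
  have := h a
  show 3 * (3 * y.1 a - 8 * (y.1 a / 3)) = _
  omega

theorem nrm48 (g : Co0) (i : PI) : sqNorm (aH g (vL i)).1 = 48 := (g.2.2 _).trans (by
  simpa [sqNorm, dotInt, Gr, pow_two, vL] using vv_dot i i)

theorem dot_g (g : Co0) (i j : PI) :
    dotInt (aH g (vL i)).1 (vv j) = dotInt (aH g⁻¹ (vL j)).1 (vv i) := by
  have := aH_dot g (vL i) (aH g⁻¹ (vL j))
  rw [← aH_mul, mul_inv_cancel, aH_one] at this
  exact this.trans (by simp only [dotInt, vL, mul_comm])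

theorem eq_of_orth {y : leechLattice} {s : Option F3} {t : F3}
    (h2 : ∀ s' t' k, (s, t) ≠ (s', t') → dotInt y.1 (vv (s', t', k)) = 0) (h3 : sqNorm y.1 = 48) :
    ∃ ε : ℤˣ, ∃ m, y = (ε : ℤ) • vL (s, t, m) := by
  have h4 := norm_dot y.1
  rw [h3, Fintype.sum_prod_type, sum_eq_single s (fun s' _ e => sum_eq_zero fun i _ => by
    rw [h2 _ _ _ fun k => e (congrArg Prod.fst k).symm]; rfl) (by simp), Fintype.sum_prod_type,
    sum_eq_single t (fun t' _ e => sum_eq_zero fun i _ => by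
      rw [h2 _ _ _ fun k => e (congrArg Prod.snd k).symm]; rfl) (by simp)] at h4
  replace h4 : 72 * 48 = dotInt y.1 (vv (s, t, 0)) ^ 2 + dotInt y.1 (vv (s, t, 1)) ^ 2 +
    dotInt y.1 (vv (s, t, 2)) ^ 2 := h4.trans (Fin.sum_univ_three _)
  have h5 := dot_sum y.1 s t
  obtain ⟨a, ha⟩ : 8 ∣ dotInt y.1 (vv (s, t, 0)) := Int.dvd_of_emod_eq_zero (dot8 y (vL _))
  obtain ⟨b, hb⟩ : 8 ∣ dotInt y.1 (vv (s, t, 1)) := Int.dvd_of_emod_eq_zero (dot8 y (vL _))
  have hc : dotInt y.1 (vv (s, t, 2)) = -8 * (a + b) := by omega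
  rw [ha, hb, hc] at h4
  have : ∃ ε : ℤˣ, ∃ m : F3, 8 * a = ε * (if m = 0 then 48 else -24) ∧
      8 * b = ε * (if m = 1 then 48 else -24) ∧ -8 * (a + b) = ε * (if m = 2 then 48 else -24) := by
    have a1 : -7 < a := by nlinarith [sq_nonneg (a + 2 * b)]
    have a2 : a < 7 := by nlinarith [sq_nonneg (a + 2 * b)]
    have b1 : -7 < b := by nlinarith [sq_nonneg (b + 2 * a)]
    have b2 : b < 7 := by nlinarith [sq_nonneg (b + 2 * a)]
    clear ha hb hc
    interval_cases a <;> interval_cases b <;> revert h4 <;> decide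
  obtain ⟨ε, m, e0, e1, e2⟩ := this
  refine ⟨ε, m, ext_dot fun ⟨s', t', k⟩ => ?_⟩
  rw [smul_dot, vL_dot]
  by_cases e : (s, t) = (s', t')
  · obtain ⟨rfl, rfl⟩ := Prod.mk.inj e
    have : k = 0 ∨ k = 1 ∨ k = 2 := by revert k; decide
    rcases this with rfl | rfl | rfl <;> simp [Gr, *]
  · rw [h2 _ _ _ e, Gr, if_neg fun k => e (Prod.ext k.1 k.2), mul_zero]

/-- an element of `AA` -/
def aa (v : F3 × F9 × F3) : US F9 :=
  xA ⟨0, v.1⟩ v.2.1 ⟨0, v.2.2⟩ (by ext <;> simp) (by ext <;> simp)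

/-- the ten points moved by `AA` -/
def Ten (s : Option F3) (t : F3) : Prop := s = none → t = 0

instance (s : Option F3) (t : F3) : Decidable (Ten s t) := by unfold Ten; infer_instance

set_option synthInstance.maxSize 1000 in
theorem sep1 : ∀ s t s' t', Ten s t → Ten s' t' → (s, t) ≠ (s', t') →
    ∃ v, lam s t (jc (aa v)) = 0 ∧ lam s' t' (jc (aa v)) ≠ 0 := by decide +kernel

theorem sep2 : ∀ s t k, Ten s t → ∃ v, lam s t (jc (aa v)) = k := by decide +kernel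

/-- an information set -/
def Inf (p : Option F3 × F3) : Prop :=
  p ∈ [(none, 0), (some 0, 0), (some 1, 0), (some 2, 0), (some 0, 1), (some 1, 1)]

instance : DecidablePred Inf := fun _ => by unfold Inf; infer_instance

theorem rel : ∀ p, ¬ Inf p → ∃ d ∈ ([⟨0, 0, 1, 0, 1, 1, 0, 1, 1⟩, ⟨0, 0, 1, 0, 2, 2, 0, 2, 0⟩,
    ⟨0, 0, 2, 0, 0, 0, 2, 0, 2⟩, ⟨0, 0, 2, 0, 0, 0, 2, 1, 1⟩, ⟨0, 0, 0, 0, 0, 1, 0, 0, 2⟩,
    ⟨0, 0, 2, 0, 0, 2, 2, 2, 2⟩] : List C3.US),
    (∀ q, ¬ Inf q → lam q.1 q.2 d = if q = p then 1 else 0) ∧ ∀ k a,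
    (∑ q : Option F3 × F3, lf (lam q.1 q.2 d) * vv (q.1, q.2, k * lam q.1 q.2 d) a) % 3 = 0 := by
  decide +kernel

def hP (b : Bool) : Fin 6 → PI := if b then
  ![(none, 0, 0), (some 0, 0, 0), (some 1, 0, 0), (some 2, 0, 0), (some 0, 1, 0), (some 0, 2, 0)] else
  ![(none, 0, 0), (some 0, 0, 0), (some 1, 1, 0), (some 1, 2, 0), (some 2, 1, 0), (some 2, 2, 0)]

def hC (b : Bool) : Fin 6 → ℤ := if b then ![-1, 1, -1, -1, -1, -1] else ![-1, -1, 1, 1, 1, 1]

theorem hex : ∀ b, (∀ a, (∑ r, hC b r * vv (hP b r) a) % 3 = 0) ∧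
    (∀ r, Ten (hP b r).1 (hP b r).2.1 ∧ (hP b r).2.2 = 0) ∧ ∀ e : Fin 6 → ℤˣ,
    (∀ a, (∑ r, hC b r * (e r * vv (hP b r) a)) % 3 = 0) → ∀ r, e r = e 0 := by decide +kernel

variable {ι : C3.US →* Co0} (hι : ∀ x i, aH (ι x) (vL i) = vL (x • i))
include hι

theorem mon10 {g : Co0} (h : ∀ x ∈ AA F9, g * ι (jc x) = ι (jc x) * g) {s : Option F3} {t : F3}
    (hp : Ten s t) : ∃ ε : ℤˣ, ∃ m, ∀ k, aH g (vL (s, t, k)) = (ε : ℤ) • vL (s, t, k + m) := by
  have h1 : ∀ v k, aH (ι (jc (aa v))) (aH g (vL (s, t, k))) =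
      aH g (vL (s, t, k + lam s t (jc (aa v)))) := fun v k => by
    rw [← aH_mul, ← h (aa v) rfl, aH_mul, hι, smul_J (jc_J rfl)]
  obtain ⟨ε, m, e⟩ := eq_of_orth (y := aH g (vL (s, t, 0))) (s := s) (t := t) (fun s' t' k e => by
    by_cases hq : Ten s' t'
    · obtain ⟨v, l1, l2⟩ := sep1 s t s' t' hp hq e
      exact orth hι (jc_J rfl) (by rw [h1, l1, add_zero]) l2 k
    · obtain ⟨v, l⟩ := sep2 s t 1 hp
      obtain ⟨rfl, ht⟩ := Classical.not_imp.1 hq
      rw [dot_g]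
      exact orth hι (jc_J (x := aa v) rfl) (by
        rw [← aH_mul, ← (show Commute g _ from h (aa v) rfl).inv_left.eq, aH_mul, hι, jc_W _ ht])
        (by rw [l]; decide) 0) (nrm48 g _)
  refine ⟨ε, m, fun k => ?_⟩
  obtain ⟨v, l⟩ := sep2 s t k hp
  rw [← zero_add k, ← l, ← h1, e, map_zsmul, hι, smul_J (jc_J rfl), zero_add, add_comm]

theorem centA {g : Co0} (h : ∀ x ∈ AA F9, g * ι (jc x) = ι (jc x) * g) :
    ∃ ε : ℤˣ, ∃ d ∈ JJ, ∀ i, aH g (vL i) = (ε : ℤ) • vL (d • i) := by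
  choose! ε μ hμ using fun s t => mon10 hι h (s := s) (t := t)
  have h3' : ∀ s t, Ten s t → aH (g * g * g) (vL (s, t, 0)) = (ε s t : ℤ) • vL (s, t, 0) :=
    fun s t hp => by
      simp only [aH_mul, hμ s t hp, map_zsmul, smul_smul, Int.units_coe_mul_self, mul_one]
      congr 4
      linear_combination μ s t * h3
  have hs : ∀ b r, ε (hP b r).1 (hP b r).2.1 = ε (hP b 0).1 (hP b 0).2.1 := fun b => by
    obtain ⟨k1, k2, k3⟩ := hex b
    obtain ⟨X, hX⟩ := div3 k1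
    refine k3 (fun r => ε (hP b r).1 (hP b r).2.1) fun a => ?_
    have e := congrArg (aH (g * g * g)) hX
    rw [map_zsmul, map_sum, sum_congr rfl fun r _ => by
      rw [map_zsmul, show hP b r = ((hP b r).1, (hP b r).2.1, 0) by rw [← (k2 r).2],
        h3' _ _ (k2 r).1, show ((hP b r).1, (hP b r).2.1, 0) = hP b r by rw [← (k2 r).2]]] at e
    have := congrFun (congrArg Subtype.val e) a
    simp only [AddSubgroupClass.coe_zsmul, AddSubmonoidClass.coe_finsetSum, Finset.sum_apply,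
      Pi.smul_apply, smul_eq_mul, vL] at this
    omega
  have hd : ∀ a b c d e f : F3, ∃ x ∈ JJ, lam none 0 x = a ∧ lam (some 0) 0 x = b ∧
      lam (some 1) 0 x = c ∧ lam (some 2) 0 x = d ∧ lam (some 0) 1 x = e ∧ lam (some 1) 1 x = f :=
    fun a b c d e f => ⟨⟨0, 0, a + b + c + d, 0, 2 * b + c + e + 2 * f, a + 2 * b + c + d + 2 * e,
      2 * b + 2 * c + 2 * d, c + 2 * d, b⟩, ⟨rfl, rfl, rfl⟩, by revert a b c d e f; decide +kernel⟩
  obtain ⟨d, hJ, e1, e2, e3, e4, e5, e6⟩ := hd (μ none 0) (μ (some 0) 0) (μ (some 1) 0)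
    (μ (some 2) 0) (μ (some 0) 1) (μ (some 1) 1)
  have hI : ∀ q, Inf q → ∀ k, aH ((ι d)⁻¹ * g) (vL (q.1, q.2, k)) =
      (ε none 0 : ℤ) • vL (q.1, q.2, k) := fun q hq k => by
    have : Ten q.1 q.2 ∧ ε q.1 q.2 = ε none 0 ∧ lam q.1 q.2 d = μ q.1 q.2 := by
      simp only [Inf, List.mem_cons, List.not_mem_nil, or_false] at hq
      rcases hq with rfl | rfl | rfl | rfl | rfl | rfl
      exacts [⟨by decide, rfl, e1⟩, ⟨by decide, hs true 1, e2⟩, ⟨by decide, hs true 2, e3⟩,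
        ⟨by decide, hs true 3, e4⟩, ⟨by decide, hs true 4, e5⟩, ⟨by decide, hs false 2, e6⟩]
    rw [aH_mul, hμ _ _ this.1, this.2.1, ← this.2.2, ← smul_J hJ, map_zsmul, ← map_inv, hι,
      inv_smul_smul]
  refine ⟨ε none 0, d, hJ, fun ⟨s, t, k⟩ => ?_⟩
  rw [← hι, ← map_zsmul, ← mul_inv_cancel_left (ι d) g, aH_mul]
  congr 1
  by_cases hp : Inf (s, t)
  · exact hI _ hp k
  obtain ⟨x, -, c1, c2⟩ := rel _ hp
  obtain ⟨X, hX⟩ := div3 (c2 k)
  have k2 : (3 : ℤ) • (aH ((ι d)⁻¹ * g) X - (ε none 0 : ℤ) • X) =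
      aH ((ι d)⁻¹ * g) (vL (s, t, k)) - (ε none 0 : ℤ) • vL (s, t, k) := by
    rw [smul_sub, ← map_zsmul, smul_comm, hX, map_sum, smul_sum, ← sum_sub_distrib,
      sum_eq_single (s, t) (fun q _ e => by
        by_cases hq : Inf q
        · rw [map_zsmul, hI q hq, smul_comm, sub_self]
        · simp [c1 q hq, e, lf]) (by simp), c1 _ hp]
    simp [lf]
  have k3 := nrm48 ((ι d)⁻¹ * g) (s, t, k)
  have k4 : sqNorm ((ε none 0 : ℤ) • vL (s, t, k)).1 = 48 := by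
    have := nrm48 1 (s, t, k)
    rcases Int.units_eq_one_or (ε none 0) with e | e <;> simpa [e, sqNorm, aH_one] using this
  generalize aH ((ι d)⁻¹ * g) (vL (s, t, k)) = y at k2 k3 ⊢
  generalize (ε none 0 : ℤ) • vL (s, t, k) = z at k2 k4 ⊢
  generalize aH ((ι d)⁻¹ * g) X - (ε none 0 : ℤ) • X = Z at k2
  have k5 : 9 * sqNorm Z.1 ≤ 2 * sqNorm y.1 + 2 * sqNorm z.1 := by
    simp only [sqNorm, mul_sum, ← sum_add_distrib]
    refine sum_le_sum fun a _ => ?_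
    have : 3 * Z.1 a = y.1 a - z.1 a := congrFun (congrArg Subtype.val k2) a
    rw [show 9 * Z.1 a ^ 2 = (3 * Z.1 a) ^ 2 by ring, this]
    nlinarith [sq_nonneg (y.1 a + z.1 a)]
  rw [min32 (y := Z) (by omega), smul_zero] at k2
  exact sub_eq_zero.1 k2.symm

end Cfsg.Agent.U4.Le
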