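import Cfsg.Agent.Lib.U5.Field

/-!
# S5210: recognising `SL₂(q)` on `Q / Z = K × K`, part a: two points are disjoint
-/

set_option autoImplicit false
set_option linter.unusedSectionVars false
set_option linter.unusedVariables false

namespace Cfsg.Agent.U4

open U5

variable {K : Type*} [Field K] [StarRing K] [hK : UF K]

/-- the commutator form on `Q / Z` -/
def om2 (v w : K × K) : K :=
  star v.1 * w.2 - v.1 * star w.2 - (star w.1 * v.2 - w.1 * star v.2)

/-- `γ` keeps `L₀ = {(0, e)}` -/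
def FixL (γ : (K × K) ≃ₗ[ℤ] (K × K)) : Prop := ∀ e, (γ (0, e)).1 = 0

namespace L1

theorem coef {x y : K} (h : ∀ ξ, x * ξ + y * star ξ = 0) : x = 0 ∧ y = 0 := by
  obtain ⟨θ, hθ⟩ := exists_star_ne K
  have h1 := h 1
  rw [star_one] at h1
  have : x * (θ - star θ) = 0 := by linear_combination h θ - star θ * h1
  have hx := (mul_eq_zero.1 this).resolve_right (sub_ne_zero.2 hθ.symm)
  exact ⟨hx, by linear_combination h1 - hx⟩

/-- the elements of `T` -/
def uu (c : K) : (K × K) ≃ₗ[ℤ] (K × K) :=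
  AddEquiv.toIntLinearEquiv
    { toFun := fun v => (v.1, v.2 + c * v.1)
      invFun := fun v => (v.1, v.2 - c * v.1)
      left_inv := fun v => by simp
      right_inv := fun v => by simp
      map_add' := fun v w => by ext <;> simp; ring }

@[simp] theorem uu_apply (c : K) (v : K × K) : uu c v = (v.1, v.2 + c * v.1) := rfl

theorem uu_add (c d : K) : uu (c + d) = uu c * uu d :=
  LinearEquiv.ext fun v => by ext <;> simp; ring

theorem uu_pow (c : K) (n : ℕ) : uu c ^ n = uu (n * c) := by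
  induction n with
  | zero => exact LinearEquiv.ext fun v => by simp
  | succ n ih => rw [pow_succ, ih, ← uu_add]; push_cast; ring_nf

variable {g γ δ : (K × K) ≃ₗ[ℤ] (K × K)} {v w : K × K} {c t : K}

theorem inv_ap (g : (K × K) ≃ₗ[ℤ] (K × K)) (v : K × K) : g⁻¹ (g v) = v := g.symm_apply_apply v

theorem ap_inv (g : (K × K) ≃ₗ[ℤ] (K × K)) (v : K × K) : g (g⁻¹ v) = v := g.apply_symm_apply v

/-- isometries -/
def Iso (γ : (K × K) ≃ₗ[ℤ] (K × K)) : Prop := ∀ v w, om2 (γ v) (γ w) = om2 v w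

theorem Iso.mul (h : Iso γ) (h' : Iso δ) : Iso (γ * δ) := fun v w => (h _ _).trans (h' v w)

theorem iso_uu (hc : star c = -c) : Iso (uu c) := fun v w => by
  simp only [om2, uu_apply, star_add, star_mul', hc]; ring

theorem eq_of_om2 (h : ∀ x, om2 v x = om2 w x) : v = w := by
  have h1 := coef (x := star v.1 - star w.1) (y := w.1 - v.1) fun ξ => by
    have := h (0, ξ)
    simp only [om2, star_zero] at this
    linear_combination this
  have h2 := coef (x := star v.2 - star w.2) (y := w.2 - v.2) fun ξ => by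
    have := h (ξ, 0)
    simp only [om2, star_zero] at this
    linear_combination this
  exact Prod.ext (sub_eq_zero.1 h1.2).symm (sub_eq_zero.1 h2.2).symm

theorem om2_smul (ht : star t = t) (v w : K × K) : om2 (t • v) w = t * om2 v w := by
  simp only [om2, Prod.smul_fst, Prod.smul_snd, smul_eq_mul, star_mul', ht]; ring

theorem Iso.smul (h : Iso γ) (ht : star t = t) (v : K × K) : γ (t • v) = t • γ v :=
  eq_of_om2 fun x => by rw [← ap_inv γ x, h, om2_smul ht, om2_smul ht, h]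

/-- the conjugates -/
def cj (g : (K × K) ≃ₗ[ℤ] (K × K)) (c : K) : (K × K) ≃ₗ[ℤ] (K × K) := g * uu c * g⁻¹

theorem cj_apply (g : (K × K) ≃ₗ[ℤ] (K × K)) (c : K) (v : K × K) :
    cj g c v = v + g (0, c * (g⁻¹ v).1) := by
  show g (uu c (g⁻¹ v)) = _
  conv_rhs => rw [← ap_inv g v, inv_ap, ← map_add]
  congr 1; ext <;> simp

theorem cj_ap (g : (K × K) ≃ₗ[ℤ] (K × K)) (c : K) (v : K × K) : cj g c (g v) = g (uu c v) := by
  show g (uu c (g⁻¹ (g v))) = _
  rw [inv_ap]

theorem cj_pow (p : ℕ) [CharP K p] (g : (K × K) ≃ₗ[ℤ] (K × K)) (c : K) : cj g c ^ p = 1 := by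
  rw [cj, conj_pow, uu_pow, CharP.cast_eq_zero, zero_mul]
  exact LinearEquiv.ext fun v => by
    show g (uu 0 (g⁻¹ v)) = v
    simp [ap_inv]

/-- `v ∈ g L₀` -/
def InL (g : (K × K) ≃ₗ[ℤ] (K × K)) (v : K × K) : Prop := (g⁻¹ v).1 = 0

theorem inL_ap (g : (K × K) ≃ₗ[ℤ] (K × K)) (e : K) : InL g (g (0, e)) := by
  rw [InL, inv_ap]

theorem InL.eq (h : InL g v) : g (0, (g⁻¹ v).2) = v := by
  conv_rhs => rw [← ap_inv g v]
  congr 1; exact Prod.ext h.symm rfl

theorem InL.add (h : InL g v) (h' : InL g w) : InL g (v + w) := by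
  simp only [InL, map_add, Prod.fst_add] at *; rw [h, h', add_zero]

theorem InL.sub (h : InL g v) (h' : InL g w) : InL g (v - w) := by
  simp only [InL, map_sub, Prod.fst_sub] at *; rw [h, h', sub_zero]

theorem InL.cj (h : InL g v) (c : K) : cj g c v = v := by
  rw [cj_apply, h, mul_zero]
  exact add_eq_left.2 (map_zero g)

theorem inL_of_cj (hc : c ≠ 0) (h : cj g c v = v) : InL g v := by
  rw [cj_apply, add_eq_left, g.map_eq_zero_iff] at h
  exact (mul_eq_zero.1 (congrArg Prod.snd h)).resolve_left hc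

theorem inL_cj_sub (g : (K × K) ≃ₗ[ℤ] (K × K)) (c : K) (v : K × K) : InL g (cj g c v - v) := by
  rw [cj_apply, add_sub_cancel_left]; exact inL_ap _ _

theorem FixL.surj (h : FixL g) (e : K) : InL g (0, e) := by
  obtain ⟨x, hx⟩ := surj_of_ker (f := fun x => (g (0, x)).2)
    (fun x y => by rw [← Prod.snd_add, ← map_add]; simp)
    (fun x hx => congrArg Prod.snd (g.map_eq_zero_iff.1 (Prod.ext (h x) hx : g (0, x) = 0))) e
  have : ((0 : K), e) = g (0, x) := Prod.ext (h x).symm hx.symm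
  rw [this]; exact inL_ap _ _

theorem FixL.cj (h : FixL g) (c : K) : FixL (cj g c) := fun e => by
  rw [(FixL.surj h e).cj]

section Sim

variable (hg : ∃ α : K → K, ∀ v w, om2 (g v) (g w) = α (om2 v w))
include hg

theorem iso_cj (hc : star c = -c) : Iso (cj g c) := fun v w => by
  obtain ⟨α, h⟩ := hg
  rw [← ap_inv g v, ← ap_inv g w, cj_ap, cj_ap, h, h, iso_uu hc]

theorem om2_zero (h : om2 (g⁻¹ v) (g⁻¹ w) = 0) : om2 v w = 0 := by
  obtain ⟨α, e⟩ := hg
  have h0 := e 0 0
  rw [map_zero, show om2 (0 : K × K) 0 = 0 by simp [om2]] at h0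
  rw [← ap_inv g v, ← ap_inv g w, e, h, ← h0]

theorem InL.om (h : InL g v) (h' : InL g w) : om2 v w = 0 :=
  om2_zero hg (by simp only [om2]; rw [h, h']; simp)

theorem InL.smul (h : InL g v) (ht : star t = t) : InL g (t • v) := by
  obtain ⟨κ, h0, h1⟩ := exists_tz K
  exact inL_of_cj h0 (by rw [(iso_cj hg h1).smul ht, h.cj])

theorem om2_cj_two (h2 : (2 : K) = 0) (hc : star c = -c) (v : K × K) : om2 v (cj g c v) = 0 :=
  om2_zero hg (by
    conv_lhs => rw [← ap_inv g v, cj_ap, inv_ap, inv_ap]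
    simp only [om2, uu_apply, star_add, star_mul', hc]
    linear_combination c * (g⁻¹ v).1 * star (g⁻¹ v).1 * h2)

end Sim

variable (K) in
theorem exists_sq_ne (hq : Nat.card K ≠ 9) (h2 : (2 : K) ≠ 0) :
    ∃ s : K, star s = s ∧ s ≠ 0 ∧ s ^ 2 ≠ 1 := by
  classical
  obtain ⟨q, hq2, h1, hσ⟩ := exists_q (K := K)
  letI := Fintype.ofFinite K
  rw [Nat.card_eq_fintype_card] at h1 hq
  by_contra! h
  have h3 := (FiniteField.forall_pow_eq_one_iff K ((q + 1) * 2)).1 fun x => Units.ext (by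
    rw [Units.val_pow_eq_pow_val, pow_mul, pow_succ' (x : K) q, ← hσ]
    exact h _ (by simp [mul_comm]) (by simp))
  have h4 := Nat.le_of_dvd (by omega) h3
  rw [h1] at h4
  have h5 : q ≤ 3 := by
    by_contra h5
    have : 4 * q ≤ q ^ 2 := by nlinarith
    omega
  interval_cases q
  · have := FiniteField.cast_card_eq_zero K
    rw [h1] at this
    exact h2 (pow_eq_zero_iff (n := 2) (by norm_num) |>.1 (by exact_mod_cast this))
  · exact hq h1

section X

variable {p : ℕ} [CharP K p] {X : Subgroup ((K × K) ≃ₗ[ℤ] (K × K))}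
  (hB : ∀ γ ∈ X, ∃ α : K → K, ∀ v w, om2 (γ v) (γ w) = α (om2 v w))
  (hU : ∀ c, star c = -c → uu c ∈ X)
  (hS : ∀ γ ∈ X, FixL γ → γ ^ p = 1 → ∃ c, star c = -c ∧ γ = uu c)

include hU in
theorem cj_mem (hg : g ∈ X) (hc : star c = -c) : cj g c ∈ X :=
  X.mul_mem (X.mul_mem hg (hU c hc)) (X.inv_mem hg)

include hU hS in
theorem not_fix (hg : g ∈ X) (hc : star c = -c) (h0 : c ≠ 0) (hv : InL g v) (h1 : v.1 ≠ 0) :
    ¬ FixL (cj g c) := fun h => by
  obtain ⟨c', -, e⟩ := hS _ (cj_mem hU hg hc) h (cj_pow p g c)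
  have h2 := congrArg Prod.snd (hv.cj c)
  rw [e, uu_apply, add_eq_left] at h2
  have h3 : c' = 0 := (mul_eq_zero.1 h2).resolve_right h1
  have h4 : InL g (g (1, 0)) := inL_of_cj h0 (by rw [e, h3]; simp)
  rw [InL, inv_ap] at h4
  exact one_ne_zero h4

include hU hS in
/-- an isometry in `X` that keeps `L₀` and fixes a vector of it keeps the norm on `L₀` -/
theorem norm_of_fix (h2 : (2 : K) ≠ 0) (hγ : γ ∈ X) (hi : Iso γ) (hf : FixL γ) {y : K}
    (hy : y ≠ 0) (e : γ (0, y) = (0, y)) (x : K) :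
    (γ (0, x)).2 * star (γ (0, x)).2 = x * star x := by
  obtain ⟨κ, h0, h1⟩ := exists_tz K
  obtain ⟨c, hc, e1⟩ := hS _ (cj_mem hU hγ h1) (FixL.cj hf κ) (cj_pow p γ κ)
  have key : ∀ x : K, (γ (0, x)).2 * star (γ (0, x)).2 * κ = c * (x * star x) := fun x => by
    have k1 := cj_ap γ κ (x / κ, 0)
    have k2 := hi (x / κ, 0) (uu κ (x / κ, 0))
    rw [← k1, e1] at k2
    rw [e1, show uu κ (x / κ, 0) = (x / κ, 0) + (0, x) by ext <;> simp; field_simp, map_add] at k1
    have k3 : (γ (0, x)).2 = c * (γ (x / κ, 0)).1 := by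
      have := congrArg Prod.snd k1
      simp only [uu_apply, Prod.snd_add] at this
      linear_combination -this
    simp only [om2, uu_apply, star_add, star_mul', hc, h1, star_zero, star_div₀] at k2
    rw [k3, star_mul', hc]
    refine mul_left_cancel₀ h2 ?_
    field_simp at k2
    linear_combination (-c) * k2
  have k := key y
  rw [e] at k
  have hc' : κ = c := mul_left_cancel₀ (mul_ne_zero hy (star_ne_zero.2 hy)) (by
    linear_combination k)
  exact mul_right_cancel₀ h0 (by rw [key, ← hc', mul_comm])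

include hB hU hS in
/-- two points are disjoint -/
theorem disj (hq : Nat.card K ≠ 9) (hg : g ∈ X) (hf : ¬ FixL g) {e0 : K} (he : e0 ≠ 0) :
    (g (0, e0)).1 ≠ 0 := fun hd => by
  have sg := hB g hg
  obtain ⟨y, hy⟩ : ∃ y, g (0, e0) = (0, y) := ⟨_, Prod.ext hd rfl⟩
  have y0 : y ≠ 0 := fun h => he (congrArg Prod.snd (g.map_eq_zero_iff.1 (by rw [hy, h]; rfl)))
  have y1 : star y ≠ 0 := star_ne_zero.2 y0
  have hd0 : InL g (0, y) := hy ▸ inL_ap g e0
  have fst : ∀ v, InL g v → star (v.1 / y) = v.1 / y := fun v hv => by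
    have := hd0.om sg hv
    simp only [om2, star_zero] at this
    rw [star_div₀]; field_simp; linear_combination -this
  obtain ⟨y', hv0⟩ : ∃ y', InL g (y, y') := by
    obtain ⟨e, he⟩ := not_forall.1 hf
    have h1 := (inL_ap g e).smul sg (t := ((g (0, e)).1 / y)⁻¹) (by rw [star_inv₀, fst _ (inL_ap g e)])
    refine ⟨(((g (0, e)).1 / y)⁻¹ • g (0, e)).2, ?_⟩
    convert h1 using 1
    refine Prod.ext ?_ rfl
    simp only [Prod.smul_fst, smul_eq_mul]; field_simp
  have dec : ∀ v, InL g v → ∃ r r' : K, star r = r ∧ star r' = r' ∧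
      v = r • (y, y') + r' • ((0 : K), y) := fun v hv => by
    have h1 := (hv.sub (hv0.smul sg (fst v hv))).om sg hv0
    refine ⟨v.1 / y, (v.2 - v.1 / y * y') / y, fst v hv, ?_, ?_⟩
    · simp only [om2, Prod.fst_sub, Prod.snd_sub, Prod.smul_mk, smul_eq_mul,
        div_mul_cancel₀ _ y0, sub_self, star_zero] at h1
      rw [star_div₀, div_eq_div_iff y1 y0]; linear_combination h1
    · ext <;> simp <;> field_simp <;> ring
  obtain ⟨κ, k0, k1⟩ := exists_tz K
  by_cases h2 : (2 : K) = 0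
  · refine not_fix hU hS hg k1 k0 hv0 y0 fun e => ?_
    obtain ⟨r, r', hr, hr', e1⟩ := dec _ (inL_cj_sub g κ (0, e))
    have e2 := om2_cj_two sg h2 k1 (0, e)
    have e3 : (cj g κ (0, e)).1 = r * y := by simpa using congrArg Prod.fst e1
    by_cases r0 : r = 0
    · rw [e3, r0, zero_mul]
    simp only [om2, star_zero, e3, star_mul', hr] at e2
    have e4 : star (e / y) = e / y := by
      rw [star_div₀, div_eq_div_iff y1 y0]
      exact mul_left_cancel₀ r0 (by linear_combination e2)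
    have e5 := hd0.smul sg e4
    rw [Prod.smul_mk, smul_eq_mul, smul_eq_mul, mul_zero, div_mul_cancel₀ _ y0] at e5
    rw [e5.cj]
  have span : ∀ γ : (K × K) ≃ₗ[ℤ] (K × K), Iso γ → (γ (0, y)).1 = 0 → (γ (0, κ * y)).1 = 0 →
      FixL γ := fun γ hi a1 a2 e => by
    have : ((0 : K), e) = ((e / y + star (e / y)) / 2) • ((0 : K), y) +
        ((e / y - star (e / y)) / (2 * κ)) • ((0 : K), κ * y) := by
      ext <;> simp; field_simp; ring
    rw [this, map_add, hi.smul (by simp [add_comm]), hi.smul (by simp [k1]; field_simp; ring)]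
    simp [a1, a2]
  -- the map `c ↦ m(c)`
  have monto : ∀ r : K, star r = r → ∃ c d : K, star c = -c ∧ star d = d ∧
      cj g c (0, κ * y) = (0, κ * y) + r • (y, y') + d • ((0 : K), y) := by
    let f : {c : K // star c = -c} → {c : K // star c = -c} := fun c =>
      ⟨κ * ((cj g c (0, κ * y) - (0, κ * y)).1 / y), by
        rw [star_mul', fst _ (inL_cj_sub g c _), k1, neg_mul]⟩
    have hf : Function.Injective f := fun c c' h => by
      by_contra hne
      have hc : star (c.1 - c'.1) = -(c.1 - c'.1) := by rw [star_sub, c.2, c'.2]; ring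
      refine not_fix hU hS hg hc (sub_ne_zero.2 fun e => hne (Subtype.ext e)) hv0 y0
        (span _ (iso_cj sg hc) (by rw [hd0.cj]) ?_)
      have h1 := congrArg Subtype.val h
      simp only [f, cj_apply, add_sub_cancel_left] at h1
      have h3 := (div_left_inj' y0).1 (mul_left_cancel₀ k0 h1)
      rw [cj_apply, show ((0 : K), (c.1 - c'.1) * (g⁻¹ (0, κ * y)).1) =
        (0, c.1 * (g⁻¹ (0, κ * y)).1) - (0, c'.1 * (g⁻¹ (0, κ * y)).1) by ext <;> simp; ring,
        map_sub, Prod.fst_add, Prod.fst_sub, h3, sub_self, add_zero]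
    intro r hr
    obtain ⟨c, hc⟩ := Finite.surjective_of_injective hf ⟨κ * r, by rw [star_mul', k1, hr, neg_mul]⟩
    obtain ⟨r1, d, -, hd, e⟩ := dec _ (inL_cj_sub g c (0, κ * y))
    have h1 := mul_left_cancel₀ k0 (congrArg Subtype.val hc)
    rw [e] at h1
    have h3 : r1 = r := by simpa [mul_div_assoc, div_self y0] using h1
    exact ⟨c, d, c.2, hd, by rw [add_assoc, ← h3, ← e, add_sub_cancel]⟩
  have ww : ∀ s : K, star s = s → s ≠ 0 → ∃ w ∈ X, Iso w ∧ w (0, y) = (0, y) ∧ ∃ d : K,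
      star d = d ∧ w (0, κ * y) = (-s⁻¹) • (y, y') + d • ((0 : K), y) ∧
        w (y, y') = s • ((0 : K), κ * y) + (s * d) • ((0 : K), y) := fun s hs s0 => by
    have hsκ : star (s * κ) = -(s * κ) := by rw [star_mul', hs, k1, mul_neg]
    have hs' : star (-s⁻¹) = -s⁻¹ := by rw [star_neg, star_inv₀, hs]
    obtain ⟨c, d, hc, hd, e⟩ := monto _ hs'
    refine ⟨uu (s * κ) * cj g c * uu (s * κ), X.mul_mem (X.mul_mem (hU _ hsκ) (cj_mem hU hg hc))
      (hU _ hsκ), ((iso_uu hsκ).mul (iso_cj sg hc)).mul (iso_uu hsκ), ?_, d, hd, ?_, ?_⟩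
    · show uu _ (cj g c (uu _ _)) = _
      rw [uu_apply (s * κ) (0, _), mul_zero, add_zero, hd0.cj, uu_apply, mul_zero, add_zero]
    · show uu _ (cj g c (uu _ _)) = _
      rw [uu_apply (s * κ) (0, _), mul_zero, add_zero, e]
      ext <;> simp; field_simp; ring
    · show uu _ (cj g c (uu _ _)) = _
      rw [show uu (s * κ) (y, y') = (y, y') + s • ((0 : K), κ * y) by ext <;> simp; ring, map_add,
        hv0.cj, (iso_cj sg hc).smul hs, e]
      ext <;> simp <;> field_simp <;> ring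
  obtain ⟨s, hs, s0, s1⟩ := exists_sq_ne K hq h2
  obtain ⟨w, hw, iw, a1, d, hd, a2, a3⟩ := ww s hs s0
  obtain ⟨w', hw', iw', b1, d', hd', b2, -⟩ := ww 1 (star_one K) one_ne_zero
  have c1 : (w * w') (0, y) = (0, y) := by show w (w' _) = _; rw [b1, a1]
  have c2 : (w * w') (0, κ * y) = (0, (d' - s * d - s * κ) * y) := by
    show w (w' _) = _
    rw [b2, map_add, iw.smul (by simp), iw.smul hd', a1, a3]
    ext <;> simp; ring
  have n := norm_of_fix hU hS h2 (X.mul_mem hw hw') (iw.mul iw')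
    (span _ (iw.mul iw') (by rw [c1]) (by rw [c2])) y0 c1
  have n1 := n (κ * y)
  have n2 := n (y + κ * y)
  rw [show ((0 : K), y + κ * y) = (0, y) + (0, κ * y) by simp, map_add, c1, c2] at n2
  rw [c2] at n1
  simp only [Prod.snd_add, star_add, star_sub, star_mul', hs, hd, hd', k1] at n1 n2
  have n3 : d' - s * d = 0 := mul_left_cancel₀ (mul_ne_zero h2 (mul_ne_zero y0 y1)) (by
    linear_combination n2 - n1)
  refine s1 (mul_left_cancel₀ (mul_ne_zero (pow_ne_zero 2 k0) (mul_ne_zero y0 y1)) ?_)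
  linear_combination -n1 + (d' - s * d) * y * star y * n3

end X

end L1

end Cfsg.Agent.U4
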