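import Cfsg.Agent.Lib.U4.V4
import Cfsg.Agent.Lib.H7.Normal

/-!
# S5210: the conjugates of `Z` form an ovoid (see notes/U4_lead.md)
-/

set_option autoImplicit false
set_option linter.unusedSectionVars false

namespace Cfsg.Agent.SU4

open Cfsg.Agent.U5 Subgroup

variable {K : Type*} [Field K] [StarRing K] [hK : UF K] {Γ : Type*} [Group Γ] [Finite Γ]
  [DistribMulAction Γ (V4 K)] {G H : Subgroup Γ} {τ : K → Γ} {g g' h : Γ}

/-- The hypotheses of the first steps. -/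
structure L2 (G : Subgroup Γ) (τ : K → Γ) : Prop where
  act : ∀ β (v : V4 K), τ β • v = tt β v
  mem : ∀ β, τ β ∈ G
  ti : ∀ g ∈ G, ∀ β, β ≠ 0 → g * τ β * g⁻¹ ∈ Fl K Γ → g ∈ Fl K Γ

/-- The first coordinate of `g • v`. -/
def cg (g : Γ) : V4 K →+ T0 K := (AddMonoidHom.fst _ _).comp (DistribSMul.toAddMonoidHom _ g)

@[simp] theorem cg_apply (g : Γ) (v : V4 K) : cg g v = (g • v).1 := rfl

variable (K) in
/-- The subgroup `Z`. -/
def Zs : AddSubgroup (V4 K) := (⊥ : AddSubgroup (T0 K)).prod ((⊥ : AddSubgroup K).prod ⊤)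

theorem mem_Zs {v : V4 K} : v ∈ Zs K ↔ v.1 = 0 ∧ v.2.1 = 0 := by
  simp [Zs, AddSubgroup.mem_prod]

namespace L2

theorem tau_Fl (m : L2 G τ) (β : K) : τ β ∈ Fl K Γ :=
  ⟨fun v h => by rwa [m.act], fun v h h' => by simp [m.act, h, h']⟩

theorem conj_not (m : L2 G τ) (hg : g ∈ G) (hN : g ∉ Fl K Γ) {β : K} (hβ : β ≠ 0) :
    g⁻¹ * τ β * g ∉ Fl K Γ := fun h =>
  hN (inv_mem_iff.1 (m.ti _ (inv_mem hg) β hβ (by rwa [inv_inv])))

/-- The use of minimality. -/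
theorem minD (m : L2 G τ) (hHG : H ≤ G) (hτ : ∀ β, τ β ∈ H)
    (hmin : ∀ D ≤ H, (∀ β, τ β ∈ D) → ¬ D ≤ Fl K Γ → H ≤ D) {B : AddSubgroup (V4 K)}
    (hB : ∀ α ∈ H, ∀ b ∈ B, α • b ∈ B) {v : V4 K} (hv : ∀ β, tt β v - v ∈ B) (hh : h ∈ H)
    (hN : h ∉ Fl K Γ) {β : K} (hβ : β ≠ 0) (e : tt β (h • v) - h • v ∈ B) :
    ∀ α ∈ H, α • v - v ∈ B := by
  let D : Subgroup Γ :=
    { carrier := {α | α ∈ H ∧ α • v - v ∈ B}
      one_mem' := ⟨H.one_mem, by simp⟩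
      mul_mem' := fun {a b} ha hb => ⟨H.mul_mem ha.1 hb.1, by
        simpa [smul_sub, mul_smul] using B.add_mem (hB a ha.1 _ hb.2) ha.2⟩
      inv_mem' := fun {a} ha => ⟨H.inv_mem ha.1, by
        simpa [smul_sub] using B.neg_mem (hB _ (H.inv_mem ha.1) _ ha.2)⟩ }
  refine fun α hα => (hmin D (fun _ h => h.1) (fun β => ⟨hτ β, by rw [m.act]; exact hv β⟩)
    (fun hle => m.conj_not (hHG hh) hN hβ (hle ⟨H.mul_mem (H.mul_mem (H.inv_mem hh) (hτ β)) hh,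
      ?_⟩)) hα).2
  simpa [smul_sub, mul_smul, m.act] using hB _ (H.inv_mem hh) _ e

theorem stepA (m : L2 G τ) (hg : g ∈ G) (hN : g ∉ Fl K Γ) {z : V4 K} (h1 : z.1 = 0)
    (h2 : z.2.1 = 0) (h3 : (g • z).1 = 0) : z = 0 := by
  by_contra hz
  obtain ⟨H, ⟨hHG, hτ, hfix, hHN⟩, hm⟩ := H7.exists_min_card (𝓒 := {H : Subgroup Γ | H ≤ G ∧
      (∀ β, τ β ∈ H) ∧ (∀ h ∈ H, h • z = z) ∧ ¬ H ≤ Fl K Γ})
    ⟨G ⊓ MulAction.stabilizer Γ z, inf_le_left, fun β => ⟨m.mem β, (m.act β z).trans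
      (tt_of_Z β h1 h2)⟩, fun _ h => h.2, fun hle => by
        obtain ⟨β, hβ, e⟩ := exists_fix h3
        refine m.conj_not hg hN hβ (hle ⟨G.mul_mem (G.mul_mem (G.inv_mem hg) (m.mem β)) hg, ?_⟩)
        change _ • _ = _
        rw [mul_smul, mul_smul, m.act, e, inv_smul_smul]⟩
  have hmin : ∀ D ≤ H, (∀ β, τ β ∈ D) → ¬ D ≤ Fl K Γ → H ≤ D := fun D h1 h2 h3 =>
    (eq_of_le_of_card_ge h1 (hm D ⟨h1.trans hHG, h2, fun h hh => hfix h (h1 hh), h3⟩)).ge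
  have A1 : ∀ h ∈ H, h ∉ Fl K Γ → ∀ y : V4 K, y.1 = 0 → y.2.1 = 0 → (h • y).1 = 0 →
      ∀ α ∈ H, α • y = y := fun h hh hN y y1 y2 y3 α hα => by
    obtain ⟨β, hβ, e⟩ := exists_fix y3
    simpa [sub_eq_zero] using m.minD hHG hτ hmin (B := ⊥) (by simp) (v := y)
      (fun β => by simp [tt_of_Z β y1 y2]) hh hN hβ (by simp [e]) α hα
  obtain ⟨h, hh, hN⟩ := SetLike.not_le_iff_exists.1 hHN
  by_cases hU : ∀ y : V4 K, y.1 = 0 → y.2.1 = 0 → ∀ α ∈ H, α • y = y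
  · have hZ : ∀ α ∈ H, ∀ b ∈ Zs K, α • b ∈ Zs K := fun α hα b hb => by
      rwa [hU b (mem_Zs.1 hb).1 (mem_Zs.1 hb).2 α hα]
    have t1 : ∀ (v : V4 K) β, v.1 = 0 → tt β v - v ∈ Zs K := fun v β h => by simp [mem_Zs, h]
    let B : AddSubgroup (V4 K) :=
      { carrier := {v | ∀ α ∈ H, α • v - v ∈ Zs K}
        zero_mem' := fun α _ => by simp
        add_mem' := fun {a b} ha hb α hα => by
          rw [smul_add, add_sub_add_comm]; exact add_mem (ha α hα) (hb α hα)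
        neg_mem' := fun {a} ha α hα => by
          rw [smul_neg, ← neg_sub']; exact neg_mem (ha α hα) }
    have hZB : Zs K ≤ B := fun b hb α hα => sub_mem (hZ α hα b hb) hb
    have hB : ∀ α ∈ H, ∀ b ∈ B, α • b ∈ B := fun α hα b hb => by
      simpa using B.add_mem (hZB (hb α hα)) hb
    obtain ⟨κ, κ0, hκ⟩ := exists_tz K
    obtain ⟨θ, hθ⟩ : ∃ θ : K, star θ ≠ -θ := ⟨om K, fun e =>
      one_ne_zero ((om_add (K := K)).symm.trans (by rw [e, add_neg_cancel]))⟩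
    obtain ⟨e, e0, he⟩ := exists_ker (f := fun e : K => ((h • ((0, e, 0) : V4 K)).1 : K))
      (fun x y => by rw [← AddSubgroup.coe_add, ← Prod.fst_add, ← smul_add]; simp) θ
      fun x e => hθ (e ▸ star_T0 _)
    have heB : ((0, e, 0) : V4 K) ∈ B := m.minD hHG hτ hmin hZ (fun β => t1 _ β rfl) hh hN
      one_ne_zero (t1 _ _ (Subtype.ext he))
    obtain ⟨v, v1, hv⟩ : ∃ v : V4 K, v.1 = 0 ∧ (h • v).1 ≠ 0 := by
      by_contra hn
      push Not at hn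
      exact hN ⟨hn, fun v a b => by rw [hU v a b h hh, b]⟩
    have hc : ((h • v).1 : K) ≠ 0 := fun e => hv (Subtype.ext e)
    have := m.minD hHG hτ hmin hB (fun β => hZB (t1 v β v1)) hh hN (div_ne_zero e0 hc) (by
      refine (AddSubgroup.add_mem_cancel_right B (B.neg_mem heB)).1 (hZB (mem_Zs.2 ⟨by simp, ?_⟩))
      simp [div_mul_cancel₀ _ hc]) h hh _ (hτ 1)
    rw [m.act] at this
    exact hv (by simpa [v1] using (mem_Zs.1 this).2)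
  · push Not at hU
    obtain ⟨y, y1, y2, α, hα, hne⟩ := hU
    have hc : (h • y).1 ≠ 0 := fun e => hne (A1 h hh hN y y1 y2 e α hα)
    have ez : z = (0, 0, z.2.2) := Prod.ext h1 (Prod.ext h2 rfl)
    obtain ⟨β, hβ, e⟩ := exists_zero_of_ker (cg h⁻¹) hc (f₀ := z.2.2)
      (fun e => hz (by rw [ez, e]; rfl)) (by rw [← ez, cg_apply, hfix _ (H.inv_mem hh), h1])
    refine hne (A1 _ (H.mul_mem (H.mul_mem (H.inv_mem hh) (hτ β)) hh)
      (m.conj_not (hHG hh) hN hβ) y y1 y2 ?_ α hα)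
    simpa [mul_smul, m.act, y1, smul_sub] using e

theorem mem_of_zero (m : L2 G τ) (hg : g ∈ G) {f : T0 K} (hf : f ≠ 0)
    (h : (g • ((0, 0, f) : V4 K)).1 = 0) : g ∈ Fl K Γ := by
  by_contra hN
  exact hf (congrArg (·.2.2) (m.stepA hg hN rfl rfl h))

theorem stepB (m : L2 G τ) (hg : g ∈ G) (hN : g ∉ Fl K Γ) (hg' : g' ∈ G) (hN' : g' ∉ Fl K Γ) :
    ∃ β, g⁻¹ * τ β * g' ∈ Fl K Γ := by
  obtain ⟨κ, κ0, hκ⟩ := exists_tz K
  have k0 : (⟨κ, hκ⟩ : T0 K) ≠ 0 := fun e => κ0 (congrArg Subtype.val e)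
  obtain ⟨β, e⟩ := exists_zero_of_inj (cg g⁻¹) (v := g' • (0, 0, ⟨κ, hκ⟩))
    (fun e => hN' (m.mem_of_zero hg' k0 e)) fun f e => by_contra fun hf =>
      hN (inv_mem_iff.1 (m.mem_of_zero (inv_mem hg) hf e))
  exact ⟨β, m.mem_of_zero (G.mul_mem (G.mul_mem (G.inv_mem hg) (m.mem β)) hg') k0
    (by simpa [mul_smul, m.act] using e)⟩

end L2

end Cfsg.Agent.SU4
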