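import Cfsg.Agent.Lib.U4.Lin2a

/-!
# S5210: the Weyl elements (see notes/U4_lead.md)
-/

set_option autoImplicit false
set_option linter.unusedSectionVars false

namespace Cfsg.Agent.SU4

open Cfsg.Agent.U5 Subgroup

variable {K : Type*} [Field K] [StarRing K] [hK : UF K] {Γ : Type*} [Group Γ] [Finite Γ]
  [DistribMulAction Γ (V4 K)] {G : Subgroup Γ} {τ : K → Γ} {g : Γ}
  {ε : T0 K →+ K} {φ : T0 K →+ T0 K} {μ : K →+ T0 K}

/-- The second adapted coordinate. -/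
def pi2 (ε : T0 K →+ K) : V4 K →+ K :=
  AddMonoidHom.mk' (fun v => v.2.1 - ε v.1) fun v w => by simp; ring

/-- The third adapted coordinate. -/
def rho (ε : T0 K →+ K) (φ : T0 K →+ T0 K) (μ : K →+ T0 K) : V4 K →+ T0 K :=
  AddMonoidHom.mk' (fun v => v.2.2 - φ v.1 - μ (v.2.1 - ε v.1)) fun v w => by simp; abel

/-- The quadratic term in adapted coordinates. -/
def QQ (ε : T0 K →+ K) (μ : K →+ T0 K) (β : K) : T0 K →+ T0 K :=
  AddMonoidHom.mk' (fun c => ww β (ε c) + nm β c - μ (β * c)) fun v w =>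
    Subtype.ext (by simp [mul_add]; ring)

theorem pi2_apply (v : V4 K) : pi2 ε v = v.2.1 - ε v.1 := rfl
theorem rho_apply (v : V4 K) : rho ε φ μ v = v.2.2 - φ v.1 - μ (v.2.1 - ε v.1) := rfl
theorem QQ_apply (β : K) (c : T0 K) : QQ ε μ β c = ww β (ε c) + nm β c - μ (β * c) := rfl

theorem pi2_tt (β : K) (v : V4 K) : pi2 ε (tt β v) = pi2 ε v + β * v.1 := by
  simp [pi2_apply]; ring

theorem rho_tt (β : K) (v : V4 K) :
    rho ε φ μ (tt β v) = rho ε φ μ v + ww β (pi2 ε v) + QQ ε μ β v.1 :=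
  Subtype.ext (by simp [pi2_apply, rho_apply, QQ_apply]; ring)

theorem ext_co {v w : V4 K} (h1 : v.1 = w.1) (h2 : pi2 ε v = pi2 ε w)
    (h3 : rho ε φ μ v = rho ε φ μ w) : v = w := by
  have h4 : v.2.1 = w.2.1 := by simpa [pi2_apply, h1] using h2
  exact Prod.ext h1 (Prod.ext h4 (by simpa [rho_apply, h1, h4] using h3))

/-- Coordinates adapted to `g Z ≤ g V₁`. -/
structure Co (g : Γ) (ε : T0 K →+ K) (φ : T0 K →+ T0 K) (μ : K →+ T0 K) : Prop where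
  hV : ∀ v : V4 K, (g⁻¹ • v).1 = 0 ↔ rho ε φ μ v = 0
  hP : ∀ v : V4 K, rho ε φ μ v = 0 → ((g⁻¹ • v).2.1 = 0 ↔ pi2 ε v = 0)

theorem L2.exists_co (m : L2 G τ) (hg : g ∈ G) (hN : g ∉ Fl K Γ) : ∃ ε φ μ, Co (K := K) g ε φ μ := by
  let j : T0 K →+ V4 K := (AddMonoidHom.inr _ _).comp (AddMonoidHom.inr K _)
  have bij : ∀ g ∈ G, g ∉ Fl K Γ → Function.Bijective ((cg g).comp j) := fun g hg hN =>
    Finite.injective_iff_bijective.1 ((injective_iff_map_eq_zero _).2 fun f e =>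
      by_contra fun hf => hN (m.mem_of_zero hg hf e))
  let a := AddEquiv.ofBijective _ (bij g hg hN)
  let b := AddEquiv.ofBijective _ (bij _ (inv_mem hg) (mt inv_mem_iff.1 hN))
  let p : T0 K →+ V4 K := (DistribSMul.toAddMonoidHom _ g).comp (j.comp a.symm.toAddMonoidHom)
  have p1 : ∀ c, (p c).1 = c := a.apply_symm_apply
  have p2 : ∀ c, g⁻¹ • p c = (0, 0, a.symm c) := fun c => inv_smul_smul _ _
  let μ : K →+ T0 K := -b.symm.toAddMonoidHom.comp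
    ((cg g⁻¹).comp ((AddMonoidHom.inr _ _).comp (AddMonoidHom.inl K _)))
  have w1 : ∀ e, (g⁻¹ • ((0, e, μ e) : V4 K)).1 = 0 := fun e => by
    have : (g⁻¹ • ((0, 0, μ e) : V4 K)).1 = -(g⁻¹ • ((0, e, 0) : V4 K)).1 :=
      (map_neg b _).trans (congrArg _ (b.apply_symm_apply _))
    rw [show ((0, e, μ e) : V4 K) = (0, e, 0) + (0, 0, μ e) by simp, smul_add, Prod.fst_add, this,
      add_neg_cancel]
  let ε : T0 K →+ K := (AddMonoidHom.fst _ _).comp ((AddMonoidHom.snd _ _).comp p)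
  let φ : T0 K →+ T0 K := (AddMonoidHom.snd _ _).comp ((AddMonoidHom.snd _ _).comp p)
  have dec : ∀ v : V4 K, v = p v.1 + (0, pi2 ε v, μ (pi2 ε v)) + (0, 0, rho ε φ μ v) := fun v =>
    Prod.ext (by simp [p1]) (Prod.ext (by simp [pi2_apply, ε]) (by simp [pi2_apply, rho_apply, φ]))
  refine ⟨ε, φ, μ, fun v => ?_, fun v hv => ?_⟩
  · conv_lhs => rw [dec v, smul_add, smul_add, p2, Prod.fst_add, Prod.fst_add, w1]
    simp only [add_zero, zero_add]
    exact map_eq_zero_iff b b.injective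
  · conv_lhs => rw [dec v, hv, smul_add, smul_add, p2]
    simp only [Prod.snd_add, Prod.fst_add, zero_add, show ((0, 0, 0) : V4 K) = 0 from rfl,
      smul_zero, add_zero]
    refine ⟨fun h => ?_, fun h => by
      rw [h, map_zero, show ((0, 0, 0) : V4 K) = 0 from rfl, smul_zero]; rfl⟩
    have := m.stepA hg hN (w1 _) h (by rw [smul_inv_smul])
    rw [smul_eq_zero_iff_eq] at this
    exact congrArg (·.2.1) this

/-- What is known about the element interchanging `Z` and `g Z`. -/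
structure Sw (g n : Γ) (ε : T0 K →+ K) (φ : T0 K →+ T0 K) (μ : K →+ T0 K) (β β₁ : K)
    (r : T0 K →+ K) : Prop where
  fl : n * g ∈ Fl K Γ
  onP : ∀ x, pi2 ε x = 0 → rho ε φ μ x = 0 → n • x = (0, 0, QQ ε μ β x.1)
  inj : Function.Injective (QQ ε μ β)
  rQ : ∀ c, β * c + r (QQ ε μ β c) = 0
  onW : ∀ w : V4 K, w.1 = 0 → rho ε φ μ w = 0 → (n • w).1 = 0 ∧ rho ε φ μ (n • w) = 0 ∧
    pi2 ε (n • w) = pi2 ε w + r (ww β (pi2 ε w))
  onZ : ∀ f, pi2 ε (n • ((0, 0, f) : V4 K)) = 0 ∧ rho ε φ μ (n • ((0, 0, f) : V4 K)) = 0 ∧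
    r f + β₁ * (n • ((0, 0, f) : V4 K)).1 = 0 ∧
    f + ww β₁ (r f) + QQ ε μ β₁ (n • ((0, 0, f) : V4 K)).1 = 0

theorem L2.exists_sw (m : L2 G τ) (hg : g ∈ G) (hN : g ∉ Fl K Γ) (co : Co g ε φ μ) {β : K}
    (hβ : β ≠ 0) : ∃ n ∈ G, ∃ β₁ r, Sw g n ε φ μ β β₁ r := by
  obtain ⟨γ, h1⟩ := m.stepB (inv_mem hg) (mt inv_mem_iff.1 hN)
    (G.mul_mem (G.mul_mem (G.inv_mem hg) (m.mem β)) hg) (m.conj_not hg hN hβ)
  set u := g * τ γ * g⁻¹ with hu
  have h2 : u * τ β * g ∈ Fl K Γ := by simpa only [hu, inv_inv, mul_assoc] using h1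
  have huG : u ∈ G := G.mul_mem (G.mul_mem hg (m.mem γ)) (G.inv_mem hg)
  obtain ⟨β₁, h3⟩ := m.stepB hg hN huG fun h => hN ((mul_mem_cancel_left
    (mul_mem h (m.tau_Fl β))).1 h2)
  have e0 : ∀ v : V4 K, g⁻¹ • (u • v - v) = tt γ (g⁻¹ • v) - g⁻¹ • v := fun v => by
    rw [smul_sub, hu, mul_smul, mul_smul, inv_smul_smul, m.act]
  have u0 : ∀ v : V4 K, rho ε φ μ (u • v - v) = 0 := fun v => (co.hV _).1 (by simp [e0])
  have u1 : ∀ v : V4 K, rho ε φ μ (u • v) = rho ε φ μ v := fun v => by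
    simpa [sub_eq_zero] using u0 v
  let r : T0 K →+ K := (pi2 ε).comp ((DistribSMul.toAddMonoidHom _ u).comp
    ((AddMonoidHom.inr _ _).comp (AddMonoidHom.inr K _)))
  have u2 : ∀ v : V4 K, pi2 ε (u • v) = pi2 ε v + r (rho ε φ μ v) := fun v => by
    have h : rho ε φ μ (v - (0, 0, rho ε φ μ v)) = 0 := by rw [map_sub]; simp [rho_apply]
    have := (co.hP _ (u0 (v - (0, 0, rho ε φ μ v)))).1 (by rw [e0]; simp [(co.hV _).2 h])
    rw [smul_sub, map_sub, map_sub, map_sub, pi2_apply ((0, 0, _) : V4 K)] at this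
    change _ = _ + pi2 ε (u • (0, 0, rho ε φ μ v))
    simp only [map_zero, sub_zero] at this
    linear_combination this
  have h4 : g⁻¹ * (τ β₁ * u * τ β) ∈ Fl K Γ := by
    simpa only [mul_assoc] using mul_mem h3 (m.tau_Fl β)
  have h5 : τ β₁ * u * τ β * g ∈ Fl K Γ := by
    simpa only [mul_assoc] using mul_mem (m.tau_Fl β₁) h2
  have ac : ∀ v : V4 K, (τ β₁ * u * τ β) • v = tt β₁ (u • tt β v) := fun v => by
    rw [mul_smul, mul_smul, m.act, m.act]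
  have P1 : ∀ x, pi2 ε x = 0 → rho ε φ μ x = 0 → u • tt β x = (0, 0, QQ ε μ β x.1) ∧
      β * x.1 + r (QQ ε μ β x.1) = 0 := fun x a b => by
    have a1 := h2.1 _ ((co.hV x).2 b)
    have a2 := h2.2 _ ((co.hV x).2 b) ((co.hP x b).2 a)
    rw [mul_smul, smul_inv_smul, mul_smul, m.act] at a1 a2
    have a3 : rho ε φ μ (tt β x) = QQ ε μ β x.1 := by
      rw [rho_tt, a, b]; exact Subtype.ext (by simp)
    have a4 : pi2 ε (u • tt β x) = 0 := by simp [pi2_apply, a1, a2]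
    exact ⟨ext_co (ε := ε) (φ := φ) (μ := μ) a1 (by rw [a4]; simp [pi2_apply])
      (by rw [u1, a3]; simp [rho_apply]), by rwa [u2, pi2_tt, a, zero_add, a3] at a4⟩
  have P2 := fun c : T0 K => P1 (c, ε c, φ c) (by simp [pi2_apply]) (by simp [rho_apply])
  refine ⟨_, G.mul_mem (G.mul_mem (m.mem β₁) huG) (m.mem β), β₁, r, h5, fun x a b => ?_,
    (injective_iff_map_eq_zero _).2 fun c e => ?_, fun c => (P2 c).2, fun w a b => ?_,
    fun f => ?_⟩
  · rw [ac, (P1 x a b).1, tt_of_Z _ rfl rfl]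
  · have := (P2 c).1
    rw [e, show ((0, 0, 0) : V4 K) = 0 from rfl, smul_eq_zero_iff_eq] at this
    exact congrArg (·.1) this
  · have a1 := h5.1 _ ((co.hV w).2 b)
    rw [mul_smul, smul_inv_smul] at a1
    refine ⟨a1, (co.hV _).1 (by rw [← mul_smul]; exact h4.1 _ a), ?_⟩
    rw [ac] at a1 ⊢
    rw [pi2_tt, show (u • tt β w).1 = 0 from a1, u2, pi2_tt, rho_tt, a, b]
    simp
  · have a1 := h4.1 (0, 0, f) rfl
    have a2 := h4.2 (0, 0, f) rfl rfl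
    rw [mul_smul] at a1 a2
    replace a1 := (co.hV _).1 a1
    replace a2 := (co.hP _ a1).1 a2
    have a3 : pi2 ε (u • ((0, 0, f) : V4 K)) = r f := rfl
    refine ⟨a2, a1, ?_⟩
    rw [ac, tt_of_Z β rfl rfl] at a1 a2 ⊢
    rw [pi2_tt, a3] at a2
    rw [rho_tt, u1, a3] at a1
    exact ⟨a2, by simpa [rho_apply] using a1⟩

end Cfsg.Agent.SU4
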