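import Cfsg.Agent.Lib.U4.Lin2b

/-!
# S5210: identification of the Weyl elements (see notes/U4_lead.md)
-/

set_option autoImplicit false
set_option linter.unusedSectionVars false

namespace Cfsg.Agent.SU4

open Cfsg.Agent.U5 Subgroup

variable {K : Type*} [Field K] [StarRing K] [hK : UF K] {Γ : Type*} [Group Γ] [Finite Γ]
  [DistribMulAction Γ (V4 K)] {G : Subgroup Γ} {τ : K → Γ} {g n n' : Γ}
  {ε : T0 K →+ K} {φ : T0 K →+ T0 K} {μ : K →+ T0 K} {β β' β₁ β₁' : K} {r r' : T0 K →+ K}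

variable (K) in
theorem exists_delta : ∃ δ : K, star δ ≠ δ ∧ δ + star δ ≠ 0 := by
  obtain ⟨θ, hθ⟩ := exists_star_ne K
  by_cases h : θ + star θ = 0
  · refine ⟨θ + 1, by simpa using hθ, fun e => hθ ?_⟩
    rw [star_add, star_one] at e
    linear_combination (1 + θ) * h - θ * e
  · exact ⟨θ, hθ, h⟩

variable (K) in
/-- The flag stabilizer acts semilinearly on `V₁ / Z`. -/
def Semi (G : Subgroup Γ) : Prop := ∀ d ∈ G, d ∈ Fl K Γ →
  ∃ (b : K) (σ : K ≃+* K), ∀ v : V4 K, v.1 = 0 → (d • v).2.1 = b * σ v.2.1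

theorem Sw.cmp (semi : Semi K G) (hn : n ∈ G) (hn' : n' ∈ G) (s : Sw g n ε φ μ β β₁ r)
    (s' : Sw g n' ε φ μ β' β₁' r') :
    ∃ (b : K) (σ : K ≃+* K), ∀ e, e + r (ww β e) = b * σ (e + r' (ww β' e)) := by
  obtain ⟨b, σ, h⟩ := semi _ (G.mul_mem hn (G.inv_mem hn'))
    (by simpa [mul_assoc] using mul_mem s.fl (inv_mem s'.fl))
  refine ⟨b, σ, fun e => ?_⟩
  have h0 : rho ε φ μ (0, e, μ e) = 0 := by simp [rho_apply]
  obtain ⟨a1, -, a2⟩ := s.onW _ rfl h0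
  obtain ⟨b1, -, b2⟩ := s'.onW _ rfl h0
  have := h _ b1
  rw [mul_smul, inv_smul_smul] at this
  simp only [pi2_apply, a1, b1, map_zero, sub_zero] at a2 b2
  rw [← a2, ← b2, this]

theorem Sw.r_eq (s : Sw g n ε φ μ β β₁ r) (f : T0 K) :
    ∃ c, QQ ε μ β c = f ∧ r f = -(β * c) := by
  obtain ⟨c, rfl⟩ := Finite.surjective_of_injective s.inj f
  exact ⟨c, rfl, eq_neg_of_add_eq_zero_right (s.rQ c)⟩

section
variable (semi : Semi K G) (sw : ∀ β, β ≠ 0 → ∃ n ∈ G, ∃ β₁ r, Sw g n ε φ μ β β₁ r)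
include semi sw

theorem QQ_scalar (hβ : β ≠ 0) :
    ∃ s : K, s ≠ 0 ∧ star s = s ∧ ∀ c, (QQ ε μ β c : K) = s * c := by
  obtain ⟨δ, d1, d2⟩ := exists_delta K
  obtain ⟨n, hn, β₁, r, s⟩ := sw β hβ
  obtain ⟨n', hn', β₁', r', s'⟩ := sw (β * δ) (mul_ne_zero hβ fun e => d1 (by simp [e]))
  obtain ⟨b, σ, h⟩ := s.cmp semi hn hn' s'
  have key : ∀ x, star x = x → ∃ c : T0 K, (QQ ε μ β c : K) = β * star β * (δ - star δ) * x ∧
      β * (δ * x - c) = b * σ (β * δ) * σ x := fun x hx => by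
    obtain ⟨c, c1, c2⟩ := s.r_eq (ww β (β * δ * x))
    have := h (β * δ * x)
    rw [c2, show ww (β * δ) (β * δ * x) = 0 from Subtype.ext (by simp [hx]; ring), map_zero,
      add_zero, map_mul] at this
    exact ⟨c, by rw [c1]; simp [hx]; ring, by linear_combination this⟩
  obtain ⟨c₁, e1, e2⟩ := key 1 (star_one _)
  have n0 : β * star β * (δ - star δ) ≠ 0 :=
    mul_ne_zero (mul_ne_zero hβ (star_ne_zero.2 hβ)) (sub_ne_zero.2 d1.symm)
  have c0 : (c₁ : K) ≠ 0 := fun e => n0 (by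
    rw [show c₁ = 0 from Subtype.ext e] at e1; simpa using e1.symm)
  refine ⟨β * star β * (δ - star δ) / c₁, div_ne_zero n0 c0, by simp; field_simp; ring,
    fun c => ?_⟩
  have hx : star ((c : K) / c₁) = c / c₁ := by simp [neg_div_neg_eq]
  obtain ⟨c', e3, e4⟩ := key _ hx
  have e5 : δ * (c / c₁) - c' = (δ - c₁) * σ (c / c₁) :=
    mul_left_cancel₀ hβ (by rw [map_one] at e2; linear_combination e4 - σ (c / c₁) * e2)
  have e6 := congrArg star e5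
  rw [star_sub, star_mul, star_mul, map_star', hx, star_sub, star_T0, star_T0] at e6
  have e7 : σ (c / c₁) = c / c₁ := mul_left_cancel₀ d2 (by linear_combination -e5 - e6)
  have e8 : c' = c := Subtype.ext (by
    rw [e7] at e5; linear_combination -e5 + mul_div_cancel₀ (c : K) c0)
  rw [← e8, e3, e8]; ring

omit semi sw in
theorem Sw.R_eq (s : Sw g n ε φ μ β β₁ r) {t : K} (ht : t ≠ 0)
    (h : ∀ c, (QQ ε μ β c : K) = t * c) (f : T0 K) : r f = -(β * f / t) := by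
  obtain ⟨c, c1, c2⟩ := s.r_eq f
  rw [c2, ← c1, h]; field_simp

theorem QQ_eq (hβ : β ≠ 0) (c : T0 K) : (QQ ε μ β c : K) = β * star β * c := by
  obtain ⟨κ, κ0, hκ⟩ := exists_tz K
  obtain ⟨θ, hθ⟩ := exists_star_ne K
  let k : T0 K := ⟨κ, hκ⟩
  obtain ⟨β', b0, hb⟩ := exists_ker (f := fun x : K => ((ww x (ε k) : K) - μ (x * κ)) / κ)
    (fun x y => by simp [add_mul]; ring) θ fun x e => hθ (by
      rw [← e, star_div₀, star_sub, star_T0, star_T0, hκ]; field_simp; ring)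
  obtain ⟨t, t0, -, ht⟩ := QQ_scalar semi sw hβ
  obtain ⟨t', t0', -, ht'⟩ := QQ_scalar semi sw b0
  have e1 : t' = β' * star β' := mul_right_cancel₀ κ0 (by
    have := ht' k
    simp only [QQ_apply, AddSubgroup.coe_sub, AddSubgroup.coe_add, coe_nm] at this
    rw [div_eq_zero_iff, or_iff_left κ0] at hb
    linear_combination hb - this)
  obtain ⟨n, hn, β₁, r, s⟩ := sw β hβ
  obtain ⟨n', hn', β₁', r', s'⟩ := sw β' b0
  obtain ⟨b, σ, h⟩ := s.cmp semi hn hn' s'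
  have b1 := star_ne_zero.2 b0
  have key : ∀ e, (1 - β * star β / t) * e + β ^ 2 / t * star e =
      b * σ (β' / star β') * σ (star e) := fun e => by
    have := h e
    rw [s.R_eq t0 ht, s'.R_eq t0' ht', e1, coe_ww, coe_ww,
      show e + -(β' * (star β' * e - β' * star e) / (β' * star β')) = β' / star β' * star e by
        field_simp; ring, map_mul] at this
    linear_combination this
  have k1 := key 1
  have k2 := key θ
  have k3 := key (θ * θ)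
  rw [star_one, map_one] at k1
  rw [star_mul, map_mul] at k3
  have e2 : (1 - β * star β / t) * (β ^ 2 / t * (θ - star θ) ^ 2) = 0 := by
    linear_combination (b * σ (β' / star β')) * k3 + ((1 - β * star β / t) * (θ * θ) +
      β ^ 2 / t * (star θ * star θ)) * k1 - ((1 - β * star β / t) * θ + β ^ 2 / t * star θ +
      b * σ (β' / star β') * σ (star θ)) * k2
  have e3 := (mul_eq_zero.1 e2).resolve_right (mul_ne_zero (div_ne_zero (pow_ne_zero _ hβ) t0)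
    (pow_ne_zero _ (sub_ne_zero.2 hθ.symm)))
  rw [ht, (div_eq_one_iff_eq t0).1 (sub_eq_zero.1 e3).symm]

theorem exists_gamma : ∃ γ : K, (∀ c : T0 K, ε c = γ * c) ∧ ∀ e, μ e = ww γ e := by
  have h1 : ∀ (c : T0 K), (c : K) ≠ 0 → ∀ e, μ e = ww (ε c / c) e := fun c hc e => by
    by_cases he : e = 0
    · exact he ▸ (map_zero μ).trans (Subtype.ext (by simp))
    have := QQ_eq semi sw (div_ne_zero he hc) c
    simp only [QQ_apply, AddSubgroup.coe_sub, AddSubgroup.coe_add, coe_nm, coe_ww,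
      div_mul_cancel₀ _ hc] at this
    refine Subtype.ext ?_
    simp only [coe_ww, star_div₀, star_T0] at this ⊢
    linear_combination (exp := 1) -this
  obtain ⟨κ, κ0, hκ⟩ := exists_tz K
  refine ⟨_, fun c => ?_, h1 ⟨κ, hκ⟩ κ0⟩
  by_cases hc : (c : K) = 0
  · simp [hc, show c = 0 from Subtype.ext hc]
  have : star (ε ⟨κ, hκ⟩ / κ - ε c / c) = 0 := eq_zero_of_real fun y => by
    have := congrArg Subtype.val ((h1 c hc y).symm.trans (h1 ⟨κ, hκ⟩ κ0 y))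
    simp only [coe_ww] at this
    rw [star_star, star_sub]
    linear_combination -this
  rw [star_eq_zero, sub_eq_zero] at this
  rw [this, div_mul_cancel₀ _ hc]

theorem exists_mu' (act : ∀ β (v : V4 K), τ β • v = tt β v) (mem : ∀ β, τ β ∈ G) :
    ∃ μ₀ : T0 K →+ T0 K, ∀ β, β ≠ 0 → ∃ n ∈ G, ∀ v, n • psi μ₀ v = psi μ₀ (mm β v) := by
  obtain ⟨γ, hε, hμ⟩ := exists_gamma semi sw
  let μ₀ : T0 K →+ T0 K := φ - AddMonoidHom.mk' (nm γ) fun a b => Subtype.ext (by simp; ring)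
  have A : ∀ v, tt γ (psi μ₀ v) = (v.1, ε v.1, φ v.1) + (0, v.2.1, μ v.2.1) + (0, 0, v.2.2) :=
    fun v => V4.ext (by simp [psi]) (by simp [psi, hε]; ring) (by simp [psi, hμ, μ₀]; ring)
  refine ⟨μ₀, fun β hβ => ?_⟩
  obtain ⟨n, hn, β₁, r, s⟩ := sw β hβ
  have b1 := star_ne_zero.2 hβ
  have hr := s.R_eq (mul_ne_zero hβ b1) (QQ_eq semi sw hβ)
  refine ⟨_, G.mul_mem (G.mul_mem (mem (-γ)) hn) (mem γ), fun v => ?_⟩
  rw [mul_smul, mul_smul, act, act, ← tt_zero (psi μ₀ (mm β v)), ← neg_add_cancel γ, ← tt_tt, A, A,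
    smul_add, smul_add, s.onP _ (by simp [pi2_apply]) (by simp [rho_apply])]
  obtain ⟨w1, w2, w3⟩ := s.onW (0, v.2.1, μ v.2.1) rfl (by simp [rho_apply])
  obtain ⟨z1, z2, z3, z4⟩ := s.onZ v.2.2
  have z5 : ((n • ((0, 0, v.2.2) : V4 K)).1 : K) = β⁻¹ * star β⁻¹ * v.2.2 := by
    by_cases hf : v.2.2 = 0
    · rw [hf, show ((0, 0, 0) : V4 K) = 0 from rfl, smul_zero]; simp
    have f0 : (v.2.2 : K) ≠ 0 := fun e => hf (Subtype.ext e)
    generalize (n • ((0, 0, v.2.2) : V4 K)).1 = c at z3 z4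
    have z6 : (v.2.2 : K) = star β * β₁ * c := by
      rw [hr] at z3; field_simp at z3; linear_combination -z3
    have h1 : β₁ ≠ 0 := fun e => f0 (by simp [z6, e])
    have c0 : (c : K) ≠ 0 := fun e => f0 (by simp [z6, e])
    replace z4 := congrArg Subtype.val z4
    simp only [AddSubgroup.coe_add, QQ_eq semi sw h1, coe_ww, eq_neg_of_add_eq_zero_left z3,
      star_neg, star_mul, star_T0, AddSubgroup.coe_zero] at z4
    have z7 : star β = star β₁ := mul_right_cancel₀ (mul_ne_zero h1 c0) (by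
      linear_combination z4 - z6)
    rw [z6, ← star_injective z7, star_inv₀]; field_simp
  have e1 : n • ((0, v.2.1, μ v.2.1) : V4 K) = (0, (mm β v).2.1, μ (mm β v).2.1) :=
    ext_co (ε := ε) (φ := φ) (μ := μ) w1 (by rw [w3, hr]; simp [pi2_apply, mm]; field_simp; ring)
      (by rw [w2]; simp [rho_apply])
  have e2 : n • ((0, 0, v.2.2) : V4 K) = ((mm β v).1, ε (mm β v).1, φ (mm β v).1) :=
    ext_co (ε := ε) (φ := φ) (μ := μ) (Subtype.ext z5) (by rw [z1]; simp [pi2_apply])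
      (by rw [z2]; simp [rho_apply])
  rw [e1, e2, show QQ ε μ β v.1 = (mm β v).2.2 from Subtype.ext (QQ_eq semi sw hβ _)]
  congr 1
  abel

end

theorem psi_Z (μ₀ : T0 K →+ T0 K) (f : T0 K) : psi μ₀ (0, 0, f) = (0, 0, f) := by simp [psi]

/-- The main result under the hypotheses `L2` and `Semi`. -/
theorem L2.exists_mu (m : L2 G τ) (semi : Semi K G) (hg : g ∈ G) (hN : g ∉ Fl K Γ) :
    ∃ μ₀ : T0 K →+ T0 K, (∀ β, β ≠ 0 → ∃ n ∈ G, ∀ v, n • psi μ₀ v = psi μ₀ (mm β v)) ∧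
      (∀ n ∈ G, (∀ v, n • psi μ₀ v = psi μ₀ (mm 1 v)) →
        ∀ g ∈ G, g ∈ Fl K Γ ∨ ∃ β, n⁻¹ * τ β * g ∈ Fl K Γ) ∧
      ∀ d ∈ G, d ∈ Fl K Γ → (∀ v : V4 K, v.2.1 = 0 → (d • v).2.1 = 0) →
        ∀ c, (d • ((c, 0, μ₀ c) : V4 K)).2.2 = μ₀ (d • ((c, 0, μ₀ c) : V4 K)).1 := by
  obtain ⟨ε, φ, μ, co⟩ := m.exists_co hg hN
  obtain ⟨μ₀, h⟩ := exists_mu' semi (fun β hβ => m.exists_sw hg hN co hβ) m.act m.mem
  have hZ : ∀ n : Γ, (∀ v, n • psi μ₀ v = psi μ₀ (mm 1 v)) →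
      ∀ f, n • ((0, 0, f) : V4 K) = (f, 0, μ₀ f) := fun n hn f => by
    rw [← psi_Z μ₀, hn, show mm 1 ((0, 0, f) : V4 K) = (f, 0, 0) from
      V4.ext (by simp [mm]) (by simp [mm]) (by simp [mm])]
    simp [psi]
  have nN : ∀ n : Γ, (∀ v, n • psi μ₀ v = psi μ₀ (mm 1 v)) → n ∉ Fl K Γ := fun n hn hF => by
    obtain ⟨κ, κ0, hκ⟩ := exists_tz K
    exact κ0 (congrArg Subtype.val ((congrArg (·.1) (hZ n hn ⟨κ, hκ⟩)).symm.trans (hF.1 _ rfl)))
  refine ⟨μ₀, h, fun n hn e g hg => or_iff_not_imp_left.2 fun hN => m.stepB hn (nN n e) hg hN,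
    fun d hd hF h0 c => ?_⟩
  obtain ⟨n, hn, e⟩ := h 1 one_ne_zero
  obtain ⟨β, hb⟩ := m.stepB hn (nN n e) (G.mul_mem hd hn)
    fun h => nN n e ((mul_mem_cancel_left hF).1 h)
  obtain ⟨f, a1⟩ : ∃ f, (n⁻¹ * τ β * (d * n)) • ((0, 0, c) : V4 K) = (0, 0, f) :=
    ⟨_, Prod.ext (hb.1 (0, 0, c) rfl) (Prod.ext (hb.2 (0, 0, c) rfl rfl) rfl)⟩
  have a3 : tt β (d • ((c, 0, μ₀ c) : V4 K)) = (f, 0, μ₀ f) := by
    rw [← hZ n e, ← hZ n e f, ← a1, ← m.act]
    simp [mul_smul]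
  have a4 := h0 (c, 0, μ₀ c) rfl
  generalize d • ((c, 0, μ₀ c) : V4 K) = w at a3 a4
  have b1 : w.1 = _ := congrArg (·.1) a3
  have b2 : β * w.1 = 0 := by simpa [a4] using congrArg (·.2.1) a3
  rw [b1]
  refine Eq.trans (Subtype.ext ?_) (congrArg (·.2.2) a3)
  simp only [tt_f, AddSubgroup.coe_add, coe_ww, coe_nm, a4, star_zero]
  linear_combination -star β * b2

end Cfsg.Agent.SU4
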