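import Cfsg.Agent.Lib.U4.Defs
import Cfsg.Agent.Lib.SU4.F9

/-!
# S5210: interface of the models for q = 3 (see notes/U4.md)
-/

set_option autoImplicit false
set_option linter.unusedSectionVars false
set_option linter.unusedVariables false

namespace Cfsg.Agent.U4

open Subgroup Cfsg Cfsg.FusionSystem Cfsg.Agent.U5 U4.US
open scoped commutatorElement

universe u

open SU4

section
variable {K : Type u} [Field K] [StarRing K] [hK : UF K]

/-- the stabilizer of `w` -/
def Hw (w : K) : Subgroup (Par K) :=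
  let M : Submonoid (Par K) :=
    { carrier := {t | (t.b : K) ^ 2 * w = t.a * t.σ w}
      one_mem' := by simp
      mul_mem' := fun {s t} (hs : _ = _) (ht : _ = _) => by
        have := congrArg s.σ ht
        simp only [map_mul, map_pow] at this
        simp only [Set.mem_setOf_eq, Par.mul_a, Par.mul_b, Par.mul_σ]
        linear_combination (s.σ t.b) ^ 2 * hs + s.a * this }
  { M with inv_mem' := fun h => H7.inv_mem_of_pow_mem (M := M) h }

/-- the stabilizer of `±w` -/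
def Hw' (w : K) : Subgroup (Par K) :=
  let M : Submonoid (Par K) :=
    { carrier := {t | ((t.b : K) ^ 2 * w) ^ 2 = (t.a * t.σ w) ^ 2}
      one_mem' := by simp
      mul_mem' := fun {s t} (hs : _ = _) (ht : _ = _) => by
        have := congrArg s.σ ht
        simp only [map_mul, map_pow] at this
        simp only [Set.mem_setOf_eq, Par.mul_a, Par.mul_b, Par.mul_σ]
        linear_combination (s.σ t.b) ^ 4 * hs + s.a ^ 2 * this }
  { M with inv_mem' := fun h => H7.inv_mem_of_pow_mem (M := M) h }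

theorem mem_Hw {w : K} {t : Par K} : t ∈ Hw w ↔ (t.b : K) ^ 2 * w = t.a * t.σ w := Iff.rfl
theorem mem_Hw' {w : K} {t : Par K} :
    t ∈ Hw' w ↔ ((t.b : K) ^ 2 * w) ^ 2 = (t.a * t.σ w) ^ 2 := Iff.rfl

/-- some element of `G` normalizes `QQ` and induces `L` on `QQ / Z1` -/
def HasL (L : K × K → K × K) {G : Type*} [Group G] (ι : US K →* G) : Prop :=
  ∃ g : G, ∀ x ∈ QQ K, ∃ y ∈ QQ K, ι y = g * ι x * g⁻¹ ∧ (y.b, y.e) = L (x.b, x.e)

end

/-- the element `i` -/
def iF : F9 := ⟨0, 1⟩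

/-- the action of `φ_y ∘ n1 ∘ φ_{-y}` on `QQ / Z1` -/
def NL (y : F9) (v : F9 × F9) : F9 × F9 :=
  (iF * (v.2 - y * star v.1), iF * v.1 + y * star (iF * (v.2 - y * star v.1)))

/-- a model with torus `H` and `NL y`, `y ∈ Y`, in the automizer of `QQ` -/
def M3 (H : Subgroup (Par F9)) (Y : List F9) : Prop :=
  ∃ (G : Type) (_ : Group G) (_ : Finite G) (ι : US F9 →* G),
    Mod 3 H ι ∧ ∀ y ∈ Y, HasL (NL y) ι

/-- what is checked in the lattice -/
structure Raw (H : Subgroup (Par F9)) {G : Type*} [Group G] (ι : US F9 →* G) : Prop where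
  inj : Function.Injective ι
  par : ∀ t ∈ H, ∃ g : G, ∀ x, ι (tauF t x) = g * ι x * g⁻¹
  w2 : ∃ g : G, ∀ x ∈ AA F9, ι (n2 x) = g * ι x * g⁻¹
  ub : ∀ (t : Par F9) (g : G), (∀ x ∈ AA F9, ι (tauF t x) = g * ι x * g⁻¹) → t ∈ H
  cent : ∀ (g : G) (n : ℕ), g ^ 3 ^ n = 1 → (∀ x ∈ AA F9, g * ι x = ι x * g) → g ∈ ι.range
  nc : ∀ (s : F9) (hs : star s = -s), s ≠ 0 →
    ¬ IsConj (ι (xA iF 0 0 (by decide) tz0)) (ι (xA iF 0 s (by decide) hs))

def R3 (H : Subgroup (Par F9)) (Y : List F9) : Prop :=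
  ∃ (G : Type) (_ : Group G) (_ : Finite G) (ι : US F9 →* G),
    Raw H ι ∧ ∀ y ∈ Y, HasL (NL y) ι

end Cfsg.Agent.U4
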