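import Cfsg.Agent.Lib.U4.Three
import Cfsg.Agent.Lib.U4.Aut
import Cfsg.Agent.Lib.U5.Main

/-!
# S5210: assembly for `q ≠ 2` (see notes/U4.md)
-/

set_option autoImplicit false
set_option linter.unusedSectionVars false
set_option linter.unusedVariables false

namespace Cfsg.Agent.U4

open Subgroup Cfsg Cfsg.FusionSystem Cfsg.Agent.U5 U4.US

universe u

variable {K : Type u} [Field K] [StarRing K] [hK : UF K] {p : ℕ} [hp : Fact p.Prime] [CharP K p]

/-- a field isomorphism induces an isomorphism of the groups -/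
def usEquiv {L : Type*} [Field L] [StarRing L] (φ : K ≃+* L) (h : ∀ x, φ (star x) = star (φ x)) :
    US K ≃* US L where
  toFun x := ⟨φ x.b, φ x.c, φ x.e, φ x.f, by rw [← h, x.hc, map_neg], by
    simpa only [map_add, map_mul, h, map_zero] using congrArg φ x.hf⟩
  invFun x := ⟨φ.symm x.b, φ.symm x.c, φ.symm x.e, φ.symm x.f, φ.injective (by simp [h]),
    φ.injective (by simp [h]; ring)⟩
  left_inv x := by ext <;> simp
  right_inv x := by ext <;> simp
  map_mul' x y := by ext <;> simp [h]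

section
variable {F : FusionSystem (⊤ : Subgroup (US K))}

theorem realizable_of_normal (hF : F.IsSaturated p) {Q : Subgroup (US K)}
    (h : ∀ P, F.IsEssential p P → P = Q) (hi : ∀ f, F.IsIso ⊤ ⊤ f → ∀ x ∈ Q, f x ∈ Q)
    (hc : centralizerIn ⊤ Q ≤ Q) : F.IsRealizable p := by
  have hQ : F.IsNormal Q := hF.isNormal_of_essential (isPGroup_top p) fun P hP => by
    rcases hP with rfl | hP
    · exact ⟨le_top, hi⟩
    · rw [h P hP]; exact ⟨le_rfl, fun g hg => hg.mapsTo⟩
  obtain ⟨G, _, ι, h1, h2, h3, -⟩ := Lead.exists_model_of_normal_centric (isPGroup_top p) hF hQ hc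
  exact ⟨G, _, h1, ι, h2, h3⟩

theorem realizable_top (hq : Nat.card K ≠ 4)
    (h3 : ∀ F : FusionSystem (⊤ : Subgroup (US K)), F.IsSaturated p → Std F →
      F.IsIso (AA K) (AA K) n2 → F.IsEssential p (QQ K) → F.IsRealizable p)
    (hF : F.IsSaturated p) : F.IsRealizable p := by
  obtain ⟨D, t, s, hD, hs⟩ := exists_std hF
  refine isRealizable_of_isoVia hD ?_
  have hF := hD.isSaturated hF
  by_cases h1 : D.IsEssential p (QQ K); swap
  · refine realizable_of_normal hF (Q := AA K)
      (fun P hP => (ess_cases hq hF P hP).resolve_left fun e => h1 (e ▸ hP)) (fun f hf x hx => ?_)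
      fun x hx => ?_
    · obtain ⟨s, t, e⟩ := hs f hf
      simp [e, mem_AA, mem_AA.1 hx]
    · obtain ⟨κ, h0, hκ⟩ := exists_tz K
      simpa [h0, mem_AA] using
        (comm_iff.1 ((mem_centralizerIn'.1 hx).2 (xA κ 0 0 hκ tz0) rfl)).1
  by_cases h2 : D.IsEssential p (AA K); swap
  · refine realizable_of_normal hF (Q := QQ K)
      (fun P hP => (ess_cases hq hF P hP).resolve_right fun e => h2 (e ▸ hP)) (fun f hf x hx => ?_)
      fun x hx => ?_
    · obtain ⟨s, t, e⟩ := hs f hf
      simp [e, mem_QQ, mem_QQ.1 hx]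
    · simpa [mem_QQ] using (comm_iff.1 ((mem_centralizerIn'.1 hx).2 (xb 1) rfl)).1
  obtain ⟨μ, hμ, hc, hn⟩ := qa_mu hq hF hs h2
  obtain ⟨E, hE⟩ := exists_tr (psi μ hμ) D
  exact hE.real (h3 E (hE.sat hF) (hE.std hs (σ := id) hc).1
    (hE.iso (fun _ => Iff.rfl) (fun x _ => ((psi μ hμ).apply_symm_apply _).symm) hn)
    (hE.ess (fun _ => Iff.rfl) h1))

end

theorem realizable {Ω : Type*} [Group Ω] {S : Subgroup Ω} {F : FusionSystem S}
    (hq : Nat.card K ≠ 4) (hF : F.IsSaturated p) (e : S ≃* US K) : F.IsRealizable p := by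
  by_cases h9 : Nat.card K = 9
  · obtain ⟨φ, hφ⟩ := SU4.exists_equiv h9
    obtain rfl : p = 3 := by
      have := Fintype.ofFinite K
      have h3 := FiniteField.cast_card_eq_zero K
      rw [← Nat.card_eq_fintype_card, h9, CharP.cast_eq_zero_iff K p] at h3
      exact (Nat.prime_dvd_prime_iff_eq hp.out Nat.prime_three).1
        (hp.out.dvd_of_dvd_pow (show p ∣ 3 ^ 2 from h3))
    have : CharP SU4.F9 3 := charP_of_injective_ringHom φ.toRingHom.injective 3
    obtain ⟨E, hE⟩ := F.exists_isoVia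
      (GrpIso.of_equiv ((e.trans (usEquiv φ hφ)).trans topEquiv.symm))
    exact isRealizable_of_isoVia hE (realizable_top (by rw [SU4.card_F9]; decide)
      (fun _ => realizable_three) (hE.isSaturated hF))
  · obtain ⟨E, hE⟩ := F.exists_isoVia (GrpIso.of_equiv (e.trans topEquiv.symm))
    exact isRealizable_of_isoVia hE (realizable_top hq (fun D h1 h2 h3 h4 =>
      realizable_om hq h1 h2 h3 h4 (q1_om h1 h4 h9 (qa_k h1 h2 h3))) (hE.isSaturated hF))

end Cfsg.Agent.U4
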