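import Cfsg.Agent.Lib.U4.Defs

/-!
# S5210: the essential subgroups (see notes/U4.md)
-/

set_option autoImplicit false
set_option linter.unusedSectionVars false
set_option linter.unusedVariables false

namespace Cfsg.Agent.U4

open Subgroup Cfsg Cfsg.FusionSystem Cfsg.Agent.U5 U4.US
open scoped commutatorElement

universe u

variable {K : Type u} [Field K] [StarRing K] [hK : UF K] {p : ℕ} [hp : Fact p.Prime] [CharP K p]
  {F : FusionSystem (⊤ : Subgroup (US K))}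

namespace PA

variable {R : Subgroup (US K)} {M A : Subgroup (MulAut R)} {x y : US K}

theorem exists_real (hq : Nat.card K ≠ 4) : ∃ ρ : K, star ρ = ρ ∧ ρ ≠ 0 ∧ ρ ≠ 1 := by
  classical
  obtain ⟨q, hq2, h1, hσ⟩ := exists_q (K := K)
  letI := Fintype.ofFinite K
  by_contra! h
  have h1' := (FiniteField.forall_pow_eq_one_iff K (q + 1)).1 fun x => Units.ext (by
    rw [Units.val_pow_eq_pow_val, pow_succ, ← hσ]
    exact h _ (by simp [mul_comm]) (by simp))
  have h2 := Nat.le_of_dvd (by omega) h1'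
  rw [← Nat.card_eq_fintype_card, h1] at h2
  have h3 : q = 2 := by
    by_contra h4
    have : 3 ≤ q := by omega
    have : 3 * q ≤ q ^ 2 := by nlinarith
    omega
  exact hq (by rw [h1, h3]; rfl)

theorem cm_e (x y : US K) : (x⁻¹ * (y * x * y⁻¹)).e = y.b * x.c - x.b * y.c := by simp; ring

theorem ce_e (x y : US K) : ⁅x, y⁆.e = x.b * y.c - y.b * x.c := by
  simp [commutatorElement_def]; ring

theorem ce_f (hy : y ∈ AA K) :
    ⁅x, y⁆.f = y.e * star x.b - x.b * star y.e + x.b * star x.b * y.c := by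
  simp [commutatorElement_def, mem_AA.1 hy]; ring

theorem ext_Z2 (hx : x ∈ Z2 K) (hy : y ∈ Z2 K) (h : x.e = y.e) (h' : x.f = y.f) : x = y :=
  US.ext (hx.1.trans hy.1.symm) (hx.2.trans hy.2.symm) h h'

theorem inv_mul_mem_Z1 (hx : x ∈ Z2 K) (hy : y ∈ Z2 K) (h : x.e = y.e) : x⁻¹ * y ∈ Z1 K := by
  simp [mem_Z1, hx.1, hx.2, hy.1, hy.2, h]

theorem xe_mem (e : K) : xe e ∈ Z2 K := ⟨rfl, rfl⟩

theorem cemem {W : Type*} [Group W] {R : Subgroup W} {x y : W} (hx : x ∈ R) (hy : y ∈ R) :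
    ⁅x, y⁆ ∈ R := mul_mem (mul_mem (mul_mem hx hy) (inv_mem hx)) (inv_mem hy)

theorem comm_Z2 (hx : x ∈ Z2 K) : x * y = y * x ↔ x.e * star y.b = y.b * star x.e := by
  simp [comm_iff, hx.1, hx.2]

theorem Z1_le (h : Loc p R M A) : Z1 K ≤ R := fun x hx => h.cent x fun r _ => (comm_Z1 hx r).symm

theorem Z2_le (h : Loc p R M A) {g : MulAut R} (hg : g ∈ A) (hb : g ∉ M)
    (h1 : Inv g (Z1 K)) : Z2 K ≤ R := fun t ht =>
  h.chain hg hb (H7.chain2_monotone (Z1 K)) rfl (n := 2) rfl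
    (fun i => match i with | 0 => Inv.bot | 1 => h1 | _ + 2 => Inv.top)
    (mem_norm_of_cm fun x _ => Z1_le h (cm_Z1 (Or.inr (Or.inl ht)))) fun i x _ hx =>
    match i, hx with
    | 0, hx => cm_eq_one (comm_Z1 hx t)
    | 1, _ => cm_Z1 (Or.inr (Or.inl ht))
    | _ + 2, _ => trivial

theorem mem_of_inv (h : Loc p R M A) {g : MulAut R} (hg : g ∈ A) (h1 : Inv g (Z1 K))
    (h2 : Inv g (Z2 K)) : g ∈ M := by
  by_contra hb
  have e2 := Z2_le h hg hb h1
  exact h.ne_top (eq_top_iff.2 fun t _ =>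
    h.chain hg hb (ch3_mono Z1_le_Z2) rfl (n := 3) rfl
      (fun i => match i with | 0 => Inv.bot | 1 => h1 | 2 => h2 | _ + 3 => Inv.top)
      (mem_norm_of_cm fun x _ => e2 (cm_Z2 x t)) fun i x _ hx =>
      match i, hx with
      | 0, hx => cm_eq_one (comm_Z1 hx t)
      | 1, hx => cm_Z1 (Or.inl hx)
      | 2, _ => cm_Z2 x t
      | _ + 3, _ => trivial)

theorem inv_cent (g : MulAut R) : Inv g (centralizer (R : Set (US K))) := fun x hx hc =>
  mem_centralizer_iff.2 fun y hy =>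
    (ef_comm g hx hy (mem_centralizer_iff.1 hc _ (equivFun_mem _ hy)).symm).symm

theorem L2 (h : Loc p R M A) {g₀ : MulAut R} (hg₀ : g₀ ∈ A) (hb₀ : g₀ ∉ M)
    (h1 : Inv g₀ (Z1 K)) : R = QQ K ∨ R = AA K := by
  have e2 := Z2_le h hg₀ hb₀ h1
  obtain ⟨U, hU1, hU2, ⟨g, hg, hb, hi⟩, hmax⟩ :=
    exists_max (M := M) (P := A ⊓ invS R (Z1 K)) Z1_le_Z2 e2 ⟨hg₀, h1⟩ hb₀ h1
  haveI := normal_of_le_Z2 hU1 hU2
  have hg2 : Inv g (Z1 K) := hg.2
  obtain ⟨z, hz, hw⟩ : ∃ z ∈ Z2 K, equivFun g z ∉ Z2 K := by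
    by_contra! hle
    exact hb (mem_of_inv h hg.1 hg2 fun x _ hx => hle x hx)
  have hzU : z ∉ U := fun hu => hw (hU2 (hi z (e2 hz) hu))
  have D1 : ∀ x, (equivFun g z)⁻¹ * (x * equivFun g z * x⁻¹) ∈ Z1 K → x ∈ R := fun x hx =>
    mem_of_max h.hW h.se inf_le_left
      (fun t ht => ⟨h.cj_A ht, mem_invS.2 (inv_conjAut' (C := Z1 K) ht)⟩) (hU2.trans e2)
      (e2 hz) (hmax z hz hzU) hg hb hi (fun r _ => hU1 (cm_Z1 (Or.inl hz))) (hU1 hx)
  have D2 : ∀ r ∈ R, (equivFun g z)⁻¹ * (r * equivFun g z * r⁻¹) ∈ Z1 K :=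
    fun r hr => hg2.cm (e2 hz) hr (cm_Z1 (Or.inl hz))
  generalize equivFun g z = w at hw D1 D2
  have D : ∀ x, x ∈ R ↔ x.b * w.c = w.b * x.c := fun x =>
    ⟨fun hx => by have := (D2 x hx).2.2; rw [cm_e] at this; linear_combination this,
      fun hx => D1 x ⟨(cm_Z2 _ _).1, (cm_Z2 _ _).2, by rw [cm_e, hx, sub_self]⟩⟩
  by_cases hc : w.c = 0
  · have hbw : w.b ≠ 0 := fun e => hw ⟨e, hc⟩
    exact Or.inl (Subgroup.ext fun x => by simp [D, hc, hbw, mem_QQ])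
  by_cases hbw : w.b = 0
  · exact Or.inr (Subgroup.ext fun x => by simp [D, hc, hbw, mem_AA])
  exfalso
  have hle : Z1 K ≤ centralizer (R : Set (US K)) := fun x hx =>
    mem_centralizer_iff.2 fun y _ => (comm_Z1 hx y).symm
  have := h.chain hg.1 hb (ch3_mono hle) rfl (n := 3) rfl
    (fun i => match i with | 0 => Inv.bot | 1 => hg2 | 2 => inv_cent g | _ + 3 => Inv.top)
    (t := xb (w.b / w.c)) (mem_norm_of_cm fun x _ => e2 (cm_Z2 x _)) fun i x hxR hx =>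
    match i, hx with
    | 0, hx => cm_eq_one (comm_Z1 hx _)
    | 1, hx => by
      have k1 : x.b = 0 := eq_zero_of_real fun e => by
        have := (comm_Z2 (xe_mem (star e))).1 (mem_centralizer_iff.1 hx _ (e2 (xe_mem _)))
        simp at this
        linear_combination -this
      have k2 : x.c = 0 := by simpa [k1, hbw] using (D x).1 hxR
      exact cm_Z1 (Or.inl ⟨k1, k2⟩)
    | 2, _ => mem_centralizer_iff.2 fun y hy => ((comm_Z2 (cm_Z2 _ _)).2 (by
      have k1 : x.b = w.b * x.c / w.c := eq_div_of_mul_eq hc ((D x).1 hxR)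
      have k2 : y.b = w.b * y.c / w.c := eq_div_of_mul_eq hc ((D y).1 hy)
      rw [cm_e, k2]
      simp
      field_simp)).symm
    | _ + 3, _ => trivial
  simpa [D, hc, hbw] using this

theorem cj_xe (hx : x.b ≠ 0) (hy : y ∈ Z1 K) : ∃ ε, xe ε * x * (xe ε)⁻¹ = x * y := by
  have hx' : star x.b ≠ 0 := by simpa using hx
  have hf := star_f_AA (Z2_le_AA (Z1_le_Z2 hy))
  refine ⟨-(om K * y.f) / star x.b, ?_⟩
  ext <;> simp [hy.1, hy.2.1, hy.2.2, hf]
  field_simp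
  ring

theorem eq_zero_of_om {κ : K} (h1 : κ + star κ = 0) (h2 : om K * κ - star (om K * κ) = 0) : κ = 0 := by
  simp only [star_mul', star_om] at h2
  linear_combination h2 + (1 - om K) * h1

theorem tz_om (κ : K) : star (om K * κ - star (om K * κ)) = -(om K * κ - star (om K * κ)) := by
  rw [star_sub, star_star, neg_sub]

theorem caseC {w z : US K} (D : ∀ x, x ∈ R ↔ x * w = w * x) (hb : w.b ≠ 0) (hc : w.c = 0)
    (hz : z ∈ Z1 K) : ∃ x ∈ R, ∃ y ∈ R, z = ⁅x, y⁆ := by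
  obtain ⟨θ, hθ⟩ := exists_star_ne K
  have hb' : star w.b ≠ 0 := by simpa using hb
  have h1 : star θ - θ ≠ 0 := sub_ne_zero.2 hθ
  have h2 : θ - star θ ≠ 0 := sub_ne_zero.2 hθ.symm
  have hf := star_f_AA (Z2_le_AA (Z1_le_Z2 hz))
  refine ⟨el (θ * w.b) 0 (om K * (w.e * star (θ * w.b) - θ * w.b * star w.e) / star w.b) tz0,
    (D _).2 ?_, xe (z.f / (star θ - θ) / star w.b), (D _).2 ?_, ?_⟩
  · simp [comm_iff, hc]; field_simp; ring
  · rw [comm_Z2 (xe_mem _)]; simp [hf]; field_simp; ring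
  · refine ext_Z2 (Z1_le_Z2 hz) (ce_Z2 _ _) (by rw [ce_e, hz.2.2]; simp) ?_
    rw [ce_f (Z2_le_AA (xe_mem _))]; simp [hf]; field_simp; ring

theorem caseD {w z : US K} {g : MulAut R} (D : ∀ x, x ∈ R ↔ x * w = w * x) (hb : w.b ≠ 0)
    (hc : w.c ≠ 0) (hz : z ∈ Z1 K) (hzw : equivFun g w = z)
    (TX : ∀ t (ht : t ∈ normalizer (R : Set (US K))), t ∉ R → ∀ x,
      x * equivFun g (t * w * t⁻¹) = equivFun g (t * w * t⁻¹) * x → x ∈ R) : False := by
  have hwR : w ∈ R := (D w).2 rfl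
  have hb' : star w.b ≠ 0 := by simpa using hb
  let d : K → US K := fun κ => xA 0 ((κ + star κ) * w.b) _ tz0 (tz_om κ)
  have d1 : ∀ κ, d κ ∈ Z2 K := fun κ => ⟨rfl, rfl⟩
  have d2 : ∀ κ, d κ ∈ R := fun κ => (D _).2 ((comm_Z2 (d1 κ)).2 (by simp [d]; ring))
  have d3 : ∀ a b, d (a + b) = d a * d b := fun a b => by ext <;> simp [d] <;> ring
  obtain ⟨κ, hκ, e⟩ := exists_ker (f := fun κ => (equivFun g (d κ)).c)
    (fun a b => by simp only [d3, ef_mul _ (d2 a) (d2 b), mul_c]) (om K) fun κ e => by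
      have := (equivFun g (d κ)).hc
      rw [e, star_om] at this
      exact one_ne_zero (α := K) (by linear_combination this)
  have e' : (equivFun g (d κ)).b = 0 := by
    simpa [e, hc] using (comm_iff.1 ((D _).1 (equivFun_mem g (d2 κ)))).1
  obtain ⟨t, ht⟩ : ∃ t, t = xb ((d κ).e / w.c) := ⟨_, rfl⟩
  obtain ⟨ε, hε⟩ := cj_xe (x := t * w * t⁻¹) (y := (w⁻¹ * (t * w * t⁻¹))⁻¹ * d κ) (by simpa using hb)
    (inv_mul_mem_Z1 (cm_Z2 _ _) (d1 κ) (by rw [cm_e, ht]; simp [hc]))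
  have h1 : xe ε * t * w * (xe ε * t)⁻¹ = w * d κ := by
    rw [show xe ε * t * w * (xe ε * t)⁻¹ = xe ε * (t * w * t⁻¹) * (xe ε)⁻¹ by group, hε]; group
  have h2 : xe ε * t ∈ normalizer (R : Set (US K)) := mem_norm_of_cm fun x hx =>
    (D _).2 ((comm_Z2 (cm_Z2 _ _)).2 (by rw [cm_e, ht]; simp [d]; field_simp; ring))
  have h3 : xe ε * t ∉ R := fun hm => by
    rw [(D _).1 hm, mul_inv_cancel_right, left_eq_mul] at h1
    exact hκ (eq_zero_of_om (by simpa [d, hb] using congrArg US.e h1) (congrArg US.f h1))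
  obtain ⟨c, h4, h5⟩ := exists_tz K
  have h6 := TX _ h2 h3 (xA c 0 0 h5 tz0) (comm_AA rfl (by
    rw [h1, ef_mul _ hwR (d2 κ), hzw, mem_AA, mul_b, hz.1, e', add_zero]))
  simpa [hb, h4] using (comm_iff.1 ((D _).1 h6)).1

theorem inv_AA {β : K} (hβ : β ≠ 0) (D : ∀ x, x ∈ R ↔ x.b * star β = star x.b * β) (g : MulAut R) :
    Inv g (AA K) := fun a haR ha => by_contra fun hy => by
  obtain ⟨θ, hθ⟩ := exists_star_ne K
  have hβ' : star β ≠ 0 := by simpa using hβ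
  have hA : ∀ x ∈ AA K, x ∈ R := fun x hx => (D x).2 (by simp [mem_AA.1 hx])
  let d : K → US K := fun κ => xA _ ((κ + star κ) * θ * β) 0 (tz_om κ) tz0
  have d2 : ∀ κ, d κ ∈ R := fun κ => hA _ rfl
  have d3 : ∀ a b, d (a + b) = d a * d b := fun a b => by ext <;> simp [d] <;> ring
  obtain ⟨κ, hκ, e⟩ := exists_ker (f := fun κ => (equivFun g (d κ)).b)
    (fun a b => by simp only [d3, ef_mul _ (d2 a) (d2 b), mul_b]) (θ * β) fun κ e => by
      have := (D _).1 (equivFun_mem g (d2 κ))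
      rw [e, star_mul'] at this
      exact hθ (mul_right_cancel₀ (mul_ne_zero hβ hβ') (by linear_combination -this))
  have h1 : equivFun g (d κ) * equivFun g a = equivFun g a * equivFun g (d κ) := by
    rw [← ef_mul _ (d2 κ) haR, ← ef_mul _ haR (d2 κ), comm_AA (x := d κ) rfl ha]
  have h0 := (D _).1 (equivFun_mem g haR)
  have hy' : (equivFun g a).b ≠ 0 := hy
  have h2 : (equivFun g (d κ)).c = 0 := by simpa [e, hy'] using (comm_iff.1 h1).1
  have h3 := (comm_Z2 ⟨e, h2⟩).1 h1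
  have h4 : equivFun g (d κ) ∈ centralizer (R : Set (US K)) := mem_centralizer_iff.2 fun y hyR =>
    ((comm_Z2 ⟨e, h2⟩).2 (by
      have h5 := (D y).1 hyR
      apply mul_left_cancel₀ (mul_ne_zero hy' hβ')
      generalize (equivFun g (d κ)).e = E at h3
      generalize (equivFun g a).b = B at h0 h3
      linear_combination (star y.b * β) * h3 + E * star y.b * h0 - B * star E * h5)).symm
  have h5 := inv_cent g⁻¹ _ (equivFun_mem g (d2 κ)) h4
  rw [equivFun_inv_apply g (d2 κ)] at h5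
  obtain ⟨h6, h7⟩ := comm_iff.1 (mem_centralizer_iff.1 h5 (xb β) ((D _).2 (by simp [mul_comm])))
  have h8 : om K * κ - star (om K * κ) = 0 := by
    simpa only [d, xb_b, xA_c, xA_b, zero_mul, mul_eq_zero, hβ, false_or] using h6
  simp only [d, xb_b, xA_c, xA_b, xA_e, xb_e, xb_c, star_zero, star_mul', star_add, star_star] at h7
  refine hκ (eq_zero_of_om (mul_left_cancel₀ (mul_ne_zero (mul_ne_zero hβ hβ') (sub_ne_zero.2 hθ)) ?_) h8)
  linear_combination h7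

theorem caseB (hq : Nat.card K ≠ 4) {w z : US K} {g : MulAut R} (hw : w ∈ Z2 K) (he : w.e ≠ 0)
    (D : ∀ x, x ∈ R ↔ x * w = w * x) (hz : z ∈ Z1 K) (hzw : equivFun g z = w) : False := by
  obtain ⟨β, hβ⟩ : ∃ β, β = w.e := ⟨_, rfl⟩
  have D' : ∀ x, x ∈ R ↔ x.b * star β = star x.b * β := fun x => by
    rw [D, eq_comm, comm_Z2 hw, ← hβ, eq_comm, mul_comm β]
  rw [← hβ] at he
  have he' : star β ≠ 0 := by simpa using he
  have iA := inv_AA he D' g
  have iA' := inv_AA he D' g⁻¹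
  obtain ⟨ρ, h1, h2, h3⟩ := exists_real hq
  have hf := star_f_AA (Z2_le_AA (Z1_le_Z2 hz))
  have hx : ∀ s, star s = s → xb (s * β) ∈ R := fun s hs => (D' _).2 (by simp [hs]; ring)
  have ha : ∀ e, xe e ∈ R := fun e => (D' _).2 (by simp)
  have hX : ∀ s, star s = s → ∃ u, star u = u ∧ (equivFun g (xb (s * β))).b = u * β := fun s hs =>
    ⟨(equivFun g (xb (s * β))).b / β, by
      have := (D' _).1 (equivFun_mem g (hx s hs))
      rw [star_div₀]; field_simp; linear_combination -this, by field_simp⟩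
  have cs : ∀ s s' t t' ε : K, star s = s → star s' = s' → star t = t → star t' = t' →
      s * t = s' * t' → ⁅equivFun g (xb (s * β)), equivFun g (xe (t * ε))⁆ =
        ⁅equivFun g (xb (s' * β)), equivFun g (xe (t' * ε))⁆ := fun s s' t t' ε hs hs' ht ht' e => by
    rw [← ef_ce _ (hx s hs) (ha _), ← ef_ce _ (hx s' hs') (ha _)]
    refine congrArg _ (ext_Z2 (ce_Z2 _ _) (ce_Z2 _ _) (by simp [ce_e]) ?_)
    rw [ce_f (Z2_le_AA (xe_mem _)), ce_f (Z2_le_AA (xe_mem _))]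
    simp [hs, hs', ht, ht']
    linear_combination (ε * star β - β * star ε) * e
  obtain ⟨ε, hε⟩ : ∃ ε, z = ⁅xb (1 * β), xe (1 * ε)⁆ := ⟨om K * z.f / star β,
    ext_Z2 (Z1_le_Z2 hz) (ce_Z2 _ _) (by simp [ce_e, hz.2.2]) (by
      rw [ce_f (Z2_le_AA (xe_mem _))]; simp [hf]; field_simp; ring)⟩
  have hρ : star (ρ * ρ) = ρ * ρ := by simp [h1]
  have c0 := congrArg US.e hzw
  rw [hε, ef_ce _ (hx 1 (star_one K)) (ha _), ce_e] at c0
  have c1 := cs ρ 1 1 ρ ε h1 (star_one K) (star_one K) h1 (mul_comm _ _)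
  have c2 := cs (ρ * ρ) ρ 1 ρ ε hρ h1 (star_one K) h1 (mul_one _)
  have a1 := iA _ (ha (1 * ε)) (Z2_le_AA (xe_mem _))
  have a2 := iA _ (ha (ρ * ε)) (Z2_le_AA (xe_mem _))
  have q1 := congrArg US.e c1
  have q2 := congrArg US.e c2
  have l3 := congrArg US.f c1
  have l4 := congrArg US.f c2
  rw [ce_e, ce_e] at q1 q2
  rw [ce_f a1, ce_f a2] at l3 l4
  obtain ⟨u, hu, eu⟩ := hX 1 (star_one K)
  obtain ⟨v, hv, ev⟩ := hX ρ h1
  obtain ⟨r, hr, er⟩ := hX _ hρ
  have n2 : v ≠ 0 := fun e => by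
    have := iA' _ (equivFun_mem g (hx ρ h1)) (by rw [mem_AA, ev, e, zero_mul])
    rw [equivFun_inv_apply g (hx ρ h1)] at this
    exact mul_ne_zero h2 he this
  have n1 : v - u ≠ 0 := fun e => by
    have k := mul_mem (inv_mem (hx 1 (star_one K))) (hx ρ h1)
    have := iA' _ (equivFun_mem g k) (by
      rw [mem_AA, ef_mul _ (inv_mem (hx 1 (star_one K))) (hx ρ h1), ef_inv _ (hx 1 (star_one K)),
        mul_b, inv_b, ev, eu]; linear_combination β * e)
    rw [equivFun_inv_apply g k, mem_AA] at this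
    simp only [mul_b, inv_b, xb_b] at this
    exact mul_ne_zero (sub_ne_zero.2 h3) he (by linear_combination this)
  rw [mem_AA] at a1 a2
  simp only [eu, ev, er, a1, a2, zero_mul, sub_zero, star_mul', hu, hv, hr, ← hβ] at c0 q1 q2 l3 l4
  generalize equivFun g (xe (1 * ε)) = a at c0 q1 q2 l3 l4
  generalize equivFun g (xe (ρ * ε)) = a' at c0 q1 q2 l3 l4
  have k0 : u * a.c = 1 := mul_right_cancel₀ he (by linear_combination c0)
  have k1 : a'.c = v * a.c * a.c := mul_right_cancel₀ he (by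
    linear_combination -a.c * q1 - a'.c * β * k0)
  have k2 : r = v * v * a.c := mul_right_cancel₀ he (by
    linear_combination u * q2 - r * β * k0 + u * v * β * k1 + v * v * a.c * β * k0)
  rw [k1, k2] at l4
  rw [k1] at l3
  refine mul_ne_zero (mul_ne_zero he he') (mul_ne_zero (pow_ne_zero 2 n2) (pow_ne_zero 2 n1)) ?_
  have hu0 : u ≠ 0 := left_ne_zero_of_mul_eq_one k0
  have k3 : a.c = u⁻¹ := eq_inv_of_mul_eq_one_right k0
  rw [k3] at l3 l4
  field_simp at l3 l4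
  linear_combination v * (l4 - u * l3)

theorem L1 (hq : Nat.card K ≠ 4) (h : Loc p R M A) (hno : ∀ g ∈ A, Inv g (Z1 K) → g ∈ M) :
    R = AA K := by
  obtain ⟨g₀, hg₀, hb₀⟩ := h.data.exists_not_mem
  obtain ⟨U, -, hU2, ⟨g, hg, hb, hi⟩, hmax⟩ :=
    exists_max (M := M) (P := A) (Z := ⊥) bot_le (Z1_le h) hg₀ hb₀ Inv.bot
  haveI : U.Normal := normal_of_le_Z1 hU2
  obtain ⟨z, hz, hzU⟩ : ∃ z ∈ Z1 K, z ∉ U := by
    by_contra! hle
    exact hb (hno g hg fun x hx hz => hU2 (hi x hx (hle x hz)))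
  have hzR := Z1_le h hz
  have C1 : ∀ g ∈ A, g ∉ M → Inv g U → ∀ x, x * equivFun g z = equivFun g z * x → x ∈ R :=
    fun g hg hb hi x hx => mem_of_max h.hW h.se le_rfl (fun t ht => h.cj_A ht) (hU2.trans (Z1_le h))
      hzR (hmax z hz hzU) hg hb hi (fun r _ => bot_le (a := U) (cm_eq_one (comm_Z1 hz r)))
      (bot_le (a := U) (cm_eq_one hx.symm))
  have D : ∀ x, x ∈ R ↔ x * equivFun g z = equivFun g z * x := fun x =>
    ⟨fun hr => (ef_comm g hzR hr (comm_Z1 hz _)).symm, C1 g hg hb hi x⟩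
  have TX : ∀ t (ht : t ∈ normalizer (R : Set (US K))), t ∉ R → ∀ x,
      x * equivFun g⁻¹ (t * equivFun g z * t⁻¹) = equivFun g⁻¹ (t * equivFun g z * t⁻¹) * x →
      x ∈ R := fun t ht htR x hx => by
    refine C1 (g⁻¹ * conjAut R ht * g⁻¹⁻¹) (mul_mem (mul_mem (inv_mem hg) (h.cj_A ht))
      (inv_mem (inv_mem hg))) (fun hm => hb (inv_mem_iff.1 (h.se t ht htR _ (inv_mem hg) hm)))
      ((hi.inv.mul (inv_conjAut' ht)).mul hi.inv.inv) x ?_
    rwa [ef_conj _ _ hzR, inv_inv]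
  by_cases hc : (equivFun g z).c = 0 <;> by_cases hbw : (equivFun g z).b = 0
  · exact (caseB hq ⟨hbw, hc⟩ (fun he => h.ne_top (eq_top_iff.2 fun x _ =>
      (D x).2 (comm_Z1 ⟨hbw, hc, he⟩ x).symm)) D hz rfl).elim
  · obtain ⟨x, hx, y, hy, e⟩ := caseC D hbw hc hz
    rw [e, ef_ce _ hx hy] at hbw
    exact absurd (ce_Z2 _ _).1 hbw
  · exact le_antisymm (fun x hx => by simpa [hbw, hc, mem_AA] using (comm_iff.1 ((D x).1 hx)).1)
      fun x hx => (D x).2 (comm_AA hx hbw)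
  · exact (caseD D hbw hc hz (equivFun_inv_apply g hzR) TX).elim

end PA

theorem ess_cases (hq : Nat.card K ≠ 4) (hF : F.IsSaturated p) : Ess p F := fun R hR => by
  obtain ⟨M, h⟩ := exists_loc (isPGroup_US p) hF hR
  by_cases hno : ∀ g ∈ F.autGroup R, Inv g (Z1 K) → g ∈ M
  · exact Or.inr (PA.L1 hq h hno)
  · push Not at hno
    obtain ⟨g, hg, h1, hb⟩ := hno
    exact PA.L2 h hg hb h1

end Cfsg.Agent.U4
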