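import Mathlib

/-!
# S5210: counting values of quadratic maps with additive characters
-/

set_option autoImplicit false

namespace Cfsg.Agent.SU4

open Finset

variable {A B : Type*} [AddCommGroup A] [AddCommGroup B] [Fintype A] [Fintype B]
  {F : A → B} {bil : A →+ A →+ B}

/-- The character sum. -/
noncomputable def chS (F : A → B) (χ : AddChar B ℂ) : ℂ := ∑ a, χ (F a)

theorem sum_chS [DecidableEq B] (F : A → B) (y : B) :
    ∑ χ : AddChar B ℂ, χ (-y) * chS F χ = Fintype.card B * #{a | F a = y} := by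
  simp only [chS, mul_sum, ← AddChar.map_add_eq_mul]
  rw [sum_comm]
  simp only [AddChar.sum_apply_eq_ite, neg_add_eq_zero, eq_comm (a := y)]
  rw [← sum_filter, sum_const, nsmul_eq_mul, mul_comm]

theorem norm_chS (hF : ∀ a h, F (a + h) = F a + F h + bil h a) (h0 : F 0 = 0) {χ : AddChar B ℂ}
    (hχ : ∀ h, h ≠ 0 → ∃ a, χ (bil h a) ≠ 1) : ‖chS F χ‖ ^ 2 = Fintype.card A := by
  classical
  have e : chS F χ * (starRingEnd ℂ) (chS F χ) = Fintype.card A := by
    calc chS F χ * (starRingEnd ℂ) (chS F χ) = ∑ a, ∑ h, χ (F h) * χ (bil h a) := by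
          simp only [chS, map_sum, mul_sum]
          refine sum_congr rfl fun a _ => ?_
          rw [← Equiv.sum_comp (Equiv.addLeft a), sum_mul]
          refine sum_congr rfl fun h _ => ?_
          rw [← AddChar.map_neg_eq_conj, ← AddChar.map_add_eq_mul, ← AddChar.map_add_eq_mul,
            Equiv.coe_addLeft]
          simp only [hF]
          congr 1; abel
      _ = ∑ h, χ (F h) * ∑ a, χ.compAddMonoidHom (bil h) a := by
          rw [sum_comm]; simp only [mul_sum]; rfl
      _ = Fintype.card A := by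
          rw [sum_eq_single 0]
          · simp [h0]
          · intro h _ hh
            obtain ⟨a, ha⟩ := hχ h hh
            rw [AddChar.sum_eq_zero_iff_ne_zero.2 fun e => ha (DFunLike.congr_fun e a), mul_zero]
          · simp
  rw [Complex.mul_conj, Complex.normSq_eq_norm_sq] at e
  exact_mod_cast e

omit [Fintype B] in
theorem re_chS (hF : ∀ a h, F (a + h) = F a + F h + bil h a) (h0 : F 0 = 0) {χ : AddChar B ℂ}
    (hχ : ∀ h a, χ (bil h a) = 1) : 0 ≤ (chS F χ).re := by
  classical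
  let ψ : AddChar A ℂ := ⟨fun a => χ (F a), by simp [h0], fun a h => by
    rw [hF, AddChar.map_add_eq_mul, AddChar.map_add_eq_mul, hχ, mul_one]⟩
  rw [show chS F χ = ∑ a, ψ a from rfl, AddChar.sum_eq_ite]
  split_ifs <;> simp

theorem re_ge (hF : ∀ a h, F (a + h) = F a + F h + bil h a) (h0 : F 0 = 0)
    (hc : Fintype.card A = Fintype.card B ^ 2) {χ : AddChar B ℂ}
    (hχ : ∀ h, h ≠ 0 → ∃ a, χ (bil h a) ≠ 1) (y : B) :
    -(Fintype.card B : ℝ) ≤ (χ y * chS F χ).re := by
  have h1 := norm_chS hF h0 hχ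
  rw [hc, Nat.cast_pow, sq_eq_sq₀ (norm_nonneg _) (Nat.cast_nonneg _)] at h1
  have h2 := Complex.abs_re_le_norm (χ y * chS F χ)
  rw [norm_mul, AddChar.norm_apply, one_mul, h1] at h2
  exact (abs_le.1 h2).1

/-- A quadratic map with nondegenerate polar forms is onto. -/
theorem quad_surj (hF : ∀ a h, F (a + h) = F a + F h + bil h a) (h0 : F 0 = 0)
    (hc : Fintype.card A = Fintype.card B ^ 2)
    (hχ : ∀ χ : AddChar B ℂ, χ ≠ 0 → ∀ h, h ≠ 0 → ∃ a, χ (bil h a) ≠ 1) (y : B) :
    ∃ a, F a = y := by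
  classical
  by_contra hn
  push Not at hn
  have e := congrArg Complex.re (sum_chS F y)
  rw [filter_false_of_mem fun a _ => hn a, Complex.re_sum, ← add_sum_erase _ _ (mem_univ 0)] at e
  have h1 := card_nsmul_le_sum (univ.erase (0 : AddChar B ℂ)) _ _ fun χ h =>
    re_ge hF h0 hc (hχ χ (ne_of_mem_erase h)) (-y)
  rw [card_erase_of_mem (mem_univ _), card_univ, AddChar.card_eq, nsmul_eq_mul,
    Nat.cast_pred Fintype.card_pos] at h1
  have h2 : (0 : ℝ) < Fintype.card B := by exact_mod_cast Fintype.card_pos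
  simp only [chS, AddChar.zero_apply, sum_const, card_univ, hc, one_mul, nsmul_one, card_empty,
    Nat.cast_zero, mul_zero, Complex.zero_re, Complex.natCast_re, Nat.cast_pow] at e h1
  rw [← Complex.ofReal_natCast, ← Complex.ofReal_pow, Complex.ofReal_re] at e
  nlinarith

/-- A quadratic map with a vanishing polar form has a nontrivial zero. -/
theorem quad_zero (hF : ∀ a h, F (a + h) = F a + F h + bil h a) (h0 : F 0 = 0)
    (hc : Fintype.card A = Fintype.card B ^ 2)
    (hχ : ∀ χ : AddChar B ℂ, (∀ h a, χ (bil h a) = 1) ∨ ∀ h, h ≠ 0 → ∃ a, χ (bil h a) ≠ 1)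
    {χ₀ : AddChar B ℂ} (h1 : χ₀ ≠ 0) (h2 : ∀ h a, χ₀ (bil h a) = 1) : ∃ a, a ≠ 0 ∧ F a = 0 := by
  classical
  by_contra hn
  push Not at hn
  have e := congrArg Complex.re (sum_chS F 0)
  rw [show ({a | F a = 0} : Finset A) = {0} from eq_singleton_iff_unique_mem.2
      ⟨by simpa using h0, fun a ha => by_contra fun h => hn a h (by simpa using ha)⟩,
    Complex.re_sum, ← add_sum_erase _ _ (mem_univ 0),
    ← add_sum_erase _ _ (mem_erase.2 ⟨h1, mem_univ χ₀⟩)] at e
  have hB : (0 : ℝ) < Fintype.card B := by exact_mod_cast Fintype.card_pos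
  have h3 := card_nsmul_le_sum ((univ.erase (0 : AddChar B ℂ)).erase χ₀)
    (fun χ => (χ (-0) * chS F χ).re) (-(Fintype.card B : ℝ)) fun χ _ => (hχ χ).elim
      (fun h => by simpa using (neg_nonpos.2 hB.le).trans (re_chS hF h0 h))
      fun h => re_ge hF h0 hc h _
  have h4 := re_chS hF h0 h2
  have h5 := card_erase_add_one (mem_erase.2 ⟨h1, mem_univ χ₀⟩)
  have h6 := card_erase_add_one (mem_univ (0 : AddChar B ℂ))
  rw [card_univ, AddChar.card_eq, ← h5] at h6
  have h7 : (#((univ.erase (0 : AddChar B ℂ)).erase χ₀) : ℝ) = Fintype.card B - 2 := by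
    rw [← h6]; push_cast; ring
  rw [nsmul_eq_mul, h7] at h3
  have h8 : (((0 : AddChar B ℂ) (-0)) * chS F 0).re = (Fintype.card B : ℝ) ^ 2 := by
    simp only [chS, AddChar.zero_apply, sum_const, card_univ, hc, one_mul, nsmul_one]
    exact_mod_cast Complex.natCast_re _
  rw [h8, neg_zero, AddChar.map_zero_eq_one, one_mul, card_singleton, Nat.cast_one, mul_one,
    Complex.natCast_re] at e
  rw [neg_zero] at h3
  nlinarith

end Cfsg.Agent.SU4
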