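import Cfsg.Agent.Lib.U4.Defs
import Cfsg.Agent.Lib.U5.Main

/-!
# S5210: transport along automorphisms of S (see notes/U4.md)
-/

set_option autoImplicit false
set_option linter.unusedSectionVars false
set_option linter.unusedVariables false

namespace Cfsg.Agent.U4

open Subgroup Cfsg Cfsg.FusionSystem Cfsg.Agent.U5 U4.US
open scoped commutatorElement

universe u

variable {K : Type u} [Field K] [StarRing K] [hK : UF K] {p : ℕ} [hp : Fact p.Prime] [CharP K p]
  {F : FusionSystem (⊤ : Subgroup (US K))}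

/-- `E` is the transport of `F` along `φ`. -/
def Tr (φ : MulAut (US K)) (F E : FusionSystem (⊤ : Subgroup (US K))) : Prop :=
  F.IsoVia E φ φ.symm

theorem exists_tr (φ : MulAut (US K)) (F : FusionSystem (⊤ : Subgroup (US K))) : ∃ E, Tr φ F E :=
  F.exists_isoVia ⟨fun x _ y _ => map_mul φ x y, fun x _ y _ => map_mul φ.symm x y,
    fun _ _ => trivial, fun _ _ => trivial, fun x _ => φ.symm_apply_apply x,
    fun x _ => φ.apply_symm_apply x⟩

variable {E : FusionSystem (⊤ : Subgroup (US K))} {φ : MulAut (US K)} {R : Subgroup (US K)}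

theorem Tr.sat (h : Tr φ F E) (hF : F.IsSaturated p) : E.IsSaturated p := h.isSaturated hF

theorem Tr.real (h : Tr φ F E) (hE : E.IsRealizable p) : F.IsRealizable p :=
  isRealizable_of_isoVia h hE

theorem Tr.img (h : Tr φ F E) (hR : ∀ x, φ x ∈ R ↔ x ∈ R) : img R φ = R := by
  ext y
  obtain ⟨x, rfl⟩ := φ.surjective y
  exact (h.toGrpIso.apply_mem_img_iff le_top trivial).trans (hR x).symm

theorem Tr.iso (h : Tr φ F E) (hR : ∀ x, φ x ∈ R ↔ x ∈ R) {f g : US K → US K}
    (e : ∀ x ∈ R, g (φ x) = φ (f x)) (hf : F.IsIso R R f) : E.IsIso R R g := by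
  have := IsoVia.isIso_of_induced h hf e
  rwa [h.img hR] at this

theorem Tr.iso_symm (h : Tr φ F E) (hR : ∀ x, φ x ∈ R ↔ x ∈ R) {g : US K → US K}
    (hg : E.IsIso R R g) : F.IsIso R R fun x => φ.symm (g (φ x)) :=
  IsoVia.isIso_symm h le_top le_top (by rwa [h.img hR])

theorem Tr.ess (h : Tr φ F E) (hR : ∀ x, φ x ∈ R ↔ x ∈ R) (hE : F.IsEssential p R) :
    E.IsEssential p R :=
  h.img hR ▸ IsoVia.isEssential h hE

theorem Std.mem (hs : Std F) {f : US K → US K} (hf : F.IsIso ⊤ ⊤ f) :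
    ∃ s : US K, ∃ t ∈ parOf F, ∀ x, f x = s * tauF t x * s⁻¹ := by
  obtain ⟨s, t, e⟩ := hs f hf
  exact ⟨s, t, (((F.isMor_conj le_rfl (mem_top s⁻¹)).comp' hf.mor
    fun _ _ => trivial).congr fun x _ => by rw [e]; group).isIso_top, e⟩

theorem eq_of_tauF_conj {s t : Par K} {w : US K} (h : ∀ x, tauF s x = w * tauF t x * w⁻¹) :
    s = t := by
  have := eq_one_of_tauF (t := s * t⁻¹)
    (fun x => by
      have := congrArg US.b (h (tauF t⁻¹ (xb x)))
      rw [← tauF_tauF, tauF_inv_right] at this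
      simpa using this)
    (fun x hx => by
      have := congrArg US.c (h (tauF t⁻¹ (xA x 0 0 hx tz0)))
      rw [← tauF_tauF, tauF_inv_right] at this
      simpa using this)
  exact mul_inv_eq_one.1 this

/-- Transport along an automorphism normalizing the standard automorphisms of the system. -/
theorem Tr.std (h : Tr φ F E) (hs : Std F) {σ : Par K → Par K}
    (e : ∀ t ∈ parOf F, ∀ x, tauF (σ t) (φ x) = φ (tauF t x)) :
    Std E ∧ ∀ t', t' ∈ parOf E ↔ ∃ t ∈ parOf F, σ t = t' := by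
  have key : ∀ g, E.IsIso ⊤ ⊤ g → ∃ s : US K, ∃ t ∈ parOf F, ∀ x, g x = s * tauF (σ t) x * s⁻¹ :=
    fun g hg => by
      obtain ⟨s, t, ht, e'⟩ := hs.mem (h.iso_symm (fun _ => Iff.rfl) hg)
      refine ⟨φ s, t, ht, fun x => ?_⟩
      obtain ⟨x, rfl⟩ := φ.surjective x
      rw [e t ht, ← map_inv, ← map_mul, ← map_mul, ← e', φ.apply_symm_apply]
  refine ⟨fun g hg => let ⟨s, t, _, e'⟩ := key g hg; ⟨s, _, e'⟩, fun t' => ⟨fun ht => ?_, ?_⟩⟩
  · obtain ⟨s, t, ht, e'⟩ := key _ ht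
    exact ⟨t, ht, (eq_of_tauF_conj e').symm⟩
  · rintro ⟨t, ht, rfl⟩
    exact h.iso (fun _ => Iff.rfl) (fun x _ => e t ht x) ht

theorem not_dvd_parOf (hF : F.IsSaturated p) : ¬ p ∣ Nat.card (parOf F) := fun hd => by
  obtain ⟨⟨t, ht⟩, ho⟩ := exists_prime_orderOf_dvd_card' p hd
  obtain ⟨α, hα, e⟩ := IsIso.exists_aut ht
  have h1 : t ^ p = 1 := congrArg Subtype.val (ho ▸ pow_orderOf_eq_one (⟨t, ht⟩ : parOf F) :)
  have h2 : ∀ n : ℕ, ∀ x, equivFun (α ^ n) x = tauF (t ^ n) x := fun n => by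
    induction n with
    | zero => intro x; rw [pow_zero, pow_zero, equivFun_one (mem_top x), tauF_one]
    | succ n ih =>
      intro x; rw [pow_succ', equivFun_mul _ _ (mem_top x), ih, e _ trivial, pow_succ', tauF_tauF]
  have h3 : α ^ p ^ 1 = 1 := mulEquiv_ext_equivFun fun x hx => by
    rw [pow_one, h2, h1, tauF_one, equivFun_one hx]
  obtain ⟨s, -, hs⟩ := mem_inn_iff.1 ((hF.sylowIn_top (isPGroup_top p)).mem_of_mem_normalizer hα
    (le_normalizer_inn ⊤ (mem_top _)) h3)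
  have h5 : t = 1 := eq_of_tauF_conj (w := s) fun x => by
    rw [← e x trivial, equivFun_of_mem _ (mem_top x), tauF_one]; exact hs ⟨x, trivial⟩
  subst h5
  exact hp.out.one_lt.ne (orderOf_one.symm.trans ho)

end Cfsg.Agent.U4
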