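import Cfsg.Agent.Lib.U4.M3
import Cfsg.Agent.Lib.U4.Aut
import Cfsg.Agent.Lib.U4.Tr

/-!
# S5210: from the lattice checks to the model interface (see notes/U4.md)
-/

set_option autoImplicit false
set_option linter.unusedSectionVars false
set_option linter.unusedVariables false

namespace Cfsg.Agent.U4

open Subgroup Cfsg Cfsg.FusionSystem Cfsg.Agent.U5 U4.US
open scoped commutatorElement

universe u

open SU4

theorem sigma_cases (σ : F9 ≃+* F9) : (∀ x, σ x = x) ∨ ∀ x, σ x = star x := by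
  have h1 : ∀ x : F9, ∃ a b : Fin 3, x = (a : ℕ) + (b : ℕ) * iF := by decide
  have h2 : ∀ y : F9, y * y = -1 → y = iF ∨ y = star iF := by decide
  refine (h2 (σ iF) (by rw [← map_mul, show iF * iF = -1 by decide, map_neg, map_one])).imp
    (fun e x => ?_) fun e x => ?_ <;> obtain ⟨a, b, rfl⟩ := h1 x <;> simp [e]

theorem par_pow (t : Par F9) : t ^ 16 = 1 := by
  have h1 : ∀ x, (t * t).σ x = x := fun x => by
    rcases sigma_cases t.σ with h | h <;> simp [h]
  have h2 : ∀ n : ℕ, (((t * t) ^ n).a : F9) = (t * t).a ^ n ∧ (((t * t) ^ n).b : F9) = (t * t).b ^ n ∧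
      ∀ x, ((t * t) ^ n).σ x = x := fun n => by
    induction n with
    | zero => simp
    | succ n ih => simp only [pow_succ, Par.mul_a _ (t * t), Par.mul_b _ (t * t),
        Par.mul_σ _ (t * t), ih.1, ih.2.1, ih.2.2, h1, implies_true, and_self]
  have h3 : ∀ x : F9, x ≠ 0 → x ^ 8 = 1 := by decide
  rw [show 16 = 2 * 8 from rfl, pow_mul, pow_two]
  exact Par.ext (Units.ext (by rw [(h2 8).1, h3 _ (Units.ne_zero _)]; rfl))
    (Units.ext (by rw [(h2 8).2.1, h3 _ (Units.ne_zero _)]; rfl)) (RingEquiv.ext (h2 8).2.2)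

/-- the invariant quadratic form on `AA` -/
def qf {K : Type*} [Field K] [StarRing K] (x : US K) : K := x.c * x.f + x.e * star x.e

theorem qf_conj {K : Type*} [Field K] [StarRing K] {x : US K} (hx : x ∈ AA K) (s : US K) :
    qf (s * x * s⁻¹) = qf x := by
  simp [qf, mem_AA.1 hx]; ring

theorem qf_tauF {K : Type*} [Field K] [StarRing K] [UF K] (t : Par K) (x : US K) :
    qf (tauF t x) = t.a ^ 2 * (t.b * star (t.b : K)) * t.σ (qf x) := by
  simp [qf]; ring

/-- the singular vector `(i, 0, 0)` -/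
def x0 : US F9 := xA iF 0 0 (by decide) tz0

@[simp] theorem x0_b : x0.b = 0 := rfl
@[simp] theorem x0_c : x0.c = iF := rfl
@[simp] theorem x0_e : x0.e = 0 := rfl
@[simp] theorem x0_f : x0.f = 0 := rfl

theorem iF_ne : iF ≠ 0 := by decide
theorem iF_sq : iF ^ 2 = -1 := by decide
theorem star_iF : star iF = -iF := by decide

theorem tz_cases : ∀ c : F9, star c = -c → c = 0 ∨ c = iF ∨ c = -iF := by decide

namespace Raw

variable {H : Subgroup (Par F9)} {G : Type*} [Group G] [Finite G] {ι : US F9 →* G} (h : Raw H ι)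
  (hk : ∀ ν, kpar ν ∈ H)
include h

theorem sing1 {y : US F9} (hy : y ∈ AA F9) (hc : y.c = iF) (e : IsConj (ι x0) (ι y)) :
    qf y = 0 := by
  have hy' : xb (y.e * iF) * y * (xb (y.e * iF))⁻¹ ∈ AA F9 := Normal.conj_mem inferInstance _ hy _
  rw [← qf_conj hy (xb (y.e * iF))]
  generalize hz : xb (y.e * iF) * y * (xb (y.e * iF))⁻¹ = z at hy'
  have h1 : z.c = iF := by simp [← hz, hc]
  have h2 : z.e = 0 := by
    simp [← hz, hc, mem_AA.1 hy]; linear_combination y.e * iF_sq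
  have h3 : z.f = 0 := by_contra fun h0 => h.nc z.f (star_f_AA hy') h0 <| e.trans <| by
    rw [show xA iF 0 z.f (by decide) (star_f_AA hy') = z from US.ext hy'.symm h1.symm h2.symm rfl,
      ← hz, map_mul, map_mul, map_inv]
    exact isConj_iff.2 ⟨_, rfl⟩
  simp [qf, h2, h3]

include hk

theorem sing {y : US F9} (hy : y ∈ AA F9) (hc : y.c ≠ 0) (e : IsConj (ι x0) (ι y)) : qf y = 0 := by
  rcases tz_cases _ y.hc with h0 | h0 | h0
  · exact absurd h0 hc
  · exact h.sing1 hy h0 e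
  let ν : F9ˣ := Units.mk0 (1 + iF) (by decide)
  obtain ⟨g, hg⟩ := h.par _ (hk ν)
  have := h.sing1 (y := tauF (kpar ν) y) (by simp [mem_AA, mem_AA.1 hy])
    (by simp only [tauF_c, kpar_a, kpar_σ, h0, ν, Units.val_mk0]; decide +kernel)
    (e.trans (isConj_iff.2 ⟨g, (hg y).symm⟩))
  rw [qf_tauF] at this
  simpa using this

theorem nor (g : G) (f : US F9 → US F9) (e : ∀ x, ι (f x) = g * ι x * g⁻¹) :
    ∃ s : US F9, ∃ t ∈ H, ∀ x, f x = s * tauF t x * s⁻¹ := by
  let φ : MulAut (US F9) := MulEquiv.ofBijective (MonoidHom.mk' f fun x y => h.inj (by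
    rw [map_mul, e, e, e, map_mul]; group)) (Finite.injective_iff_bijective.1 fun x y hxy => h.inj (by
      have := congrArg ι hxy
      simpa [e] using this))
  obtain ⟨t, hb, hc, he, hz⟩ := aut_par φ
  obtain ⟨α, hα⟩ : ∃ α : MulAut (US F9), ∀ x, tauF t (α x) = f x :=
    ⟨(tau t)⁻¹ * φ, fun x => (tau t).apply_symm_apply _⟩
  have ha : (t.a : F9) ≠ 0 := t.a.ne_zero
  have hb0 : (t.b : F9) ≠ 0 := t.b.ne_zero
  have a1 : ∀ x, (α x).b = x.b := fun x => by
    simpa [hb0] using (congrArg US.b (hα x)).trans (hb x)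
  have a2 : ∀ x, (α x).c = x.c := fun x => by
    simpa [ha] using (congrArg US.c (hα x)).trans (hc x)
  have a3 : ∀ x ∈ Z2 F9, (α x).e = x.e := fun x hx => by
    simpa [ha, hb0] using (congrArg US.e (hα x)).trans (he x hx)
  have a4 : ∀ x ∈ Z1 F9, α x = x := fun x hx => (tau t).injective ((hα x).trans (hz x hx))
  have a5 : ∀ β, qf (α (xb β * x0 * (xb β)⁻¹)) = 0 := fun β => by
    have := h.sing hk (y := f (xb β * x0 * (xb β)⁻¹)) (by simp [← hα, mem_AA, a1])
      (by simp [← hα, a2, iF_ne]) (isConj_iff.2 ⟨g * ι (xb β), by simp [e, mul_assoc]⟩)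
    rw [← hα, qf_tauF] at this
    simpa [ha, hb0] using this
  obtain ⟨s, hs⟩ : ∃ s, α x0 = s * x0 * s⁻¹ := by
    have := a5 0
    rw [show xb (0 : F9) = 1 from rfl, one_mul, inv_one, mul_one, qf, a2] at this
    refine ⟨xb (-((α x0).e * iF)), US.ext (by simp [a1]) (by simp [a2]) ?_ ?_⟩
    · simp; linear_combination (α x0).e * iF_sq
    · simp [star_iF] at this ⊢
      linear_combination (exp := 1) (-iF) * this + ((α x0).f + iF * (α x0).e * star (α x0).e) * iF_sq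
  obtain ⟨γ, hγ⟩ : ∃ γ : MulAut (US F9), ∀ x, s * γ x * s⁻¹ = α x :=
    ⟨(MulAut.conj s)⁻¹ * α, fun x => by simp [mul_assoc]⟩
  have hγ' : ∀ x, γ x = s⁻¹ * α x * s⁻¹⁻¹ := fun x => by rw [← hγ]; group
  have b1 : ∀ x, (γ x).b = x.b := fun x => by simp [hγ', a1]
  have fix : ∀ x ∈ AA F9, γ x = x := by
    have c0 : γ x0 = x0 := by rw [hγ', hs]; group
    have c1 : ∀ x ∈ Z1 F9, γ x = x := fun x hx => by
      rw [hγ', a4 x hx, ← comm_Z1 hx]; group
    have c2 : ∀ β, γ (x0⁻¹ * (xb β * x0 * (xb β)⁻¹)) = x0⁻¹ * (xb β * x0 * (xb β)⁻¹) := fun β => by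
      have d1 : qf (γ (xb β * x0 * (xb β)⁻¹)) = 0 := by
        rw [hγ', qf_conj (by simp [mem_AA, a1]), a5]
      have d2 := a3 _ (cm_Z2 x0 (xb β))
      have d3 : (γ (x0⁻¹ * (xb β * x0 * (xb β)⁻¹))).e = β * iF := by
        rw [hγ']; simp only [mul_e, mul_b, inv_b, inv_c, inv_e, a1, a2, d2]; simp; ring
      rw [map_mul, map_inv, c0] at d3 ⊢
      congr 1
      have d4 := b1 (xb β * x0 * (xb β)⁻¹)
      have d5 : (γ (xb β * x0 * (xb β)⁻¹)).c = iF := by simp [hγ', a2]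
      generalize γ (xb β * x0 * (xb β)⁻¹) = w at *
      simp at d3 d4
      refine US.ext (by simp [d4]) (by simp [d5]) (by simp [d3]) ?_
      simp [qf, d3, d5, star_iF] at d1
      simp
      linear_combination (exp := 1) (-iF) * d1 + (w.f - iF * β * star β) * iF_sq
    have c3 : ∀ x ∈ Z2 F9, γ x = x := fun x hx => by
      have := c1 ((x0⁻¹ * (xb (-(x.e * iF)) * x0 * (xb (-(x.e * iF)))⁻¹))⁻¹ * x)
        ⟨by simp [hx.1], by simp [hx.2], by simp [hx.2]; linear_combination x.e * iF_sq⟩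
      rwa [map_mul, map_inv, c2, mul_right_inj] at this
    intro x hx
    rcases tz_cases _ x.hc with h0 | h0 | h0
    · exact c3 x ⟨hx, h0⟩
    · have := c3 (x0⁻¹ * x) ⟨by simp [mem_AA.1 hx], by simp [h0]⟩
      rwa [map_mul, map_inv, c0, mul_right_inj] at this
    · have := c3 (x0 * x) ⟨by simp [mem_AA.1 hx], by simp [h0]⟩
      rwa [map_mul, c0, mul_right_inj] at this
  have e1 : ∀ x, ι (tauF t (γ x)) = (ι (tau t s))⁻¹ * g * ι x * ((ι (tau t s))⁻¹ * g)⁻¹ := fun x => by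
    have := e x
    rw [← hα, ← hγ, ← tau_apply, map_mul, map_mul, map_inv, map_mul, map_mul, map_inv] at this
    rw [← tau_apply]
    calc _ = (ι (tau t s))⁻¹ * (g * ι x * g⁻¹) * ι (tau t s) := by rw [← this]; group
      _ = _ := by group
  have ht : t ∈ H := h.ub t _ fun x hx => by rw [← e1, fix x hx]
  obtain ⟨g0, e0⟩ := h.par t ht
  obtain ⟨c, e2⟩ : ∃ c : G, ∀ x, ι (γ x) = c * ι x * c⁻¹ :=
    ⟨g0⁻¹ * ((ι (tau t s))⁻¹ * g), fun x => by
      calc _ = g0⁻¹ * ι (tauF t (γ x)) * g0 := by rw [e0]; group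
        _ = _ := by rw [e1]; group⟩
  have e3 : ∀ (n : ℕ) x, c ^ n * ι x * (c ^ n)⁻¹ = ι (x * (x⁻¹ * γ x) ^ n) := fun n x => by
    induction n with
    | zero => simp
    | succ n ih =>
      calc _ = c * (c ^ n * ι x * (c ^ n)⁻¹) * c⁻¹ := by group
        _ = _ := by
          rw [ih, ← e2, map_mul γ, fix _ (pow_mem (by simp [mem_AA, b1]) n), pow_succ',
            ← mul_assoc x, mul_inv_cancel_left]
  have cube : ∀ x ∈ AA F9, x ^ 3 = 1 := fun x hx => by
    have h3 : (3 : F9) = 0 := by decide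
    refine US.ext ?_ ?_ ?_ ?_ <;> simp [pow_succ, mem_AA.1 hx]
    · linear_combination x.c * h3
    · linear_combination x.e * h3
    · linear_combination x.f * h3
  obtain ⟨m, hm, k, hk'⟩ := H7.exists_coprime_pow_pElt (p := 3) (isOfFinOrder_of_finite c)
  obtain ⟨w, hw⟩ := h.cent _ k hk' fun x hx => by
    rw [← mul_inv_eq_iff_eq_mul, e3, fix x hx, inv_mul_cancel, one_pow, mul_one]
  obtain ⟨j, hj⟩ : ∃ j, m * m = 3 * j + 1 := by
    have : ¬ 3 ∣ m := (Nat.Prime.coprime_iff_not_dvd Nat.prime_three).1 hm.symm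
    refine ⟨m * m / 3, ?_⟩
    have : m % 3 = 1 ∨ m % 3 = 2 := by omega
    have h2 : m * m % 3 = 1 := by rcases this with h | h <;> simp [Nat.mul_mod, h]
    omega
  refine ⟨tau t (s * w ^ m), t, ht, fun x => ?_⟩
  have e4 : γ x = w ^ m * x * (w ^ m)⁻¹ := h.inj (by
    rw [map_mul, map_mul, map_inv, map_pow, hw, ← pow_mul, e3, hj, pow_succ, pow_mul,
      cube _ (by simp [mem_AA, b1]), one_pow, one_mul, mul_inv_cancel_left])
  rw [← hα, ← hγ, e4, ← tau_apply, ← tau_apply, ← map_inv, ← map_mul, ← map_mul]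
  congr 1; group

theorem syl : H7.SylowIn 3 ι.range ⊤ := by
  have hP : IsPGroup 3 ι.range := by
    have : CharP F9 3 := charP_of_injective_algebraMap' (ZMod 3) 3
    rw [MonoidHom.range_eq_map]; exact (isPGroup_top 3).map ι
  by_contra hn
  obtain ⟨b, -, hb, hN, k, hk'⟩ := H7.exists_mem_normalizer_of_not_sylowIn hP le_top hn
  have : ∀ x, ∃ y, ι y = b * ι x * b⁻¹ := fun x => (mem_normalizer_iff.1 hN _).1 ⟨x, rfl⟩
  choose f hf using this
  obtain ⟨s, t, -, e⟩ := h.nor hk b f hf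
  have e1 : ∀ n : ℕ, ∃ w, ∀ x, ι (w * tauF (t ^ n) x * w⁻¹) = b ^ n * ι x * (b ^ n)⁻¹ := fun n => by
    induction n with
    | zero => exact ⟨1, fun x => by simp [tauF_one]⟩
    | succ n ih =>
      obtain ⟨w, ih⟩ := ih
      refine ⟨s * tau t w, fun x => ?_⟩
      calc _ = ι (f (w * tauF (t ^ n) x * w⁻¹)) := by
            rw [e, pow_succ', tauF_tauF, ← tau_apply, ← tau_apply t (_ * _), map_mul (tau t),
              map_mul (tau t), map_inv (tau t)]
            congr 1; group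
        _ = _ := by rw [hf, ih]; group
  obtain ⟨w, e2⟩ := e1 (3 ^ k)
  have h1 : 1 = t ^ 3 ^ k := eq_of_tauF_conj (w := w) fun x => h.inj (by
    rw [e2, hk', tauF_one]; group)
  have h2 : t = 1 := by
    have := pow_gcd_eq_one.2 ⟨h1.symm, par_pow t⟩
    rwa [Nat.Coprime.pow_left k (by norm_num : Nat.Coprime 3 16), pow_one] at this
  have h3 : (ι s)⁻¹ * b ∈ zpowers b ⊔ ι.range :=
    mul_mem (inv_mem (mem_sup_right ⟨s, rfl⟩)) (mem_sup_left (mem_zpowers b))
  obtain ⟨j, hj⟩ := H1.isPGroup_iff_forall_mem.1 (H7.isPGroup_sup_of_le_normalizer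
    (H7.isPGroup_zpowers_of_pow hk') hP (zpowers_le.2 hN)) _ h3
  refine hb ((mul_mem_cancel_left (ι.range.inv_mem ⟨s, rfl⟩)).1 (h.cent _ j hj fun x _ => ?_))
  have := hf x
  rw [e, h2, tauF_one, map_mul, map_mul, map_inv] at this
  calc _ = (ι s)⁻¹ * (b * ι x * b⁻¹) * b := by group
    _ = _ := by rw [← this]; group

end Raw

theorem R3.m3 {H : Subgroup (Par F9)} {Y : List F9} (hk : ∀ ν, kpar ν ∈ H) (h : R3 H Y) :
    M3 H Y := by
  obtain ⟨G, _, _, ι, h, hY⟩ := h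
  exact ⟨G, _, inferInstance, ι, ⟨h.inj, h.syl hk, h.par, h.w2, h.nor hk⟩, hY⟩

end Cfsg.Agent.U4
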