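import Cfsg.Agent.Lib.U4.Le4

/-!
# S5210: the models for q = 3 (see notes/U4.md)
-/

set_option autoImplicit false
set_option linter.unusedSectionVars false
set_option linter.unusedVariables false
set_option linter.unusedSimpArgs false

namespace Cfsg.Agent.U4

namespace Le

open Subgroup Cfsg H2 H8 Finset SU4 U4.US
open C3 (PI F3 vv Gr vL aH lam JJ h3 aH_mul aH_one aH_dot ext_frame smul_J orth vL_dot norm_dot
  smul_dot co_inj exists_ι finite_Co0)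

/-- `φ` keeps `p` and `q` or (if `Γ`) interchanges them -/
def Kp {α : Type*} (Γ : Prop) (φ : α → α) (p q : α) : Prop :=
  (φ p = p ∧ φ q = q) ∨ (Γ ∧ φ p = q ∧ φ q = p)

instance {α : Type*} [DecidableEq α] (Γ : Prop) [Decidable Γ] (φ : α → α) (p q : α) :
    Decidable (Kp Γ φ p q) := by unfold Kp; infer_instance

/-- the stabilizer of two vectors -/
def GG (Γ : Prop) (p q : F3 × F3) : Subgroup Co0 where
  carrier := {g | Kp Γ (aH g) (Yv p) (Yv q)}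
  one_mem' := .inl ⟨rfl, rfl⟩
  mul_mem' := fun {g h} hg hh => by
    rcases hg with ⟨h1, h2⟩ | ⟨h0, h1, h2⟩ <;> rcases hh with ⟨k1, k2⟩ | ⟨k0, k1, k2⟩ <;>
      simp [Kp, aH_mul, *]
  inv_mem' := fun {g} hg => by
    have e : ∀ {x y}, aH g x = y → aH g⁻¹ y = x := fun h => by
      rw [← h, ← aH_mul, inv_mul_cancel, aH_one]
    exact hg.imp (fun h => ⟨e h.1, e h.2⟩) fun h => ⟨h.1, e h.2.2, e h.2.1⟩

theorem mem_GG {Γ : Prop} {p q : F3 × F3} {g : Co0} {φ : F3 × F3 → F3 × F3} (h : Kp Γ φ p q)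
    (e : ∀ r, aH g (Yv r) = Yv (φ r)) : g ∈ GG Γ p q :=
  h.imp (fun h => ⟨by rw [e, h.1], by rw [e, h.2]⟩) fun h => ⟨h.1, by rw [e, h.2.1], by rw [e, h.2.2]⟩

theorem of_mem_GG {Γ : Prop} {p q : F3 × F3} {g : Co0} {φ : F3 × F3 → F3 × F3} {ε : ℤˣ}
    (h : g ∈ GG Γ p q) (e : ∀ r, aH g (Yv r) = (ε : ℤ) • Yv (φ r)) : ε = 1 ∧ Kp Γ φ p q := by
  rcases h with ⟨h1, h2⟩ | ⟨h0, h1, h2⟩ <;> rw [e] at h1 h2
  · exact ⟨(Yv_inj _ _ _ h1).1, .inl ⟨(Yv_inj _ _ _ h1).2, (Yv_inj _ _ _ h2).2⟩⟩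
  · exact ⟨(Yv_inj _ _ _ h1).1, .inr ⟨h0, (Yv_inj _ _ _ h1).2, (Yv_inj _ _ _ h2).2⟩⟩

/-- the automorphism `φ_y` -/
def phi (y : F9) (x : US F9) : US F9 :=
  ⟨x.b, x.c, x.e + y * star x.b, x.f + (star y * x.b ^ 2 + y * star x.b ^ 2), x.hc, by
    have h : (3 : F9) = 0 := by decide
    simp; linear_combination (star y * x.b ^ 2 + y * star x.b ^ 2) * h⟩

def dd (y : F9) : C3.US := ⟨0, 0, y.im, 0, y.re, 0, -y.im, 0, 0⟩

theorem jc_phi (y : F9) (x : US F9) : jc (phi y x) = dd y * jc x * (dd y)⁻¹ := by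
  ext <;> simp [jc, phi, dd, pow_two] <;> ring_nf

variable {ι : C3.US →* Co0} (hι : ∀ x i, aH (ι x) (vL i) = vL (x • i))
include hι

theorem cent_Yv {g : Co0} (h : ∀ x ∈ AA F9, g * ι (jc x) = ι (jc x) * g) :
    ∃ ε : ℤˣ, ∃ d ∈ JJ, (∀ i, aH g (vL i) = (ε : ℤ) • vL (d • i)) ∧
      ∀ r, aH g (Yv r) = (ε : ℤ) • Yv (r + (lam none 1 d, lam none 2 d)) := by
  obtain ⟨ε, d, hd, e⟩ := centA hι h
  refine ⟨ε, d, hd, e, fun r => ?_⟩
  rw [← Yv_J hι hd, aH_Yv, aH_Yv]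
  simp only [yv, e, hι, smul_add, smul_sub]

theorem nc (s : F9) (hs : star s = -s) (h0 : s ≠ 0) (g : Co0) :
    g * ι (jc (xA iF 0 0 (by decide) tz0)) * g⁻¹ ≠ ι (jc (xA iF 0 s (by decide) hs)) := fun e => by
  have c : ∀ (s : F9) (hs : star s = -s), s ≠ 0 → #{i : PI | lam i.1 i.2.1
    (jc (xA iF 0 s (by decide) hs)) = 0} = 18 := by decide +kernel
  have c' : #{i : PI | lam i.1 i.2.1 (jc (xA iF 0 0 (by decide) tz0)) = 0} = 9 := by decide +kernel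
  have h1 : ∀ i, ∑ j, dotInt (aH g (vL i)).1 (vv j) ^ 2 = 72 * 48 := fun i => by
    rw [← norm_dot, nrm48]
  have h2 : ∀ j, ∑ i, dotInt (aH g (vL i)).1 (vv j) ^ 2 = 72 * 48 := fun j => by
    simp only [dot_g g _ j]
    rw [← norm_dot, nrm48]
  have hJ := jc_J (xA_mem iF 0 0 (by decide) tz0)
  have hJ' := jc_J (xA_mem iF 0 s (by decide) hs)
  replace c := c s hs h0
  generalize jc (xA iF 0 0 (by decide) tz0) = x at *
  generalize jc (xA iF 0 s (by decide) hs) = y at *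
  have h4 : ∑ j ∈ {i : PI | lam i.1 i.2.1 y = 0}, ∑ i, dotInt (aH g (vL i)).1 (vv j) ^ 2 ≤
      ∑ i ∈ {i : PI | lam i.1 i.2.1 x = 0}, ∑ j, dotInt (aH g (vL i)).1 (vv j) ^ 2 := by
    rw [sum_comm, ← sum_subset (subset_univ {i : PI | lam i.1 i.2.1 x = 0}) fun i _ hi =>
      sum_eq_zero fun j hj => ?_]
    · exact sum_le_sum fun i _ => sum_le_sum_of_subset_of_nonneg (subset_univ _)
        fun _ _ _ => sq_nonneg _
    · rw [dot_g, orth hι hJ (s := i.1) (t := i.2.1) _ (by simpa using hi) i.2.2]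
      · rfl
      · rw [← aH_mul, show ι x * g⁻¹ = g⁻¹ * ι y by rw [← e]; group, aH_mul, hι,
          smul_J hJ' j.1 j.2.1 j.2.2, (mem_filter.1 hj).2, add_zero]
  simp only [h1, h2, sum_const, c, c'] at h4
  revert h4
  decide

omit hι in
theorem r3_of {H : Subgroup (Par F9)} {Y : List F9} (Γ : Prop) (p q : F3 × F3)
    (h1 : ∀ n, tt n ∈ H → Kp Γ (ff n) p q) (h2 : ∀ n k, Kp Γ (fun r => ff n (r + k)) p q → tt n ∈ H)
    (h3 : ∀ k, Kp Γ (· + k) p q → k = 0)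
    (h4 : ∀ y ∈ Y, ∀ r ∈ [p, q], (r.1 - lam none 1 (dd y)) ^ 2 = (r.2 - lam none 2 (dd y)) ^ 2) :
    R3 H Y := by
  obtain ⟨ι, hι⟩ := exists_ι
  have := finite_Co0
  refine ⟨GG Γ p q, inferInstance, inferInstance, (ι.comp jj).codRestrict _ fun x =>
    .inl ⟨Yv_S hι x p, Yv_S hι x q⟩, ⟨?_, fun t ht => ?_, ?_, fun t g e => ?_, fun g n hn e => ?_,
    fun s hs h0 e => ?_⟩, fun y hy => ?_⟩
  · exact (injective_iff_map_eq_one _).2 fun x hx =>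
      jc_inj (co_inj hι ((congrArg Subtype.val hx).trans (map_one ι).symm))
  · obtain ⟨n, rfl⟩ := exists_tt t
    obtain ⟨g, e1, e2⟩ := mon_tt hι n
    exact ⟨⟨g, mem_GG (h1 n ht) e2⟩, fun x => Subtype.ext (e1 x)⟩
  · obtain ⟨g, e1, e2⟩ := exists_n2 hι
    exact ⟨⟨g, .inl ⟨e2 p, e2 q⟩⟩, fun x hx => Subtype.ext (e1 x hx)⟩
  · obtain ⟨n, rfl⟩ := exists_tt t
    obtain ⟨g', e1, e2⟩ := mon_tt hι n
    obtain ⟨ε, d, -, -, e3⟩ := cent_Yv hι (g := g'⁻¹ * g) fun x hx => by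
      have : ι (jc _) = g * ι (jc x) * (g : Co0)⁻¹ := congrArg Subtype.val (e x hx)
      rw [e1] at this
      rw [mul_assoc, inv_mul_eq_iff_eq_mul, mul_inv_eq_iff_eq_mul.1 this.symm]
      group
    exact h2 n _ (of_mem_GG (ε := ε) g.2 fun r => by
      rw [← e2, ← map_zsmul, ← e3, ← aH_mul, mul_inv_cancel_left]).2
  · obtain ⟨ε, d, hd, e1, e2⟩ := cent_Yv hι (g := g) fun x hx => congrArg Subtype.val (e x hx)
    obtain ⟨rfl, k⟩ := of_mem_GG g.2 e2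
    have : ∀ c e f g h z : F3, (lam none 1 ⟨0, 0, c, 0, e, f, g, h, z⟩,
      lam none 2 ⟨0, 0, c, 0, e, f, g, h, z⟩) = 0 →
      jc (aa (c, ⟨-f, h⟩, z)) = ⟨0, 0, c, 0, e, f, g, h, z⟩ := by decide +kernel
    obtain ⟨_, _, c, _, e', f, g', h, z⟩ := d
    obtain ⟨rfl, rfl, rfl⟩ := hd
    refine ⟨aa (c, ⟨-f, h⟩, z), Subtype.ext (ext_frame fun i => ?_)⟩
    rw [e1, Units.val_one, one_smul, ← hι, ← this _ _ _ _ _ _ (h3 _ k)]
    rfl
  · obtain ⟨g, e⟩ := isConj_iff.1 e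
    exact nc hι s hs h0 g (congrArg Subtype.val e)
  · obtain ⟨g, e1, e2⟩ := exists_n1 hι
    have hd : dd y ∈ JJ := ⟨rfl, rfl, rfl⟩
    have k : ∀ r ∈ [p, q], aH (ι (dd y) * g * (ι (dd y))⁻¹) (Yv r) = Yv r := fun r hr => by
      have := Yv_J hι hd (r - (lam none 1 (dd y), lam none 2 (dd y)))
      rw [sub_add_cancel] at this
      rw [aH_mul, aH_mul, ← this, ← aH_mul (ι _)⁻¹, inv_mul_cancel, aH_one, e2 _ (h4 y hy r hr)]
    refine ⟨⟨_, .inl ⟨k p (by simp), k q (by simp)⟩⟩, fun x hx =>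
      ⟨phi y (n1 κ hκ (phi (-y) x)), rfl, Subtype.ext ?_, ?_⟩⟩
    · show ι (jc _) = ι (dd y) * g * (ι (dd y))⁻¹ * ι (jc x) * (ι (dd y) * g * (ι (dd y))⁻¹)⁻¹
      rw [jc_phi, map_mul, map_mul, e1 (phi (-y) x) hx, jc_phi, (by decide +kernel : ∀ y, dd (-y) = (dd y)⁻¹)]
      simp [mul_assoc]
    · have : -iF⁻¹ = iF := by decide +kernel
      simp [phi, NL, κ, this, sub_eq_add_neg]

end Le

open SU4 Le

/-- `U₆(2)` -/
theorem r3_U6 : R3 (Hw iF) [0, iF, -iF] :=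
  r3_of False (1, 1) (2, 2) (by simp only [mem_Hw]; decide +kernel)
    (by simp only [mem_Hw]; decide +kernel) (by decide +kernel) (by decide +kernel)

/-- `U₆(2).2` -/
theorem r3_U6' : R3 (Hw' iF) [0, iF, -iF] :=
  r3_of True (1, 1) (2, 2) (by simp only [mem_Hw']; decide +kernel)
    (by simp only [mem_Hw']; decide +kernel) (by decide +kernel) (by decide +kernel)

/-- `Co₂` -/
theorem r3_Co2 : R3 ⊤ [0, 1, -1, iF, -iF] :=
  r3_of False 0 0 (by simp only [Subgroup.mem_top]; decide +kernel) (fun _ _ _ => trivial)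
    (by decide +kernel) (by decide +kernel)

/-- `McL` -/
theorem r3_McL : R3 (Hw (1 - iF)) [1 + iF, -(1 + iF)] :=
  r3_of False (1, 0) (2, 0) (by simp only [mem_Hw]; decide +kernel)
    (by simp only [mem_Hw]; decide +kernel) (by decide +kernel) (by decide +kernel)

/-- `McL.2` -/
theorem r3_McL' : R3 (Hw' (1 - iF)) [1 + iF, -(1 + iF)] :=
  r3_of True (1, 0) (2, 0) (by simp only [mem_Hw']; decide +kernel)
    (by simp only [mem_Hw']; decide +kernel) (by decide +kernel) (by decide +kernel)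

end Cfsg.Agent.U4
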