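import Cfsg.Agent.Lib.U4.Raw
import Cfsg.Agent.Lib.U4.Lin1a

/-!
# S5210, q = 3: subgroups of `GSp₄(3)` with Sylow 3-subgroup of order 3 (see notes/U4.md)
-/

set_option autoImplicit false
set_option linter.unusedSectionVars false
set_option linter.unusedVariables false

namespace Cfsg.Agent.U4.T3

open Cfsg.Agent.U5 SU4

/-- the space `QQ / Z1` -/
abbrev VV : Type := F9 × F9
/-- its endomorphisms -/
abbrev WW : Type := AddMonoid.End VV

theorem three : (3 : F9) = 0 := by decide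
theorem ii : iF * iF = -1 := by decide
theorem real_cases : ∀ s : F9, star s = s → s = 0 ∨ s = 1 ∨ s = -1 := by decide

/-- the basis -/
def bs : List VV := [(1, 0), (iF, 0), (0, 1), (0, iF)]

theorem ext4 {M : Type*} [AddCommGroup M] {f g : VV →+ M} (h : ∀ v ∈ bs, f v = g v) : f = g := by
  have h1 : ∀ x : F9, ∃ a b : Fin 3, x = a.1 • 1 + b.1 • iF := by decide
  refine AddMonoidHom.ext fun v => ?_
  obtain ⟨a, b, e⟩ := h1 v.1
  obtain ⟨c, d, e'⟩ := h1 v.2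
  have : v = a.1 • (1, 0) + b.1 • (iF, 0) + (c.1 • (0, 1) + d.1 • (0, iF)) :=
    Prod.ext (by simpa using e) (by simpa using e')
  simp only [bs, List.mem_cons, List.not_mem_nil, or_false, forall_eq_or_imp, forall_eq] at h
  rw [this]
  simp only [map_add, map_nsmul, h]

theorem extE {f g : WW} (h : ∀ v, f v = g v) : f = g := AddMonoidHom.ext h
theorem extW {f g : WW} (h : ∀ v ∈ bs, f v = g v) : f = g := ext4 h

/-- `u ^ c φ_y` -/
def ph (c y : F9) : WW := AddMonoidHom.mk' (fun v => (v.1, v.2 + c * v.1 + y * star v.1))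
  fun v w => Prod.ext rfl (by simp; ring)
/-- the generator of the Sylow subgroup -/
def uE : WW := AddMonoidHom.mk' (fun v => (v.1, v.2 + iF * v.1)) fun v w => Prod.ext rfl (by simp; ring)
/-- the torus element -/
def kE : WW := AddMonoidHom.mk' (fun v => (iF * v.1, -iF * v.2))
  fun v w => Prod.ext (by simp; ring) (by simp; ring)
/-- the Weyl elements -/
def nE (y : F9) : WW := AddMonoidHom.mk' (NL y)
  fun v w => Prod.ext (by simp [NL]; ring) (by simp [NL]; ring)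
/-- products of two commuting transvections -/
def xw (w w' : VV) : WW := AddMonoidHom.mk'
  (fun v => v + ((iF * om2 v w) • w + (iF * om2 v w') • w'))
  fun v u => Prod.ext (by simp [om2]; ring) (by simp [om2]; ring)
/-- the standard automorphisms -/
def tE (t : Par F9) : WW := AddMonoidHom.mk' (fun v => (t.b * t.σ v.1, t.a * t.b * t.σ v.2))
  fun v w => Prod.ext (by simp; ring) (by simp; ring)

theorem ph_apply (c y : F9) (v : VV) : ph c y v = (v.1, v.2 + c * v.1 + y * star v.1) := rfl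
theorem uE_apply (v : VV) : uE v = (v.1, v.2 + iF * v.1) := rfl
theorem kE_apply (v : VV) : kE v = (iF * v.1, -iF * v.2) := rfl
theorem nE_apply (y : F9) (v : VV) : nE y v = NL y v := rfl
theorem xw_apply (w w' v : VV) : xw w w' v = v + ((iF * om2 v w) • w + (iF * om2 v w') • w') := rfl
theorem tE_apply (t : Par F9) (v : VV) : tE t v = (t.b * t.σ v.1, t.a * t.b * t.σ v.2) := rfl
theorem mul_ap (f g : WW) (v : VV) : (f * g) v = f (g v) := rfl
theorem one_ap (v : VV) : (1 : WW) v = v := rfl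

theorem ph_ph (c y c' y' : F9) : ph c y * ph c' y' = ph (c + c') (y + y') :=
  extE fun v => Prod.ext rfl (by simp [mul_ap, ph_apply]; ring)
theorem ph_zero : ph 0 0 = 1 := extE fun v => Prod.ext rfl (by simp [ph_apply])
theorem uE_eq : uE = ph iF 0 := extE fun v => Prod.ext rfl (by simp [ph_apply, uE_apply])
theorem tE_mul (s t : Par F9) : tE (s * t) = tE s * tE t :=
  extE fun v => Prod.ext (by simp [mul_ap, tE_apply]; ring) (by simp [mul_ap, tE_apply]; ring)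
theorem tE_one : tE 1 = 1 := extE fun v => Prod.ext (by simp [tE_apply]) (by simp [tE_apply])

/-- conjugation by `φ_y` -/
def cj (y : F9) : WW →* WW where
  toFun x := ph 0 y * x * ph 0 (-y)
  map_one' := by simp [ph_ph, ph_zero]
  map_mul' a b := by
    simp only [mul_assoc]
    rw [← mul_assoc (ph 0 (-y)), ph_ph]; simp [ph_zero]

theorem cj_apply (y : F9) (x : WW) : cj y x = ph 0 y * x * ph 0 (-y) := rfl
theorem cj_u (y : F9) : cj y uE = uE := by simp [cj_apply, uE_eq, ph_ph]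
theorem cj_k (y : F9) : cj y kE = kE := extE fun v => Prod.ext rfl (by
  simp [cj_apply, mul_ap, ph_apply, kE_apply, star_iF]; ring)
theorem cj_n (y z : F9) : cj y (nE z) = nE (z + y) := extE fun v => Prod.ext
  (by simp [cj_apply, mul_ap, ph_apply, nE_apply, NL]; left; ring)
  (by simp [cj_apply, mul_ap, ph_apply, nE_apply, NL]; ring)

theorem smul_real (g : WW) {s : F9} (hs : star s = s) (v : VV) : g (s • v) = s • g v := by
  rcases real_cases s hs with rfl | rfl | rfl <;> simp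

theorem star_om2 (v w : VV) : star (iF * om2 v w) = iF * om2 v w := by
  simp [om2, star_iF]; ring

theorem xw_conj {g : WW} {ε : F9} (hε : star ε = ε) (h : ∀ v w, om2 (g v) (g w) = ε * om2 v w)
    (w w' v : VV) : xw (g w) (g w') (g v) = g (v + ε • (xw w w' v - v)) := by
  rw [map_add, smul_real g hε]
  simp only [xw_apply, h, add_sub_cancel_left, map_add, smul_add, smul_real g (star_om2 _ _),
    smul_smul, mul_left_comm iF]

theorem om2_ph {c : F9} (hc : star c = -c) (y : F9) (v w : VV) :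
    om2 (ph c y v) (ph c y w) = 1 * om2 v w := by
  simp [om2, ph_apply, hc]; ring

theorem xw_ph {c : F9} (hc : star c = -c) (y : F9) (w w' : VV) :
    xw (ph c y w) (ph c y w') = ph c y * xw w w' * ph (-c) (-y) := by
  have : xw (ph c y w) (ph c y w') * ph c y = ph c y * xw w w' := extE fun v => by
    simpa [mul_ap] using xw_conj (star_one _) (om2_ph hc y) w w' v
  rw [← this, mul_assoc, ph_ph]; simp [ph_zero]

variable {X : Submonoid WW} {w w' : VV}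

/-- the generation property -/
def PP (w w' : VV) : Prop := ∀ X : Submonoid WW, uE ∈ X → kE ∈ X → xw w w' ∈ X →
  ∀ X' : Submonoid WW, uE ∈ X' → kE ∈ X' → (∀ y, nE y ∈ X → nE y ∈ X') →
    ∃ g ∈ X', ∀ e, om2 (g (0, e)) w = 0 ∧ om2 (g (0, e)) w' = 0

theorem ph_mem (hu : uE ∈ X) {c : F9} (hc : star c = -c) : ph c 0 ∈ X := by
  rcases tz_cases c hc with rfl | rfl | rfl
  · rw [ph_zero]; exact one_mem _
  · rwa [← uE_eq]
  · convert mul_mem hu hu using 1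
    rw [uE_eq, ph_ph, show iF + iF = -iF by decide, add_zero]

theorem PP.ph (h : PP w w') {c : F9} (hc : star c = -c) (y : F9) : PP (ph c y w) (ph c y w') := by
  have h1 : PP (T3.ph 0 y w) (T3.ph 0 y w') := fun X a b d X' a' b' e => by
    obtain ⟨g, h1, h2⟩ := h (X.comap (cj y)) (by rwa [Submonoid.mem_comap, cj_u])
      (by rwa [Submonoid.mem_comap, cj_k]) (by rwa [xw_ph tz0, neg_zero] at d) (X'.comap (cj y))
      (by rwa [Submonoid.mem_comap, cj_u]) (by rwa [Submonoid.mem_comap, cj_k])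
      (by simp only [Submonoid.mem_comap, cj_n]; exact fun z => e _)
    refine ⟨_, h1, fun e => ?_⟩
    have : T3.ph 0 (-y) (0, e) = (0, e) := by simp [ph_apply]
    simpa only [cj_apply, mul_ap, this, om2_ph tz0, one_mul] using h2 e
  intro X a b d X' a' b' e
  have e1 : T3.ph c y = T3.ph c 0 * T3.ph 0 y := by simp [ph_ph]
  have hc' : star (-c) = - -c := by rw [star_neg, hc]
  rw [e1, mul_ap, mul_ap] at d ⊢
  obtain ⟨g, h2, h3⟩ := h1 X a b (by
    convert mul_mem (mul_mem (ph_mem a hc') d) (ph_mem a hc) using 1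
    simp [xw_ph hc, ← mul_assoc, ph_ph, ph_zero]
    simp [mul_assoc, ph_ph, ph_zero]) X' a' b' e
  exact ⟨_, mul_mem (ph_mem a' hc) h2, fun e => by simpa only [mul_ap, om2_ph hc, one_mul] using h3 e⟩

theorem PP.swap (h : PP w w') : PP w' w := fun X a b d X' a' b' e =>
  let ⟨g, h1, h2⟩ := h X a b (by
    convert d using 1; exact extE fun v => by rw [xw_apply, xw_apply, add_comm (_ • w)])
    X' a' b' e
  ⟨g, h1, fun e => (h2 e).symm⟩

theorem om2_neg (v w : VV) : om2 v (-w) = -om2 v w := by simp [om2]; ring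

theorem PP.neg (h : PP w w') : PP (-w) w' := fun X a b d X' a' b' e =>
  let ⟨g, h1, h2⟩ := h X a b (by
    convert d using 1; exact extE fun v => by simp [xw_apply, om2_neg]) X' a' b' e
  ⟨g, h1, fun e => by simpa [om2_neg] using h2 e⟩

theorem PP.sq (h0 : om2 w w' = 0) (h : PP (w - w') (w + w')) : PP w w' := fun X a b d X' a' b' e => by
  obtain ⟨g, h1, h2⟩ := h X a b (by
    convert mul_mem d d using 1
    refine extE fun v => ?_
    have k : ∀ u, om2 (xw w w' v) u = om2 v u + (iF * om2 v w) * om2 w u + (iF * om2 v w') * om2 w' u :=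
      fun u => by
        have a1 := star_om2 v w
        have a2 := star_om2 v w'
        rw [xw_apply]
        generalize iF * om2 v w = s at *
        generalize iF * om2 v w' = t at *
        simp [om2, a1, a2]; ring
    have k1 : ∀ w : VV, om2 w w = 0 := fun w => by simp [om2]
    have k2 : om2 w' w = 0 := by rw [← neg_eq_zero, ← h0]; simp [om2]
    have k3 : om2 v (w - w') = om2 v w - om2 v w' := by simp [om2]; ring
    have k4 : om2 v (w + w') = om2 v w + om2 v w' := by simp [om2]; ring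
    rw [mul_ap, xw_apply w w' (xw w w' v), k, k, k1, k1, k2, h0, xw_apply, xw_apply, k3, k4]
    module) X' a' b' e
  refine ⟨g, h1, fun e => ?_⟩
  obtain ⟨h3, h4⟩ := h2 e
  simp only [om2, Prod.fst_add, Prod.snd_add, Prod.fst_sub, Prod.snd_sub, star_add, star_sub] at h3 h4 ⊢
  constructor
  · linear_combination -h3 - h4 + (star (g (0, e)).1 * w.2 - (g (0, e)).1 * star w.2 -
      (star w.1 * (g (0, e)).2 - w.1 * star (g (0, e)).2)) * three
  · linear_combination h3 - h4 + (star (g (0, e)).1 * w'.2 - (g (0, e)).1 * star w'.2 -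
      (star w'.1 * (g (0, e)).2 - w'.1 * star (g (0, e)).2)) * three

/-- values of words -/
def wv (gs : List WW) (l : List ℕ) : WW := (l.map fun n => gs.getD n 1).prod

theorem wv_mem {gs : List WW} (h : ∀ g ∈ gs, g ∈ X) (l : List ℕ) : wv gs l ∈ X :=
  list_prod_mem (by
    simp only [List.mem_map]
    rintro _ ⟨n, -, rfl⟩
    rw [List.getD_eq_getElem?_getD]
    cases e : gs[n]? with
    | none => exact one_mem _
    | some g => exact h g (List.mem_of_getElem? e))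

/-- the check of a certificate -/
abbrev Ck (a : VV × VV × List (F9 × List ℕ) × List ℕ) : Prop :=
  (∀ b ∈ a.2.2.1, ∀ v ∈ bs, nE b.1 v = wv [uE, kE, xw a.1 a.2.1] b.2 v) ∧
  ∀ e, om2 (wv (uE :: kE :: a.2.2.1.map fun b => nE b.1) a.2.2.2 (0, e)) a.1 = 0 ∧
    om2 (wv (uE :: kE :: a.2.2.1.map fun b => nE b.1) a.2.2.2 (0, e)) a.2.1 = 0

theorem Ck.pp {a : VV × VV × List (F9 × List ℕ) × List ℕ} (h : Ck a) : PP a.1 a.2.1 :=
  fun X h1 h2 h3 X' h4 h5 h6 => ⟨_, wv_mem (by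
    simp only [List.mem_cons, List.mem_map]
    rintro _ (rfl | rfl | ⟨b, hb, rfl⟩)
    exacts [h4, h5, h6 _ (extW (h.1 b hb) ▸ wv_mem (by simp [h1, h2, h3]) _)]) _, h.2⟩

/-- the certificates -/
def cs : List (VV × VV × List (F9 × List ℕ) × List ℕ) := [
  ((⟨1, 0⟩, ⟨0, 0⟩), (⟨0, 1⟩, ⟨0, 0⟩), [(⟨0, 0⟩, [0, 2, 0])], [2]),
  ((⟨1, 0⟩, ⟨0, 0⟩), (⟨1, 1⟩, ⟨0, 0⟩), [(⟨1, 1⟩, [0, 2, 2, 0, 0, 2, 0]), (⟨2, 2⟩, [0, 2, 0, 0, 2, 2, 0])], [0, 3, 0, 0, 2]),
  ((⟨1, 0⟩, ⟨0, 0⟩), (⟨1, 2⟩, ⟨0, 0⟩), [(⟨1, 2⟩, [0, 2, 0, 0, 2, 2, 0]), (⟨2, 1⟩, [0, 2, 2, 0, 0, 2, 0])], [0, 3, 0, 0, 2]),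
  ((⟨0, 1⟩, ⟨0, 0⟩), (⟨1, 1⟩, ⟨0, 0⟩), [(⟨1, 2⟩, [0, 2, 2, 0, 0, 2, 0]), (⟨2, 1⟩, [0, 2, 0, 0, 2, 2, 0])], [0, 3, 0, 0, 2]),
  ((⟨0, 1⟩, ⟨0, 0⟩), (⟨1, 2⟩, ⟨0, 0⟩), [(⟨1, 1⟩, [0, 2, 0, 0, 2, 2, 0]), (⟨2, 2⟩, [0, 2, 2, 0, 0, 2, 0])], [0, 3, 0, 0, 2]),
  ((⟨1, 1⟩, ⟨0, 0⟩), (⟨1, 2⟩, ⟨0, 0⟩), [(⟨0, 0⟩, [0, 2, 2, 0])], [2]),
  ((⟨0, 0⟩, ⟨1, 0⟩), (⟨1, 0⟩, ⟨0, 0⟩), [(⟨0, 0⟩, [2, 2, 1, 2, 1, 2, 2]), (⟨0, 1⟩, [2, 2, 1, 0, 2, 1]), (⟨0, 2⟩, [1, 2, 0, 1, 2, 2])], [4, 0, 2]),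
  ((⟨0, 0⟩, ⟨0, 1⟩), (⟨0, 1⟩, ⟨0, 0⟩), [(⟨0, 0⟩, [2, 2, 1, 2, 1, 2, 2]), (⟨0, 1⟩, [1, 2, 0, 1, 2, 2]), (⟨0, 2⟩, [2, 2, 1, 0, 2, 1])], [3, 0, 2]),
  ((⟨0, 0⟩, ⟨1, 1⟩), (⟨1, 1⟩, ⟨0, 0⟩), [(⟨0, 0⟩, [2, 1, 2, 2, 1, 2]), (⟨1, 0⟩, [1, 2, 2, 0, 1, 2]), (⟨2, 0⟩, [2, 1, 0, 2, 2, 1])], [3, 0, 2]),
  ((⟨0, 0⟩, ⟨1, 2⟩), (⟨1, 2⟩, ⟨0, 0⟩), [(⟨0, 0⟩, [2, 1, 2, 2, 1, 2]), (⟨1, 0⟩, [2, 1, 0, 2, 2, 1]), (⟨2, 0⟩, [1, 2, 2, 0, 1, 2])], [4, 0, 2])]

theorem cs_ok : ∀ a ∈ cs, Ck a := by decide +kernel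


end Cfsg.Agent.U4.T3
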