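import Cfsg.Agent.Lib.U4.T3a

/-!
# S5210, q = 3: the set of Weyl elements (see notes/U4.md)
-/

set_option autoImplicit false
set_option linter.unusedSectionVars false
set_option linter.unusedVariables false

namespace Cfsg.Agent.U4.T3

open Cfsg.Agent.U5 SU4

variable {X : Submonoid WW} {w w' : VV}

theorem pp_pm {a : VV × VV × List (F9 × List ℕ) × List ℕ} (ha : a ∈ cs) (h1 : w = a.1 ∨ w = -a.1)
    (h2 : w' = a.2.1 ∨ w' = -a.2.1) : PP w w' := by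
  have h := (cs_ok a ha).pp
  rcases h1 with rfl | rfl <;> rcases h2 with rfl | rfl
  exacts [h, h.swap.neg.swap, h.neg, h.neg.swap.neg.swap]

theorem pp_C (h0 : om2 w w' = 0) (h1 : w.1 = 0) (h2 : w ≠ 0) (h3 : w'.1 ≠ 0) : PP w w' := by
  obtain ⟨_, e⟩ := w
  obtain ⟨b, e'⟩ := w'
  obtain rfl : _ = (0 : F9) := h1
  have k : ∀ e b : F9, e ≠ 0 → b ≠ 0 → star b * e = b * star e → ∃ a ∈ cs,
      (((0, e) : VV) = a.1 ∨ ((0, e) : VV) = -a.1) ∧
        (((b, 0) : VV) = a.2.1 ∨ ((b, 0) : VV) = -a.2.1) := by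
    clear h0 h2 h3
    decide +kernel
  obtain ⟨a, ha, k1, k2⟩ := k e b (fun h => h2 (by rw [h]; rfl)) h3
    (by simp [om2] at h0; linear_combination -h0)
  have := (pp_pm ha k1 k2).ph tz0 (e' / star b)
  simpa [ph_apply, star_ne_zero.2 h3] using this

theorem pp_B (h0 : om2 w w' = 0) (h1 : w.1 * star w'.1 ≠ w'.1 * star w.1) : PP w w' := by
  obtain ⟨b, e⟩ := w
  obtain ⟨b', e'⟩ := w'
  have k : ∀ b b' : F9, b * star b' ≠ b' * star b → ∃ a ∈ cs,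
      (((b, 0) : VV) = a.1 ∨ (b, 0) = -a.1) ∧ (((b', 0) : VV) = a.2.1 ∨ (b', 0) = -a.2.1) ∨
      (((b', 0) : VV) = a.1 ∨ (b', 0) = -a.1) ∧ (((b, 0) : VV) = a.2.1 ∨ (b, 0) = -a.2.1) := by
    decide +kernel
  obtain ⟨a, ha, k1⟩ := k b b' h1
  have h2 : PP (b, 0) (b', 0) := k1.elim (fun k => pp_pm ha k.1 k.2) fun k => (pp_pm ha k.1 k.2).swap
  have h3 := sub_ne_zero.2 h1
  have h4 : star b * b' - star b' * b ≠ 0 := fun e => h3 (by linear_combination -e)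
  simp only [om2] at h0 h3
  convert h2.ph (c := (e * star b' - e' * star b) / (b * star b' - b' * star b)) ?_
    ((e' * b - e * b') / (b * star b' - b' * star b)) using 1
  · rw [ph_apply]; congr 1
    rw [div_mul_eq_mul_div, div_mul_eq_mul_div, zero_add, ← add_div, eq_div_iff h3]; ring
  · rw [ph_apply]; congr 1
    rw [div_mul_eq_mul_div, div_mul_eq_mul_div, zero_add, ← add_div, eq_div_iff h3]; ring
  · simp only [star_div₀, star_sub, star_mul', star_star]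
    field_simp
    linear_combination (b * star b' - b' * star b) * h0

theorem pp_all (h0 : om2 w w' = 0) (h1 : w ≠ 0) (h2 : w' ≠ 0) (h3 : w - w' ≠ 0) (h4 : w + w' ≠ 0) :
    PP w w' := by
  have h0' : om2 w' w = 0 := by rw [← neg_eq_zero, ← h0]; simp [om2]
  by_cases h : w.1 * star w'.1 = w'.1 * star w.1
  swap
  · exact pp_B h0 h
  have k : ∀ b b' : F9, b * star b' = b' * star b → b = 0 ∧ b' = 0 ∨ b = 0 ∧ b' ≠ 0 ∨ b' = 0 ∧ b ≠ 0 ∨
      b - b' = 0 ∧ b + b' ≠ 0 ∨ b + b' = 0 ∧ b - b' ≠ 0 := by decide +kernel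
  have h5 : om2 (w - w') (w + w') = 0 := by
    simp only [om2, Prod.fst_add, Prod.snd_add, Prod.fst_sub, Prod.snd_sub, star_add, star_sub] at h0 ⊢
    linear_combination 2 * h0
  rcases k _ _ h with e | e | e | e | e
  · exact fun X _ _ _ X' _ _ _ => ⟨1, one_mem _, fun _ => by simp [om2, e]⟩
  · exact pp_C h0 e.1 h1 e.2
  · exact (pp_C h0' e.1 h2 e.2).swap
  · exact (pp_C h5 e.1 h3 e.2).sq h0
  · exact (pp_C (by rw [← neg_eq_zero, ← h5]; simp [om2]) e.1 h4 e.2).swap.sq h0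

/-- lines in the directions `1` and `i` -/
theorem rule1 (hu : uE ∈ X) {y d : F9} (hd : d ∈ [1, -1, iF, -iF]) (h1 : nE y ∈ X)
    (h2 : nE (d + y) ∈ X) : nE (-d + y) ∈ X := by
  have k : ∀ d ∈ [1, -1, iF, -iF], ∀ v ∈ bs, nE (-d) v = wv [uE, nE 0, nE d] [0, 1, 2, 0, 2, 1, 0] v := by
    decide +kernel
  rw [← cj_n, ← Submonoid.mem_comap, extW (k d hd)]
  exact wv_mem (by simpa [cj_u, cj_n] using ⟨hu, h1, h2⟩) _

/-- diagonal lines -/
theorem rule2 (hk : kE ∈ X) {y d : F9} (hd : d ∈ [1 + iF, 1 - iF]) (h1 : nE y ∈ X)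
    (h2 : nE (d + y) ∈ X) (h3 : nE (-d + y) ∈ X) : ph 0 d ∈ X := by
  have k : ∀ d ∈ [1 + iF, 1 - iF], ∀ v ∈ bs,
      ph 0 d v = wv [kE, nE 0, nE d, nE (-d)] [1, 3, 2, 1, 0, 0] v := by decide +kernel
  rw [show ph 0 d = cj y (ph 0 d) by simp [cj_apply, ph_ph], ← Submonoid.mem_comap, extW (k d hd)]
  exact wv_mem (by simpa [cj_k, cj_n] using ⟨hk, h1, h2, h3⟩) _

/-- the cross -/
def cr : List F9 := [0, 1, -1, iF, -iF]

theorem rule3 (hk : kE ∈ X) {y : F9} (h : ∀ d ∈ cr, nE (d + y) ∈ X) :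
    ∃ g ∈ X, ∀ v, (g v).1 = (1 + iF) * v.1 := by
  have k : ∀ v ∈ bs, wv (kE :: cr.map nE) [3, 5, 2, 1, 0] v =
      ((1 + iF) * v.1, (1 + iF) * v.2) := by decide +kernel
  refine ⟨cj y (wv (kE :: cr.map nE) [3, 5, 2, 1, 0]), (wv_mem (X := X.comap (cj y)) ?_ _), fun v => ?_⟩
  · simpa [cj_k, cj_n, hk] using h
  · rw [extW (g := AddMonoidHom.mk' (fun v => ((1 + iF) * v.1, (1 + iF) * v.2))
      fun v w => Prod.ext (by simp; ring) (by simp; ring)) k]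
    rfl

/-- the types -/
def tps : List (List F9) := [[0], [0, iF, -iF], [0, 1, -1], [1 + iF, -(1 + iF)], [1 - iF, -(1 - iF)], cr]

set_option synthInstance.maxSize 4000 in
set_option synthInstance.maxHeartbeats 200000 in
theorem classify {Y : F9 → Prop} (h0 : ∃ y, Y y)
    (h1 : ∀ y, ∀ d ∈ [1, -1, iF, -iF], Y y → Y (d + y) → Y (-d + y))
    (h2 : ∀ y, ∀ d ∈ [1 + iF, 1 - iF], Y y → Y (d + y) → ¬ Y (-d + y)) :
    ∃ y₀, (∃ T ∈ tps, ∀ y, Y (y + y₀) ↔ y ∈ T) ∧ ∀ m ∈ [1, -1, iF, -iF],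
      ((∀ y, Y y → Y (m * y)) → m * y₀ = y₀) ∧ ((∀ y, Y y → Y (m * star y)) → m * star y₀ = y₀) := by
  have k : ∀ b0 b1 b2 b3 b4 b5 b6 b7 b8 : Bool, ∀ Y : F9 → Prop, Y = (fun y : F9 =>
      [b0, b1, b2, b3, b4, b5, b6, b7, b8].getD (3 * y.re.val + y.im.val) false = true) → (∃ y, Y y) →
      (∀ y, ∀ d ∈ [1, -1, iF, -iF], Y y → Y (d + y) → Y (-d + y)) →
      (∀ y, ∀ d ∈ [1 + iF, 1 - iF], Y y → Y (d + y) → ¬ Y (-d + y)) →
      ∃ y₀, (∃ T ∈ tps, ∀ y, Y (y + y₀) ↔ y ∈ T) ∧ ∀ m ∈ [1, -1, iF, -iF],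
      ((∀ y, Y y → Y (m * y)) → m * y₀ = y₀) ∧ ((∀ y, Y y → Y (m * star y)) → m * star y₀ = y₀) := by
    simp only [forall_eq]
    decide +kernel
  classical
  refine k (Y ⟨0, 0⟩) (Y ⟨0, 1⟩) (Y ⟨0, 2⟩) (Y ⟨1, 0⟩) (Y ⟨1, 1⟩) (Y ⟨1, 2⟩) (Y ⟨2, 0⟩) (Y ⟨2, 1⟩)
    (Y ⟨2, 2⟩) Y (funext fun ⟨a, b⟩ => ?_) h0 h1 h2
  fin_cases a <;> fin_cases b <;> exact propext decide_eq_true_iff.symm

theorem exists_m (t : Par F9) : ∃ m ∈ [1, -1, iF, -iF], m * (t.b : F9) ^ 2 = t.a :=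
  (by decide +kernel : ∀ a b : F9, a ≠ 0 → star a = a → b ≠ 0 → ∃ m ∈ [1, -1, iF, -iF], m * b ^ 2 = a)
    _ _ t.a.ne_zero t.ha t.b.ne_zero

theorem act_eq {t : Par F9} {m : F9} (hm : m * (t.b : F9) ^ 2 = t.a) (y : F9) :
    m * t.σ y * star (t.b : F9) = t.a * t.b * t.σ y := by
  have : ∀ a b m : F9, a ≠ 0 → star a = a → m * b ^ 2 = a → m * star b = a * b := by decide +kernel
  linear_combination t.σ y * this _ _ _ t.a.ne_zero t.ha hm

theorem tE_nE (hk : kE ∈ X) {t : Par F9} (h1 : tE t ∈ X) (h2 : tE t⁻¹ ∈ X) {y y' : F9}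
    (hy : y' * star (t.b : F9) = t.a * t.b * t.σ y) (h : nE y ∈ X) : nE y' ∈ X := by
  have a1 : (t.a : F9) * t.a = 1 :=
    (by decide : ∀ a : F9, a ≠ 0 → star a = a → a * a = 1) _ t.a.ne_zero t.ha
  have a2 : t.σ iF * t.σ iF = -1 := by rw [← map_mul, ii, map_neg, map_one]
  have a3 : star (t.σ iF) = -t.σ iF := by rw [map_star', star_iF, map_neg]
  have hy' := congrArg star hy
  simp only [star_mul', star_star, Par.star_a, map_star'] at hy'
  have e : ∀ v, nE y' (tE t v) = (-(t.a * iF * t.σ iF)) • tE t (nE y v) := fun v => by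
    refine Prod.ext ?_ ?_ <;>
      simp only [nE_apply, tE_apply, NL, star_mul', star_sub, star_star, star_iF, Par.star_a, map_star',
        map_mul, map_sub, map_add, map_neg, Prod.smul_fst, Prod.smul_snd, smul_eq_mul]
    · linear_combination (-iF * t.σ (star v.1)) * hy +
        (t.a * iF * t.b * (t.σ v.2 - t.σ y * t.σ (star v.1))) * a2
    · linear_combination (iF * t.a * (t.σ (star y) * t.σ v.1 - t.σ (star v.2))) * hy +
        (iF * y' * t.σ v.1) * hy' - (iF * t.b * t.σ v.1) * a1 + (t.a * t.a * iF * t.b *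
          (t.σ v.1 - t.σ y * t.σ (star v.2) + t.σ y * t.σ (star y) * t.σ v.1)) * a2
  have e' : nE y' = nE y' * tE t * tE t⁻¹ := by rw [mul_assoc, ← tE_mul, mul_inv_cancel, tE_one, mul_one]
  have k : ∀ s : F9, s * s = 1 → s = 1 ∨ s = -1 := by decide
  rw [e']
  refine mul_mem ?_ h2
  rcases k (-(t.a * iF * t.σ iF)) (by
    linear_combination (iF * iF * t.σ iF * t.σ iF) * a1 + (t.σ iF * t.σ iF) * ii - a2) with e1 | e1
  · convert mul_mem h1 h using 1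
    exact extE fun v => by rw [mul_ap, mul_ap, e, e1, one_smul]
  · convert mul_mem (mul_mem hk hk) (mul_mem h1 h) using 1
    exact extE fun v => by
      simp only [mul_ap, e, e1, kE_apply, ← mul_assoc, ii, neg_mul_neg]; rfl

end Cfsg.Agent.U4.T3
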