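import Cfsg.Agent.Lib.U4.T3b
import Cfsg.Agent.Lib.U4.Cmp

/-!
# S5210, q = 3: the image of the automizer of `QQ` (see notes/U4.md)
-/

set_option autoImplicit false
set_option linter.unusedSectionVars false
set_option linter.unusedVariables false

namespace Cfsg.Agent.U4.T3

open Subgroup Cfsg Cfsg.FusionSystem Cfsg.Agent.U5 U4.US SU4 Q1

instance charP : CharP F9 3 := charP_of_injective_algebraMap' (ZMod 3) 3

theorem hq : Nat.card F9 ≠ 4 := by rw [SU4.card_F9]; decide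

variable {F E : FusionSystem (⊤ : Subgroup (US F9))} {g : WW}

/-- the maps induced on `QQ / Z1` -/
def XF (F : FusionSystem (⊤ : Subgroup (US F9))) : Submonoid WW where
  carrier := {g | ∃ f, F.IsIso (QQ F9) (QQ F9) f ∧ ∀ x ∈ QQ F9, pq (f x) = g (pq x)}
  one_mem' := ⟨_, F.isIso_id le_top, fun _ _ => rfl⟩
  mul_mem' := fun {g h} ⟨f, hf, e⟩ ⟨f', hf', e'⟩ =>
    ⟨_, hf.comp' hf', fun x hx => by rw [e _ (hf'.mapsTo x hx), e' x hx]; rfl⟩

/-- the endomorphism of an automorphism -/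
def toW (γ : VV ≃ₗ[ℤ] VV) : WW := γ.toAddEquiv.toAddMonoidHom

theorem toW_apply (γ : VV ≃ₗ[ℤ] VV) (v : VV) : toW γ v = γ v := rfl

section
variable {vb : MulAut (QQ F9) →* (VV ≃ₗ[ℤ] VV)}
  (hvb : ∀ γ, ∀ x ∈ QQ F9, vb γ (pq x) = pq (equivFun γ x))
include hvb

theorem XF.toVb (hg : g ∈ XF F) : ∃ γ ∈ F.autGroup (QQ F9), toW (vb γ) = g := by
  obtain ⟨f, hf, e⟩ := hg
  obtain ⟨γ, hγ, e'⟩ := hf.exists_aut
  exact ⟨γ, hγ, extE (vb_ext hvb fun x hx => by rw [e' x hx, e x hx])⟩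

theorem vb_mem {γ : MulAut (QQ F9)} (hγ : γ ∈ F.autGroup (QQ F9)) : toW (vb γ) ∈ XF F :=
  ⟨_, isIso_of_mem_autGroup le_top hγ, fun x hx => (hvb _ _ hx).symm⟩

end

theorem exists_XF {f : US F9 → US F9} (hf : F.IsIso (QQ F9) (QQ F9) f) :
    ∃ g ∈ XF F, ∀ x ∈ QQ F9, pq (f x) = g (pq x) := by
  obtain ⟨vb, hvb⟩ := exists_vb (K := F9)
  obtain ⟨γ, hγ, e⟩ := hf.exists_aut
  exact ⟨_, vb_mem hvb hγ, fun x hx => by rw [← e x hx, ← hvb _ _ hx]; rfl⟩

theorem XF.inv (hg : g ∈ XF F) : ∃ g' ∈ XF F, (∀ v, g' (g v) = v) ∧ ∀ v, g (g' v) = v := by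
  obtain ⟨vb, hvb⟩ := exists_vb (K := F9)
  obtain ⟨γ, hγ, rfl⟩ := XF.toVb hvb hg
  exact ⟨_, vb_mem hvb (inv_mem hγ), fun v => by simp [toW_apply], fun v => by simp [toW_apply]⟩

theorem XF.sim (hg : g ∈ XF F) : ∃ ε, star ε = ε ∧ ∀ v w, om2 (g v) (g w) = ε * om2 v w := by
  obtain ⟨vb, hvb⟩ := exists_vb (K := F9)
  obtain ⟨γ, hγ, rfl⟩ := XF.toVb hvb hg
  obtain ⟨α, h⟩ := vb_sim hvb γ
  refine ⟨iF * om2 (vb γ (1, 0)) (vb γ (0, -iF)) * -1, by rw [star_mul', star_om2]; simp,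
    fun v w => ?_⟩
  have a0 : α 0 = 0 := by simpa [om2] using (h 0 0).symm
  have a1 := h (1, 0) (0, -iF)
  have a2 := h (1, 0) (-(0, -iF))
  rw [map_neg, om2_neg, om2_neg, a1] at a2
  rw [show om2 ((1, 0) : VV) (0, -iF) = iF by decide] at a1 a2
  rw [toW_apply, toW_apply, h, a1]
  rcases tz_cases (om2 v w) (by simp [om2]; ring) with e | e | e <;> rw [e]
  · simp [a0]
  · linear_combination α iF * ii
  · linear_combination -a2 - α iF * ii

theorem mor_XF {f : US F9 → US F9} (hf : F.IsMor (QQ F9) f) (hm : ∀ x ∈ QQ F9, f x ∈ QQ F9)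
    (e : ∀ x ∈ QQ F9, pq (f x) = g (pq x)) : g ∈ XF F := ⟨f, hf.isIso_self hm, e⟩

theorem u_mem : uE ∈ XF F :=
  mor_XF (F.isMor_conj le_top (mem_top (xA iF 0 0 star_iF tz0)⁻¹))
    (fun x hx => by simp [mem_QQ, mem_QQ.1 hx]) fun x hx => by
      refine Prod.ext ?_ ?_ <;> simp [pq, uE_apply, mem_QQ.1 hx]; ring

theorem t_mem {t : Par F9} (ht : t ∈ parOf F) : tE t ∈ XF F :=
  mor_XF ((IsIso.mor ht).mono le_top) (fun x hx => by simp [mem_QQ, mem_QQ.1 hx]) fun _ _ => rfl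

/-- the unit `1 - i` -/
def nu : F9ˣ := Units.mk0 (1 - iF) (by decide)

theorem kE_eq : kE = tE (kpar nu) := extE fun v => by
  have h1 : (1 - iF) ^ 2 = iF := by decide
  have h2 : ((1 - iF) * star (1 - iF))⁻¹ = -1 := inv_eq_of_mul_eq_one_right (by decide)
  simp [kE_apply, tE_apply, nu, -star_sub, h1, h2]

section
variable (hF : F.IsSaturated 3) (hs : Std F)
include hF hs

theorem k_mem (hn : F.IsIso (AA F9) (AA F9) n2) : kE ∈ XF F := kE_eq ▸ t_mem (qa_k hF hs hn nu)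

variable (hE : F.IsEssential 3 (QQ F9))
include hE

theorem XF.fix (hg : g ∈ XF F) (e : ∀ e, (g (0, e)).1 = 0) :
    ∃ t ∈ parOf F, ∃ c, star c = -c ∧ g = ph c 0 * tE t := by
  obtain ⟨vb, hvb⟩ := exists_vb (K := F9)
  obtain ⟨M, h⟩ := exists_loc (isPGroup_US 3) hF hE
  obtain ⟨γ, hγ, rfl⟩ := XF.toVb hvb hg
  obtain ⟨f, hf, e1⟩ := exists_ext (isPGroup_US 3) hF hγ (norm h hγ ((fixL_iff hvb).1 e))
  obtain ⟨s, t, ht, e2⟩ := hs.mem hf
  refine ⟨t, ht, -s.c, by simp, extE (vb_ext hvb fun x hx => ?_)⟩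
  rw [← e1 x hx, e2]
  refine Prod.ext ?_ ?_ <;> simp [pq, mem_QQ.1 hx, mul_ap, ph_apply, tE_apply]; ring

theorem tE_iff {t : Par F9} : tE t ∈ XF F ↔ t ∈ parOf F := by
  refine ⟨fun h => ?_, t_mem⟩
  obtain ⟨s, hs, c, -, e⟩ := XF.fix hF hs hE h fun e => by simp [tE_apply]
  have a1 : ∀ x, t.b * t.σ x = s.b * s.σ x := fun x => congrArg (fun g : WW => (g (x, 0)).1) e
  have a2 := congrArg (fun g : WW => (g (0, 1)).2) e
  have a3 : (t.b : F9) = s.b := by simpa using a1 1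
  simp only [mul_ap, ph_apply, tE_apply, a3, map_one, map_zero, mul_zero, star_zero, add_zero,
    mul_one] at a1 a2
  rwa [show t = s from Par.ext (Units.ext (mul_right_cancel₀ s.b.ne_zero a2)) (Units.ext a3)
    (RingEquiv.ext fun x => mul_left_cancel₀ s.b.ne_zero (a1 x))]

theorem ph_not {d : F9} (h : ph 0 d ∈ XF F) : d = 0 := by
  obtain ⟨s, -, c, -, e⟩ := XF.fix hF hs hE h fun e => rfl
  have a1 : ∀ x, x = s.b * s.σ x := fun x => congrArg (fun g : WW => (g (x, 0)).1) e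
  have a2 : ∀ x, 0 + 0 * x + d * star x = s.a * s.b * s.σ 0 + c * (s.b * s.σ x) +
    0 * star (s.b * s.σ x) := fun x => congrArg (fun g : WW => (g (x, 0)).2) e
  have a3 := a2 1
  have a4 := a2 iF
  rw [← a1, star_iF] at a4
  rw [← a1, star_one] at a3
  simp only [map_zero] at a3 a4
  linear_combination -a3 - iF * a4 + (d + c) * ii * -1 + d * three

variable (hn : F.IsIso (AA F9) (AA F9) n2)
include hn

/-- Generation by the standard elements and the Weyl elements. -/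
theorem gen {X : Submonoid WW} (hu : uE ∈ X) (ht : ∀ t ∈ parOf F, tE t ∈ X)
    (hN : ∀ y, nE y ∈ XF F → nE y ∈ X) : XF F ≤ X := fun γ hγ => by
  obtain ⟨γ', hγ', i1, i2⟩ := XF.inv hγ
  obtain ⟨ε, hε, s1⟩ := XF.sim hγ
  obtain ⟨ε', -, s2⟩ := XF.sim hγ'
  have hk := k_mem hF hs hn
  have inj : ∀ v, v ≠ 0 → γ v ≠ 0 := fun v hv e => hv (by rw [← i1 v, e, map_zero])
  have hc : star (ε * iF) = -(ε * iF) := by simp [hε, star_iF]
  obtain ⟨g, ⟨g1, g2⟩, hg⟩ := pp_all (w := γ (0, 1)) (w' := γ (0, iF)) (by rw [s1]; simp [om2])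
    (inj _ (by decide)) (inj _ (by decide)) (by rw [← map_sub]; exact inj _ (by decide))
    (by rw [← map_add]; exact inj _ (by decide)) (XF F) u_mem hk (by
      convert mul_mem (mul_mem hγ (ph_mem u_mem hc)) hγ' using 1
      refine extE fun v => ?_
      rw [mul_ap, mul_ap, ← i2 v, xw_conj hε s1, i1,
        show xw (0, 1) (0, iF) = uE from extW (by decide +kernel)]
      congr 1
      refine Prod.ext ?_ ?_ <;> simp [uE_apply, ph_apply]; ring)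
    (X ⊓ XF F) ⟨hu, u_mem⟩ ⟨kE_eq ▸ ht _ (qa_k hF hs hn nu), hk⟩ fun y hy => ⟨hN y hy, hy⟩
  obtain ⟨t, ht', c, hc, e⟩ := XF.fix hF hs hE (mul_mem hγ' g2) fun e => by
    have h1 := s2 (g (0, e)) (γ (0, 1))
    have h2 := s2 (g (0, e)) (γ (0, iF))
    rw [i1, (hg e).1] at h1
    rw [i1, (hg e).2] at h2
    simp only [om2, star_zero, star_one, star_iF] at h1 h2
    rw [mul_ap]
    linear_combination h1 + iF * h2 - (star (γ' (g (0, e))).1 + (γ' (g (0, e))).1) * ii +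
      (γ' (g (0, e))).1 * three
  convert mul_mem (mul_mem g1 (ht _ (inv_mem ht'))) (ph_mem hu (c := -c) (by simp [hc])) using 1
  have e1 : g = γ * (γ' * g) := extE fun v => (i2 _).symm
  rw [e1, e]
  simp only [mul_assoc]
  rw [← mul_assoc (tE t), ← tE_mul, mul_inv_cancel, tE_one, one_mul, ph_ph]
  simp [ph_zero]

/-- The set of Weyl elements. -/
theorem cls : ∃ y₀, (∃ T ∈ tps, ∀ y, nE (y + y₀) ∈ XF F ↔ y ∈ T) ∧
    ∀ t ∈ parOf F, y₀ * star (t.b : F9) = t.a * t.b * t.σ y₀ := by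
  have hk := k_mem hF hs hn
  obtain ⟨y₀, h1, h2⟩ := classify (Y := fun y => nE y ∈ XF F) (by
      by_contra h0
      obtain ⟨vb, hvb⟩ := exists_vb (K := F9)
      obtain ⟨M, h⟩ := exists_loc (isPGroup_US 3) hF hE
      obtain ⟨_, ⟨γ, hγ, rfl⟩, e⟩ := vb_ex hvb h
      exact e (gen hF hs hE hn (X := ⟨⟨{g | ∀ e, (g (0, e)).1 = 0}, fun {a b} ha hb e => by
        rw [mul_ap, show b (0, e) = (0, (b (0, e)).2) from Prod.ext (hb e) rfl, ha]⟩, fun _ => rfl⟩)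
        (fun _ => rfl) (fun t _ e => by simp [tE_apply]) (fun y hy => (h0 ⟨y, hy⟩).elim)
        (vb_mem hvb hγ)))
    (fun y d hd => rule1 u_mem hd) fun y d hd a b c => by
      have := ph_not hF hs hE (rule2 hk hd a b c)
      subst this
      exact absurd hd (by decide)
  refine ⟨y₀, h1, fun t ht => ?_⟩
  obtain ⟨m, hm, e⟩ := exists_m t
  have k : ∀ y, nE y ∈ XF F → nE (m * t.σ y) ∈ XF F := fun y =>
    tE_nE hk (t_mem ht) (t_mem (inv_mem ht)) (act_eq e y)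
  rw [← act_eq e]
  congr 1
  rcases sigma_cases t.σ with h | h <;> simp only [h] at k ⊢
  exacts [((h2 m hm).1 k).symm, ((h2 m hm).2 k).symm]

end

end Cfsg.Agent.U4.T3
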