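import Cfsg.Agent.Lib.U4.T3a
import Cfsg.Agent.Lib.U4.Q1

/-!
# S5210, q = 3: inner automorphisms of `QQ` and the automorphisms `φ_y` (see notes/U4.md)
-/

set_option autoImplicit false
set_option linter.unusedSectionVars false
set_option linter.unusedVariables false

namespace Cfsg.Agent.U4.T3

open Subgroup Cfsg.Agent.U5 U4.US Q1 SU4
open scoped commutatorElement

theorem inner {δ : US F9 → US F9} (hm : ∀ x ∈ QQ F9, ∀ y ∈ QQ F9, δ (x * y) = δ x * δ y)
    (hq : ∀ x ∈ QQ F9, δ x ∈ QQ F9) (h : ∀ x ∈ QQ F9, pq (δ x) = pq x) :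
    ∃ t ∈ QQ F9, ∀ x ∈ QQ F9, δ x = t * x * t⁻¹ := by
  obtain ⟨D, hD⟩ : ∃ D : US F9 → F9, ∀ x, D x = (δ x).f - x.f := ⟨_, fun _ => rfl⟩
  have hb : ∀ x ∈ QQ F9, (δ x).b = x.b := fun x hx => (pq_iff.1 (h x hx)).1
  have he : ∀ x ∈ QQ F9, (δ x).e = x.e := fun x hx => (pq_iff.1 (h x hx)).2
  have d1 : ∀ x ∈ QQ F9, ∀ y ∈ QQ F9, D (x * y) = D x + D y := fun x hx y hy => by
    simp only [hD, hm x hx y hy, mul_f, hb x hx, hb y hy, he x hx, he y hy, mem_QQ.1 hy,
      mem_QQ.1 (hq y hy)]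
    ring
  have d2 : ∀ x ∈ QQ F9, star (D x) = -D x := fun x hx => by
    simp [hD, hb x hx, he x hx]; ring
  have d3 : ∀ z ∈ Z1 F9, D z = 0 := fun z hz => by
    have a1 : xb (1 : F9) ∈ QQ F9 := rfl
    have a2 : xe (om F9 * z.f) ∈ QQ F9 := rfl
    have e := eq_ce hz a1 a2 rfl rfl
    generalize xe (om F9 * z.f) = v at a2 e
    have := d1 z (Z1_le hz) _ (mul_mem a2 a1)
    rw [show z * (v * xb 1) = xb 1 * v by rw [e, commutatorElement_def]; group,
      d1 _ a1 _ a2, d1 _ a2 _ a1] at this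
    linear_combination -this
  have d4 : ∀ x ∈ QQ F9, ∀ y ∈ QQ F9, pq y = pq x → D y = D x := fun x hx y hy e => by
    have k := inv_mul_mem hx hy e
    have := d1 x hx _ (Z1_le k)
    rw [mul_inv_cancel_left, d3 _ k, add_zero] at this
    exact this
  let E : VV →+ F9 := AddMonoidHom.mk' (fun v => D (el v.1 0 v.2 tz0)) fun v w => by
    rw [← d1 _ (el_mem v) _ (el_mem w)]
    exact d4 _ (mul_mem (el_mem v) (el_mem w)) _ (el_mem (v + w)) (by simp [pq])
  have k1 : ∀ a b : F9, star a = -a → star b = -b → ∃ w : F9, ∀ u : F9,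
      om2 (u, w) (1, 0) = a ∧ om2 (u, w) (iF, 0) = b := by
    simp only [om2]; decide +kernel
  have k2 : ∀ a b : F9, star a = -a → star b = -b → ∃ u : F9, ∀ w : F9,
      om2 (u, w) (0, 1) = a ∧ om2 (u, w) (0, iF) = b := by
    simp only [om2]; decide +kernel
  obtain ⟨w, hw⟩ := k1 _ _ (d2 _ (el_mem (1, 0))) (d2 _ (el_mem (iF, 0)))
  obtain ⟨u, hu⟩ := k2 _ _ (d2 _ (el_mem (0, 1))) (d2 _ (el_mem (0, iF)))
  let E' : VV →+ F9 := AddMonoidHom.mk' (om2 (u, w)) fun v v' => by simp [om2]; ring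
  have hE : E' = E := ext4 (by
    simp only [bs, List.mem_cons, List.not_mem_nil, or_false, forall_eq_or_imp, forall_eq]
    exact ⟨(hw u).1, (hw u).2, (hu w).1, (hu w).2⟩)
  refine ⟨_, el_mem (u, w), fun x hx => ?_⟩
  have k3 : om2 (u, w) (pq x) = D x :=
    (DFunLike.congr_fun hE (pq x)).trans (d4 x hx _ (el_mem (pq x)) rfl)
  refine US.ext (by simp [hb x hx]) (by simp [mem_QQ.1 (hq x hx), mem_QQ.1 hx])
    (by simp [he x hx, mem_QQ.1 hx]) ?_
  rw [hD] at k3
  simp [om2, pq] at k3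
  simp [mem_QQ.1 hx]
  linear_combination -k3

/-- the map `φ_y` -/
def phF (y : F9) (x : US F9) : US F9 :=
  ⟨x.b, x.c, x.e + y * star x.b, x.f + (star y * x.b ^ 2 + y * star x.b ^ 2), x.hc, by
    simp
    linear_combination (star y * x.b ^ 2 + y * star x.b ^ 2) * three⟩

theorem phF_phF (y z : F9) (x : US F9) : phF y (phF z x) = phF (y + z) x := by
  ext : 1 <;> simp [phF] <;> ring

theorem phF_zero (x : US F9) : phF 0 x = x := by ext : 1 <;> simp [phF]

/-- the automorphism `φ_y` -/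
def phA (y : F9) : MulAut (US F9) where
  toFun := phF y
  invFun := phF (-y)
  left_inv x := by rw [phF_phF, neg_add_cancel, phF_zero]
  right_inv x := by rw [phF_phF, add_neg_cancel, phF_zero]
  map_mul' x z := by
    ext : 1 <;> simp [phF]
    · ring
    · linear_combination (star y * x.b * z.b + y * star x.b * star z.b) * three

section
variable (y : F9) (x : US F9)
@[simp] theorem phA_b : (phA y x).b = x.b := rfl
@[simp] theorem phA_c : (phA y x).c = x.c := rfl
@[simp] theorem phA_e : (phA y x).e = x.e + y * star x.b := rfl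
@[simp] theorem phA_f : (phA y x).f = x.f + (star y * x.b ^ 2 + y * star x.b ^ 2) := rfl
theorem phA_symm : (phA y).symm x = phA (-y) x := rfl
theorem phA_inv : (phA y)⁻¹ = phA (-y) := MulEquiv.ext fun _ => rfl
theorem phA_phA (z : F9) : phA y (phA z x) = phA (y + z) x := phF_phF y z x
theorem phA_zero : phA 0 x = x := phF_zero x

theorem pq_phA : pq (phA y x) = ph 0 y (pq x) := by simp [pq, ph_apply]
theorem phA_QQ : phA y x ∈ QQ F9 ↔ x ∈ QQ F9 := Iff.rfl
theorem phA_AA : phA y x ∈ AA F9 ↔ x ∈ AA F9 := Iff.rfl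
end

theorem phA_of_AA (y : F9) {x : US F9} (hx : x ∈ AA F9) : phA y x = x := by
  ext : 1 <;> simp [mem_AA.1 hx]

theorem phA_n2 (y : F9) : ∀ x ∈ AA F9, n2 (phA y x) = phA y (n2 x) := fun x hx => by
  rw [phA_of_AA y hx, phA_of_AA y (n2_mem x)]

theorem phA_tau {y : F9} {t : Par F9} (h : y * star (t.b : F9) = t.a * t.b * t.σ y) (x : US F9) :
    tauF t (phA y x) = phA y (tauF t x) := by
  have h' := congrArg star h
  simp only [star_mul', star_star, Par.star_a, map_star'] at h'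
  ext : 1 <;> simp
  · linear_combination -t.σ (star x.b) * h
  · linear_combination -(t.b * t.σ x.b ^ 2) * h' - star (t.b : F9) * t.σ (star x.b) ^ 2 * h

end Cfsg.Agent.U4.T3
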