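import Cfsg.Agent.Lib.U4.T3c
import Cfsg.Agent.Lib.U4.T3i

/-!
# S5210, q = 3: comparison with the models (see notes/U4.md)
-/

set_option autoImplicit false
set_option linter.unusedSectionVars false
set_option linter.unusedVariables false

namespace Cfsg.Agent.U4.T3

open Subgroup Cfsg Cfsg.FusionSystem Cfsg.Agent.U5 U4.US SU4 Q1

variable {F E : FusionSystem (⊤ : Subgroup (US F9))} {g : WW}

theorem mor_of_le (h : XF F ≤ XF E) (f : US F9 → US F9) (hf : F.IsIso (QQ F9) (QQ F9) f) :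
    E.IsMor (QQ F9) f := by
  obtain ⟨g, hg, e⟩ := exists_XF hf
  obtain ⟨g', hg', i1, -⟩ := XF.inv hg
  obtain ⟨f', hf', e'⟩ := h hg'
  obtain ⟨γ, hγ, e1⟩ := hf'.exists_aut
  obtain ⟨t, ht, e2⟩ := inner (δ := fun x => f' (f x))
    (fun x hx y hy => by
      rw [hf.mor.isHomOn x hx y hy, hf'.mor.isHomOn _ (hf.mapsTo x hx) _ (hf.mapsTo y hy)])
    (fun x hx => hf'.mapsTo _ (hf.mapsTo x hx)) fun x hx => by rw [e' _ (hf.mapsTo x hx), e x hx, i1]
  refine ((isMor_of_mem_autGroup le_top (inv_mem hγ)).comp' (E.isMor_conj le_top (mem_top t))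
    fun x hx => mul_mem (mul_mem ht hx) (inv_mem ht)).congr fun x hx => ?_
  rw [← e2 x hx, ← e1 _ (hf.mapsTo x hx), equivFun_inv_apply _ (hf.mapsTo x hx)]

theorem tr_XF {y : F9} (h : Tr (phA y) F E) : cj y g ∈ XF E ↔ g ∈ XF F := by
  refine ⟨fun ⟨f, hf, e⟩ => ⟨_, h.iso_symm (phA_QQ y) hf, fun x hx => ?_⟩,
    fun ⟨f, hf, e⟩ => ⟨fun x => phA y (f (phA (-y) x)), h.iso (phA_QQ y)
      (fun x _ => by rw [phA_phA, neg_add_cancel, phA_zero]) hf, fun x hx => ?_⟩⟩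
  · rw [phA_symm, pq_phA, e _ ((phA_QQ y x).2 hx), pq_phA, ← mul_ap, ← mul_ap, cj_apply]
    simp only [← mul_assoc, ph_ph, mul_assoc _ (ph 0 (-y))]
    simp [ph_zero]
  · rw [pq_phA, e _ ((phA_QQ _ x).2 hx), pq_phA]; rfl

theorem HasL.mem {G : Type*} [Group G] {ι : US F9 →* G} (hI : Ind 3 ι F E)
    (h : HasL g ι) : g ∈ XF E := by
  classical
  obtain ⟨z, h⟩ := h
  choose! f h1 h2 h3 using h
  exact ⟨f, (hI.iso f).2 ⟨h1, z, h2⟩, h3⟩

variable (hF : F.IsSaturated 3) (hs : Std F) (hE : F.IsEssential 3 (QQ F9))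
  (hn : F.IsIso (AA F9) (AA F9) n2)
include hF hs hE hn

theorem real0 (hY : ∀ y, nE y ∈ XF F → y = 0) : F.IsRealizable 3 := by
  refine realizable_om hq hF hs hn hE (om_of_quad (by decide) fun f hf x hx => ?_)
  obtain ⟨g, hg, e⟩ := exists_XF hf
  have := gen hF hs hE hn (X := ⟨⟨{g | ∀ v : VV, v.1 * star v.2 + star v.1 * v.2 = 0 →
      (g v).1 * star (g v).2 + star (g v).1 * (g v).2 = 0}, fun {a b} ha hb v hv => ha _ (hb v hv)⟩,
      fun _ h => h⟩)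
    (fun v hv => by simp [uE_apply, star_iF]; linear_combination hv)
    (fun t _ v hv => by
      have := congrArg t.σ hv
      simp only [map_add, map_mul, map_zero] at this
      simp only [tE_apply, star_mul', Par.star_a, map_star']
      linear_combination t.a * t.b * star (t.b : F9) * this)
    (fun y hy v hv => by
      rw [hY y hy]
      simp [nE_apply, NL, star_iF]
      linear_combination hv - (v.2 * star v.1 + star v.2 * v.1) * ii) hg (pq x)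
    (by simp [pq, hx.1])
  rwa [← e x (Z2_le_QQ hx)] at this

theorem real1 {T : List F9} (hT : T ∈ tps) (h0 : T ≠ [0]) (hY : ∀ y, nE y ∈ XF F ↔ y ∈ T)
    (hR : R3 (parOf F) T) : F.IsRealizable 3 := by
  obtain ⟨G, _, _, ι, hM, hL⟩ := hR.m3 (qa_k hF hs hn)
  refine realizable_of_mod hq hF hs hn hM fun E hI => ?_
  have h1 : ∀ y ∈ T, nE y ∈ XF E := fun y hy => HasL.mem hI (hL y hy)
  refine ⟨mor_of_le (gen hF hs hE hn u_mem (fun t ht => t_mem (hI.par ▸ ht))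
    fun y hy => h1 y ((hY y).1 hy)), fun hE' => mor_of_le (gen hI.sat hI.std hE' hI.w2 u_mem
      (fun t ht => t_mem (hI.par ▸ ht)) fun y hy => (hY y).2 ?_)⟩
  obtain ⟨y₀, ⟨T', hT', e⟩, -⟩ := cls hI.sat hI.std hE' hI.w2
  have k : ∀ T ∈ tps, T ≠ [0] → ∀ T' ∈ tps, ∀ y₀, (∀ y ∈ T, y - y₀ ∈ T') → (T' = cr → T = cr) →
      ∀ y, y - y₀ ∈ T' → y ∈ T := by decide +kernel
  have e' : ∀ y, nE y ∈ XF E ↔ y - y₀ ∈ T' := fun y => by rw [← e, sub_add_cancel]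
  refine k T hT h0 T' hT' y₀ (fun y hy => (e' y).1 (h1 y hy)) (fun h => ?_) y ((e' y).1 hy)
  obtain ⟨g, hg, e1⟩ := rule3 (k_mem hI.sat hI.std hI.w2) (y := y₀) fun d hd => (e d).2 (h ▸ hd)
  obtain ⟨t, ht, c, -, rfl⟩ := XF.fix hI.sat hI.std hE' hg fun e => by simp [e1]
  rw [hI.par] at ht
  have a1 : ∀ x, t.b * t.σ x = (1 + iF) * x := fun x => e1 (x, 0)
  have a2 : (t.b : F9) = 1 + iF := by simpa using a1 1
  have a3 : ∀ x, t.σ x = x := fun x => mul_left_cancel₀ t.b.ne_zero (by rw [a1, a2])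
  obtain ⟨m, hm, e2⟩ := exists_m t
  have k2 : ∀ T ∈ tps, T ≠ [0] → ∀ m ∈ [1, -1, iF, -iF], star (m * (1 + iF) ^ 2) = m * (1 + iF) ^ 2 →
      (∀ y ∈ T, m * y ∈ T) → T = cr := by decide +kernel
  refine k2 T hT h0 m hm (by rw [← a2, e2, t.ha]) fun y hy => (hY _).1 ?_
  simpa only [a3] using
    tE_nE (k_mem hF hs hn) (t_mem ht) (t_mem (inv_mem ht)) (act_eq e2 y) ((hY y).2 hy)

end Cfsg.Agent.U4.T3
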