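import Cfsg.Agent.Lib.U4.T3b
import Cfsg.Agent.Lib.U4.Spor

/-!
# S5210, q = 3: the model for each type (see notes/U4.md)
-/

set_option autoImplicit false
set_option linter.unusedSectionVars false
set_option linter.unusedVariables false

namespace Cfsg.Agent.U4.T3

open Cfsg.Agent.U5 SU4 Le

variable {X : Submonoid WW} {H : Subgroup (Par F9)} {T : List F9}

theorem eq_Hw {w : F9} (h1 : Hw w ≤ H) (h2 : H ≤ Hw' w) : H = Hw w ∨ H = Hw' w := by
  by_cases h : H ≤ Hw w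
  · exact .inl (le_antisymm h h1)
  obtain ⟨t, ht, hn⟩ := SetLike.not_le_iff_exists.1 h
  refine .inr (le_antisymm h2 fun s hs => ?_)
  by_cases e : s ∈ Hw w
  · exact h1 e
  have k1 := (sq_eq_sq_iff_eq_or_eq_neg.1 (mem_Hw'.1 hs)).resolve_left e
  have k2 := congrArg s.σ ((sq_eq_sq_iff_eq_or_eq_neg.1 (mem_Hw'.1 (h2 ht))).resolve_left hn)
  refine (H.mul_mem_cancel_right ht).1 (h1 (mem_Hw.2 ?_))
  simp only [map_mul, map_pow, map_neg] at k2
  simp only [Par.mul_a, Par.mul_b, Par.mul_σ]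
  linear_combination (s.σ t.b) ^ 2 * k1 - s.a * k2

theorem low (hu : uE ∈ X) (hk : kE ∈ X) (hH : ∀ t, tE t ∈ X ↔ t ∈ H) (hY : ∀ y, nE y ∈ X ↔ y ∈ T)
    {K : Subgroup (Par F9)} (L : List (List ℕ))
    (h : ∀ n, Le.tt n ∈ K → ∃ l ∈ L, ∀ v ∈ bs, tE (Le.tt n) v = wv (uE :: kE :: T.map nE) l v) : K ≤ H :=
  fun t ht => by
    obtain ⟨n, rfl⟩ := exists_tt t
    obtain ⟨l, -, e⟩ := h n ht
    exact (hH _).1 (extW e ▸ wv_mem (by simpa [hu, hk] using fun y => (hY y).2) _)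

theorem mid (hu : uE ∈ X) (hk : kE ∈ X) (hH : ∀ t, tE t ∈ X ↔ t ∈ H) (hY : ∀ y, nE y ∈ X ↔ y ∈ T)
    {w : F9} (h1 : ∀ n, Le.tt n ∈ Hw w → ∃ l ∈ [[], [1], [1, 1], [1, 1, 1], [4, 3, 2, 1], [3, 4, 2, 1],
      [3, 4, 2], [4, 3, 2], [2, 3, 2], [3, 2, 3], [3, 2, 3, 1], [2, 3, 2, 1]],
      ∀ v ∈ bs, tE (Le.tt n) v = wv (uE :: kE :: T.map nE) l v)
    (h2 : ∀ n, (∀ y ∈ T, ∀ y', y' * star ((Le.tt n).b : F9) = (Le.tt n).a * (Le.tt n).b * (Le.tt n).σ y →
      y' ∈ T) → Le.tt n ∈ Hw' w) : H = Hw w ∨ H = Hw' w :=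
  eq_Hw (low hu hk hH hY _ h1) fun t ht => by
    obtain ⟨n, rfl⟩ := exists_tt t
    exact h2 n fun y hy y' e => (hY _).1
      (tE_nE hk ((hH _).2 ht) ((hH _).2 (inv_mem ht)) e ((hY _).2 hy))

set_option synthInstance.maxSize 2000 in
theorem r3_of_type {X : Submonoid WW} {H : Subgroup (Par F9)} {T : List F9} (hT : T ∈ tps) (h0 : T ≠ [0]) (hu : uE ∈ X) (hk : kE ∈ X)
    (hH : ∀ t, tE t ∈ X ↔ t ∈ H) (hY : ∀ y, nE y ∈ X ↔ y ∈ T) : R3 H T := by
  simp only [tps, List.mem_cons, List.not_mem_nil, or_false] at hT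
  rcases hT with rfl | rfl | rfl | rfl | rfl | rfl
  · exact absurd rfl h0
  · rcases mid hu hk hH hY (w := iF) (by simp only [mem_Hw]; decide +kernel)
      (by simp only [mem_Hw']; decide +kernel) with rfl | rfl
    exacts [r3_U6, r3_U6']
  · rcases mid hu hk hH hY (w := 1) (by simp only [mem_Hw]; decide +kernel)
      (by simp only [mem_Hw']; decide +kernel) with rfl | rfl
    · exact r3_of False (1, 2) (2, 1) (by simp only [mem_Hw]; decide +kernel)
        (by simp only [mem_Hw]; decide +kernel) (by decide +kernel) (by decide +kernel)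
    · exact r3_of True (1, 2) (2, 1) (by simp only [mem_Hw']; decide +kernel)
        (by simp only [mem_Hw']; decide +kernel) (by decide +kernel) (by decide +kernel)
  · rcases mid hu hk hH hY (w := 1 - iF) (by simp only [mem_Hw]; decide +kernel)
      (by simp only [mem_Hw']; decide +kernel) with rfl | rfl
    exacts [r3_McL, r3_McL']
  · rcases mid hu hk hH hY (w := 1 + iF) (by simp only [mem_Hw]; decide +kernel)
      (by simp only [mem_Hw']; decide +kernel) with rfl | rfl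
    · exact r3_of False (0, 1) (0, 2) (by simp only [mem_Hw]; decide +kernel)
        (by simp only [mem_Hw]; decide +kernel) (by decide +kernel) (by decide +kernel)
    · exact r3_of True (0, 1) (0, 2) (by simp only [mem_Hw']; decide +kernel)
        (by simp only [mem_Hw']; decide +kernel) (by decide +kernel) (by decide +kernel)
  · obtain rfl : H = ⊤ := top_le_iff.1 (low hu hk hH hY [[5, 6, 4, 3], [6, 5, 2, 1], [6, 5, 4, 3],
      [5, 6, 2, 1], [], [4, 3, 2, 1], [4, 6, 3, 2, 1], [3, 5, 3], [4, 5, 2, 3, 1], [4, 5, 4], [1, 1],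
      [3, 4, 2, 1], [4, 5, 3, 2, 1], [3, 6, 3], [4, 6, 2, 3, 1], [4, 6, 4], [1], [4, 3, 2], [1, 1, 1],
      [3, 4, 2], [6, 5, 4, 3, 1], [5, 6, 2], [4, 5, 3, 2], [3, 6, 3, 1], [4, 6, 3, 2], [3, 5, 3, 1],
      [5, 6, 4, 3, 1], [6, 5, 2], [4, 6, 2, 3], [4, 6, 4, 1], [4, 5, 2, 3], [4, 5, 4, 1]]
      (by simp only [Subgroup.mem_top]; decide +kernel))
    exact r3_Co2

end Cfsg.Agent.U4.T3
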