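import Cfsg.Agent.Lib.U4.T3d
import Cfsg.Agent.Lib.U4.T3k

/-!
# S5210: the case q = 3 (see notes/U4.md)
-/

set_option autoImplicit false
set_option linter.unusedSectionVars false
set_option linter.unusedVariables false

namespace Cfsg.Agent.U4

open Subgroup Cfsg Cfsg.FusionSystem Cfsg.Agent.U5 U4.US
open scoped commutatorElement

universe u

open SU4 T3

theorem realizable_three {F : FusionSystem (⊤ : Subgroup (US F9))} (hF : F.IsSaturated 3)
    (hs : Std F) (hn : F.IsIso (AA F9) (AA F9) n2) (hE : F.IsEssential 3 (QQ F9)) :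
    F.IsRealizable 3 := by
  obtain ⟨y₀, ⟨T, hT, e⟩, hy⟩ := cls hF hs hE hn
  obtain ⟨E, h⟩ := exists_tr (phA (-y₀)) F
  have hF' := h.sat hF
  have hs' := (h.std hs (σ := fun t => t) fun t ht => phA_tau (by
    rw [map_neg]; linear_combination -hy t ht)).1
  have hE' := h.ess (phA_QQ _) hE
  have hn' := h.iso (phA_AA _) (phA_n2 _) hn
  have hY : ∀ y, nE y ∈ XF E ↔ y ∈ T := fun y => by
    rw [← e, ← tr_XF h, cj_n, add_neg_cancel_right]
  refine h.real ?_
  by_cases h0 : T = [0]
  · exact real0 hF' hs' hE' hn' fun y hy => by simpa [h0] using (hY y).1 hy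
  · exact real1 hF' hs' hE' hn' hT h0 hY
      (r3_of_type hT h0 u_mem (k_mem hF' hs' hn') (fun _ => tE_iff hF' hs' hE') hY)

end Cfsg.Agent.U4
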