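import Cfsg.Agent.Lib.U5.Field
import Cfsg.Agent.Lib.U4.Quad
import Cfsg.Agent.Lib.H7.SylowIn

/-!
# S5210: the module `O₄⁻(q)` in coordinates `(c, e, f)`, `c` and `f` of trace zero
-/

set_option autoImplicit false
set_option linter.unusedSectionVars false

namespace Cfsg.Agent.SU4

open Cfsg.Agent.U5

variable {K : Type*} [Field K] [StarRing K]

variable (K) in
/-- The elements of trace zero. -/
def T0 : AddSubgroup K where
  carrier := {x | star x = -x}
  add_mem' := fun {a b} (ha : star a = _) (hb : star b = _) => by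
    show star (a + b) = _
    rw [star_add, ha, hb, neg_add]
  zero_mem' := by simp
  neg_mem' := fun {a} (ha : star a = _) => by
    show star (-a) = _
    rw [star_neg, ha]

theorem mem_T0 {x : K} : x ∈ T0 K ↔ star x = -x := Iff.rfl

@[simp] theorem star_T0 (c : T0 K) : star (c : K) = -c := c.2

/-- The module. -/
abbrev V4 (K : Type*) [Field K] [StarRing K] := T0 K × K × T0 K

/-- The commutator form. -/
def ww (β e : K) : T0 K := ⟨star β * e - β * star e, by simp [mem_T0]⟩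

/-- Multiplication by a norm. -/
def nm (β : K) (c : T0 K) : T0 K := ⟨β * star β * c, by simp [mem_T0, mul_comm]⟩

@[simp] theorem coe_ww (β e : K) : (ww β e : K) = star β * e - β * star e := rfl
@[simp] theorem coe_nm (β : K) (c : T0 K) : (nm β c : K) = β * star β * c := rfl

/-- The unipotent elements. -/
def tt (β : K) (v : V4 K) : V4 K := (v.1, v.2.1 + β * v.1, v.2.2 + ww β v.2.1 + nm β v.1)

@[simp] theorem tt_c (β : K) (v : V4 K) : (tt β v).1 = v.1 := rfl
@[simp] theorem tt_e (β : K) (v : V4 K) : (tt β v).2.1 = v.2.1 + β * v.1 := rfl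
@[simp] theorem tt_f (β : K) (v : V4 K) :
    (tt β v).2.2 = v.2.2 + ww β v.2.1 + nm β v.1 := rfl

theorem V4.ext {v w : V4 K} (h1 : (v.1 : K) = w.1) (h2 : v.2.1 = w.2.1)
    (h3 : (v.2.2 : K) = w.2.2) : v = w :=
  Prod.ext (Subtype.ext h1) (Prod.ext h2 (Subtype.ext h3))

theorem tt_zero (v : V4 K) : tt 0 v = v := V4.ext rfl (by simp) (by simp)

theorem tt_tt (β γ : K) (v : V4 K) : tt β (tt γ v) = tt (β + γ) v :=
  V4.ext rfl (by simp; ring) (by simp; ring)

theorem tt_of_Z (β : K) {v : V4 K} (h1 : v.1 = 0) (h2 : v.2.1 = 0) : tt β v = v :=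
  V4.ext rfl (by simp [h1]) (by simp [h1, h2])

theorem exists_fix {v : V4 K} (h1 : v.1 = 0) : ∃ β, β ≠ 0 ∧ tt β v = v := by
  by_cases h : v.2.1 = 0
  · exact ⟨1, one_ne_zero, tt_of_Z 1 h1 h⟩
  · exact ⟨v.2.1, h, V4.ext rfl (by simp [h1]) (by simp [h1, mul_comm])⟩

/-- The Weyl elements. -/
def mm (β : K) (v : V4 K) : V4 K := (nm β⁻¹ v.2.2, β / star β * star v.2.1, nm β v.1)

/-- The automorphisms `f ↦ f + μ c`. -/
def psi (μ : T0 K →+ T0 K) (v : V4 K) : V4 K := (v.1, v.2.1, v.2.2 + μ v.1)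

/-- The polar form. -/
def bl (c : T0 K) : K →+ K →+ T0 K :=
  AddMonoidHom.mk' (fun h => AddMonoidHom.mk'
    (fun a => ⟨(a * star h + star a * h) * c, by simp [mem_T0, add_comm, mul_comm]⟩)
    fun a b => Subtype.ext (by simp; ring)) fun a b => by
      ext x; simp; ring

@[simp] theorem coe_bl (c : T0 K) (h a : K) : (bl c h a : K) = (a * star h + star a * h) * c := rfl

variable [hK : UF K]

variable (K) in
theorem card_K : Nat.card K = Nat.card (T0 K) ^ 2 := by
  obtain ⟨κ, h0, hκ⟩ := exists_tz K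
  let φ : K →+ T0 K := AddMonoidHom.mk' (fun x => ⟨κ * (x + star x), by
    simp [mem_T0, hκ, add_comm]⟩) fun x y => Subtype.ext (by simp; ring)
  have hs : Function.Surjective φ := fun c => by
    obtain ⟨x, hx⟩ := exists_trace (r := c / κ) (by simp [hκ])
    exact ⟨x, Subtype.ext (by simp [φ, hx]; field_simp)⟩
  have hk : φ.ker = T0 K := AddSubgroup.ext fun x => by
    simp [φ, Subtype.ext_iff, h0, mem_T0, eq_neg_iff_add_eq_zero, add_comm]
  rw [AddSubgroup.card_eq_card_quotient_mul_card_addSubgroup φ.ker,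
    Nat.card_congr (QuotientAddGroup.quotientKerEquivOfSurjective φ hs).toEquiv, hk, sq]

theorem bl_surj {c : T0 K} (hc : c ≠ 0) {h : K} (hh : h ≠ 0) (f : T0 K) : ∃ a, bl c h a = f := by
  have h1 : (c : K) ≠ 0 := fun e => hc (Subtype.ext e)
  have h2 : star h ≠ 0 := star_ne_zero.2 hh
  refine ⟨om K * (f / c) / star h, Subtype.ext ?_⟩
  simp
  field_simp
  ring

section
variable (θ : V4 K →+ T0 K) {v : V4 K} (hv : v.1 ≠ 0)

omit hK in
theorem quad_tt (v : V4 K) (a h : K) : θ (tt (a + h) v - v) = θ (tt a v - v) + θ (tt h v - v) +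
    (bl v.1).compr₂ (θ.comp ((AddMonoidHom.inr _ _).comp (AddMonoidHom.inr _ _))) h a := by
  change _ = _ + θ (0, 0, bl v.1 h a)
  rw [← map_add, ← map_add]
  congr 1
  exact V4.ext (by simp) (by simp; ring) (by simp; ring)

include hv

theorem exists_zero_of_inj (hθ : ∀ f, θ (0, 0, f) = 0 → f = 0) : ∃ β, θ (tt β v) = 0 := by
  let _ := Fintype.ofFinite K
  let _ := Fintype.ofFinite (T0 K)
  obtain ⟨β, h⟩ := quad_surj (F := fun β => θ (tt β v - v)) (quad_tt θ v) (by simp [tt_zero])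
    (by simpa only [Nat.card_eq_fintype_card] using card_K K) (fun χ hχ h hh => by
      obtain ⟨y, hy⟩ := AddChar.ne_zero_iff.1 hχ
      obtain ⟨f, rfl⟩ := Finite.surjective_of_injective
        ((injective_iff_map_eq_zero (θ.comp ((AddMonoidHom.inr _ _).comp
          (AddMonoidHom.inr _ _)))).2 hθ) y
      obtain ⟨a, rfl⟩ := bl_surj hv hh f
      exact ⟨a, hy⟩) (-θ v)
  exact ⟨β, by rwa [map_sub, sub_eq_neg_self] at h⟩

theorem exists_zero_of_ker {f₀ : T0 K} (h0 : f₀ ≠ 0) (hθ : θ (0, 0, f₀) = 0) :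
    ∃ β, β ≠ 0 ∧ θ (tt β v - v) = 0 := by
  let _ := Fintype.ofFinite K
  let _ := Fintype.ofFinite (T0 K)
  let θ₂ := θ.comp ((AddMonoidHom.inr _ _).comp (AddMonoidHom.inr K _))
  obtain ⟨y, hy⟩ : ∃ y, y ∉ θ₂.range := by
    by_contra hn
    push Not at hn
    exact h0 ((injective_iff_map_eq_zero θ₂).1 (Finite.injective_iff_surjective.2 hn) _ hθ)
  obtain ⟨χ, hχ⟩ := (AddChar.exists_apply_ne_zero (α := T0 K ⧸ θ₂.range)).2
    fun e => hy ((QuotientAddGroup.eq_zero_iff y).1 e)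
  refine quad_zero (F := fun β => θ (tt β v - v)) (quad_tt θ v) (by simp [tt_zero])
    (by simpa only [Nat.card_eq_fintype_card] using card_K K) (fun χ => ?_)
    (χ₀ := χ.compAddMonoidHom (QuotientAddGroup.mk' _)) (AddChar.ne_zero_iff.2 ⟨y, hχ⟩)
    fun h a => ?_
  · by_cases h : ∀ f, χ (θ₂ f) = 1
    · exact .inl fun _ _ => h _
    · push Not at h
      obtain ⟨f, hf⟩ := h
      refine .inr fun h hh => ?_
      obtain ⟨a, rfl⟩ := bl_surj hv hh f
      exact ⟨a, hf⟩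
  · change χ ((θ₂ (bl v.1 h a) : T0 K) : T0 K ⧸ θ₂.range) = 1
    rw [(QuotientAddGroup.eq_zero_iff (N := θ₂.range) _).2 ⟨_, rfl⟩, AddChar.map_zero_eq_one]

end

variable (K) (Γ : Type*) [Group Γ] [Finite Γ] [DistribMulAction Γ (V4 K)]

/-- The stabilizer of the flag `Z = {c = e = 0} ≤ V₁ = {c = 0}`. -/
def Fl : Subgroup Γ :=
  let M : Submonoid Γ :=
    { carrier := {g | (∀ v : V4 K, v.1 = 0 → (g • v).1 = 0) ∧
        ∀ v : V4 K, v.1 = 0 → v.2.1 = 0 → (g • v).2.1 = 0}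
      one_mem' := ⟨fun v h => by rwa [one_smul], fun v _ h => by rwa [one_smul]⟩
      mul_mem' := fun ha hb => ⟨fun v h => by rw [mul_smul]; exact ha.1 _ (hb.1 v h),
        fun v h h' => by rw [mul_smul]; exact ha.2 _ (hb.1 v h) (hb.2 v h h')⟩ }
  { M with inv_mem' := fun h => H7.inv_mem_of_pow_mem (M := M) h }

variable {K Γ}

theorem mem_Fl {g : Γ} : g ∈ Fl K Γ ↔ (∀ v : V4 K, v.1 = 0 → (g • v).1 = 0) ∧
    ∀ v : V4 K, v.1 = 0 → v.2.1 = 0 → (g • v).2.1 = 0 := Iff.rfl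

end Cfsg.Agent.SU4
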